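import Mathlib

/-! Jordan sets of primitive groups. -/

set_option autoImplicit false

namespace Cfsg.Agent.Lib.Recog

open MulAction
open scoped Pointwise

variable (G : Type*) [Group G] {Ω : Type*} [MulAction G Ω]

/-- The fixer of the complement is transitive on the set. -/
def IsJordanSet (Γ : Set Ω) : Prop :=
  ∀ x ∈ Γ, ∀ y ∈ Γ, ∃ g : G, (∀ z ∉ Γ, g • z = z) ∧ g • x = y

variable {G}

theorem IsJordanSet.smul {Γ : Set Ω} (h : IsJordanSet G Γ) (g : G) : IsJordanSet G (g • Γ) := by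
  intro x hx y hy
  rw [Set.mem_smul_set_iff_inv_smul_mem] at hx hy
  obtain ⟨k, hk, hkx⟩ := h _ hx _ hy
  refine ⟨g * k * g⁻¹, fun z hz => ?_, by rw [mul_smul, mul_smul, hkx, smul_inv_smul]⟩
  rw [mul_smul, mul_smul, hk _ (fun h' => hz (Set.mem_smul_set_iff_inv_smul_mem.2 h')), smul_inv_smul]

theorem IsJordanSet.union {Γ Γ' : Set Ω} (h : IsJordanSet G Γ) (h' : IsJordanSet G Γ')
    (hne : (Γ ∩ Γ').Nonempty) : IsJordanSet G (Γ ∪ Γ') := by
  obtain ⟨c, hc, hc'⟩ := hne
  have key : ∀ x ∈ Γ ∪ Γ', ∃ g : G, (∀ z ∉ Γ ∪ Γ', g • z = z) ∧ g • x = c := by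
    rintro x (hx | hx)
    · obtain ⟨g, hg, hgx⟩ := h x hx c hc
      exact ⟨g, fun z hz => hg z fun e => hz (Or.inl e), hgx⟩
    · obtain ⟨g, hg, hgx⟩ := h' x hx c hc'
      exact ⟨g, fun z hz => hg z fun e => hz (Or.inr e), hgx⟩
  intro x hx y hy
  obtain ⟨g, hg, hgx⟩ := key x hx
  obtain ⟨k, hk, hky⟩ := key y hy
  refine ⟨k⁻¹ * g, fun z hz => ?_, by rw [mul_smul, hgx, ← hky, inv_smul_smul]⟩
  rw [mul_smul, hg z hz, inv_smul_eq_iff, hk z hz]

theorem two_points_of_ncard {s : Set Ω} (h : 1 < s.ncard) : ∃ a ∈ s, ∃ b ∈ s, a ≠ b :=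
  (Set.one_lt_ncard (Set.finite_of_ncard_pos (by omega))).1 h

variable [Finite Ω]

/-- A Jordan set of size at most half can be enlarged. -/
theorem exists_larger_of_small [IsPreprimitive G Ω] {M : Set Ω} (hM : IsJordanSet G M) (h1 : 1 < M.ncard)
    (h2 : M.ncard < Nat.card Ω) :
    ∃ M' : Set Ω, IsJordanSet G M' ∧ M.ncard < M'.ncard ∧ M'.ncard + 1 ≤ 2 * M.ncard := by
  obtain ⟨a, ha, b, hb, hab⟩ := two_points_of_ncard h1
  obtain ⟨g, hga, hgb⟩ := IsPreprimitive.exists_mem_smul_and_notMem_smul (G := G) M.toFinite ⟨a, ha⟩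
    (fun e => by rw [e, Set.ncard_univ] at h2; exact lt_irrefl _ h2) hab
  have hcard : (g • M).ncard = M.ncard := Set.ncard_image_of_injective M (MulAction.injective g)
  refine ⟨g • M ∪ M, (hM.smul g).union hM ⟨a, hga, ha⟩, ?_, ?_⟩
  · rw [← hcard]
    exact Set.ncard_lt_ncard (Set.ssubset_iff_subset_ne.2 ⟨Set.subset_union_left, fun e => hgb (e.symm ▸ Or.inr hb)⟩)
  · have h4 := Set.ncard_union_add_ncard_inter (g • M) M
    have h5 : 0 < (g • M ∩ M).ncard := (Set.ncard_pos (Set.toFinite _)).2 ⟨a, hga, ha⟩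
    omega

/-- Primitive groups with a proper Jordan set are 2-transitive. -/
theorem two_transitive_of_jordan [IsPreprimitive G Ω] {Γ : Set Ω} (hΓ : IsJordanSet G Γ)
    (h1 : 1 < Γ.ncard) (h2 : Γ.ncard < Nat.card Ω) : IsMultiplyPretransitive G Ω 2 := by
  classical
  obtain ⟨M, hΓM, hM⟩ := Finite.exists_le_maximal
    (p := fun X : Set Ω => IsJordanSet G X ∧ X.ncard < Nat.card Ω) (a := Γ) ⟨hΓ, h2⟩
  have hM1 : 1 < M.ncard := h1.trans_le (Set.ncard_le_ncard hΓM)
  obtain ⟨hMJ, hMlt⟩ := hM.prop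
  have hbig : ∀ g : G, (g • M ∩ M).Nonempty → g • M ≠ M → g • M ∪ M = Set.univ := by
    intro g hne hneq
    by_contra hu
    have hlt : (g • M ∪ M).ncard < Nat.card Ω := by
      rw [← Set.ncard_univ]; exact Set.ncard_lt_ncard (lt_of_le_of_ne (Set.subset_univ _) hu)
    have := hM.le_of_ge ⟨(hMJ.smul g).union hMJ hne, hlt⟩ Set.subset_union_right
    have hsub : g • M ⊆ M := Set.union_subset_iff.1 this |>.1
    exact hneq (Set.eq_of_subset_of_ncard_le hsub
      (le_of_eq (Set.ncard_image_of_injective M (MulAction.injective g)).symm))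
  have hk : Mᶜ.ncard = 1 := by
    have hsum := Set.ncard_add_ncard_compl M
    by_contra hk
    obtain ⟨a, ha, b, hb, hab⟩ := two_points_of_ncard (s := Mᶜ) (by omega)
    obtain ⟨g, hga, hgb⟩ := IsPreprimitive.exists_mem_smul_and_notMem_smul (G := G) Mᶜ.toFinite ⟨a, ha⟩
      (fun e => by rw [e, Set.ncard_univ] at hsum; omega) hab
    have hga' : a ∉ g • M := fun h => by
      rw [Set.mem_smul_set_iff_inv_smul_mem] at h hga; exact hga h
    have hgb' : b ∈ g • M := by
      rw [Set.mem_smul_set_iff_inv_smul_mem]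
      by_contra h
      exact hgb (Set.mem_smul_set_iff_inv_smul_mem.2 h)
    rcases (g • M ∩ M).eq_empty_or_nonempty with he | hne
    · -- disjoint translates: enlarge inside a half
      have hdis : M.ncard + M.ncard ≤ Nat.card Ω := by
        have h3 := Set.ncard_union_eq (Set.disjoint_iff_inter_eq_empty.2 he)
        have h4 : (g • M ∪ M).ncard ≤ Nat.card Ω := Set.ncard_le_card _
        rw [Set.ncard_image_of_injective M (MulAction.injective g) |> fun e => (e : (g • M).ncard = M.ncard)] at h3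
        omega
      obtain ⟨c, hc, d, hd, hcd⟩ := two_points_of_ncard hM1
      obtain ⟨k, hkc, hkd⟩ := IsPreprimitive.exists_mem_smul_and_notMem_smul (G := G) M.toFinite ⟨c, hc⟩
        (fun e => by rw [e, Set.ncard_univ] at hMlt; exact lt_irrefl _ hMlt) hcd
      have hu := hbig k ⟨c, hkc, hc⟩ fun e => hkd (e.symm ▸ hd)
      have h5 := Set.ncard_union_add_ncard_inter (k • M) M
      have h6 : 0 < (k • M ∩ M).ncard := (Set.ncard_pos (Set.toFinite _)).2 ⟨c, hkc, hc⟩
      rw [hu, Set.ncard_univ, Set.ncard_image_of_injective M (MulAction.injective k) |> fun e => (e : (k • M).ncard = M.ncard)] at h5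
      omega
    · have hu := hbig g hne fun e => hb (e ▸ hgb')
      rcases Set.eq_univ_iff_forall.1 hu a with h | h
      · exact hga' h
      · exact ha h
  obtain ⟨u, hu⟩ := Set.ncard_eq_one.1 hk
  have hmem : ∀ z, z ∈ M ↔ z ≠ u := fun z => by
    have := Set.ext_iff.1 hu z; simp only [Set.mem_compl_iff, Set.mem_singleton_iff] at this
    constructor
    · exact fun hz e => this.2 e hz
    · exact fun hz => not_not.1 fun h => hz (this.1 h)
  rw [is_two_pretransitive_iff]
  intro a b c d hab hcd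
  obtain ⟨g, hg⟩ := exists_smul_eq G a u
  obtain ⟨k, hk'⟩ := exists_smul_eq G u c
  obtain ⟨h, hh, hhb⟩ := hMJ (g • b) ((hmem _).2 fun e => hab (smul_left_cancel g (hg.trans e.symm)))
    (k⁻¹ • d) ((hmem _).2 fun e => hcd (by rw [← hk', ← e, smul_inv_smul]))
  refine ⟨k * h * g, ?_, ?_⟩
  · rw [mul_smul, mul_smul, hg, hh u (fun e => (hmem u).1 e rfl), hk']
  · rw [mul_smul, mul_smul, hhb, smul_inv_smul]

/-- Primitive groups with a Jordan set of at most half the points are 3-transitive. -/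
theorem three_transitive_of_jordan [IsPreprimitive G Ω] {Γ : Set Ω} (hΓ : IsJordanSet G Γ)
    (h1 : 1 < Γ.ncard) (h2 : 2 * Γ.ncard ≤ Nat.card Ω) : IsMultiplyPretransitive G Ω 3 := by
  classical
  have h2t := two_transitive_of_jordan hΓ h1 (by omega)
  have htwo : ∀ {a b c d : Ω}, a ≠ b → c ≠ d → ∃ g : G, g • a = c ∧ g • b = d :=
    is_two_pretransitive_iff.1 h2t
  obtain ⟨M, hΓM, hM⟩ := Finite.exists_le_maximal
    (p := fun X : Set Ω => IsJordanSet G X ∧ X.ncard + 2 ≤ Nat.card Ω) (a := Γ) ⟨hΓ, by omega⟩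
  have hM1 : 1 < M.ncard := h1.trans_le (Set.ncard_le_ncard hΓM)
  obtain ⟨hMJ, hMlt⟩ := hM.prop
  have hsum := Set.ncard_add_ncard_compl M
  have hcard : ∀ g : G, (g • M).ncard = M.ncard := fun g => Set.ncard_image_of_injective M (MulAction.injective g)
  have hbig : ∀ g : G, (g • M ∩ M).Nonempty → g • M ≠ M → Nat.card Ω ≤ (g • M ∪ M).ncard + 1 := by
    intro g hne hneq
    by_contra hu
    have := hM.le_of_ge ⟨(hMJ.smul g).union hMJ hne, by omega⟩ Set.subset_union_right
    exact hneq (Set.eq_of_subset_of_ncard_le (Set.union_subset_iff.1 this).1 (le_of_eq (hcard g).symm))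
  have hhalf : Nat.card Ω ≤ 2 * M.ncard := by
    obtain ⟨c, hc, d, hd, hcd⟩ := two_points_of_ncard hM1
    obtain ⟨k, hkc, hkd⟩ := IsPreprimitive.exists_mem_smul_and_notMem_smul (G := G) M.toFinite ⟨c, hc⟩
      (fun e => by rw [e, Set.ncard_univ] at hMlt; omega) hcd
    have h3 := hbig k ⟨c, hkc, hc⟩ fun e => hkd (e.symm ▸ hd)
    have h5 := Set.ncard_union_add_ncard_inter (k • M) M
    have h6 : 0 < (k • M ∩ M).ncard := (Set.ncard_pos (Set.toFinite _)).2 ⟨c, hkc, hc⟩
    rw [hcard] at h5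
    omega
  set L := Mᶜ with hL
  have hLk : L.ncard = 2 := by
    by_contra hk
    have hk3 : 3 ≤ L.ncard := by omega
    -- translates of `L` form a linear space
    have hline : ∀ g : G, ∀ a b : Ω, a ≠ b → a ∈ L → b ∈ L → a ∈ g • L → b ∈ g • L → g • L = L := by
      intro g a b hab ha hb hga hgb
      by_contra hne
      have hne' : g • M ≠ M := fun e => hne (by rw [hL, Set.smul_set_compl, e])
      have hca : a ∉ g • M := by rw [← Set.mem_compl_iff, ← Set.smul_set_compl]; exact hga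
      have hcb : b ∉ g • M := by rw [← Set.mem_compl_iff, ← Set.smul_set_compl]; exact hgb
      have h4 : (g • M ∪ M).ncard + 2 ≤ Nat.card Ω := by
        have h7 := Set.ncard_add_ncard_compl (g • M ∪ M)
        have h8 : ({a, b} : Set Ω).ncard ≤ (g • M ∪ M)ᶜ.ncard :=
          Set.ncard_le_ncard (Set.insert_subset (fun e => e.elim hca ha)
            (Set.singleton_subset_iff.2 fun e => e.elim hcb hb))
        rw [Set.ncard_pair hab] at h8
        omega
      rcases (g • M ∩ M).eq_empty_or_nonempty with he | hn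
      · have h5 := Set.ncard_union_eq (Set.disjoint_iff_inter_eq_empty.2 he)
        rw [hcard] at h5
        omega
      · have := hbig g hn hne'
        omega
    have hjoin : ∀ x y : Ω, x ≠ y → ∃ g : G, x ∈ g • L ∧ y ∈ g • L := by
      intro x y hxy
      obtain ⟨a, ha, b, hb, hab⟩ := two_points_of_ncard (s := L) (by omega)
      obtain ⟨g, hga, hgb⟩ := htwo hab hxy
      exact ⟨g, hga ▸ Set.smul_mem_smul_set ha, hgb ▸ Set.smul_mem_smul_set hb⟩
    have huniq : ∀ g k : G, ∀ a b : Ω, a ≠ b → a ∈ g • L → b ∈ g • L → a ∈ k • L → b ∈ k • L → k • L = g • L := by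
      intro g k a b hab hga hgb hka hkb
      rw [Set.mem_smul_set_iff_inv_smul_mem] at hga hgb
      have := hline (g⁻¹ * k) _ _ ((MulAction.injective g⁻¹).ne hab) hga hgb
        (by rw [mul_smul]; exact Set.smul_mem_smul_set hka) (by rw [mul_smul]; exact Set.smul_mem_smul_set hkb)
      rw [mul_smul, inv_smul_eq_iff] at this
      exact this
    have hthird : ∀ g : G, ∀ a b : Ω, ∃ w ∈ g • L, w ≠ a ∧ w ≠ b := by
      intro g a b
      by_contra h
      push Not at h
      have hsub : g • L ⊆ ({a, b} : Set Ω) := fun w hw => (em (w = a)).elim Or.inl fun hwa => Or.inr (h w hw hwa)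
      have h3 := (Set.ncard_le_ncard hsub).trans (Set.ncard_insert_le _ _)
      rw [Set.ncard_singleton, show (g • L).ncard = L.ncard from Set.ncard_image_of_injective L (MulAction.injective g)] at h3
      omega
    by_cases hA : ∃ g : G, ∃ a b x : Ω, a ≠ b ∧ a ∉ Γ ∧ b ∉ Γ ∧ x ∈ Γ ∧ a ∈ g • L ∧ b ∈ g • L ∧ x ∈ g • L
    · obtain ⟨g, a, b, x, hab, ha, hb, hx, hga, hgb, hgx⟩ := hA
      have hin : Γ ⊆ g • L := by
        intro y hy
        obtain ⟨h, hh, hxy⟩ := hΓ x hx y hy
        have e := huniq g (h * g) a b hab hga hgb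
          (by rw [mul_smul, ← hh a ha]; exact Set.smul_mem_smul_set hga)
          (by rw [mul_smul, ← hh b hb]; exact Set.smul_mem_smul_set hgb)
        rw [← e, mul_smul, ← hxy]
        exact Set.smul_mem_smul_set hgx
      obtain ⟨y, hy, hyx⟩ : ∃ y ∈ Γ, y ≠ x := by
        obtain ⟨c, hc, d, hd, hcd⟩ := two_points_of_ncard h1
        rcases eq_or_ne c x with rfl | hcx
        · exact ⟨d, hd, hcd.symm⟩
        · exact ⟨c, hc, hcx⟩
      obtain ⟨z, hz⟩ : ∃ z, z ∉ g • L := by
        by_contra h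
        push Not at h
        rw [← Set.eq_univ_iff_forall] at h
        have h3 : (g • L).ncard = L.ncard := Set.ncard_image_of_injective L (MulAction.injective g)
        rw [h, Set.ncard_univ] at h3
        omega
      obtain ⟨k, hkx, hkz⟩ := hjoin x z fun e => hz (e ▸ hgx)
      obtain ⟨w, hkw, hwx, hwz⟩ := hthird k x z
      have hwL : w ∉ g • L := fun hw => hz (huniq g k x w hwx.symm hgx hw hkx hkw ▸ hkz)
      obtain ⟨h, hh, hxy⟩ := hΓ x hx y hy
      have hzΓ : z ∉ Γ := fun e => hz (hin e)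
      have hwΓ : w ∉ Γ := fun e => hwL (hin e)
      have e := huniq k (h * k) z w hwz.symm hkz hkw
        (by rw [mul_smul, ← hh z hzΓ]; exact Set.smul_mem_smul_set hkz)
        (by rw [mul_smul, ← hh w hwΓ]; exact Set.smul_mem_smul_set hkw)
      have hky : y ∈ k • L := by rw [← e, mul_smul, ← hxy]; exact Set.smul_mem_smul_set hkx
      exact hz (huniq g k x y hyx.symm hgx (hin hy) hkx hky ▸ hkz)
    · push Not at hA
      obtain ⟨x, hx, -, -, -⟩ := two_points_of_ncard h1
      have hf : ∀ d : {d : Ω // d ∉ Γ}, ∃ g : G, x ∈ g • L ∧ d.1 ∈ g • L := fun d =>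
        hjoin x d.1 fun e => d.2 (e ▸ hx)
      choose f hfx hfd using hf
      have hw : ∀ d : {d : Ω // d ∉ Γ}, ∃ w ∈ f d • L, w ≠ x ∧ w ≠ d.1 := fun d => hthird _ _ _
      choose w hwf hwx hwd using hw
      let φ : {d : Ω // d ∉ Γ} ⊕ {d : Ω // d ∉ Γ} → {u : Ω // u ≠ x} :=
        Sum.elim (fun d => ⟨d.1, fun e => d.2 (e ▸ hx)⟩) (fun d => ⟨w d, hwx d⟩)
      have hwΓ : ∀ d, w d ∈ Γ := fun d => not_not.1 fun h =>
        hA (f d) d.1 (w d) x (hwd d).symm d.2 h hx (hfd d) (hwf d) (hfx d)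
      have hφ : Function.Injective φ := by
        rintro (d | d) (d' | d') e
        · exact congrArg Sum.inl (Subtype.ext (congrArg (fun u : {u : Ω // u ≠ x} => u.1) e :))
        · exfalso; exact d.2 ((congrArg Subtype.val e : d.1 = w d').symm ▸ hwΓ d')
        · exfalso; exact d'.2 ((congrArg Subtype.val e : w d = d'.1) ▸ hwΓ d)
        · have ew : w d = w d' := congrArg Subtype.val e
          have e2 := huniq (f d) (f d') x (w d) (hwx d).symm (hfx d) (hwf d) (hfx d') (ew ▸ hwf d')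
          congr 1
          by_contra hne
          exact hA (f d) d.1 d'.1 x (fun h => hne (Subtype.ext h)) d.2 d'.2 hx (hfd d) (e2 ▸ hfd d') (hfx d)
      have hle := Nat.card_le_card_of_injective φ hφ
      rw [Nat.card_sum] at hle
      have hc : Nat.card {d : Ω // d ∉ Γ} = Γᶜ.ncard := Nat.card_coe_set_eq Γᶜ
      have hlt : Nat.card {u : Ω // u ≠ x} < Nat.card Ω := Finite.card_subtype_lt (x := x) (by simp)
      have := Set.ncard_add_ncard_compl Γ
      omega
  obtain ⟨u, v, huv, hLeq⟩ := Set.ncard_eq_two.1 hLk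
  have hmem : ∀ z, z ∈ M ↔ z ≠ u ∧ z ≠ v := fun z => by
    have h := Set.ext_iff.1 hLeq z
    simp only [hL, Set.mem_compl_iff, Set.mem_insert_iff, Set.mem_singleton_iff] at h
    rw [← not_iff_not, h]; tauto
  have key : ∀ x : Fin 3 ↪ Ω, ∃ g : G, g • x 0 = u ∧ g • x 1 = v := fun x =>
    htwo (x.injective.ne (by decide)) huv
  rw [isMultiplyPretransitive_iff]
  intro x y
  obtain ⟨g, hg0, hg1⟩ := key x
  obtain ⟨k, hk0, hk1⟩ := key y
  obtain ⟨h, hh, hh2⟩ := hMJ (g • x 2) ((hmem _).2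
      ⟨fun e => x.injective.ne (show (2 : Fin 3) ≠ 0 by decide) (smul_left_cancel g (e.trans hg0.symm)),
        fun e => x.injective.ne (show (2 : Fin 3) ≠ 1 by decide) (smul_left_cancel g (e.trans hg1.symm))⟩)
    (k • y 2) ((hmem _).2
      ⟨fun e => y.injective.ne (show (2 : Fin 3) ≠ 0 by decide) (smul_left_cancel k (e.trans hk0.symm)),
        fun e => y.injective.ne (show (2 : Fin 3) ≠ 1 by decide) (smul_left_cancel k (e.trans hk1.symm))⟩)
  refine ⟨k⁻¹ * h * g, ?_⟩
  ext i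
  simp only [Function.Embedding.smul_apply, mul_smul, inv_smul_eq_iff]
  fin_cases i
  · show h • g • x 0 = k • y 0
    rw [hg0, hk0, hh u fun e => ((hmem u).1 e).1 rfl]
  · show h • g • x 1 = k • y 1
    rw [hg1, hk1, hh v fun e => ((hmem v).1 e).2 rfl]
  · exact hh2

end Cfsg.Agent.Lib.Recog
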