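import Mathlib

/-! A bound on the order of an abelian permutation group of prime power order with given rank. -/

set_option autoImplicit false

namespace Cfsg.Agent.Lib.Recog

open MulAction

theorem prod_mul_pow_le_sum_pow (M : Multiset ℕ) :
    M.prod * M.card ^ M.card ≤ M.sum ^ M.card := by
  classical
  induction M using Quotient.inductionOn with
  | h l =>
    simp only [Multiset.quot_mk_to_coe, Multiset.prod_coe, Multiset.sum_coe, Multiset.coe_card]
    rcases Nat.eq_zero_or_pos l.length with h0 | h0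
    · rw [List.length_eq_zero_iff.1 h0]; simp
    set k := l.length
    have hp : l.prod = ∏ i : Fin k, l[i] := (Fin.prod_univ_getElem l).symm
    have hs : l.sum = ∑ i : Fin k, l[i] := (Fin.sum_univ_getElem l).symm
    have h := Real.geom_mean_le_arith_mean (Finset.univ : Finset (Fin k)) (fun _ => (1 : ℝ))
      (fun i => (l[i] : ℝ)) (fun _ _ => zero_le_one) (by simpa using h0)
      (fun i _ => Nat.cast_nonneg _)
    simp only [Real.rpow_one, Finset.sum_const, Finset.card_univ, Fintype.card_fin, nsmul_eq_mul,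
      mul_one, one_mul] at h
    have h2 := pow_le_pow_left₀ (Real.rpow_nonneg (Finset.prod_nonneg fun i _ => Nat.cast_nonneg _) _) h k
    rw [Real.rpow_inv_natCast_pow (Finset.prod_nonneg fun i _ => Nat.cast_nonneg _) h0.ne', div_pow,
      le_div_iff₀ (by positivity)] at h2
    rw [hp, hs]
    exact_mod_cast h2

theorem exists_split {p : ℕ} (hp : 2 ≤ p) (k : ℕ) : ∀ (d : ℕ) (M : Multiset ℕ),
    (∀ x ∈ M, ∃ e, x = p ^ e ∧ 1 ≤ e) → M.card + d = k → p ^ k ≤ M.prod →
    ∃ N : Multiset ℕ, N.card = k ∧ M.prod ≤ N.prod ∧ N.sum ≤ M.sum := by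
  intro d
  induction d with
  | zero => exact fun M _ hc _ => ⟨M, by omega, le_rfl, le_rfl⟩
  | succ d ih =>
    intro M hM hc hP
    obtain ⟨x, hx, hx2⟩ : ∃ x ∈ M, p < x := by
      by_contra h
      push Not at h
      have h1 : M.prod ≤ p ^ M.card := by
        refine (Multiset.prod_le_pow_card M p h).trans le_rfl
      have := (Nat.pow_le_pow_iff_right (by omega : 1 < p)).1 (hP.trans h1)
      omega
    obtain ⟨e, rfl, he⟩ := hM x hx
    have he2 : 2 ≤ e := by
      by_contra h
      rw [show e = 1 by omega, pow_one] at hx2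
      omega
    obtain ⟨f, rfl⟩ : ∃ f, e = f + 1 + 1 := ⟨e - 2, by omega⟩
    obtain ⟨N, h1, h2, h3⟩ := ih (p ::ₘ p ^ (f + 1) ::ₘ M.erase (p ^ (f + 1 + 1))) (by
        intro y hy
        simp only [Multiset.mem_cons] at hy
        rcases hy with rfl | rfl | hy
        · exact ⟨1, (pow_one _).symm, le_rfl⟩
        · exact ⟨f + 1, rfl, by omega⟩
        · exact hM y (Multiset.mem_of_mem_erase hy))
      (by
        rw [Multiset.card_cons, Multiset.card_cons, Multiset.card_erase_of_mem hx, Nat.pred_eq_sub_one]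
        have := Multiset.card_pos_iff_exists_mem.2 ⟨_, hx⟩
        omega)
      (by
        rw [← Multiset.prod_erase hx] at hP
        rw [Multiset.prod_cons, Multiset.prod_cons, ← mul_assoc, ← pow_succ']
        exact hP)
    refine ⟨N, h1, ?_, h3.trans ?_⟩
    · rwa [Multiset.prod_cons, Multiset.prod_cons, ← mul_assoc, ← pow_succ', Multiset.prod_erase hx] at h2
    · rw [Multiset.sum_cons, Multiset.sum_cons]
      nth_rewrite 2 [← Multiset.cons_erase hx]
      rw [Multiset.sum_cons, ← add_assoc]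
      refine Nat.add_le_add_right ?_ _
      have h4 : p ≤ p ^ (f + 1) := Nat.le_self_pow (by omega) p
      rw [pow_succ p (f + 1)]
      calc p + p ^ (f + 1) ≤ p ^ (f + 1) * 2 := by omega
        _ ≤ p ^ (f + 1) * p := Nat.mul_le_mul_left _ hp

theorem abelian_pgroup_degree {A Ω : Type*} [CommGroup A] [Finite A] [Fintype Ω] [MulAction A Ω]
    [FaithfulSMul A Ω] {p : ℕ} [Fact p.Prime] (hA : IsPGroup p A) {k : ℕ}
    (hk : Nat.card {x : A // x ^ p = 1} = p ^ k) (hkA : p ^ k ≤ Nat.card A) :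
    Nat.card A * k ^ k ≤ Fintype.card Ω ^ k := by
  classical
  have hp := (Fact.out : p.Prime)
  obtain ⟨S, -, hS⟩ := Finite.exists_le_minimal
    (p := fun S : Finset Ω => ∀ a : A, (∀ ω ∈ S, a • ω = ω) → a = 1) (a := Finset.univ)
    (fun a ha => eq_of_smul_eq_smul fun ω : Ω => by rw [ha ω (Finset.mem_univ _), one_smul])
  -- private elements
  have hz : ∀ ω : S, ∃ z : A, z ^ p = 1 ∧ (∀ ν ∈ S, ν ≠ ω.1 → z • ν = ν) ∧ z • ω.1 ≠ ω.1 := by
    intro ω
    obtain ⟨a, ha, ha1⟩ : ∃ a : A, (∀ ν ∈ S.erase ω.1, a • ν = ν) ∧ a ≠ 1 := by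
      by_contra h
      push Not at h
      exact Finset.notMem_erase ω.1 S (hS.le_of_le h (Finset.erase_subset _ _) ω.2)
    obtain ⟨m, hm⟩ := IsPGroup.iff_orderOf.1 hA a
    have hpa : p ∣ orderOf a := by
      rw [hm]; refine dvd_pow_self p ?_
      rintro rfl
      exact ha1 (orderOf_eq_one_iff.1 (by simpa using hm))
    have hb := orderOf_pow_orderOf_div (orderOf_pos a).ne' hpa
    have hfix : ∀ ν ∈ S, ν ≠ ω.1 → a ^ (orderOf a / p) • ν = ν := fun ν hν hne => by
      have : a ∈ stabilizer A ν := ha ν (Finset.mem_erase.2 ⟨hne, hν⟩)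
      exact pow_mem this _
    refine ⟨a ^ (orderOf a / p), ?_, hfix, fun he => ?_⟩
    · exact orderOf_dvd_iff_pow_eq_one.1 hb.dvd
    · have h1 := hS.prop (a ^ (orderOf a / p)) fun ν hν => if e : ν = ω.1 then by rw [e]; exact he else hfix ν hν e
      rw [h1, orderOf_one] at hb
      exact hp.one_lt.ne hb
  choose z hzp hzfix hzmove using hz
  have hsk : S.card ≤ k := by
    refine (Nat.pow_le_pow_iff_right hp.one_lt).1 (le_of_le_of_eq ?_ hk)
    have hin : ∀ c : S → Fin p, (∏ ν, z ν ^ (c ν : ℕ)) ^ p = 1 := fun c => by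
      rw [← Finset.prod_pow]
      exact Finset.prod_eq_one fun ν _ => by rw [← pow_mul, mul_comm, pow_mul, hzp, one_pow]
    let f : (S → Fin p) → {x : A // x ^ p = 1} := fun c => ⟨∏ ν, z ν ^ (c ν : ℕ), hin c⟩
    have hf : Function.Injective f := by
      intro c d hcd
      funext ω
      have hval : ∀ e : S → Fin p, (∏ ν, z ν ^ (e ν : ℕ)) • ω.1 = z ω ^ (e ω : ℕ) • ω.1 := fun e => by
        rw [← Finset.mul_prod_erase _ _ (Finset.mem_univ ω), mul_smul]
        congr 1
        exact mem_stabilizer_iff.1 (Subgroup.prod_mem _ fun ν hν => pow_mem (mem_stabilizer_iff.2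
          (hzfix ν ω.1 ω.2 fun e => (Finset.mem_erase.1 hν).1 (Subtype.ext e.symm))) _)
      have h1 : z ω ^ (c ω : ℕ) • ω.1 = z ω ^ (d ω : ℕ) • ω.1 := by
        rw [← hval, ← hval]
        exact congrArg (fun x : {x : A // x ^ p = 1} => x.1 • ω.1) hcd
      have h2 : ((c ω : ℕ) : ℤ) - (d ω : ℕ) = 0 ∨ z ω • ω.1 = ω.1 := by
        by_cases hd : (p : ℤ) ∣ ((c ω : ℕ) : ℤ) - (d ω : ℕ)
        · left
          refine Int.eq_zero_of_abs_lt_dvd hd ?_
          have := (c ω).2; have := (d ω).2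
          rw [abs_lt]; omega
        · right
          have hm : z ω ^ (((c ω : ℕ) : ℤ) - (d ω : ℕ)) ∈ stabilizer A ω.1 := by
            rw [mem_stabilizer_iff, zpow_sub, zpow_natCast, zpow_natCast, mul_comm, mul_smul, h1, inv_smul_smul]
          obtain ⟨u, v, huv⟩ := ((Nat.prime_iff_prime_int.1 hp).coprime_iff_not_dvd.2 hd)
          have he : z ω ∈ stabilizer A ω.1 := by
            have h3 := zpow_mem hm v
            rw [← zpow_mul] at h3
            have h4 : z ω ^ ((((c ω : ℕ) : ℤ) - (d ω : ℕ)) * v) = z ω := by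
              calc z ω ^ ((((c ω : ℕ) : ℤ) - (d ω : ℕ)) * v)
                  = z ω ^ ((p : ℤ) * (-u) + 1) := by congr 1; linarith
                _ = z ω := by rw [zpow_add, zpow_mul, zpow_natCast, hzp, one_zpow, one_mul, zpow_one]
            rwa [h4] at h3
          exact he
      rcases h2 with h2 | h2
      · exact Fin.ext (by omega)
      · exact absurd h2 (hzmove ω)
    simpa [Nat.card_eq_fintype_card] using Nat.card_le_card_of_injective f hf
  have hprod : Nat.card A ≤ ∏ ν : S, Nat.card (orbit A ν.1) := by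
    rw [← Nat.card_pi]
    refine Nat.card_le_card_of_injective (fun a ν => (⟨a • ν.1, mem_orbit _ a⟩ : orbit A ν.1)) ?_
    intro a b hab
    have h1 := hS.prop (b⁻¹ * a) fun ν hν => by
      rw [mul_smul, inv_smul_eq_iff]
      exact congrArg Subtype.val (congrFun hab ⟨ν, hν⟩)
    exact (inv_mul_eq_one.1 h1).symm
  have hsum : ∑ ν : S, Nat.card (orbit A ν.1) ≤ Fintype.card Ω := by
    rw [← Nat.card_sigma, ← Nat.card_eq_fintype_card]
    refine Nat.card_le_card_of_injective (fun x : Σ ν : S, orbit A ν.1 => (x.2 : Ω)) ?_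
    rintro ⟨ν, x, hx⟩ ⟨μ, y, hy⟩ (rfl : x = y)
    have : ν = μ := by
      by_contra hne
      obtain ⟨a, ha⟩ := hx
      obtain ⟨b, hb⟩ := hy
      apply hzmove ν
      have h3 : b⁻¹ • a • ν.1 = μ.1 := by
        rw [inv_smul_eq_iff]; exact ha.trans hb.symm
      have h4 : z ν • μ.1 = μ.1 := hzfix ν μ.1 μ.2 fun e => hne (Subtype.ext e.symm)
      rw [← h3, ← mul_smul b⁻¹, ← mul_smul, mul_comm, mul_smul, smul_left_cancel_iff] at h4
      exact h4
    subst this; rfl
  set M := (Finset.univ : Finset S).val.map fun ν => Nat.card (orbit A ν.1) with hMdef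
  obtain ⟨N, hN1, hN2, hN3⟩ := exists_split hp.two_le k (k - S.card) M (by
      intro x hx
      obtain ⟨ν, -, rfl⟩ := Multiset.mem_map.1 hx
      obtain ⟨e, he⟩ := hA.card_orbit ν.1
      refine ⟨e, he, Nat.pos_of_ne_zero fun e0 => hzmove ν ?_⟩
      rw [e0, pow_zero, Nat.card_eq_one_iff_unique] at he
      have := he.1
      exact congrArg Subtype.val
        (Subsingleton.elim (⟨z ν • ν.1, mem_orbit _ _⟩ : orbit A ν.1) ⟨ν.1, mem_orbit_self _⟩))
    (by rw [hMdef, Multiset.card_map, Finset.card_val, Finset.card_univ, Fintype.card_coe]; omega) (hkA.trans hprod)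
  calc Nat.card A * k ^ k ≤ M.prod * k ^ k := Nat.mul_le_mul_right _ hprod
    _ ≤ N.prod * k ^ k := Nat.mul_le_mul_right _ hN2
    _ ≤ N.sum ^ k := by have := prod_mul_pow_le_sum_pow N; rwa [hN1] at this
    _ ≤ Fintype.card Ω ^ k := Nat.pow_le_pow_left (hN3.trans hsum) k

end Cfsg.Agent.Lib.Recog
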