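import Mathlib

/-! Permutations agreeing with affine maps on all triples of points. -/

set_option autoImplicit false

namespace Cfsg.Agent.Lib.Recog

variable {K V : Type*}

section Field

variable [Field K] [AddCommGroup V] [Module K V] [FiniteDimensional K V]

/-- Linear maps with the same kernel differ by an automorphism of the target. -/
theorem exists_equiv_comp_eq {W : Type*} [AddCommGroup W] [Module K W] (f g : W →ₗ[K] V)
    (h : LinearMap.ker f = LinearMap.ker g) : ∃ A : V ≃ₗ[K] V, ∀ w, A (f w) = g w := by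
  let e : LinearMap.range f ≃ₗ[K] LinearMap.range g :=
    (f.quotKerEquivRange.symm.trans (Submodule.quotEquivOfEq _ _ h)).trans g.quotKerEquivRange
  obtain ⟨C, hC⟩ := Submodule.exists_isCompl (LinearMap.range f)
  obtain ⟨D, hD⟩ := Submodule.exists_isCompl (LinearMap.range g)
  have hr : Module.finrank K C = Module.finrank K D := by
    have h1 := Submodule.finrank_add_eq_of_isCompl hC
    have h2 := Submodule.finrank_add_eq_of_isCompl hD
    have h3 := e.finrank_eq
    omega
  let A : V ≃ₗ[K] V := (Submodule.prodEquivOfIsCompl _ _ hC).symm.trans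
    ((e.prodCongr (LinearEquiv.ofFinrankEq C D hr)).trans (Submodule.prodEquivOfIsCompl _ _ hD))
  refine ⟨A, fun w => ?_⟩
  have h1 : (Submodule.prodEquivOfIsCompl _ _ hC).symm (f w) =
      ((⟨f w, LinearMap.mem_range_self f w⟩ : LinearMap.range f), (0 : C)) :=
    Submodule.prodEquivOfIsCompl_symm_apply_left _ _ hC ⟨f w, LinearMap.mem_range_self f w⟩
  have h2 : e ⟨f w, LinearMap.mem_range_self f w⟩ = ⟨g w, LinearMap.mem_range_self g w⟩ := by
    apply Subtype.ext
    simp [e]
  simp only [A, LinearEquiv.trans_apply, h1, LinearEquiv.prodCongr_apply, map_zero, h2]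
  rw [Submodule.coe_prodEquivOfIsCompl']
  simp

/-- Two vectors not spanning `V` are fixed by an automorphism of any given determinant. -/
theorem exists_det_fix (hd : 3 ≤ Module.finrank K V) (u w : V) (c : K) (hc : c ≠ 0) :
    ∃ T : V ≃ₗ[K] V, LinearMap.det (T : V →ₗ[K] V) = c ∧ T u = u ∧ T w = w := by
  classical
  have hlt : Submodule.span K ({u, w} : Set V) < ⊤ := by
    refine lt_top_iff_ne_top.2 fun e => ?_
    have h1 : Module.finrank K (Submodule.span K (({u, w} : Finset V) : Set V)) ≤ ({u, w} : Finset V).card :=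
      finrank_span_finset_le_card _
    rw [Finset.coe_insert, Finset.coe_singleton, e, finrank_top] at h1
    have := h1.trans Finset.card_le_two
    omega
  obtain ⟨φ, hφ, hle⟩ := Submodule.exists_le_ker_of_lt_top _ hlt
  obtain ⟨v₀, hv₀⟩ := DFunLike.ne_iff.1 hφ
  rw [LinearMap.zero_apply] at hv₀
  set v := ((c - 1) * (φ v₀)⁻¹) • v₀ with hv
  have hφv : 1 + φ v = c := by
    rw [hv, map_smul, smul_eq_mul, mul_assoc, inv_mul_cancel₀ hv₀, mul_one, add_sub_cancel]
  have hdet : LinearMap.det (LinearMap.transvection φ v) = c := by simp [hφv]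
  have hb : Function.Bijective (LinearMap.transvection φ v) := (Module.End.isUnit_iff _).1
    ((LinearMap.isUnit_iff_isUnit_det _).2 (by rw [hdet]; exact IsUnit.mk0 c hc))
  refine ⟨LinearEquiv.ofBijective _ hb, hdet, ?_, ?_⟩
  all_goals rw [LinearEquiv.ofBijective_apply, LinearMap.transvection.apply]
  · rw [LinearMap.mem_ker.1 (hle (Submodule.subset_span (Set.mem_insert u {w}))), zero_smul, add_zero]
  · rw [LinearMap.mem_ker.1 (hle (Submodule.subset_span (Set.mem_insert_of_mem u rfl))), zero_smul,
      add_zero]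

end Field

section Prime

variable {p : ℕ} [Fact p.Prime] [AddCommGroup V] [Module (ZMod p) V]

/-- Agreement with affine maps on triples gives an affine map in odd characteristic. -/
theorem affine_of_triples (hp : p ≠ 2) (σ : Equiv.Perm V)
    (h : ∀ x y z : V, ∃ (A : V ≃ₗ[ZMod p] V) (b : V), σ x = A x + b ∧ σ y = A y + b ∧ σ z = A z + b) :
    ∃ (A : V ≃ₗ[ZMod p] V) (b : V), ∀ x, σ x = A x + b := by
  let τ : V → V := fun x => σ x - σ 0
  have hsmul : ∀ (c : ZMod p) (x : V), τ (c • x) = c • τ x := by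
    intro c x
    obtain ⟨A, b, h0, h1, h2⟩ := h 0 x (c • x)
    simp only [τ, h0, h1, h2, map_zero, zero_add, add_sub_cancel_right, map_smul]
  have h2' : (2 : ZMod p) ≠ 0 := by
    intro e
    have h' : ((2 : ℕ) : ZMod p) = 0 := by exact_mod_cast e
    rw [ZMod.natCast_eq_zero_iff] at h'
    exact hp ((Nat.prime_dvd_prime_iff_eq Fact.out Nat.prime_two).1 h')
  have hadd : ∀ x y : V, τ (x + y) = τ x + τ y := by
    intro x y
    obtain ⟨A, b, h0, h1, h2⟩ := h x y ((2 : ZMod p)⁻¹ • (x + y))
    have hm : (2 : ZMod p) • τ ((2 : ZMod p)⁻¹ • (x + y)) = τ x + τ y := by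
      simp only [τ, h0, h1, h2, map_smul, map_add, two_smul]
      have e : (2 : ZMod p)⁻¹ • (A x + A y) + (2 : ZMod p)⁻¹ • (A x + A y) = A x + A y := by
        rw [← two_smul (ZMod p) ((2 : ZMod p)⁻¹ • (A x + A y)), smul_smul, mul_inv_cancel₀ h2',
          one_smul]
      linear_combination (norm := module) e
    rw [← hm, ← hsmul, smul_smul, mul_inv_cancel₀ h2', one_smul]
  let L : V →ₗ[ZMod p] V := { toFun := τ, map_add' := hadd, map_smul' := hsmul }
  have hb : Function.Bijective L :=
    ((Equiv.subRight (σ 0)).bijective.comp σ.bijective)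
  exact ⟨LinearEquiv.ofBijective L hb, σ 0, fun x => (sub_add_cancel (σ x) (σ 0)).symm⟩

end Prime

end Cfsg.Agent.Lib.Recog
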