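import Mathlib
import Cfsg.Agent.Lib.Recog.Affine

/-! Elements of prime power order in affine groups. -/

set_option autoImplicit false

namespace Cfsg.Agent.Lib.Recog

open MulAction

/-- A nilpotency bound for a `p`-element acting on an abelian `p`-group. -/
theorem iterate_commutator_eq_zero {A : Type*} [AddCommGroup A] [Finite A] (p : ℕ) (hp : p.Prime)
    (hA : ∀ a : A, p • a = 0) (f : AddMonoid.End A) (e : ℕ) (hf : f ^ p ^ e = 1) :
    ∀ j, ∀ B : AddSubgroup A, Nat.card B ≤ p ^ j → (∀ b ∈ B, f b ∈ B) → ∀ b ∈ B, ((f - 1) ^ j) b = 0 := by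
  haveI : Fact p.Prime := ⟨hp⟩
  have hchar : (f - 1) ^ p ^ e = 0 := by
    obtain ⟨r, hr⟩ := (Commute.one_right (f - 1)).exists_add_pow_prime_pow_eq hp e
    have hp0 : (p : AddMonoid.End A) = 0 := by
      ext a
      rw [AddMonoid.End.natCast_apply]
      exact hA a
    rw [sub_add_cancel, hf, one_pow, hp0] at hr
    simpa using hr
  intro j
  induction j with
  | zero =>
    intro B hB _ b hb
    have : B = ⊥ := AddSubgroup.eq_bot_of_card_le _ (by simpa using hB)
    rw [this, AddSubgroup.mem_bot] at hb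
    simp [hb]
  | succ j ih =>
    intro B hB hinv b hb
    let B' : AddSubgroup A := AddSubgroup.map (G := A) (N := A) (f := (f - 1 : AddMonoid.End A)) B
    have hinv1 : ∀ x ∈ B, (f - 1) x ∈ B := fun x hx => B.sub_mem (hinv x hx) hx
    have hsub : B' ≤ B := by
      rintro _ ⟨x, hx, rfl⟩; exact hinv1 x hx
    have hfB : ∀ x ∈ B', f x ∈ B' := by
      rintro _ ⟨x, hx, rfl⟩
      refine ⟨f x, hinv x hx, ?_⟩
      change f (f x) - f x = f (f x - x)
      rw [map_sub]
    have hcard : Nat.card B' ≤ p ^ j := by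
      by_cases hB1 : B = ⊥
      · have : B' = ⊥ := by
          rw [eq_bot_iff]; exact fun x hx => hB1 ▸ hsub hx
        rw [this, AddSubgroup.card_bot]
        exact Nat.one_le_pow _ _ hp.pos
      have hlt : B' ≠ B := by
        intro e'
        apply hB1
        rw [eq_bot_iff]
        intro x hx
        have hk : ∀ k : ℕ, ∃ y ∈ B, ((f - 1) ^ k) y = x := by
          intro k
          induction k with
          | zero => exact ⟨x, hx, rfl⟩
          | succ k ihk =>
            obtain ⟨y, hy, hyx⟩ := ihk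
            rw [← e'] at hy
            obtain ⟨z, hz, rfl⟩ := hy
            exact ⟨z, hz, by rw [pow_succ]; exact hyx⟩
        obtain ⟨y, -, hy⟩ := hk (p ^ e)
        rw [hchar] at hy
        exact AddSubgroup.mem_bot.2 hy.symm
      have hpB : IsPGroup p (Multiplicative B) := fun x => ⟨1, by
        rw [pow_one]
        exact Multiplicative.toAdd.injective (Subtype.ext (hA (Multiplicative.toAdd x : B)))⟩
      obtain ⟨a, ha⟩ := hpB.exists_card_eq
      have hdvd : Nat.card B' ∣ p ^ a :=
        (AddSubgroup.card_dvd_of_le hsub).trans (dvd_of_eq ha)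
      obtain ⟨c, hc, hc'⟩ := (Nat.dvd_prime_pow hp).1 hdvd
      have hne : c ≠ a := fun e'' => hlt (AddSubgroup.eq_of_le_of_card_ge hsub
        (le_of_eq (by rw [hc', e'']; exact ha)))
      have haj : a ≤ j + 1 := by
        have h1 : p ^ a ≤ p ^ (j + 1) := le_of_eq_of_le ha.symm hB
        exact (Nat.pow_le_pow_iff_right hp.one_lt).1 h1
      rw [hc']
      exact Nat.pow_le_pow_right hp.pos (by omega)
    rw [pow_succ]
    exact ih B' hcard hfB _ ⟨b, hb, rfl⟩

theorem geom_sum_eq_zero' {A : Type*} [AddCommGroup A] (p : ℕ) [Fact p.Prime]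
    [Module (ZMod p) A] (f : AddMonoid.End A) (m k : ℕ) (hD : (f - 1) ^ m = 0) (hm : m < p ^ k) :
    f ^ p ^ k = 1 ∧ ∑ i ∈ Finset.range (p ^ k), f ^ i = 0 := by
  have hp : p.Prime := Fact.out
  let g : Module.End (ZMod p) A := AddMonoidHom.toZModLinearMap p (f : A →+ A)
  have hgf : ∀ x, g x = f x := fun _ => rfl
  have hpow : ∀ (i : ℕ) (x : A), (g ^ i) x = (f ^ i) x := by
    intro i
    induction i with
    | zero => intro x; rfl
    | succ i ih => intro x; rw [pow_succ, pow_succ, Module.End.mul_apply, ih, hgf]; rfl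
  have hpowD : ∀ (i : ℕ) (x : A), ((g - 1) ^ i) x = ((f - 1) ^ i) x := by
    intro i
    induction i with
    | zero => intro x; rfl
    | succ i ih =>
      intro x
      rw [pow_succ, pow_succ, Module.End.mul_apply, ih, LinearMap.sub_apply, hgf,
        Module.End.one_apply]
      rfl
  have hnil : ∀ j, m ≤ j → (g - 1) ^ j = 0 := by
    intro j hj
    refine LinearMap.ext fun x => ?_
    rw [hpowD, ← Nat.sub_add_cancel hj, pow_add, hD, mul_zero]
    simp
  have hpoly : (∑ i ∈ Finset.range (p ^ k), (Polynomial.X + 1 : Polynomial (ZMod p)) ^ i) =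
      Polynomial.X ^ (p ^ k - 1) := by
    apply mul_left_cancel₀ (Polynomial.X_ne_zero (R := ZMod p))
    rw [← pow_succ', Nat.sub_add_cancel (Nat.one_le_pow _ _ hp.pos)]
    have := mul_geom_sum (Polynomial.X + 1 : Polynomial (ZMod p)) (p ^ k)
    rw [add_sub_cancel_right] at this
    rw [this, add_pow_char_pow, one_pow, add_sub_cancel_right]
  have hsum : (∑ i ∈ Finset.range (p ^ k), g ^ i) = 0 := by
    have := congrArg (Polynomial.aeval (g - 1)) hpoly
    simp only [map_sum, map_pow, map_add, Polynomial.aeval_X, map_one, sub_add_cancel] at this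
    rw [this, hnil (p ^ k - 1) (by omega)]
  have hQ : g ^ p ^ k = 1 := by
    have := congrArg (· * (g - 1)) hsum
    simp only [zero_mul, geom_sum_mul, sub_eq_zero] at this
    exact this
  refine ⟨AddMonoidHom.ext fun x => ?_, AddMonoidHom.ext fun x => ?_⟩
  · exact (hpow _ x).symm.trans (by rw [hQ]; rfl)
  · have h1 : ∀ s : Finset ℕ, (∑ i ∈ s, f ^ i) x = (∑ i ∈ s, g ^ i) x := by
      intro s
      induction s using Finset.induction_on with
      | empty => simp
      | insert a s ha ih =>
        rw [Finset.sum_insert ha, Finset.sum_insert ha, LinearMap.add_apply, hpow, ← ih]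
        rfl
    exact (h1 _).trans (by rw [hsum]; rfl)

theorem geom_sum_eq_zero {A : Type*} [AddCommGroup A] (p : ℕ) (hp : p.Prime)
    (hA : ∀ a : A, p • a = 0) (f : AddMonoid.End A) (m k : ℕ) (hD : (f - 1) ^ m = 0) (hm : m < p ^ k) :
    f ^ p ^ k = 1 ∧ ∑ i ∈ Finset.range (p ^ k), f ^ i = 0 :=
  @geom_sum_eq_zero' A _ p ⟨hp⟩ (AddCommGroup.zmodModule hA) f m k hD hm

theorem pow_le_of_affine {G Ω : Type*} [Group G] [Finite G] [Finite Ω] [MulAction G Ω]
    [FaithfulSMul G Ω] (p m : ℕ) (hp : p.Prime) (hcard : Nat.card Ω = p ^ m) (N : Subgroup G)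
    [hN : N.Normal] (hNc : IsMulCommutative N) (hNp : ∀ n ∈ N, n ^ p = 1)
    (hNtr : IsPretransitive N Ω) (hNreg : ∀ ω : Ω, stabilizer N ω = ⊥) (g : G) (r : ℕ) (hr : 1 ≤ r)
    (hg : orderOf g = p ^ r) : p ^ (r - 1) ≤ m := by
  classical
  by_contra hlt
  push Not at hlt
  set Q := p ^ (r - 1) with hQ
  suffices hgQ : g ^ Q = 1 by
    have h1 := orderOf_dvd_of_pow_eq_one hgQ
    rw [hg] at h1
    have h2 := (Nat.pow_dvd_pow_iff_le_right hp.one_lt).1 h1
    omega
  haveI : Fact p.Prime := ⟨hp⟩
  letI : CommGroup N := { (inferInstance : Group N) with mul_comm := hNc.is_comm.comm }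
  let A := Additive N
  have hA : ∀ a : A, p • a = 0 := fun a => by
    apply Additive.toMul.injective
    exact Subtype.ext (hNp _ (Additive.toMul a).2)
  let cf : G → AddMonoid.End A := fun x =>
    MonoidHom.toAdditive ((MulAut.conjNormal x : MulAut N).toMonoidHom)
  have hcf : ∀ x y, cf (x * y) = cf x * cf y := fun x y => by
    refine AddMonoidHom.ext fun (a : A) => ?_
    change Additive.ofMul (MulAut.conjNormal (x * y) (Additive.toMul a)) = _
    rw [map_mul]; rfl
  have hcf1 : cf 1 = 1 := by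
    refine AddMonoidHom.ext fun (a : A) => ?_
    change Additive.ofMul (MulAut.conjNormal (1 : G) (Additive.toMul a)) = a
    rw [map_one]; rfl
  let φ : G →* AddMonoid.End A := { toFun := cf, map_one' := hcf1, map_mul' := hcf }
  set σ := φ g with hσ
  set D := σ - 1 with hD
  obtain ⟨α⟩ : Nonempty Ω := (Nat.card_pos_iff.1 (by rw [hcard]; exact Nat.pow_pos hp.pos)).1
  have hfree : ∀ n : N, (n : G) • α = α → n = 1 := fun n hn =>
    Subgroup.mem_bot.1 (hNreg α ▸ (show n ∈ stabilizer N α from hn))
  have hcardA : Nat.card A = p ^ m := by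
    rw [← hcard]
    refine Nat.card_congr (Equiv.ofBijective (fun a : A => ((Additive.toMul a : N) : G) • α)
      ⟨fun a b e => ?_, fun x => ?_⟩)
    · apply Additive.toMul.injective
      refine (inv_mul_eq_one.1 (hfree ((Additive.toMul b)⁻¹ * Additive.toMul a) ?_)).symm
      change ((Additive.toMul a : N) : G) • α = _ at e
      rw [Subgroup.coe_mul, mul_smul, e, Subgroup.coe_inv, inv_smul_smul]
    · obtain ⟨n, hn⟩ := hNtr.exists_smul_eq α x
      exact ⟨Additive.ofMul n, hn⟩
  have hDm : D ^ m = 0 := by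
    refine AddMonoidHom.ext fun (a : A) => ?_
    refine iterate_commutator_eq_zero p hp hA σ r (by rw [hσ, ← map_pow, ← hg, pow_orderOf_eq_one, map_one])
      m ⊤ ?_ (fun _ _ => trivial) a trivial
    rw [AddSubgroup.card_top, hcardA]
  obtain ⟨hQ1, hsum⟩ := geom_sum_eq_zero p hp hA σ m (r - 1) hDm hlt
  -- split off the translation part
  obtain ⟨n, hn⟩ := hNtr.exists_smul_eq α (g • α)
  set h := (n : G)⁻¹ * g with hh
  have hhα : h • α = α := by
    rw [hh, mul_smul, inv_smul_eq_iff]; exact hn.symm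
  have hghn : g = (n : G) * h := by rw [hh, mul_inv_cancel_left]
  have hσh : φ h = σ := by
    have hsplit : φ g = φ (n : G) * φ h := by rw [← map_mul, ← hghn]
    rw [hσ, hsplit]
    have : φ (n : G) = 1 := by
      refine AddMonoidHom.ext fun a => Additive.toMul.injective (Subtype.ext ?_)
      change (n : G) * ((Additive.toMul a : N) : G) * (n : G)⁻¹ = _
      have := congrArg Subtype.val (hNc.is_comm.comm n (Additive.toMul a))
      rw [Subgroup.coe_mul, Subgroup.coe_mul] at this
      rw [this, mul_inv_cancel_right]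
      rfl
    rw [this, one_mul]
  have hpow : ∀ k : ℕ, g ^ k =
      ((Additive.toMul ((∑ i ∈ Finset.range k, σ ^ i) (Additive.ofMul n)) : N) : G) * h ^ k := by
    intro k
    induction k with
    | zero => simp
    | succ k ih =>
      rw [pow_succ', ih, Finset.sum_range_succ',
        show ∀ (a b : AddMonoid.End A) (x : A), (a + b) x = a x + b x from fun _ _ _ => rfl, pow_zero]
      have e1 : ((∑ i ∈ Finset.range k, σ ^ (i + 1)) : AddMonoid.End A) =
          σ * ∑ i ∈ Finset.range k, σ ^ i := by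
        rw [Finset.mul_sum]; exact Finset.sum_congr rfl fun i _ => pow_succ' σ i
      rw [e1, show ∀ (a b : AddMonoid.End A) (x : A), (a * b) x = a (b x) from fun _ _ _ => rfl,
        show ∀ x : A, (1 : AddMonoid.End A) x = x from fun _ => rfl, add_comm, toMul_add, Subgroup.coe_mul,
        pow_succ']
      set u := (∑ i ∈ Finset.range k, σ ^ i) (Additive.ofMul n)
      have e2 : ((Additive.toMul (σ u) : N) : G) = h * ((Additive.toMul u : N) : G) * h⁻¹ := by
        rw [← hσh]
        rfl
      rw [e2, hghn]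
      change _ = (n : G) * _ * _
      group
  have hhQ : h ^ Q = 1 := by
    have hfix : (h ^ Q) • α = α := (stabilizer G α).pow_mem (hhα : h ∈ stabilizer G α) Q
    refine FaithfulSMul.eq_of_smul_eq_smul (α := Ω) fun x => ?_
    obtain ⟨v, rfl⟩ := hNtr.exists_smul_eq α x
    have e : (φ (h ^ Q)) (Additive.ofMul v) = Additive.ofMul v := by
      rw [map_pow, hσh, hQ1]; rfl
    have e' : h ^ Q * (v : G) * (h ^ Q)⁻¹ = v :=
      congrArg (fun a : A => ((Additive.toMul a : N) : G)) e
    rw [mul_inv_eq_iff_eq_mul] at e'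
    rw [one_smul, Subgroup.smul_def, ← mul_smul, e', mul_smul, hfix]
  rw [hpow Q, hsum, hhQ, mul_one]
  rfl

end Cfsg.Agent.Lib.Recog
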