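import Mathlib

/-! Large primes in groups with the spectrum and order of an alternating group. -/

set_option autoImplicit false

namespace Cfsg.Agent.Lib.Recog

open Subgroup

/-- An element of prime order normalising a subgroup of prime order commutes with it if the
automorphism group has coprime order. -/
theorem exists_orderOf_mul_of_normalizing {G : Type*} [Group G] [Finite G] {p r : ℕ} (hp : p.Prime)
    (hr : r.Prime) (hne : p ≠ r) (hdvd : ¬ r ∣ p - 1) {P : Subgroup G} (hP : Nat.card P = p) {y : G}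
    (hy : orderOf y = r) (hyP : y ∈ normalizer (P : Set G)) : ∃ x : G, orderOf x = p * r := by
  haveI : Fact p.Prime := ⟨hp⟩
  haveI : IsCyclic P := isCyclic_of_prime_card hP
  obtain ⟨z, hz⟩ := exists_prime_orderOf_dvd_card' (G := P) p (by rw [hP])
  set y' : (normalizer (P : Set G) : Subgroup G) := ⟨y, hyP⟩ with hy'
  have h1 : orderOf (P.normalizerMonoidHom y') ∣ r := by
    have := orderOf_map_dvd P.normalizerMonoidHom y'
    rwa [hy', Subgroup.orderOf_mk, hy] at this
  have h2 : orderOf (P.normalizerMonoidHom y') ∣ p - 1 := by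
    have := orderOf_dvd_natCard (P.normalizerMonoidHom y')
    rwa [IsCyclic.card_mulAut, hP, Nat.totient_prime hp] at this
  have h3 : P.normalizerMonoidHom y' = 1 := by
    rw [← orderOf_eq_one_iff]
    rcases (Nat.dvd_prime hr).1 h1 with e | e
    · exact e
    · exact absurd (e ▸ h2) hdvd
  have h4 : y' ∈ P.normalizerMonoidHom.ker := h3
  rw [Subgroup.normalizerMonoidHom_ker, mem_subgroupOf] at h4
  have hc : Commute (z : G) y := mem_centralizer_iff.1 h4 z z.2
  refine ⟨(z : G) * y, ?_⟩
  have hz' : orderOf (z : G) = p := by rw [Subgroup.orderOf_coe, hz]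
  rw [hc.orderOf_mul_eq_mul_orderOf_of_coprime (by rw [hz', hy]; exact (Nat.coprime_primes hp hr).2 hne), hz', hy]

theorem two_mul_card_alt (n : ℕ) (hn : 2 ≤ n) :
    2 * Nat.card ↥(alternatingGroup (Fin n)) = n.factorial := by
  haveI : Nontrivial (Fin n) := Fin.nontrivial_iff_two_le.2 hn
  rw [two_mul_nat_card_alternatingGroup, Nat.card_perm, Nat.card_fin]

theorem dvd_card_alt {n p : ℕ} (hp : p.Prime) (h2 : p ≠ 2) (hn : p ≤ n) :
    p ∣ Nat.card ↥(alternatingGroup (Fin n)) := by
  have h : p ∣ 2 * Nat.card ↥(alternatingGroup (Fin n)) := by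
    rw [two_mul_card_alt n (hp.two_le.trans hn)]
    exact Nat.dvd_factorial hp.pos hn
  rcases hp.dvd_mul.1 h with e | e
  · exact absurd ((Nat.prime_dvd_prime_iff_eq hp Nat.prime_two).1 e) h2
  · exact e

theorem le_of_pow_dvd_card_alt {n p a : ℕ} (hp : p.Prime) (hn2 : 2 ≤ n) (hn : n < p * p)
    (h : p ^ a ∣ Nat.card ↥(alternatingGroup (Fin n))) : a ≤ n / p := by
  have h' : p ^ a ∣ n.factorial := by
    rw [← two_mul_card_alt n hn2]; exact dvd_mul_of_dvd_right h 2
  have := (Nat.Prime.pow_dvd_factorial_iff hp (b := 2) (Nat.log_lt_of_lt_pow (by omega) (by rwa [sq]))).1 h'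
  simpa using this

/-- An element of order `p r` needs `p + r` points. -/
theorem add_le_of_orderOf_eq {n p r : ℕ} (hp : p.Prime) (hr : r.Prime) (hne : p ≠ r)
    {x : Equiv.Perm (Fin n)} (h : orderOf x = p * r) : p + r ≤ n := by
  have key : ∀ q : ℕ, q.Prime → q ∣ orderOf x → ∃ c ∈ x.cycleType, q ∣ c := by
    intro q hq hd
    rw [← Equiv.Perm.lcm_cycleType] at hd
    have := hd.trans (Multiset.lcm_dvd.2 fun a ha => Multiset.dvd_prod ha)
    exact (hq.prime.exists_mem_multiset_dvd this)
  obtain ⟨c, hc, hpc⟩ := key p hp (h ▸ dvd_mul_right p r)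
  obtain ⟨d, hd, hrd⟩ := key r hr (h ▸ dvd_mul_left r p)
  have hs : x.cycleType.sum ≤ n := by
    rw [Equiv.Perm.sum_cycleType]
    simpa using Finset.card_le_univ x.support
  have hc2 := Equiv.Perm.two_le_of_mem_cycleType hc
  have hd2 := Equiv.Perm.two_le_of_mem_cycleType hd
  rcases eq_or_ne c d with rfl | hcd
  · have h1 : p * r ≤ c :=
      Nat.le_of_dvd (by omega) (((Nat.coprime_primes hp hr).2 hne).mul_dvd_of_dvd_of_dvd hpc hrd)
    have h2 := Multiset.le_sum_of_mem hc
    nlinarith [hp.two_le, hr.two_le]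
  · have hd' : d ∈ x.cycleType.erase c := (Multiset.mem_erase_of_ne hcd.symm).2 hd
    have h1 := Multiset.le_sum_of_mem hd'
    have h2 : c + (x.cycleType.erase c).sum = x.cycleType.sum := by
      rw [← Multiset.sum_cons, Multiset.cons_erase hc]
    have := Nat.le_of_dvd (by omega) hpc
    have := Nat.le_of_dvd (by omega) hrd
    omega

theorem orderOf_ne_of_spec {G : Type*} [Group G] {n p r : ℕ}
    (hspec : Set.range (orderOf : G → ℕ) = Set.range (orderOf : ↥(alternatingGroup (Fin n)) → ℕ))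
    (hp : p.Prime) (hr : r.Prime) (hne : p ≠ r) (hlt : n < p + r) (x : G) : orderOf x ≠ p * r := by
  intro hx
  obtain ⟨y, hy⟩ : p * r ∈ Set.range (orderOf : ↥(alternatingGroup (Fin n)) → ℕ) := hspec ▸ ⟨x, hx⟩
  rw [← Subgroup.orderOf_coe] at hy
  exact absurd (add_le_of_orderOf_eq hp hr hne hy) (by omega)

end Cfsg.Agent.Lib.Recog
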