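import Mathlib
import Cfsg.Agent.Lib.Recog.FixCount

/-! The subgroup generated by the derangements. -/

set_option autoImplicit false

namespace Cfsg.Agent.Lib.Recog

open MulAction

variable {G Ω : Type*} [Group G] [Finite G] [MulAction G Ω] [FaithfulSMul G Ω] [Finite Ω]
  [IsPretransitive G Ω]

/-- The subgroup generated by the derangements. -/
abbrev derSub (G Ω : Type*) [Group G] [MulAction G Ω] : Subgroup G :=
  Subgroup.closure {g : G | ∀ ω : Ω, g • ω ≠ ω}

omit [Finite G] [FaithfulSMul G Ω] [Finite Ω] [IsPretransitive G Ω] in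
theorem derSub_normal : (derSub G Ω).Normal := by
  refine ⟨fun x hx g => ?_⟩
  have : (derSub G Ω).map (MulAut.conj g).toMonoidHom ≤ derSub G Ω := by
    rw [derSub, MonoidHom.map_closure, Subgroup.closure_le]
    rintro _ ⟨y, hy, rfl⟩
    exact Subgroup.subset_closure (IsDer.conj (Ω := Ω) hy g)
  exact this ⟨x, hx, rfl⟩

omit [FaithfulSMul G Ω] [Finite Ω] in
theorem derSub_pretransitive : IsPretransitive (derSub G Ω) Ω := by
  classical
  rcases isEmpty_or_nonempty Ω with hem | ⟨⟨α⟩⟩
  · exact ⟨fun x => isEmptyElim x⟩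
  haveI := derSub_normal (G := G) (Ω := Ω)
  have htop : derSub G Ω ⊔ stabilizer G α = ⊤ := by
    by_contra hne
    obtain ⟨d, hd⟩ := exists_forall_conj_notMem hne
    have hder : IsDer Ω d := by
      intro x hx
      obtain ⟨u, rfl⟩ := exists_smul_eq G α x
      exact hd u (Subgroup.mem_sup_right (by
        rw [mem_stabilizer_iff, mul_smul, mul_smul, hx, inv_smul_smul]))
    have := hd 1
    rw [inv_one, one_mul, mul_one] at this
    exact this (Subgroup.mem_sup_left (Subgroup.subset_closure hder))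
  have key : ∀ x : Ω, ∃ d ∈ derSub G Ω, d • α = x := by
    intro x
    obtain ⟨u, rfl⟩ := exists_smul_eq G α x
    have hu : u ∈ (↑(derSub G Ω ⊔ stabilizer G α) : Set G) := by rw [htop]; trivial
    rw [Subgroup.normal_mul] at hu
    obtain ⟨d, hd, h, hh, rfl⟩ := hu
    exact ⟨d, hd, by rw [mul_smul, show h • α = α from hh]⟩
  refine ⟨fun x y => ?_⟩
  obtain ⟨d, hd, rfl⟩ := key x
  obtain ⟨e, he, rfl⟩ := key y
  exact ⟨⟨e * d⁻¹, mul_mem he (inv_mem hd)⟩, by
    rw [Subgroup.smul_def, mul_smul, inv_smul_smul]⟩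

omit [FaithfulSMul G Ω] in
/-- Elements outside `derSub` fix exactly one point. -/
theorem card_fixedBy_of_notMem {g : G} (hg : g ∉ derSub G Ω) : Nat.card (fixedBy Ω g) = 1 := by
  classical
  rcases isEmpty_or_nonempty Ω with hem | hne
  · refine absurd ?_ hg
    exact Subgroup.subset_closure fun ω => isEmptyElim ω
  have := Fintype.ofFinite G
  have := Fintype.ofFinite Ω
  set D := derSub G Ω with hD
  haveI := derSub_pretransitive (G := G) (Ω := Ω)
  have hfib : ∀ ω : Ω, Nat.card {d : D // (g * d) • ω = ω} * Fintype.card Ω = Nat.card D := by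
    intro ω
    obtain ⟨d₀, hd₀⟩ := exists_smul_eq D ω (g⁻¹ • ω)
    have h0 : (g * (d₀ : G)) • ω = ω := by
      rw [mul_smul, show (d₀ : G) • ω = g⁻¹ • ω from hd₀, smul_inv_smul]
    have e : {d : D // (g * d) • ω = ω} ≃ stabilizer D ω :=
      { toFun := fun d => ⟨d₀⁻¹ * d.1, by
          rw [mem_stabilizer_iff, mul_smul, inv_smul_eq_iff]
          apply smul_left_cancel g
          rw [Subgroup.smul_def, Subgroup.smul_def, ← mul_smul, ← mul_smul, d.2, h0]⟩
        invFun := fun s => ⟨d₀ * s.1, by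
          have hs : ((s.1 : D) : G) • ω = ω := s.2
          rw [Subgroup.coe_mul, ← mul_assoc, mul_smul, hs, h0]⟩
        left_inv := fun d => Subtype.ext (mul_inv_cancel_left _ _)
        right_inv := fun s => Subtype.ext (inv_mul_cancel_left _ _) }
    rw [Nat.card_congr e, mul_comm, ← (stabilizer D ω).index_mul_card,
      index_stabilizer_of_transitive, Nat.card_eq_fintype_card (α := Ω)]
  have hsum : ∑ d : D, Nat.card (fixedBy Ω (g * (d : G))) = Fintype.card D := by
    have h1 : ∀ d : D, Nat.card (fixedBy Ω (g * (d : G))) =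
        ∑ ω : Ω, if (g * (d : G)) • ω = ω then 1 else 0 := by
      intro d
      rw [Finset.sum_boole, Nat.cast_id, Nat.card_eq_fintype_card, ← Fintype.card_subtype]
      rfl
    rw [Finset.sum_congr rfl fun d _ => h1 d, Finset.sum_comm]
    have h2 : ∀ ω : Ω, (∑ d : D, if (g * (d : G)) • ω = ω then 1 else 0) * Fintype.card Ω =
        Fintype.card D := by
      intro ω
      rw [Finset.sum_boole, Nat.cast_id, ← Fintype.card_subtype, ← Nat.card_eq_fintype_card, hfib,
        Nat.card_eq_fintype_card]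
    apply Nat.eq_of_mul_eq_mul_right (Fintype.card_pos (α := Ω))
    rw [Finset.sum_mul, Finset.sum_congr rfl fun ω _ => h2 ω, Finset.sum_const, Finset.card_univ,
      smul_eq_mul, mul_comm]
  have hone : ∀ d : D, 1 ≤ Nat.card (fixedBy Ω (g * (d : G))) := by
    intro d
    rw [Nat.one_le_iff_ne_zero]
    intro e
    refine hg ?_
    have hm : g * (d : G) ∈ D := Subgroup.subset_closure (isDer_iff.2 e)
    simpa using mul_mem hm (inv_mem d.2)
  have heq := (Finset.sum_eq_sum_iff_of_le (s := Finset.univ) (f := fun _ : D => 1)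
    (g := fun d : D => Nat.card (fixedBy Ω (g * (d : G)))) fun d _ => hone d).1 (by
      rw [hsum]; simp) 1 (Finset.mem_univ _)
  simpa using heq.symm

omit [FaithfulSMul G Ω] in
theorem mem_derSub_of_fix_two {g : G} {a b : Ω} (hab : a ≠ b) (ha : g • a = a) (hb : g • b = b) :
    g ∈ derSub G Ω := by
  by_contra hg
  have h := card_fixedBy_of_notMem hg
  exact hab (congrArg Subtype.val
    ((Nat.card_eq_one_iff_unique.1 h).1.elim (⟨a, ha⟩ : fixedBy Ω g) ⟨b, hb⟩))

omit [FaithfulSMul G Ω] in
theorem index_derSub_eq (α : Ω) :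
    (derSub G Ω).index = (derSub G Ω).relIndex (stabilizer G α) := by
  haveI := derSub_normal (G := G) (Ω := Ω)
  haveI := derSub_pretransitive (G := G) (Ω := Ω)
  have htop : stabilizer G α ⊔ derSub G Ω = ⊤ := by
    rw [eq_top_iff]
    intro u _
    obtain ⟨d, hd⟩ := exists_smul_eq (derSub G Ω) α (u • α)
    have : (d : G)⁻¹ * u ∈ stabilizer G α := by
      rw [mem_stabilizer_iff, mul_smul, inv_smul_eq_iff]; exact hd.symm
    simpa using mul_mem (Subgroup.mem_sup_right (S := stabilizer G α) d.2)
      (Subgroup.mem_sup_left (T := derSub G Ω) this)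
  rw [← Subgroup.relIndex_top_right, ← htop, Subgroup.relIndex_sup_right]

omit [FaithfulSMul G Ω] in
/-- The index of `derSub` divides every nontrivial suborbit. -/
theorem index_dvd_orbit {α β : Ω} (h : β ≠ α) :
    (derSub G Ω).index ∣ Nat.card (orbit (stabilizer G α) β) := by
  rw [index_derSub_eq α, Subgroup.relIndex, Nat.card_coe_set_eq, ← index_stabilizer]
  refine Subgroup.index_dvd_of_le fun x hx => Subgroup.mem_subgroupOf.2 ?_
  exact mem_derSub_of_fix_two h hx x.2

omit [FaithfulSMul G Ω] in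
theorem index_dvd_invariant {α : Ω} (S : Set Ω) (hS : α ∉ S)
    (hinv : ∀ g ∈ stabilizer G α, ∀ x ∈ S, g • x ∈ S) : (derSub G Ω).index ∣ Nat.card S := by
  classical
  letI : MulAction (stabilizer G α) S :=
    { smul := fun g x => ⟨(g : G) • (x : Ω), hinv g g.2 x x.2⟩
      one_smul := fun x => Subtype.ext (one_smul G (x : Ω))
      mul_smul := fun g h x => Subtype.ext (mul_smul (g : G) (h : G) (x : Ω)) }
  have := Fintype.ofFinite (orbitRel.Quotient (stabilizer G α) S)
  rw [Nat.card_congr (selfEquivSigmaOrbitsQuotientStabilizer (stabilizer G α) S), Nat.card_sigma]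
  refine Finset.dvd_sum fun q _ => ?_
  have h := index_dvd_orbit (G := G) (α := α) (β := ((q.out : S) : Ω)) fun e => hS (e ▸ (q.out).2)
  rw [Nat.card_coe_set_eq, ← index_stabilizer] at h
  rw [← Subgroup.index_eq_card]
  refine h.trans (dvd_of_eq (congrArg Subgroup.index ?_))
  ext g
  exact ⟨fun e => Subtype.ext e, fun e => congrArg Subtype.val e⟩

end Cfsg.Agent.Lib.Recog
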