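import Mathlib

set_option autoImplicit false

namespace Cfsg.Agent.Lib.Recog

open Polynomial

/-- a bijection of `F_p` whose difference quotients all have `d`-th power one, `2d ≤ p - 1`, is affine -/
theorem affine_of_pow_diff {p : ℕ} [Fact p.Prime] {d : ℕ} (hd0 : 0 < d) (hd : 2 * d + 1 ≤ p)
    (σ : ZMod p → ZMod p) (h : ∀ x y, (σ x - σ y) ^ d = (x - y) ^ d) (hσ : Function.Surjective σ) :
    ∃ a b : ZMod p, ∀ x, σ x = a * x + b := by
  have hp := (Fact.out : p.Prime)
  let L : (ZMod p)[X] →ₗ[ZMod p] (ZMod p → ZMod p) := LinearMap.pi fun x => Polynomial.leval x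
  have hL : ∀ P x, L P x = P.eval x := fun P x => rfl
  have huniq : ∀ P Q : (ZMod p)[X], P.natDegree < p → Q.natDegree < p → (∀ x, P.eval x = Q.eval x) → P = Q := by
    intro P Q hP hQ he
    by_contra hne
    have hd' := Polynomial.card_le_degree_of_subset_roots (p := P - Q) (Z := (Finset.univ : Finset (ZMod p)))
      (fun x _ => by rw [mem_roots (sub_ne_zero.2 hne)]; simp [he])
    rw [Finset.card_univ, ZMod.card] at hd'
    exact absurd (hd'.trans ((natDegree_sub_le P Q).trans (le_refl _))) (not_le.2 (max_lt hP hQ))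
  let W : Submodule (ZMod p) (ZMod p → ZMod p) := (Polynomial.degreeLE (ZMod p) d).map L
  have hmem : ∀ i ≤ d, (fun x => σ x ^ i) ∈ W := by
    intro i hi
    by_contra hnot
    obtain ⟨φ, hφ, hφW⟩ := W.exists_dual_map_eq_bot_of_notMem hnot inferInstance
    rw [Submodule.eq_bot_iff] at hφW
    have hW : ∀ w ∈ W, φ w = 0 := fun w hw => hφW _ (Submodule.mem_map_of_mem hw)
    let P : (ZMod p)[X] := ∑ j ∈ Finset.range (d + 1),
      C ((d.choose j : ZMod p) * φ (fun x => σ x ^ j) * (-1) ^ (d - j)) * X ^ (d - j)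
    have hPdeg : P.natDegree ≤ d := natDegree_sum_le_of_forall_le _ _ fun j _ =>
      (natDegree_C_mul_X_pow_le _ _).trans (Nat.sub_le _ _)
    have hP0 : P = 0 := by
      refine huniq _ 0 (by omega) (by simp [hp.pos]) fun c => ?_
      obtain ⟨y, rfl⟩ := hσ c
      have hy : (fun x => (σ x - σ y) ^ d) ∈ W := by
        refine ⟨(X - C y) ^ d, ?_, funext fun x => ?_⟩
        · rw [SetLike.mem_coe, mem_degreeLE, ← natDegree_le_iff_degree_le]
          simp [natDegree_X_sub_C]
        · rw [hL]; simp [h]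
      have e := hW _ hy
      have e2 : (fun x => (σ x - σ y) ^ d) = ∑ j ∈ Finset.range (d + 1),
          ((d.choose j : ZMod p) * (-σ y) ^ (d - j)) • (fun x => σ x ^ j) := by
        funext x
        rw [Finset.sum_apply, sub_eq_add_neg, add_pow]
        exact Finset.sum_congr rfl fun j _ => by simp only [Pi.smul_apply, smul_eq_mul]; ring
      rw [e2, map_sum] at e
      simp only [map_smul, smul_eq_mul] at e
      rw [eval_zero, ← e]
      simp only [P, eval_finsetSum, eval_mul, eval_C, eval_pow, eval_X]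
      exact Finset.sum_congr rfl fun j _ => by rw [neg_pow (σ y)]; ring
    have hc := congrArg (fun Q => coeff Q (d - i)) hP0
    simp only [P, finsetSum_coeff, coeff_zero, coeff_C_mul_X_pow] at hc
    rw [Finset.sum_eq_single_of_mem i (Finset.mem_range.2 (by omega))] at hc
    · rw [if_pos rfl] at hc
      have hch : (d.choose i : ZMod p) ≠ 0 := by
        rw [Ne, ZMod.natCast_eq_zero_iff]
        intro hdvd
        have h1 : d.choose i ∣ d.factorial :=
          ⟨i.factorial * (d - i).factorial, by rw [← mul_assoc, Nat.choose_mul_factorial_mul_factorial hi]⟩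
        have := (hp.dvd_factorial).1 (hdvd.trans h1)
        omega
      simp [hch, hφ] at hc
    · intro j hj hji
      rw [if_neg]
      have := Finset.mem_range.1 hj
      omega
  have hpoly : ∀ i ≤ d, ∃ Q : (ZMod p)[X], Q.natDegree ≤ d ∧ ∀ x, Q.eval x = σ x ^ i := by
    intro i hi
    obtain ⟨Q, hQ, hQe⟩ := hmem i hi
    rw [SetLike.mem_coe, mem_degreeLE, ← natDegree_le_iff_degree_le] at hQ
    exact ⟨Q, hQ, fun x => congrFun hQe x⟩
  obtain ⟨f, hf, hfe⟩ := hpoly 1 hd0
  simp only [pow_one] at hfe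
  have hind : ∀ i ≤ d, i * f.natDegree ≤ d := by
    intro i
    induction i with
    | zero => simp
    | succ i ih =>
      intro hi
      have h1 := ih (by omega)
      obtain ⟨Q, hQ, hQe⟩ := hpoly (i + 1) hi
      have hdeg : (f ^ (i + 1)).natDegree = (i + 1) * f.natDegree := natDegree_pow _ _
      have : f ^ (i + 1) = Q := huniq _ _ (by rw [hdeg, add_mul, one_mul]; omega) (by omega)
        (fun x => by rw [eval_pow, hfe, hQe])
      rw [← hdeg, this]; exact hQ
  have hdeg1 : f.natDegree ≤ 1 := by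
    have := hind d le_rfl
    by_contra hcon
    nlinarith
  obtain ⟨a, b, rfl⟩ := exists_eq_X_add_C_of_natDegree_le_one hdeg1
  exact ⟨a, b, fun x => by rw [← hfe]; simp⟩

end Cfsg.Agent.Lib.Recog
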