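import Mathlib
import Cfsg.Agent.Lib.Recog.Affine
import Cfsg.Agent.Lib.Recog.DerClasses
import Cfsg.Agent.Lib.Recog.SimpleCentralizers

/-! Extremely primitive groups are affine or almost simple. -/

set_option autoImplicit false

namespace Cfsg.Agent.Lib.Recog

open Subgroup MulAction
open scoped Pointwise

variable {G Ω : Type*} [Group G] [MulAction G Ω]

/-- Stabilizers of second points are maximal in the point stabilizer (or everything). -/
def SecondMax (H : Subgroup G) (Ω : Type*) [MulAction G Ω] : Prop :=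
  ∀ (ω : Ω) (L : Subgroup G), H ⊓ stabilizer G ω ≤ L → L ≤ H → L = H ⊓ stabilizer G ω ∨ L = H

theorem secondMax_of_isPreprimitive (H : Subgroup G)
    (h : ∀ ω : Ω, IsPreprimitive H (orbit H ω)) : SecondMax H Ω := by
  intro ω L hKL hLH
  by_cases hfix : H ≤ stabilizer G ω
  · right
    rw [inf_eq_left.2 hfix] at hKL
    exact le_antisymm hLH hKL
  haveI := h ω
  haveI : Nontrivial (orbit H ω) := by
    obtain ⟨x, hx, hxω⟩ := SetLike.not_le_iff_exists.1 hfix
    exact ⟨⟨⟨ω, mem_orbit_self ω⟩, ⟨x • ω, ⟨⟨x, hx⟩, rfl⟩⟩,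
      fun e => hxω (congrArg Subtype.val e).symm⟩⟩
  have hc := IsPreprimitive.isCoatom_stabilizer_of_isPreprimitive (G := H)
    (⟨ω, mem_orbit_self ω⟩ : orbit H ω)
  have hle : stabilizer H (⟨ω, mem_orbit_self ω⟩ : orbit H ω) ≤ L.subgroupOf H := by
    intro k hk
    exact mem_subgroupOf.2 (hKL ⟨k.2, congrArg Subtype.val (hk : k • (⟨ω, mem_orbit_self ω⟩ : orbit H ω) = _)⟩)
  rcases hle.lt_or_eq with hlt | heq
  · right
    exact le_antisymm hLH (subgroupOf_eq_top.1 (hc.2 _ hlt))
  · left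
    refine le_antisymm (fun x hx => ⟨hLH hx, ?_⟩) hKL
    have : (⟨x, hLH hx⟩ : H) ∈ stabilizer H (⟨ω, mem_orbit_self ω⟩ : orbit H ω) :=
      heq.symm ▸ mem_subgroupOf.2 hx
    exact congrArg Subtype.val (this : (⟨x, hLH hx⟩ : H) • (⟨ω, mem_orbit_self ω⟩ : orbit H ω) = _)

theorem mem_normalizer_of_cj_eq {g : G} {T : Subgroup G} (h : cj g T = T) :
    g ∈ normalizer (T : Set G) := by
  rw [mem_normalizer_iff'']
  intro x
  rw [← mem_cj, h]

theorem le_normalizer_of_forall {N P : Subgroup G} (h : ∀ n ∈ N, ∀ x ∈ P, n⁻¹ * x * n ∈ P) :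
    N ≤ normalizer (P : Set G) := by
  intro n hn
  rw [mem_normalizer_iff'']
  refine fun x => ⟨h n hn x, fun hx => ?_⟩
  simpa [mul_assoc] using h n⁻¹ (inv_mem hn) _ hx

theorem smul_conj_eq {h t : G} {α : Ω} (hh : h • α = α) : (h * t * h⁻¹) • α = h • t • α := by
  rw [mul_smul, mul_smul, inv_smul_eq_iff.2 hh.symm]

theorem ActsFreely.inj {T : Subgroup G} (h : ActsFreely Ω T) {s t : G} (hs : s ∈ T) (ht : t ∈ T)
    {x : Ω} (e : s • x = t • x) : s = t := by
  have := h _ (mul_mem (inv_mem ht) hs) x (by rw [mul_smul, e, inv_smul_smul])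
  exact (inv_mul_eq_one.1 this).symm

theorem eq_of_le_stabilizer_normal [FaithfulSMul G Ω] [IsPreprimitive G Ω] [Nontrivial Ω]
    {H : Subgroup G} (hn : H.Normal) {α : Ω} (hH : H ≤ stabilizer G α) : H = ⊥ := by
  by_contra h
  obtain ⟨β, hβ⟩ := exists_ne α
  obtain ⟨x, hx⟩ := (normal_transitive (Ω := Ω) hn h).exists_smul_eq α β
  exact hβ (hx ▸ hH x.2)

variable [Finite G] [Finite Ω] [FaithfulSMul G Ω]

/-- Two commuting regular simple factors: impossible. -/
theorem twoRegular_false {T U : Subgroup G} (α : Ω) (hs : IsSimpleGroup T)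
    (hna : ¬ IsMulCommutative T) (hc : ∀ a ∈ T, ∀ b ∈ U, a * b = b * a)
    (hfT : ActsFreely Ω T) (htT : IsPretransitive T Ω) (htU : IsPretransitive U Ω) (hfU : ActsFreely Ω U)
    (hperm : ∀ h ∈ stabilizer G α, (∀ t ∈ T, h * t * h⁻¹ ∈ T) ∨ ∀ t ∈ T, h * t * h⁻¹ ∈ U)
    (hmax : SecondMax (stabilizer G α) Ω) : False := by
  -- the partner in `U`
  have hpar : ∀ t ∈ T, ∃ u ∈ U, u • α = t⁻¹ • α := fun t _ => by
    obtain ⟨u, hu⟩ := htU.exists_smul_eq α (t⁻¹ • α)
    exact ⟨u, u.2, hu⟩
  let X : G → Subgroup G := fun t => stabilizer G α ⊓ stabilizer G (t • α)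
  -- the partner as an element of the point stabilizer
  have hm : ∀ s ∈ T, ∃ m ∈ stabilizer G α, (∀ t ∈ T, m * t * m⁻¹ = s * t * s⁻¹) ∧
      ∀ t ∈ T, m • t • α = (s * t * s⁻¹) • α := by
    intro s hs'
    obtain ⟨u, hu, hu'⟩ := hpar s hs'
    have hfix : (s * u) • α = α := by rw [mul_smul, hu', smul_inv_smul]
    have hconj : ∀ t ∈ T, (s * u) * t * (s * u)⁻¹ = s * t * s⁻¹ := fun t ht => by
      rw [mul_assoc s u t, ← hc t ht u hu]; group
    exact ⟨s * u, hfix, hconj, fun t ht => by rw [← hconj t ht, smul_conj_eq hfix]⟩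
  have hX : ∀ t ∈ T, ∀ h ∈ X t, ∀ i : ℕ, h ∈ X (t ^ i) := by
    rintro t ht h ⟨hh, hω⟩ i
    refine ⟨hh, ?_⟩
    change h • (t ^ i) • α = (t ^ i) • α
    have hω' : h • t • α = t • α := hω
    rw [← smul_conj_eq hh] at hω' ⊢
    rw [← conj_pow]
    rcases hperm h hh with hT | hU
    · rw [hfT.inj (hT t ht) ht hω']
    · induction i with
      | zero => simp
      | succ j ih =>
        have hmem : (h * t * h⁻¹) ^ j ∈ U := pow_mem (hU t ht) j
        rw [pow_succ, pow_succ, mul_smul, hω', ← mul_smul,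
          ← hc t ht _ hmem, mul_smul, ih, ← mul_smul, ← pow_succ', pow_succ]
  have hX2 : ∀ t ∈ T, ∀ v ∈ T, t * v = v * t → ∀ h ∈ X t, h ∈ X v → h ∈ X (t * v) := by
    rintro t ht v hv htv h ⟨hh, hω⟩ ⟨-, hω₂⟩
    refine ⟨hh, ?_⟩
    change h • (t * v) • α = (t * v) • α
    have hω' : h • t • α = t • α := hω
    have hω₂' : h • v • α = v • α := hω₂
    rw [← smul_conj_eq hh] at hω' hω₂' ⊢
    rcases hperm h hh with hT | hU
    · have e1 := hfT.inj (hT t ht) ht hω'
      have e2 := hfT.inj (hT v hv) hv hω₂'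
      rw [show h * (t * v) * h⁻¹ = (h * t * h⁻¹) * (h * v * h⁻¹) by group, e1, e2]
    · rw [show h * (t * v) * h⁻¹ = (h * t * h⁻¹) * (h * v * h⁻¹) by group, mul_smul, hω₂',
        ← mul_smul, ← hc v hv _ (hU t ht), mul_smul, hω', ← mul_smul, htv]
  have hX1 : ∀ t ∈ T, t ≠ 1 → X t ≠ stabilizer G α := by
    intro t ht ht1 e
    have hcen : ∀ s ∈ T, s * t = t * s := by
      intro s hs'
      obtain ⟨m, hm1, -, hm3⟩ := hm s hs'
      have : m ∈ X t := e.symm ▸ hm1
      have h2 := hfT.inj (mul_mem (mul_mem hs' ht) (inv_mem hs')) ht ((hm3 t ht).symm.trans this.2)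
      rwa [mul_inv_eq_iff_eq_mul] at h2
    haveI := hs
    have hmem : (⟨t, ht⟩ : T) ∈ center T := mem_center_iff.2 fun s => Subtype.ext (hcen s s.2)
    rcases hs.eq_bot_or_eq_top_of_normal (center T) inferInstance with e' | e'
    · rw [e', Subgroup.mem_bot] at hmem; exact ht1 (congrArg Subtype.val hmem)
    · exact hna ⟨⟨fun a b => (mem_center_iff.1 (e' ▸ mem_top b) a)⟩⟩
  have hsub : ∀ t ∈ T, ∀ v ∈ T, v ≠ 1 → (∀ h ∈ X t, h ∈ X v) → X t ≠ stabilizer G α → X v = X t := by
    intro t _ v hv hv1 hle _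
    exact (hmax (t • α) (X v) hle inf_le_left).resolve_right (hX1 v hv hv1)
  have hXmem : ∀ s ∈ T, ∀ t ∈ T, ∀ m ∈ stabilizer G α,
      (∀ w ∈ T, m • w • α = (s * w * s⁻¹) • α) → (m ∈ X t ↔ s * t = t * s) := by
    intro s hs' t ht m hm1 hm3
    constructor
    · intro h
      have h2 := hfT.inj (mul_mem (mul_mem hs' ht) (inv_mem hs')) ht ((hm3 t ht).symm.trans h.2)
      rwa [mul_inv_eq_iff_eq_mul] at h2
    · intro h
      exact ⟨hm1, show m • t • α = t • α by rw [hm3 t ht, h, mul_inv_cancel_right]⟩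
  refine no_simple_selfNormalizing_centralizers hs hna ?_ ?_
  · rintro ⟨t, ht⟩ ⟨v, hv⟩ ht1 hv1 htv hcop
    have ht1' : t ≠ 1 := fun e => ht1 (Subtype.ext e)
    have hv1' : v ≠ 1 := fun e => hv1 (Subtype.ext e)
    have htv' : Commute t v := congrArg Subtype.val htv
    rw [Subgroup.orderOf_mk, Subgroup.orderOf_mk] at hcop
    have hw : t * v ∈ T := mul_mem ht hv
    have key : ∀ a b : G, Commute a b → (orderOf a).Coprime (orderOf b) → ∃ i : ℕ, (a * b) ^ i = a := by
      intro a b hab hco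
      obtain ⟨i, hi1, hi2⟩ := Nat.chineseRemainder hco 1 0
      refine ⟨i, ?_⟩
      rw [hab.mul_pow, pow_eq_pow_iff_modEq.2 hi1, pow_one,
        orderOf_dvd_iff_pow_eq_one.1 (Nat.modEq_zero_iff_dvd.1 hi2), mul_one]
    obtain ⟨i, hi⟩ := key t v htv' hcop
    obtain ⟨j, hj⟩ := key v t htv'.symm hcop.symm
    have hw1 : t * v ≠ 1 := fun e => ht1' (by rw [← hi, e, one_pow])
    have e1 := hsub (t * v) hw t ht ht1' (fun h hh => hi ▸ hX _ hw h hh i) (hX1 _ hw hw1)
    have e2 := hsub (t * v) hw v hv hv1'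
      (fun h hh => hj ▸ htv'.eq ▸ hX _ hw h hh j) (hX1 _ hw hw1)
    have e : X t = X v := e1.trans e2.symm
    ext ⟨s, hs'⟩
    obtain ⟨m, hm1, -, hm3⟩ := hm s hs'
    have h1 := hXmem s hs' t ht m hm1 hm3
    have h2 := hXmem s hs' v hv m hm1 hm3
    rw [e] at h1
    simp only [mem_centralizer_singleton_iff, Subtype.ext_iff, Subgroup.coe_mul]
    exact h1.symm.trans h2
  · rintro ⟨t, ht⟩ ht1 ⟨s, hs'⟩ hsn
    have ht1' : t ≠ 1 := fun e => ht1 (Subtype.ext e)
    let C : Subgroup T := centralizer ({⟨t, ht⟩} : Set T)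
    have hC : ∀ w : T, w ∈ C ↔ (w : G) * t = t * (w : G) := fun w => by
      simp [C, mem_centralizer_singleton_iff, Subtype.ext_iff]
    let S : Set Ω := (fun w : T => (w : G) • α) '' (C : Set T)
    let L : Subgroup G := stabilizer G α ⊓ stabilizer G S
    have hfix : ∀ h : G, (∀ w : T, w ∈ C → h • (w : G) • α ∈ S) → h • S = S := by
      intro h hh
      refine Set.eq_of_subset_of_ncard_le ?_
        (le_of_eq (Set.ncard_image_of_injective S (MulAction.injective h)).symm) (Set.toFinite _)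
      rintro _ ⟨_, ⟨w, hw, rfl⟩, rfl⟩
      exact hh w hw
    have hXL : X t ≤ L := by
      rintro h ⟨hh, hω⟩
      refine ⟨hh, hfix h fun w hw => ?_⟩
      have hω' : h • t • α = t • α := hω
      rw [← smul_conj_eq hh] at hω' ⊢
      have hwt : (w : G) * t = t * w := (hC w).1 hw
      have hcon : (h * w * h⁻¹) * (h * t * h⁻¹) = (h * t * h⁻¹) * (h * w * h⁻¹) := by
        rw [show (h * w * h⁻¹) * (h * t * h⁻¹) = h * ((w : G) * t) * h⁻¹ by group,
          show (h * t * h⁻¹) * (h * w * h⁻¹) = h * (t * (w : G)) * h⁻¹ by group, hwt]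
      rcases hperm h hh with hT | hU
      · rw [hfT.inj (hT t ht) ht hω'] at hcon
        exact ⟨⟨h * w * h⁻¹, hT w w.2⟩, (hC _).2 hcon, rfl⟩
      · obtain ⟨w', hw'⟩ := htT.exists_smul_eq α ((h * (w : G) * h⁻¹) • α)
        have hw'' : (w' : G) • α = (h * (w : G) * h⁻¹) • α := hw'
        refine ⟨w', (hC w').2 (hfT.inj (mul_mem w'.2 ht) (mul_mem ht w'.2) (x := α) ?_), hw'⟩
        calc ((w' : G) * t) • α = (h * t * h⁻¹) • (w' : G) • α := by
              rw [mul_smul, ← hω', ← mul_smul, hc _ w'.2 _ (hU t ht), mul_smul]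
          _ = (h * (w : G) * h⁻¹) • t • α := by
              rw [hw'', ← mul_smul, ← hcon, mul_smul, hω']
          _ = (t * (w' : G)) • α := by
              rw [mul_smul t, hw'', ← mul_smul, ← mul_smul, hc t ht _ (hU w w.2)]
    obtain ⟨m, hm1, -, hm3⟩ := hm s hs'
    have hmL : m ∈ L := by
      refine ⟨hm1, hfix m fun w hw => ⟨⟨s, hs'⟩ * w * ⟨s, hs'⟩⁻¹, ?_, ?_⟩⟩
      · exact (mem_normalizer_iff.1 hsn w).1 hw
      · exact (hm3 w w.2).symm
    rcases hmax (t • α) L hXL inf_le_left with e | e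
    · have : m ∈ X t := (le_of_eq e) hmL
      exact (hC ⟨s, hs'⟩).2 ((hXmem s hs' t ht m hm1 hm3).1 this)
    · exfalso
      have hCn : C.Normal := by
        refine ⟨fun w hw x => ?_⟩
        obtain ⟨mx, hx1, -, hx3⟩ := hm x x.2
        have hxS : mx • S = S := (e.symm ▸ hx1 : mx ∈ L).2
        have : ((x : G) * w * (x : G)⁻¹) • α ∈ S := by
          rw [← hx3 w w.2, ← hxS]
          exact ⟨_, ⟨w, hw, rfl⟩, rfl⟩
        obtain ⟨v, hv, hve⟩ := this
        have hxw : ((x * w * x⁻¹ : T) : G) = (x : G) * w * (x : G)⁻¹ := rfl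
        have := hfT.inj v.2 (x * w * x⁻¹ : T).2 (hve.trans (by rw [hxw]))
        rw [← Subtype.ext this]
        exact hv
      haveI := hs
      rcases hs.eq_bot_or_eq_top_of_normal C hCn with e' | e'
      · have : (⟨t, ht⟩ : T) ∈ C := (hC _).2 rfl
        rw [e', Subgroup.mem_bot] at this
        exact ht1 this
      · refine hX1 t ht ht1' (le_antisymm inf_le_left fun h hh => ?_)
        exact absurd e' fun e' => by
          have hcen : (⟨t, ht⟩ : T) ∈ center T := mem_center_iff.2 fun x =>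
            Subtype.ext ((hC x).1 (e' ▸ mem_top x))
          rcases hs.eq_bot_or_eq_top_of_normal (center T) inferInstance with e'' | e''
          · rw [e'', Subgroup.mem_bot] at hcen; exact ht1 hcen
          · exact hna ⟨⟨fun a b => (mem_center_iff.1 (e'' ▸ mem_top b) a)⟩⟩


/-- A regular non-abelian minimal normal subgroup with at least two factors is impossible. -/
theorem regular_false [Nontrivial Ω] [IsPreprimitive G Ω] {N T : Subgroup G} (α : Ω)
    (hN : IsMinNormal N) (hna : ¬ IsMulCommutative N) (hT : IsFactor N T)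
    (hfN : ActsFreely Ω N) {g₀ : G} (hg₀ : g₀ ∈ stabilizer G α) (hne : cj g₀ T ≠ T)
    (hcent : ∀ h ∈ stabilizer G α, cj h T = T → ∀ t ∈ T, h * t = t * h)
    (hLmax : ∀ ω : Ω, stabilizer G α ⊓ stabilizer G ω ≤
        stabilizer G α ⊓ normalizer (T : Set G) →
      stabilizer G α ⊓ normalizer (T : Set G) = stabilizer G α ⊓ stabilizer G ω)
    (hmax' : SecondMax (stabilizer G α) Ω) : False := by
  set H := stabilizer G α with hH
  have htN := normal_transitive (Ω := Ω) hN.1 hN.2.1
  have hT1 := hT.nontrivial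
  have hNmem : ∀ g : G, ∃ n ∈ N, ∃ h ∈ H, g = n * h := fun g => exists_eq_mul_stab htN α g
  have hcj : ∀ g : G, ∃ h ∈ H, cj g T = cj h T := by
    intro g
    obtain ⟨n, hn, h, hh, rfl⟩ := hNmem g
    exact ⟨h, hh, by rw [cj_mul, cj_eq_of_mem_normalizer (cj_norm hT.normal hT.norm h hn)]⟩
  -- the centralizer of `N` is trivial
  have hCN : centralizer (N : Set G) = ⊥ := by
    by_contra hC
    haveI := hN.1
    have htC := normal_transitive (Ω := Ω) (N := centralizer (N : Set G)) inferInstance hC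
    apply hT1
    rw [eq_bot_iff]
    intro t ht
    refine mem_bot.2 (hT.center_trivial ht fun x hx => ?_)
    obtain ⟨c, hc⟩ := htC.exists_smul_eq α (t⁻¹ • α)
    have hfix : (t * (c : G)) ∈ H := by
      change (t * (c : G)) • α = α
      rw [mul_smul]
      change t • ((c : G) • α) = α
      rw [show (c : G) • α = t⁻¹ • α from hc, smul_inv_smul]
    have hcN : ∀ y ∈ N, y * (c : G) = (c : G) * y := fun y hy => c.2 y hy
    have hnorm : cj (t * (c : G)) T = T := cj_eq_of_mem_normalizer (mul_mem (le_normalizer ht)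
      (by
        rw [mem_normalizer_iff]
        intro y
        constructor
        · intro hy
          rwa [← hcN y (hT.le hy), mul_inv_cancel_right]
        · intro hy
          have h1 := hcN _ (hT.le hy)
          have : (c : G) * y * (c : G)⁻¹ = y := by
            have : (c : G) * y = (c : G) * ((c : G) * y * (c : G)⁻¹) := by rw [← h1]; group
            exact (mul_left_cancel this).symm
          rwa [this] at hy))
    exact commute_cancel_right (hcent _ hfix hnorm x hx) (hcN x (hT.le hx))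
  -- two elements of distinct prime orders
  obtain ⟨p, hp, -, t, ht, htp⟩ := exists_orderOf_prime_ne hT.simple hT.nonab 0
  obtain ⟨q, hq, hqp, y, hy, hyq⟩ := exists_orderOf_prime_ne hT.simple hT.nonab p
  have ht1 : t ≠ 1 := fun e => by rw [e, orderOf_one] at htp; exact hp.one_lt.ne htp
  have conjord : ∀ g z : G, orderOf (g * z * g⁻¹) = orderOf z := fun g z =>
    orderOf_injective (MulAut.conj g).toMonoidHom (MulAut.conj g).injective z
  set L := H ⊓ normalizer (T : Set G) with hL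
  have hLH : L ≠ H := by
    intro e
    exact hne (cj_eq_of_mem_normalizer (inf_eq_left.1 e hg₀))
  -- all conjugates of `L` coincide
  have hLconj : ∀ h₀ ∈ H, ∀ h ∈ L, h₀⁻¹ * h * h₀ ∈ L := by
    intro h₀ hh₀ h hh
    by_cases hnt : cj h₀ T = T
    · exact L.mul_mem (L.mul_mem (L.inv_mem ⟨hh₀, mem_normalizer_of_cj_eq hnt⟩) hh)
        ⟨hh₀, mem_normalizer_of_cj_eq hnt⟩
    set u := h₀ * y * h₀⁻¹ with hu
    have huU : u ∈ cj h₀ T := conj_mem_cj hy
    have hur : u ∈ IsFactor.rest N T := hT.cj_le_rest hnt huU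
    have ou : orderOf u = q := (conjord _ _).trans hyq
    have hωfix : ∀ k ∈ H, k • (t * u) • α = (t * u) • α →
        (k * t * k⁻¹) * (k * u * k⁻¹) = t * u := by
      intro k hk e
      rw [← smul_conj_eq hk] at e
      rw [show (k * t * k⁻¹) * (k * u * k⁻¹) = k * (t * u) * k⁻¹ by group]
      exact hfN.inj (hT.normal.conj_mem _ (mul_mem (hT.le ht) hur.1) k) (mul_mem (hT.le ht) hur.1) e
    have hle : H ⊓ stabilizer G ((t * u) • α) ≤ L := by
      rintro k ⟨hk, hkω⟩
      refine ⟨hk, mem_normalizer_of_cj_eq ?_⟩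
      by_contra hkT
      have e := hωfix k hk hkω
      have hkt : k * t * k⁻¹ ∈ IsFactor.rest N T := hT.cj_le_rest hkT (conj_mem_cj ht)
      have hku : k * u * k⁻¹ ∈ cj (k * h₀) T := by rw [cj_mul]; exact conj_mem_cj huU
      by_cases hkU : cj (k * h₀) T = T
      · rw [hkU] at hku
        rw [hkt.2 _ hku |>.symm] at e
        have := (hT.decomp_unique hku ht hkt hur e).1
        exact hqp (by rw [← ou, ← conjord k u, this, htp])
      · have h1 : (1 : G) * ((k * t * k⁻¹) * (k * u * k⁻¹)) = t * u := by rw [one_mul, e]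
        exact ht1 (hT.decomp_unique (one_mem _) ht
          (mul_mem hkt (hT.cj_le_rest hkU hku)) hur h1).1.symm
    have hm : h ∈ H ⊓ stabilizer G ((t * u) • α) := by rw [← hLmax _ hle]; exact hh
    have e := hωfix h hh.1 hm.2
    have hht : h * t * h⁻¹ = t := by
      rw [hcent h hh.1 (cj_eq_of_mem_normalizer hh.2) t ht, mul_inv_cancel_right]
    rw [hht] at e
    have hhu : h * u * h⁻¹ = u := mul_left_cancel e
    -- `h` normalizes the conjugate
    have hU : cj h (cj h₀ T) = cj h₀ T := by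
      by_contra hd
      rw [← cj_mul] at hd
      have h1 : h * u * h⁻¹ ∈ cj (h * h₀) T := by rw [cj_mul]; exact conj_mem_cj huU
      rw [hhu] at h1
      have hy1 : y ≠ 1 := fun e => by rw [e, orderOf_one] at hyq; exact hq.one_lt.ne hyq
      refine hy1 (hT.center_trivial hy fun z hz => ?_)
      have h2 := hT.cj_comm (h * h₀) h₀ hd u h1 (h₀ * z * h₀⁻¹) (conj_mem_cj hz)
      have := congrArg (fun w => h₀⁻¹ * w * h₀) h2
      simpa [hu, mul_assoc] using this
    refine ⟨H.mul_mem (H.mul_mem (H.inv_mem hh₀) hh.1) hh₀, mem_normalizer_of_cj_eq ?_⟩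
    apply cj_inj (g := h₀)
    rw [← cj_mul, show h₀ * (h₀⁻¹ * h * h₀) = h * h₀ by group, cj_mul]
    exact hU
  -- hence trivial
  have hLbot : L = ⊥ := by
    rw [eq_bot_iff, ← hCN]
    intro x hx
    have key : N ≤ centralizer ({x} : Set G) := by
      rw [hT.gen]
      refine iSup_le fun g => ?_
      obtain ⟨h, hh, e⟩ := hcj g
      rw [e]
      intro z hz
      rw [mem_centralizer_singleton_iff]
      have hx' := hLconj h hh x hx
      have h2 := hcent _ hx'.1 (cj_eq_of_mem_normalizer hx'.2) _ (mem_cj.1 hz)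
      have := congrArg (fun w => h * w * h⁻¹) h2
      simpa [mul_assoc, eq_comm] using this
    exact fun z hz => mem_centralizer_singleton_iff.1 (key hz)
  -- the stabilizer has prime order
  have hH1 : H ≠ ⊥ := fun e => hLH (by rw [hLbot, e])
  have hHmax : ∀ K : Subgroup G, K ≤ H → K = ⊥ ∨ K = H := by
    intro K hK
    have hω : H ⊓ stabilizer G (t • α) ≤ L := by
      rintro k ⟨hk, hkω⟩
      refine ⟨hk, mem_normalizer_of_cj_eq ?_⟩
      by_contra hkT
      have e : k • t • α = t • α := hkω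
      rw [← smul_conj_eq hk] at e
      have e' := hfN.inj (hT.normal.conj_mem _ (hT.le ht) k) (hT.le ht) e
      exact ht1 ((hT.decomp_unique (one_mem _) ht (hT.cj_le_rest hkT (conj_mem_cj ht))
        (one_mem _) (by rw [one_mul, mul_one]; exact e')).1.symm)
    have e := hLmax _ hω
    rw [hLbot] at e
    exact (hmax' (t • α) K (e ▸ bot_le) hK).imp (fun e' => e'.trans e.symm) id
  obtain ⟨r, hr, x, hx, hxr⟩ := exists_orderOf_prime hH1
  have hcardH : Nat.card H = r := by
    rcases hHmax (zpowers x) (zpowers_le.2 hx) with e | e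
    · rw [zpowers_eq_bot] at e
      rw [e, orderOf_one] at hxr
      exact absurd hxr hr.one_lt.ne
    · rw [← e, Nat.card_zpowers, hxr]
  refine no_prime_order_maximal_supplement hN hna
    (IsPreprimitive.isCoatom_stabilizer_of_isPreprimitive (G := G) α)
    (fun hn => hH1 (eq_of_le_stabilizer_normal hn le_rfl)) (hcardH.symm ▸ hr) ?_
  rw [card_eq_mul_stab (G := G) α]
  congr 1
  refine Nat.card_congr (Equiv.ofBijective (fun n : N => (n : G) • α) ⟨fun a b e => ?_, fun z => ?_⟩).symm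
  · exact Subtype.ext (hfN.inj a.2 b.2 e)
  · exact htN.exists_smul_eq α z

/-- Extremely primitive groups are affine or almost simple. -/
theorem affine_or_almostSimple_of_secondMax [Nontrivial Ω] [IsPreprimitive G Ω]
    (hmax : ∀ α : Ω, SecondMax (stabilizer G α) Ω) :
    (∃ N : Subgroup G, N.Normal ∧ N ≠ ⊥ ∧ IsMulCommutative N ∧ ∀ ω : Ω, stabilizer N ω = ⊥) ∨
      ¬ NotAS G := by
  haveI : Nontrivial G := by
    obtain ⟨a, b, hab⟩ := exists_pair_ne Ω
    obtain ⟨g, hg⟩ := exists_smul_eq G a b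
    exact ⟨⟨g, 1, fun e => hab (by rw [← hg, e, one_smul])⟩⟩
  obtain ⟨N, hN⟩ := exists_minNormal (G := G)
  by_cases hc : IsMulCommutative N
  · exact Or.inl ⟨N, hN.1, hN.2.1, hc, (abelian_normal_regular (Ω := Ω) hN.1 hN.2.1 hc).2.2⟩
  right
  intro hnas
  obtain ⟨T, hT⟩ := hN.exists_factor hc
  have hT1 := hT.nontrivial
  have htN := normal_transitive (Ω := Ω) hN.1 hN.2.1
  obtain ⟨α, β, -⟩ := exists_pair_ne Ω
  set H := stabilizer G α with hH
  have hcj : ∀ g : G, ∃ h ∈ H, cj g T = cj h T := by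
    intro g
    obtain ⟨n, hn, h, hh, rfl⟩ := exists_eq_mul_stab htN α g
    exact ⟨h, hh, by rw [cj_mul, cj_eq_of_mem_normalizer (cj_norm hT.normal hT.norm h hn)]⟩
  by_cases hk : ∀ g : G, cj g T = T
  · -- `N` is simple
    have hNT : N = T := by rw [hT.gen]; simp [hk]
    subst hNT
    have hC : centralizer (N : Set G) ≠ ⊥ := fun h => hnas ⟨N, hN.1, hT.simple, hT.nonab, h⟩
    haveI := hN.1
    have htC := normal_transitive (Ω := Ω) (N := centralizer (N : Set G)) inferInstance hC
    exact twoRegular_false (U := centralizer (N : Set G)) α hT.simple hT.nonab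
      (fun a ha b hb => hb a ha)
      (actsFreely_of_commute htC fun a ha b hb => hb a ha) htN htC
      (actsFreely_of_commute htN fun b hb a ha => (hb a ha).symm)
      (fun h _ => Or.inl fun t ht => hN.1.conj_mem t ht h) (hmax α)
  obtain ⟨g₀, hg₀, hne⟩ : ∃ h ∈ H, cj h T ≠ T := by
    push Not at hk
    obtain ⟨g, hg⟩ := hk
    obtain ⟨h, hh, e⟩ := hcj g
    exact ⟨h, hh, e ▸ hg⟩
  by_cases hP : proj N T hT.norm α = T
  · -- full projection: a factor acts freely
    have hM : ∀ t ∈ T, t • α = α → t = 1 := by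
      let X : Subgroup G := T ⊓ stabilizer G α
      have hXn : N ≤ normalizer (X : Set G) := by
        refine le_normalizer_of_forall fun n hn x hx => ?_
        obtain ⟨hx, hxα⟩ := hx
        refine ⟨(mem_normalizer_iff''.1 (hT.norm hn) x).1 hx, ?_⟩
        obtain ⟨u, hu, c, hc', rfl⟩ := hT.decomp hn
        obtain ⟨-, c', hc'', hfix⟩ := mem_proj.1 (hP.symm ▸ hu : u ∈ proj N T hT.norm α)
        have hm : u⁻¹ * x * u ∈ T := mul_mem (mul_mem (inv_mem hu) hx) hu
        have h1 : c⁻¹ * (u⁻¹ * x * u) * c = c'⁻¹ * (u⁻¹ * x * u) * c' := by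
          rw [mul_assoc c⁻¹, hc'.2 _ hm, inv_mul_cancel_left, mul_assoc c'⁻¹, hc''.2 _ hm,
            inv_mul_cancel_left]
        rw [SetLike.mem_coe, show (u * c)⁻¹ * x * (u * c) = c⁻¹ * (u⁻¹ * x * u) * c by group, h1,
          show c'⁻¹ * (u⁻¹ * x * u) * c' = (u * c')⁻¹ * x * (u * c') by group]
        exact (stabilizer G α).mul_mem ((stabilizer G α).mul_mem
          ((stabilizer G α).inv_mem hfix) hxα) hfix
      rcases hT.atom X inf_le_left hXn with e | e
      · intro t ht hfix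
        have : t ∈ X := ⟨ht, hfix⟩
        rwa [e, mem_bot] at this
      · exfalso
        have hTα : T ≤ stabilizer G α := inf_eq_left.1 e
        apply hT1
        rw [eq_bot_iff]
        intro t ht
        refine mem_bot.2 (FaithfulSMul.eq_of_smul_eq_smul (α := Ω) fun y => ?_)
        obtain ⟨n, hn⟩ := htN.exists_smul_eq α y
        have h2 : (n : G)⁻¹ * t * n ∈ T := (mem_normalizer_iff''.1 (hT.norm n.2) t).1 ht
        have h3 : ((n : G)⁻¹ * t * n) • α = α := hTα h2
        rw [one_smul, ← hn, Subgroup.smul_def]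
        have := congrArg ((n : G) • ·) h3
        simpa [← mul_smul, mul_assoc] using this
    have hfree : ActsFreely Ω T := by
      intro t ht y hy
      obtain ⟨n, hn⟩ := htN.exists_smul_eq α y
      have h2 : (n : G)⁻¹ * t * n ∈ T := (mem_normalizer_iff''.1 (hT.norm n.2) t).1 ht
      have h3 := hM _ h2 (by
        rw [← hn, Subgroup.smul_def] at hy
        rw [mul_smul, mul_smul, hy, inv_smul_smul])
      have := congrArg (fun z => (n : G) * z * (n : G)⁻¹) h3
      simpa [mul_assoc] using this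
    have hfreecj : ∀ g : G, ActsFreely Ω (cj g T) := by
      intro g b hb y hy
      have := hfree _ (mem_cj.1 hb) (g⁻¹ • y) (by
        rw [← mul_smul, mul_assoc, mul_inv_cancel, mul_one, mul_smul, hy])
      have := congrArg (fun z => g * z * g⁻¹) this
      simpa [mul_assoc] using this
    -- the point set of a factor
    let S : Set Ω := (fun t : T => (t : G) • α) '' Set.univ
    have himage : ∀ h ∈ H, ∀ z : Ω, z ∈ h • S ↔ ∃ v ∈ cj h T, v • α = z := by
      intro h hh z
      constructor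
      · rintro ⟨_, ⟨t, -, rfl⟩, rfl⟩
        exact ⟨_, conj_mem_cj t.2, smul_conj_eq hh⟩
      · rintro ⟨v, hv, rfl⟩
        refine ⟨_, ⟨⟨_, mem_cj.1 hv⟩, trivial, rfl⟩, ?_⟩
        change h • (h⁻¹ * v * h) • α = v • α
        rw [mul_smul, mul_smul, show h • α = α from hh, smul_inv_smul]
    have hSeq : ∀ h ∈ H, ∀ t ∈ T, t ≠ 1 → t • α ∈ h • S → h • S = S := by
      intro h hh t ht ht1 htS
      by_cases hhT : cj h T = T
      · ext z
        rw [himage h hh, hhT]
        exact ⟨fun ⟨v, hv, e⟩ => ⟨⟨v, hv⟩, trivial, e⟩, fun ⟨v, _, e⟩ => ⟨v, v.2, e⟩⟩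
      -- elements of `T` mapping `α` into the other point set
      let X : Subgroup G :=
        { carrier := {a | a ∈ T ∧ ∃ v ∈ cj h T, v • α = a • α}
          one_mem' := ⟨one_mem _, 1, one_mem _, rfl⟩
          mul_mem' := by
            rintro a b ⟨ha, v, hv, e⟩ ⟨hb, w, hw, e'⟩
            refine ⟨mul_mem ha hb, w * v, mul_mem hw hv, ?_⟩
            rw [mul_smul, e, ← mul_smul, ← (hT.cj_le_rest hhT hw).2 a ha, mul_smul, e', ← mul_smul]
          inv_mem' := by
            rintro a ⟨ha, v, hv, e⟩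
            refine ⟨inv_mem ha, v⁻¹, inv_mem hv, ?_⟩
            rw [inv_smul_eq_iff, ← mul_smul, (hT.cj_le_rest hhT hv).2 _ (inv_mem ha) |>.symm,
              mul_smul, e, inv_smul_smul] }
      have hXn : N ≤ normalizer (X : Set G) := by
        refine le_normalizer_of_forall fun n hn x hx => ?_
        obtain ⟨hx, v, hv, e⟩ := hx
        refine ⟨(mem_normalizer_iff''.1 (hT.norm hn) x).1 hx, ?_⟩
        obtain ⟨u, hu, c, hc', rfl⟩ := hT.decomp hn
        obtain ⟨-, c', hc'', hfix⟩ := mem_proj.1 (hP.symm ▸ hu : u ∈ proj N T hT.norm α)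
        have hm : u⁻¹ * x * u ∈ T := mul_mem (mul_mem (inv_mem hu) hx) hu
        have h1 : (u * c)⁻¹ * x * (u * c) = (u * c')⁻¹ * x * (u * c') := by
          rw [show (u * c)⁻¹ * x * (u * c) = c⁻¹ * (u⁻¹ * x * u) * c by group,
            show (u * c')⁻¹ * x * (u * c') = c'⁻¹ * (u⁻¹ * x * u) * c' by group,
            mul_assoc c⁻¹, hc'.2 _ hm, inv_mul_cancel_left, mul_assoc c'⁻¹, hc''.2 _ hm, inv_mul_cancel_left]
        rw [h1]
        refine ⟨(u * c')⁻¹ * v * (u * c'),
          (mem_normalizer_iff''.1 (cj_norm hT.normal hT.norm h (mul_mem (hT.le hu) hc''.1)) v).1 hv, ?_⟩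
        rw [mul_smul, mul_smul, hfix, e, ← hfix, ← mul_smul, ← mul_smul, ← mul_assoc, hfix]
      have hXT : X = T := by
        rcases hT.atom X (fun a ha => ha.1) hXn with e | e
        · exfalso
          obtain ⟨v, hv, hve⟩ := (himage h hh _).1 htS
          have : t ∈ X := ⟨ht, v, hv, hve⟩
          rw [e, mem_bot] at this
          exact ht1 this
        · exact e
      refine (Set.eq_of_subset_of_ncard_le ?_
        (le_of_eq (Set.ncard_image_of_injective S (MulAction.injective h))) (Set.toFinite _)).symm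
      rintro _ ⟨a, -, rfl⟩
      obtain ⟨-, v, hv, e⟩ : (a : G) ∈ X := hXT.symm ▸ a.2
      exact (himage h hh _).2 ⟨v, hv, e⟩
    obtain ⟨t₀, ht₀, ht₀1⟩ : ∃ t ∈ T, t ≠ 1 := T.bot_or_exists_ne_one.resolve_left hT1
    let L : Subgroup G := H ⊓ stabilizer G S
    have hKL : ∀ t ∈ T, t ≠ 1 → H ⊓ stabilizer G (t • α) ≤ L := by
      rintro t ht ht1 k ⟨hk, hkω⟩
      refine ⟨hk, hSeq k hk t ht ht1 ⟨t • α, ⟨⟨t, ht⟩, trivial, rfl⟩, hkω⟩⟩
    have hLH : L = H := by
      by_contra hne'
      apply hT.nonab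
      have hmem : ∀ u ∈ T, ∀ t ∈ T, u * t = t * u := by
        intro u hu t ht
        by_cases ht1 : t = 1
        · simp [ht1]
        obtain ⟨-, c, hc', hfix⟩ := mem_proj.1 (hP.symm ▸ hu : u ∈ proj N T hT.norm α)
        have hnT : cj (u * c) T = T :=
          cj_eq_of_mem_normalizer (hT.norm (mul_mem (hT.le hu) hc'.1))
        have hfix' : u * c ∈ H := hfix
        have hL : u * c ∈ L := ⟨hfix', by
          change (u * c) • S = S
          ext z
          rw [himage _ hfix', hnT]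
          exact ⟨fun ⟨v, hv, e⟩ => ⟨⟨v, hv⟩, trivial, e⟩, fun ⟨v, _, e⟩ => ⟨v, v.2, e⟩⟩⟩
        have e := ((hmax α (t • α) L (hKL t ht ht1) inf_le_left).resolve_right hne') ▸ hL
        have e2 : (u * c) • t • α = t • α := e.2
        rw [← smul_conj_eq hfix] at e2
        have e3 : u * c * t * (u * c)⁻¹ = u * t * u⁻¹ := by
          rw [mul_assoc u c t, ← hc'.2 t ht]; group
        rw [e3] at e2
        have e4 := hfree.inj (mul_mem (mul_mem hu ht) (inv_mem hu)) ht e2
        rwa [mul_inv_eq_iff_eq_mul] at e4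
      exact ⟨⟨fun a b => Subtype.ext (hmem a a.2 b b.2)⟩⟩
    -- the factor is transitive
    have hTtr : IsPretransitive T Ω := by
      have hinv : ∀ g : G, g • S = S := by
        intro g
        have hle : N ≤ stabilizer G S := by
          rw [hT.gen]
          refine iSup_le fun k => ?_
          obtain ⟨h, hh, e⟩ := hcj k
          rw [e]
          intro v hv
          have hhS : h • S = S := (hLH.symm ▸ hh : h ∈ L).2
          have : h⁻¹ * v * h ∈ stabilizer G S := by
            refine Set.eq_of_subset_of_ncard_le ?_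
              (le_of_eq (Set.ncard_image_of_injective S (MulAction.injective _)).symm) (Set.toFinite _)
            rintro _ ⟨_, ⟨w, -, rfl⟩, rfl⟩
            exact ⟨⟨_, mul_mem (mem_cj.1 hv) w.2⟩, trivial, mul_smul _ _ _⟩
          have h3 := (stabilizer G S).mul_mem ((stabilizer G S).mul_mem (hhS : h ∈ stabilizer G S) this)
            ((stabilizer G S).inv_mem hhS)
          simpa [mul_assoc] using h3
        obtain ⟨n, hn, h, hh, rfl⟩ := exists_eq_mul_stab htN α g
        rw [mul_smul, (hLH.symm ▸ hh : h ∈ L).2, hle hn]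
      refine ⟨fun x z => ?_⟩
      have key : ∀ z : Ω, ∃ v : T, (v : G) • α = z := by
        intro z
        obtain ⟨g, hg⟩ := exists_smul_eq G α z
        have : z ∈ g • S := ⟨α, ⟨1, trivial, one_smul G α⟩, hg⟩
        rw [hinv] at this
        obtain ⟨v, -, hv⟩ := this
        exact ⟨v, hv⟩
      obtain ⟨v, rfl⟩ := key x
      obtain ⟨w, rfl⟩ := key z
      exact ⟨w * v⁻¹, by rw [Subgroup.smul_def, Subgroup.coe_mul, mul_smul, InvMemClass.coe_inv, inv_smul_smul]⟩
    have hfC : ActsFreely Ω (centralizer (T : Set G)) :=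
      actsFreely_of_commute hTtr fun a ha b hb => (ha b hb).symm
    have hcard : Nat.card (centralizer (T : Set G)) ≤ Nat.card T := by
      calc Nat.card (centralizer (T : Set G)) ≤ Nat.card Ω :=
            Nat.card_le_card_of_injective (fun c : centralizer (T : Set G) => (c : G) • α)
              fun a b e => Subtype.ext (hfC.inj a.2 b.2 e)
        _ ≤ Nat.card T := Nat.card_le_card_of_surjective (fun v : T => (v : G) • α)
              fun z => hTtr.exists_smul_eq α z
    have hother : ∀ k : G, cj k T ≠ T → cj k T = centralizer (T : Set G) := fun k hk' =>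
      Subgroup.eq_of_le_of_card_ge (fun v hv => (hT.cj_le_rest hk' hv).2)
        (hcard.trans (le_of_eq (Subgroup.card_map_of_injective (MulAut.conj k).injective).symm))
    have hU := hother g₀ hne
    refine twoRegular_false (U := centralizer (T : Set G)) α hT.simple hT.nonab
      (fun a ha b hb => hb a ha) hfree hTtr ?_ hfC
      (fun h _ => ?_) (hmax α)
    · rw [← hU]
      refine ⟨fun x z => ?_⟩
      obtain ⟨v, hv⟩ := hTtr.exists_smul_eq (g₀⁻¹ • x) (g₀⁻¹ • z)
      refine ⟨⟨g₀ * v * g₀⁻¹, conj_mem_cj v.2⟩, ?_⟩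
      rw [Subgroup.smul_def, mul_smul, mul_smul]
      change g₀ • ((v : G) • g₀⁻¹ • x) = z
      rw [show (v : G) • g₀⁻¹ • x = g₀⁻¹ • z from hv, smul_inv_smul]
    · by_cases hhT : cj h T = T
      · exact Or.inl fun t ht => hhT ▸ conj_mem_cj ht
      · exact Or.inr fun t ht => hother h hhT ▸ conj_mem_cj ht
  -- proper projection
  have hPlt : ∃ t ∈ T, t ∉ proj N T hT.norm α := by
    by_contra hne'
    push Not at hne'
    exact hP (le_antisymm (fun t ht => ht.1) hne')
  set P := proj N T hT.norm α with hPdef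
  set L := H ⊓ normalizer (T : Set G) with hL
  have hLH : L ≠ H := fun e => hne (cj_eq_of_mem_normalizer (inf_eq_left.1 e hg₀))
  have hLfix : ∀ h ∈ L, ∀ t ∈ T, t ∉ P → t⁻¹ * (h * t * h⁻¹) ∈ H := by
    intro h hh t ht htP
    have hle : H ⊓ stabilizer G (t • α) ≤ L := by
      rintro k ⟨hk, hkω⟩
      refine ⟨hk, mem_normalizer_of_cj_eq ?_⟩
      by_contra hkT
      apply htP
      have e : k • t • α = t • α := hkω
      rw [← smul_conj_eq hk] at e
      have h1 : t⁻¹ ∈ P := ⟨inv_mem ht, k * t * k⁻¹, hT.cj_le_rest hkT (conj_mem_cj ht),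
        by rw [mul_smul, e, inv_smul_smul]⟩
      simpa using P.inv_mem h1
    have hmem := ((hmax α _ L hle inf_le_left).resolve_right hLH) ▸ hh
    have e : h • t • α = t • α := hmem.2
    rw [← smul_conj_eq hh.1] at e
    change (t⁻¹ * (h * t * h⁻¹)) • α = α
    rw [mul_smul, e, inv_smul_smul]
  have hPbot : P = ⊥ := by
    refine (hT.atom P (fun t ht => ht.1) (le_normalizer_of_forall fun n hn x hx => ?_)).resolve_right hP
    obtain ⟨hxT, c, hc', hfix⟩ := hx
    obtain ⟨t, ht, e, he, rfl⟩ := hT.decomp hn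
    have hxP : x ∈ P := ⟨hxT, c, hc', hfix⟩
    have hres : t⁻¹ * x * t ∈ P := by
      by_cases htP : t ∈ P
      · exact P.mul_mem (P.mul_mem (P.inv_mem htP) hxP) htP
      have hmL : x * c ∈ L := ⟨hfix, hT.norm (mul_mem (hT.le hxT) hc'.1)⟩
      have h1 := hLfix _ hmL t ht htP
      have e3 : x * c * t * (x * c)⁻¹ = x * t * x⁻¹ := by
        rw [mul_assoc x c t, ← hc'.2 t ht]; group
      rw [e3] at h1
      have h2 : t⁻¹ * (x * t * x⁻¹) ∈ P := ⟨mul_mem (inv_mem ht)
        (mul_mem (mul_mem hxT ht) (inv_mem hxT)), 1, one_mem _, by rw [mul_one]; exact h1⟩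
      have := P.mul_mem h2 hxP
      simpa [mul_assoc] using this
    have hcomm : (t * e)⁻¹ * x * (t * e) = t⁻¹ * x * t := by
      rw [show (t * e)⁻¹ * x * (t * e) = e⁻¹ * ((t⁻¹ * x * t) * e) by group,
        he.2 _ (mul_mem (mul_mem (inv_mem ht) hxT) ht), inv_mul_cancel_left]
    rw [hcomm]
    exact hres
  have hcentP : ∀ m ∈ N, m ∈ H → ∀ t ∈ T, t * m = m * t := by
    intro m hm hmH t ht
    obtain ⟨u, hu, c, hc', rfl⟩ := hT.decomp hm
    have : u ∈ P := ⟨hu, c, hc', hmH⟩
    rw [hPbot, mem_bot] at this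
    subst this
    rw [one_mul]
    exact hc'.2 t ht
  have hreg : ∀ m ∈ N, m • α = α → m = 1 := by
    intro m hm hmα
    have key : N ≤ centralizer ({m} : Set G) := by
      rw [hT.gen]
      refine iSup_le fun g => ?_
      obtain ⟨h, hh, e⟩ := hcj g
      rw [e]
      intro z hz
      rw [mem_centralizer_singleton_iff]
      have h2 := hcentP (h⁻¹ * m * h) (by
          have := hN.1.conj_mem m hm h⁻¹
          simpa using this)
        (H.mul_mem (H.mul_mem (H.inv_mem hh) hmα) hh) _ (mem_cj.1 hz)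
      have := congrArg (fun w => h * w * h⁻¹) h2
      simpa [mul_assoc] using this
    haveI := hN.1
    have hmem : m ∈ N ⊓ centralizer (N : Set G) :=
      ⟨hm, fun z hz => mem_centralizer_singleton_iff.1 (key hz)⟩
    rcases hN.2.2 (N ⊓ centralizer (N : Set G)) inferInstance inf_le_left with e | e
    · rwa [e, mem_bot] at hmem
    · exact absurd ⟨⟨fun a b => Subtype.ext ((inf_eq_left.1 e b.2) a a.2)⟩⟩ hc
  have hfN : ActsFreely Ω N := by
    intro n hn y hy
    obtain ⟨k, rfl⟩ := htN.exists_smul_eq α y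
    have h3 := hreg ((k : G)⁻¹ * n * k) (mul_mem (mul_mem (inv_mem k.2) hn) k.2) (by
      rw [Subgroup.smul_def] at hy
      rw [mul_smul, mul_smul, hy, inv_smul_smul])
    have := congrArg (fun z => (k : G) * z * (k : G)⁻¹) h3
    simpa [mul_assoc] using this
  refine regular_false α hN hc hT hfN hg₀ hne (fun h hh hhT t ht => ?_) (fun ω hle =>
    (hmax α ω L hle inf_le_left).resolve_right hLH) (hmax α)
  by_cases ht1 : t = 1
  · simp [ht1]
  have hhL : h ∈ L := ⟨hh, mem_normalizer_of_cj_eq hhT⟩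
  have h1 := hLfix h hhL t ht (by rw [hPbot, mem_bot]; exact ht1)
  have h2 := hreg _ (mul_mem (inv_mem (hT.le ht)) (hT.normal.conj_mem t (hT.le ht) h)) h1
  rw [inv_mul_eq_one, eq_mul_inv_iff_mul_eq] at h2
  exact h2.symm

end Cfsg.Agent.Lib.Recog
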