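import Mathlib
import Cfsg.Agent.Lib.HallHigman.Faithful
import Cfsg.Agent.Lib.Coprime.Action

/-! A lift of a Frobenius complement element times an element of a `p`-group. -/

set_option autoImplicit false

namespace Cfsg.Agent.Lib.Recog

open Subgroup

theorem sum_pow_eq_smul {V : Type*} [AddCommGroup V] {S : Type*} [Group S] [Fintype S] [DecidableEq S]
    (ρ : S →* AddMonoid.End V) (R : Finset S) (hR1 : (1 : S) ∈ R) (hmul : ∀ a ∈ R, ∀ b ∈ R, a * b ∈ R)
    (hinv : ∀ a ∈ R, a⁻¹ ∈ R) (y : S) (hyR : ∀ a ∈ R, y * a * y⁻¹ ∈ R) (n : ℕ) (hn : 0 < n)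
    (hfpf : ∀ i, 0 < i → i < n → ∀ f ∈ R, Commute f (y ^ i) → f = 1)
    (hnorm : ∀ v : V, ∑ i ∈ Finset.range n, ρ (y ^ i) v = 0) (v : V) :
    ∑ f ∈ R, ρ f v = R.card • v := by
  have hconj : ∀ i : ℕ, ∀ a ∈ R, y ^ i * a * (y ^ i)⁻¹ ∈ R := by
    intro i
    induction i with
    | zero => intro a ha; simpa using ha
    | succ i ih =>
      intro a ha
      have := hyR _ (ih a ha)
      rw [pow_succ']
      simpa [mul_assoc] using this
  have hrow : ∀ i, 0 < i → i < n →
      ∑ f ∈ R, ρ (f * y ^ i * f⁻¹) v = ∑ f ∈ R, ρ f (ρ (y ^ i) v) := by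
    intro i hi hin
    let φ : S → S := fun f => f * (y ^ i * f⁻¹ * (y ^ i)⁻¹)
    have hmem : ∀ f ∈ R, φ f ∈ R := fun f hf => hmul f hf _ (hconj i _ (hinv f hf))
    have hφ : Set.InjOn φ R := by
      intro a ha b hb hab
      have h1 := hfpf i hi hin (b⁻¹ * a) (hmul _ (hinv b hb) _ ha) (by
        show b⁻¹ * a * y ^ i = y ^ i * (b⁻¹ * a)
        have h2 : a * (y ^ i * a⁻¹) = b * (y ^ i * b⁻¹) := by
          have := congrArg (· * y ^ i) hab
          simpa [φ, mul_assoc] using this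
        calc b⁻¹ * a * y ^ i = b⁻¹ * (a * (y ^ i * a⁻¹)) * a := by group
          _ = b⁻¹ * (b * (y ^ i * b⁻¹)) * a := by rw [h2]
          _ = y ^ i * (b⁻¹ * a) := by group)
      exact (inv_mul_eq_one.1 h1).symm
    have himg : R.image φ = R := by
      refine Finset.eq_of_subset_of_card_le ?_ (le_of_eq (Finset.card_image_of_injOn hφ).symm)
      intro x hx
      obtain ⟨f, hf, rfl⟩ := Finset.mem_image.1 hx
      exact hmem f hf
    conv_rhs => rw [← himg, Finset.sum_image hφ]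
    refine Finset.sum_congr rfl fun f _ => ?_
    rw [show f * y ^ i * f⁻¹ = φ f * y ^ i by simp [φ, mul_assoc], map_mul]
    rfl
  have h0 : ∑ i ∈ Finset.range n, ∑ f ∈ R, ρ (f * y ^ i * f⁻¹) v = 0 := by
    rw [Finset.sum_comm]
    refine Finset.sum_eq_zero fun f _ => ?_
    have hsplit : ∀ i, ρ (f * y ^ i * f⁻¹) v = ρ f (ρ (y ^ i) (ρ f⁻¹ v)) := fun i => by
      rw [map_mul, map_mul]; rfl
    simp only [hsplit]
    rw [← map_sum (ρ f), hnorm, map_zero]
  obtain ⟨m, rfl⟩ : ∃ m, n = m + 1 := ⟨n - 1, by omega⟩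
  rw [Finset.sum_range_succ'] at h0
  rw [Finset.sum_congr rfl (fun i hi => hrow (i + 1) (by omega) (by have := Finset.mem_range.1 hi; omega)),
    Finset.sum_comm] at h0
  have hS : ∀ f : S, ∑ i ∈ Finset.range m, ρ f (ρ (y ^ (i + 1)) v) = - ρ f v := by
    intro f
    have h2 := hnorm v
    rw [Finset.sum_range_succ', pow_zero, map_one] at h2
    rw [← map_sum (ρ f), eq_neg_of_add_eq_zero_left h2, map_neg]
    rfl
  simp only [hS, Finset.sum_neg_distrib, pow_zero, mul_one, mul_inv_cancel, map_one] at h0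
  rw [neg_add_eq_zero] at h0
  rw [h0, Finset.sum_const]
  rfl

theorem exists_orderOf_dvd_mul {G : Type*} [Group G] [Finite G] {p : ℕ} [hp : Fact p.Prime] (P : Subgroup G) [P.Normal]
    (hP : IsPGroup p P) (R : Subgroup G) (y : G) (n : ℕ) (hn : 0 < n) (hyR : y ∈ normalizer (R : Set G))
    (hyn : y ^ n = 1) (hyP : ∀ k : ℕ, y ^ k ∈ P → n ∣ k) (hR : (Nat.card R).Coprime p)
    (hfpf : ∀ i, 0 < i → i < n → ∀ f ∈ R, Commute f (y ^ i) → f = 1)
    (hnt : ¬ R ≤ centralizer (P : Set G)) : ∃ x : G, p * n ∣ orderOf x := by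
  classical
  obtain ⟨V, _, _, _, π, ρ, hπs, hπm, hπ0, hρ⟩ := HallHigman.exists_frattiniModule P hP
  have hπ1 : π 1 = 0 := (hπ0 1).2 (one_mem _)
  have hmain : ∃ a : P, ∑ i ∈ Finset.range n, ρ (y ^ i) (π a) ≠ 0 := by
    by_contra hall
    push Not at hall
    apply hnt
    haveI : Fintype G := Fintype.ofFinite G
    let ρ' : G →* AddMonoid.End V :=
      { toFun := fun g => (ρ g).toAddMonoidHom
        map_one' := by rw [map_one]; rfl
        map_mul' := fun a b => by rw [map_mul]; rfl }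
    have key : ∀ v : V, ∑ f ∈ Finset.univ.filter (· ∈ R), ρ f v = Nat.card R • v := by
      intro v
      have := sum_pow_eq_smul ρ' (Finset.univ.filter (· ∈ R)) (by simp) (by simpa using fun a ha b hb => R.mul_mem ha hb)
        (by simp) y (fun a ha => by
          simp only [Finset.mem_filter, Finset.mem_univ, true_and] at ha ⊢
          exact (mem_normalizer_iff.1 hyR a).1 ha) n hn
        (fun i h1 h2 f hf => hfpf i h1 h2 f (by simpa using hf))
        (fun v => by obtain ⟨a, rfl⟩ := hπs v; exact hall a) v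
      rw [Nat.card_eq_fintype_card, Fintype.card_subtype]
      exact this
    have htriv : ∀ g ∈ R, ∀ v : V, ρ g v = v := by
      intro g hg v
      have h1 : ρ g (∑ f ∈ Finset.univ.filter (· ∈ R), ρ f v) = ∑ f ∈ Finset.univ.filter (· ∈ R), ρ f v := by
        rw [map_sum]
        refine Finset.sum_equiv (Equiv.mulLeft g) ?_ ?_
        · intro f; simp [R.mul_mem_cancel_left hg]
        · intro f _; simp only [Equiv.coe_mulLeft, map_mul]; rfl
      rw [key, map_nsmul] at h1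
      have h2 : ((Nat.card R : ℕ) : ZMod p) • (ρ g v - v) = 0 := by
        rw [Nat.cast_smul_eq_nsmul, nsmul_sub, h1, sub_self]
      have hne : ((Nat.card R : ℕ) : ZMod p) ≠ 0 := by
        rw [Ne, ZMod.natCast_eq_zero_iff]
        exact fun h => hp.out.one_lt.ne' (Nat.eq_one_of_dvd_coprimes hR h dvd_rfl)
      exact sub_eq_zero.1 ((smul_eq_zero.1 h2).resolve_left hne)
    have hcop : (Nat.card R).Coprime (Nat.card (frattini P)) := by
      obtain ⟨e, he⟩ := (IsPGroup.iff_card (p := p)).1 (hP.to_subgroup (frattini P))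
      rw [he]; exact hR.pow_right e
    refine Coprime.le_centralizer_of_frattini (fun g _ => ?_) hcop fun g hg k hk => ?_
    · rw [normalizer_eq_top P]; trivial
    · have h3 := htriv g hg (π ⟨k, hk⟩)
      rw [hρ] at h3
      refine ⟨MulAut.conjNormal g ⟨k, hk⟩ * (⟨k, hk⟩ : P)⁻¹, (hπ0 _).1 ?_, ?_⟩
      · have h4 := hπm (⟨k, hk⟩ : P) (⟨k, hk⟩ : P)⁻¹
        rw [mul_inv_cancel, hπ1] at h4
        rw [hπm, h3, ← h4]
      · simp [MulAut.conjNormal_apply]
  obtain ⟨a, ha⟩ := hmain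
  set x := (a : G) * y with hx
  have hpow : ∀ m : ℕ, ∃ b : P, x ^ m = b * y ^ m ∧ π b = ∑ i ∈ Finset.range m, ρ (y ^ i) (π a) := by
    intro m
    induction m with
    | zero => exact ⟨1, by simp, by simp [hπ1]⟩
    | succ m ih =>
      obtain ⟨b, hb, hb'⟩ := ih
      refine ⟨a * MulAut.conjNormal y b, ?_, ?_⟩
      · rw [pow_succ', hb, hx, pow_succ' y]
        simp [MulAut.conjNormal_apply, mul_assoc]
      · rw [hπm, ← hρ, hb', map_sum, Finset.sum_range_succ', pow_zero, map_one, add_comm]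
        congr 1
        refine Finset.sum_congr rfl fun i _ => ?_
        rw [pow_succ', map_mul]; rfl
  obtain ⟨b, hb, hb'⟩ := hpow n
  rw [hyn, mul_one] at hb
  have hb1 : b ≠ 1 := fun e => ha (by rw [← hb', e, hπ1])
  have hpb : p ∣ orderOf b := by
    obtain ⟨e, he⟩ := IsPGroup.iff_orderOf.1 hP b
    rw [he]; refine dvd_pow_self p ?_
    rintro rfl
    exact hb1 (orderOf_eq_one_iff.1 (by simpa using he))
  have hno : n ∣ orderOf x := by
    obtain ⟨c, hc, -⟩ := hpow (orderOf x)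
    refine hyP _ ?_
    rw [pow_orderOf_eq_one] at hc
    rw [show y ^ orderOf x = (c : G)⁻¹ from eq_inv_of_mul_eq_one_right hc.symm]
    exact inv_mem c.2
  refine ⟨x, ?_⟩
  have h1 : orderOf (x ^ n) = orderOf x / n := by
    rw [orderOf_pow' x hn.ne', Nat.gcd_eq_right hno]
  rw [hb, Subgroup.orderOf_coe] at h1
  obtain ⟨t, ht⟩ := hno
  rw [ht, Nat.mul_div_cancel_left _ hn] at h1
  rw [ht, mul_comm p n]
  exact mul_dvd_mul_left n (h1 ▸ hpb)

end Cfsg.Agent.Lib.Recog
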