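import Mathlib
import Cfsg.Agent.Lib.Recog.FibreExt

/-! A solvable group whose element orders are the proper divisors of `2·3·5·7·11·19`. -/

set_option autoImplicit false
set_option maxRecDepth 100000

namespace Cfsg.Agent.Lib.Recog.FrobProd

variable (q : ℕ) [NeZero q]

/-- functions with sum zero -/
def V : AddSubgroup (ZMod q → ZMod 11) where
  carrier := {f | ∑ x, f x = 0}
  zero_mem' := by simp
  add_mem' := fun {f g} hf hg => by
    simp only [Set.mem_setOf_eq, Pi.add_apply, Finset.sum_add_distrib] at *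
    rw [hf, hg, add_zero]
  neg_mem' := fun {f} hf => by simpa using hf

/-- translation -/
def act (a : ZMod q) : V q ≃+ V q where
  toFun f := ⟨fun x => (f : ZMod q → ZMod 11) (x + a), by
    show ∑ x, (f : ZMod q → ZMod 11) (x + a) = 0
    exact (Equiv.sum_comp (Equiv.addRight a) (f : ZMod q → ZMod 11)).trans f.2⟩
  invFun f := ⟨fun x => (f : ZMod q → ZMod 11) (x + -a), by
    show ∑ x, (f : ZMod q → ZMod 11) (x + -a) = 0
    exact (Equiv.sum_comp (Equiv.addRight (-a)) (f : ZMod q → ZMod 11)).trans f.2⟩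
  left_inv f := by ext x; simp
  right_inv f := by ext x; simp
  map_add' f g := by ext x; simp

/-- the action -/
def actHom : Multiplicative (ZMod q) →* MulAut (Multiplicative (V q)) where
  toFun a := AddEquiv.toMultiplicative (act q a.toAdd)
  map_one' := MulEquiv.ext fun f => Multiplicative.toAdd.injective (Subtype.ext (funext fun x => by
    show (f.toAdd : ZMod q → ZMod 11) (x + 0) = _
    rw [add_zero]; rfl))
  map_mul' a b := MulEquiv.ext fun f => Multiplicative.toAdd.injective (Subtype.ext (funext fun x => by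
    show (f.toAdd : ZMod q → ZMod 11) (x + (a.toAdd + b.toAdd)) = (f.toAdd : ZMod q → ZMod 11) (x + a.toAdd + b.toAdd)
    rw [add_assoc]))

/-- the Frobenius group -/
abbrev F : Type := Multiplicative (V q) ⋊[actHom q] Multiplicative (ZMod q)

instance : Finite (F q) := Finite.of_equiv _ (SemidirectProduct.equivProd).symm

theorem pow_left (w : F q) (n : ℕ) (x : ZMod q) :
    ((w ^ n).left.toAdd : ZMod q → ZMod 11) x =
      ∑ j ∈ Finset.range n, (w.left.toAdd : ZMod q → ZMod 11) (x + j • w.right.toAdd) := by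
  induction n with
  | zero => rfl
  | succ n ih =>
    rw [pow_succ, SemidirectProduct.mul_left, toAdd_mul, AddSubgroup.coe_add, Pi.add_apply, ih,
      Finset.sum_range_succ]
    congr 1
    show (w.left.toAdd : ZMod q → ZMod 11) (x + ((w ^ n).right).toAdd) = _
    rw [show (w ^ n).right = w.right ^ n from map_pow SemidirectProduct.rightHom w n, toAdd_pow]

theorem orderOf_dvd (hq : q.Prime) (w : F q) : orderOf w ∣ 11 ∨ orderOf w ∣ q := by
  by_cases ha : w.right.toAdd = 0
  · left
    apply orderOf_dvd_of_pow_eq_one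
    refine SemidirectProduct.ext ?_ ?_
    · apply Multiplicative.toAdd.injective
      apply Subtype.ext
      funext x
      rw [pow_left]
      simp only [ha, smul_zero, add_zero, Finset.sum_const, Finset.card_range, nsmul_eq_mul]
      rw [show ((11 : ℕ) : ZMod 11) = 0 from rfl, zero_mul]
      rfl
    · rw [show (w ^ 11).right = w.right ^ 11 from map_pow SemidirectProduct.rightHom w 11,
        show w.right = 1 from ha, one_pow]
      rfl
  · right
    have := Fact.mk hq
    apply orderOf_dvd_of_pow_eq_one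
    refine SemidirectProduct.ext ?_ ?_
    · apply Multiplicative.toAdd.injective
      apply Subtype.ext
      funext x
      rw [pow_left]
      show _ = (0 : ZMod 11)
      refine Eq.trans ?_ w.left.toAdd.2
      refine Finset.sum_nbij' (fun j => x + j • w.right.toAdd)
        (fun y => ((y - x) / w.right.toAdd).val) (fun j _ => Finset.mem_univ _)
        (fun y _ => Finset.mem_range.2 (ZMod.val_lt _)) ?_ ?_ (fun j _ => rfl)
      · intro j hj
        simp only [nsmul_eq_mul, add_sub_cancel_left, mul_div_cancel_right₀ _ ha]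
        exact ZMod.val_cast_of_lt (Finset.mem_range.1 hj)
      · intro y _
        simp only [nsmul_eq_mul, ZMod.natCast_val, ZMod.cast_id, id_eq, div_mul_cancel₀ _ ha]
        abel
    · rw [show (w ^ q).right = w.right ^ q from map_pow SemidirectProduct.rightHom w q]
      apply Multiplicative.toAdd.injective
      rw [toAdd_pow, nsmul_eq_mul, ZMod.natCast_self, zero_mul]
      rfl

theorem orderOf_mem (hq : q.Prime) (w : F q) : orderOf w ∈ [1, 11, q] := by
  rcases orderOf_dvd q hq w with h | h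
  · rcases (Nat.dvd_prime (by norm_num)).1 h with e | e <;> simp [e]
  · rcases (Nat.dvd_prime hq).1 h with e | e <;> simp [e]

theorem exists_q (hq : q.Prime) : ∃ w : F q, orderOf w = q := by
  refine ⟨SemidirectProduct.inr (Multiplicative.ofAdd 1), ?_⟩
  rw [orderOf_injective _ SemidirectProduct.inr_injective, orderOf_ofAdd_eq_addOrderOf, ZMod.addOrderOf_one]

/-- a translation of order eleven -/
def vec (hq : q.Prime) : V q :=
  ⟨fun x => (if x = 0 then 1 else 0) - (if x = 1 then 1 else 0), by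
    show ∑ x, ((if x = 0 then (1 : ZMod 11) else 0) - (if x = 1 then 1 else 0)) = 0
    rw [Finset.sum_sub_distrib]; simp⟩

theorem vec_ne (hq : q.Prime) : vec q hq ≠ 0 := by
  intro e
  have := Fact.mk hq
  have h := congrFun (congrArg Subtype.val e) (0 : ZMod q)
  change ((if (0 : ZMod q) = 0 then (1 : ZMod 11) else 0) - (if (0 : ZMod q) = 1 then 1 else 0)) = 0 at h
  rw [if_pos rfl, if_neg zero_ne_one, sub_zero] at h
  exact absurd h (by decide)

theorem exists_eleven (hq : q.Prime) : ∃ w : F q, orderOf w = 11 := by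
  refine ⟨SemidirectProduct.inl (Multiplicative.ofAdd (vec q hq)), ?_⟩
  rw [orderOf_injective _ SemidirectProduct.inl_injective]
  have : Fact (Nat.Prime 11) := ⟨by norm_num⟩
  rw [orderOf_ofAdd_eq_addOrderOf]
  refine addOrderOf_eq_prime (Subtype.ext (funext fun x => ?_)) (vec_ne q hq)
  show (11 : ℕ) • (vec q hq : ZMod q → ZMod 11) x = 0
  rw [nsmul_eq_mul, show ((11 : ℕ) : ZMod 11) = 0 from rfl, zero_mul]

/-- the product -/
abbrev W : Type := F 2 × F 3 × F 5 × F 7 × F 19

theorem orderOf_W (w : W) : orderOf w =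
    Nat.lcm (orderOf w.1) (Nat.lcm (orderOf w.2.1) (Nat.lcm (orderOf w.2.2.1)
      (Nat.lcm (orderOf w.2.2.2.1) (orderOf w.2.2.2.2)))) := by
  rw [Prod.orderOf, Prod.orderOf, Prod.orderOf, Prod.orderOf]

theorem lcm_table : ([1, 11, 2].all fun a => [1, 11, 3].all fun b => [1, 11, 5].all fun c =>
    [1, 11, 7].all fun d => [1, 11, 19].all fun e =>
      let n := Nat.lcm a (Nat.lcm b (Nat.lcm c (Nat.lcm d e)))
      (43890 % n == 0) && (n != 43890)) = true := by
  decide +kernel

theorem spectrum : Set.range (orderOf : W → ℕ) = {n | n ∣ 43890 ∧ n ≠ 43890} := by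
  ext n
  constructor
  · rintro ⟨w, rfl⟩
    have h := lcm_table
    simp only [List.all_eq_true, Bool.and_eq_true, beq_iff_eq, bne_iff_ne, ne_eq] at h
    have := h _ (orderOf_mem 2 (by norm_num) w.1) _ (orderOf_mem 3 (by norm_num) w.2.1) _
      (orderOf_mem 5 (by norm_num) w.2.2.1) _ (orderOf_mem 7 (by norm_num) w.2.2.2.1) _
      (orderOf_mem 19 (by norm_num) w.2.2.2.2)
    rw [← orderOf_W] at this
    exact ⟨Nat.dvd_of_mod_eq_zero this.1, this.2⟩
  · rintro ⟨hd, hne⟩
    obtain ⟨a2, ha2⟩ := exists_q 2 (by norm_num)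
    obtain ⟨a3, ha3⟩ := exists_q 3 (by norm_num)
    obtain ⟨a5, ha5⟩ := exists_q 5 (by norm_num)
    obtain ⟨a7, ha7⟩ := exists_q 7 (by norm_num)
    obtain ⟨a19, ha19⟩ := exists_q 19 (by norm_num)
    obtain ⟨b2, hb2⟩ := exists_eleven 2 (by norm_num)
    obtain ⟨b3, hb3⟩ := exists_eleven 3 (by norm_num)
    obtain ⟨b5, hb5⟩ := exists_eleven 5 (by norm_num)
    obtain ⟨b7, hb7⟩ := exists_eleven 7 (by norm_num)
    obtain ⟨b19, hb19⟩ := exists_eleven 19 (by norm_num)
    have key : ∀ w : W, n ∣ orderOf w → n ∈ Set.range (orderOf : W → ℕ) := fun w hw =>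
      ⟨w ^ (orderOf w / n), orderOf_pow_orderOf_div (orderOf_pos w).ne' hw⟩
    have hlcm : ∀ w : W, orderOf w = Nat.lcm (orderOf w.1) (Nat.lcm (orderOf w.2.1) (Nat.lcm (orderOf w.2.2.1)
      (Nat.lcm (orderOf w.2.2.2.1) (orderOf w.2.2.2.2)))) := orderOf_W
    have hcase : n ∣ 21945 ∨ n ∣ 14630 ∨ n ∣ 8778 ∨ n ∣ 6270 ∨ n ∣ 3990 ∨ n ∣ 2310 := by
      obtain ⟨c, hc⟩ := hd
      have hc1 : c ≠ 1 := fun e => hne (by rw [hc, e, mul_one])
      have hc0 : c ≠ 0 := fun e => by rw [e, mul_zero] at hc; omega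
      obtain ⟨p, hp, hpc⟩ := Nat.exists_prime_and_dvd hc1
      obtain ⟨c', rfl⟩ := hpc
      have hp' : p ∣ 2 * (3 * (5 * (7 * (11 * 19)))) := ⟨n * c', by rw [show 2 * (3 * (5 * (7 * (11 * 19)))) = 43890 by norm_num, hc]; ring⟩
      simp only [hp.dvd_mul, Nat.prime_dvd_prime_iff_eq hp (show Nat.Prime 2 by norm_num),
        Nat.prime_dvd_prime_iff_eq hp (show Nat.Prime 3 by norm_num), Nat.prime_dvd_prime_iff_eq hp (show Nat.Prime 5 by norm_num),
        Nat.prime_dvd_prime_iff_eq hp (show Nat.Prime 7 by norm_num), Nat.prime_dvd_prime_iff_eq hp (show Nat.Prime 11 by norm_num),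
        Nat.prime_dvd_prime_iff_eq hp (show Nat.Prime 19 by norm_num)] at hp'
      rcases hp' with rfl | rfl | rfl | rfl | rfl | rfl
      · exact Or.inl ⟨c', by linarith⟩
      · exact Or.inr (Or.inl ⟨c', by linarith⟩)
      · exact Or.inr (Or.inr (Or.inl ⟨c', by linarith⟩))
      · exact Or.inr (Or.inr (Or.inr (Or.inl ⟨c', by linarith⟩)))
      · exact Or.inr (Or.inr (Or.inr (Or.inr (Or.inl ⟨c', by linarith⟩))))
      · exact Or.inr (Or.inr (Or.inr (Or.inr (Or.inr ⟨c', by linarith⟩))))
    rcases hcase with h | h | h | h | h | h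
    · exact key (b2, a3, a5, a7, a19) (h.trans (by rw [hlcm, hb2, ha3, ha5, ha7, ha19]; decide +kernel))
    · exact key (a2, b3, a5, a7, a19) (h.trans (by rw [hlcm, ha2, hb3, ha5, ha7, ha19]; decide +kernel))
    · exact key (a2, a3, b5, a7, a19) (h.trans (by rw [hlcm, ha2, ha3, hb5, ha7, ha19]; decide +kernel))
    · exact key (a2, a3, a5, b7, a19) (h.trans (by rw [hlcm, ha2, ha3, ha5, hb7, ha19]; decide +kernel))
    · exact key (a2, a3, a5, a7, a19) (h.trans (by rw [hlcm, ha2, ha3, ha5, ha7, ha19]; decide +kernel))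
    · exact key (a2, a3, a5, a7, b19) (h.trans (by rw [hlcm, ha2, ha3, ha5, ha7, hb19]; decide +kernel))

theorem unbounded (N : ℕ) : ∃ (H : Type) (_ : Group H) (_ : Fintype H), N < Fintype.card H ∧
    Set.range (orderOf : H → ℕ) = {n | n ∣ 43890 ∧ n ≠ 43890} := by
  let π : W →* Multiplicative (ZMod 2) × F 3 × F 5 × F 7 × F 19 :=
    MonoidHom.prodMap SemidirectProduct.rightHom (MonoidHom.id _)
  have hne : π.ker ≠ ⊥ := by
    intro h
    have hmem : ((SemidirectProduct.inl (Multiplicative.ofAdd (vec 2 Nat.prime_two)) : F 2), (1 : F 3 × F 5 × F 7 × F 19)) ∈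
        π.ker := by
      rw [MonoidHom.mem_ker]; exact Prod.ext rfl rfl
    rw [h, Subgroup.mem_bot] at hmem
    exact vec_ne 2 Nat.prime_two (congrArg (fun w : W => w.1.left.toAdd) hmem)
  rw [← spectrum]
  refine Cfsg.Agent.Lib.Recog.unbounded_isospectral (V := π.ker) 11 (by norm_num) hne ?_ N
  rintro ⟨u, r⟩ hx
  rw [MonoidHom.mem_ker] at hx
  have h1 : u.right = 1 := congrArg Prod.fst hx
  have h2 : r = 1 := congrArg Prod.snd hx
  rw [Prod.pow_mk, h2, one_pow]
  refine Prod.ext (SemidirectProduct.ext ?_ ?_) rfl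
  · apply Multiplicative.toAdd.injective
    apply Subtype.ext
    funext x
    rw [pow_left]
    simp only [h1, toAdd_one, smul_zero, add_zero, Finset.sum_const, Finset.card_range, nsmul_eq_mul]
    rw [show ((11 : ℕ) : ZMod 11) = 0 from rfl, zero_mul]
    rfl
  · rw [show (u ^ 11).right = u.right ^ 11 from map_pow SemidirectProduct.rightHom u 11, h1, one_pow]
    rfl

end Cfsg.Agent.Lib.Recog.FrobProd
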