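import Cfsg.Agent.Lib.Recog.G2FourTables
import Cfsg.Agent.Lib.Chev.Orders
import Cfsg.Agent.Lib.Chev.FieldAut

/-! `G₂(4)` acting on its six-dimensional module, and elements of orders 6, 7, 10, 13. -/

set_option autoImplicit false

namespace Cfsg.Agent.Lib.Recog.G2Four

open Cfsg.Lie Cfsg.Agent.Lib.Chev
open scoped Matrix

/-- the group over the concrete field -/
abbrev G : Subgroup (GL chevG2.Idx K) := chevG2.group K

/-- a root element of the six-dimensional group -/
def u6 (r : Fin 12) (t : K) : GL (Fin 6) K :=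
  ⟨x6 r t, x6 r t, by rw [mul_eq_mul6]; exact x6_sq r t, by rw [mul_eq_mul6]; exact x6_sq r t⟩

/-- a root element of the adjoint group -/
noncomputable def u14 (r : Fin 12) (t : K) : GL chevG2.Idx K := Chev.G2.checked.xg r.val t

theorem val_u14 (r : Fin 12) (t : K) :
    (u14 r t : Matrix chevG2.Idx chevG2.Idx K) = chevG2.xMat K r t := by
  rw [u14, Checked.val_xg, x_eq_xMat r.isLt]
  rfl

/-- the pairs -/
noncomputable def Kp : Subgroup (GL (Fin 6) K × GL chevG2.Idx K) :=
  Subgroup.closure {p | ∃ r t, p = (u6 r t, u14 r t)}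

/-- the compatibility of a pair with `L` and the form -/
def Compat (p : GL (Fin 6) K × GL chevG2.Idx K) : Prop :=
  (∀ v, (p.1 : M6) * L v = L ((p.2 : Matrix chevG2.Idx chevG2.Idx K) *ᵥ v) * (p.1 : M6)) ∧
    (p.1 : M6)ᵀ * J * (p.1 : M6) = J

theorem compat_gen (r : Fin 12) (t : K) : Compat (u6 r t, u14 r t) := by
  refine ⟨fun v => ?_, ?_⟩
  · show x6 r t * L v = L ((u14 r t : Matrix chevG2.Idx chevG2.Idx K) *ᵥ v) * x6 r t
    rw [val_u14]
    have h : ∀ s, x6 r t * Eb s = L (fun u => chevG2.xMat K r t u s) * x6 r t := fun s => by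
      rw [L_eq_Lc, mul_eq_mul6, mul_eq_mul6]; exact conj_all r t s
    have e : L (chevG2.xMat K r t *ᵥ v) = ∑ s, v s • L (fun u => chevG2.xMat K r t u s) := by
      simp only [L, Finset.smul_sum, smul_smul]
      rw [Finset.sum_comm]
      refine Finset.sum_congr rfl fun u _ => ?_
      rw [← Finset.sum_smul]
      congr 1
      rw [Matrix.mulVec, dotProduct]
      exact Finset.sum_congr rfl fun s _ => mul_comm _ _
    rw [e, L, Finset.mul_sum, Finset.sum_mul]
    exact Finset.sum_congr rfl fun s _ => by rw [Matrix.mul_smul, h, Matrix.smul_mul]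
  · show (x6 r t)ᵀ * J * x6 r t = J
    rw [mul_eq_mul6, mul_eq_mul6]
    exact x6_form r t

theorem compat_of_mem {p : GL (Fin 6) K × GL chevG2.Idx K} (hp : p ∈ Kp) : Compat p := by
  induction hp using Subgroup.closure_induction with
  | mem p hp => obtain ⟨r, t, rfl⟩ := hp; exact compat_gen r t
  | one => exact ⟨fun v => by simp, by simp⟩
  | mul p q _ _ hp hq =>
    refine ⟨fun v => ?_, ?_⟩
    · simp only [Prod.fst_mul, Prod.snd_mul, Units.val_mul]
      rw [Matrix.mul_assoc, hq.1, ← Matrix.mul_assoc, hp.1, Matrix.mulVec_mulVec, Matrix.mul_assoc]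
    · simp only [Prod.fst_mul, Units.val_mul, Matrix.transpose_mul]
      have := hp.2
      calc (q.1 : M6)ᵀ * (p.1 : M6)ᵀ * J * ((p.1 : M6) * (q.1 : M6))
          = (q.1 : M6)ᵀ * ((p.1 : M6)ᵀ * J * (p.1 : M6)) * (q.1 : M6) := by simp only [Matrix.mul_assoc]
        _ = J := by rw [hp.2, hq.2]
  | inv p _ hp =>
    refine ⟨fun v => ?_, ?_⟩
    · simp only [Prod.fst_inv, Prod.snd_inv]
      have h := hp.1 (((p.2⁻¹ : GL chevG2.Idx K) : Matrix chevG2.Idx chevG2.Idx K) *ᵥ v)
      rw [Matrix.mulVec_mulVec, ← Units.val_mul, mul_inv_cancel, Units.val_one, Matrix.one_mulVec] at h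
      calc ((p.1⁻¹ : GL (Fin 6) K) : M6) * L v
          = ((p.1⁻¹ : GL (Fin 6) K) : M6) * (L v * (p.1 : M6)) * ((p.1⁻¹ : GL (Fin 6) K) : M6) := by
            rw [Matrix.mul_assoc, Matrix.mul_assoc, ← Units.val_mul, mul_inv_cancel, Units.val_one, Matrix.mul_one]
        _ = _ := by
            rw [← h, ← Matrix.mul_assoc, ← Units.val_mul, inv_mul_cancel, Units.val_one, Matrix.one_mul]
    · simp only [Prod.fst_inv]
      calc ((p.1⁻¹ : GL (Fin 6) K) : M6)ᵀ * J * ((p.1⁻¹ : GL (Fin 6) K) : M6)
          = ((p.1⁻¹ : GL (Fin 6) K) : M6)ᵀ * ((p.1 : M6)ᵀ * J * (p.1 : M6)) *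
              ((p.1⁻¹ : GL (Fin 6) K) : M6) := by rw [hp.2]
        _ = ((p.1 : M6) * ((p.1⁻¹ : GL (Fin 6) K) : M6))ᵀ * J *
              ((p.1 : M6) * ((p.1⁻¹ : GL (Fin 6) K) : M6)) := by
            simp only [Matrix.transpose_mul, Matrix.mul_assoc]
        _ = J := by
            rw [← Units.val_mul, mul_inv_cancel, Units.val_one, Matrix.transpose_one, Matrix.one_mul, Matrix.mul_one]

theorem L_injective : Function.Injective L := by
  intro v w h
  funext u
  have hu := congrFun (congrFun h (Fin.ofNat 6 (tblP.getD (pos u) (0, 0)).1))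
    (Fin.ofNat 6 (tblP.getD (pos u) (0, 0)).2)
  rw [L_eq_Lc, L_eq_Lc] at hu
  simp only [Lc, sep_ok, decide_eq_true_eq, Finset.sum_ite_eq', Finset.mem_univ, if_true] at hu
  exact hu

theorem pair_inj : ∀ p ∈ Kp, (p.1 = 1 ↔ p.2 = 1) := by
  intro p hp
  obtain ⟨hL, hJ⟩ := compat_of_mem hp
  constructor
  · intro h
    refine Units.ext (Matrix.ext_of_mulVec_single fun u => ?_)
    have e := hL (Pi.single u 1)
    rw [h, Units.val_one, Matrix.one_mul, Matrix.mul_one] at e
    rw [Units.val_one, Matrix.one_mulVec]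
    exact (L_injective e).symm
  · intro h
    have hE : ∀ u, Commute (p.1 : M6) (Eb u) := fun u => by
      have e := hL (Pi.single u 1)
      rw [h, Units.val_one, Matrix.one_mulVec] at e
      have : L (Pi.single u (1 : K)) = Eb u := by
        rw [L, Finset.sum_eq_single u] <;> simp +contextual
      rwa [this] at e
    have hfold : ∀ l : List ℕ, Commute (p.1 : M6)
        (l.foldr (fun n M => mul6 (Eb (ofPos n)) M) (1 : M6)) := by
      intro l
      induction l with
      | nil =>
        exact Commute.one_right _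
      | cons n l ih =>
        rw [List.foldr_cons, ← mul_eq_mul6]
        exact (hE _).mul_right ih
    have hs : ∀ i j : Fin 6, i ≠ j → Commute (Matrix.single i j (1 : K)) (p.1 : M6) := fun i j _ => by
      have e := hfold (tblW.getD (6 * i.val + j.val) [])
      rw [units_ok] at e
      exact e.symm
    obtain ⟨c, hc⟩ := Matrix.mem_range_scalar_of_commute_single hs
    have hd : (p.1 : M6) = Matrix.diagonal fun _ => c := by rw [← hc]; rfl
    rw [hd, Matrix.diagonal_transpose] at hJ
    have hcc := congrFun (congrFun hJ 0) 5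
    rw [Matrix.mul_diagonal, Matrix.diagonal_mul] at hcc
    have hJ05 : J 0 5 = 1 := by decide +kernel
    rw [hJ05, mul_one] at hcc
    apply Units.ext
    rw [hd, K.eq_one_of_sq c hcc, Units.val_one, Matrix.diagonal_one]

theorem mem_G_of_Kp {p : GL (Fin 6) K × GL chevG2.Idx K} (hp : p ∈ Kp) : p.2 ∈ G := by
  induction hp using Subgroup.closure_induction with
  | mem p hp =>
    obtain ⟨r, t, rfl⟩ := hp
    exact Subgroup.subset_closure ⟨r, t, val_u14 r t⟩
  | one => exact one_mem _
  | mul p q _ _ hp hq => exact mul_mem hp hq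
  | inv p _ hp => exact inv_mem hp

/-- projection to the adjoint group -/
noncomputable def toG : Kp →* G where
  toFun p := ⟨p.1.2, mem_G_of_Kp p.2⟩
  map_one' := rfl
  map_mul' _ _ := rfl

theorem toG_bijective : Function.Bijective toG := by
  refine ⟨(injective_iff_map_eq_one toG).2 fun p hp => ?_, fun g => ?_⟩
  · have h2 : p.1.2 = 1 := congrArg Subtype.val hp
    exact Subtype.ext (Prod.ext ((pair_inj _ p.2).2 h2) h2)
  · have hle : G ≤ Kp.map (MonoidHom.snd _ _) := by
      refine (Subgroup.closure_le _).2 ?_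
      rintro h ⟨r, t, hh⟩
      refine ⟨(u6 r t, u14 r t), Subgroup.subset_closure ⟨r, t, rfl⟩, Units.ext ?_⟩
      show (u14 r t : Matrix chevG2.Idx chevG2.Idx K) = _
      exact (val_u14 r t).trans hh.symm
    obtain ⟨p, hp, hpe⟩ := hle g.2
    exact ⟨⟨p, hp⟩, Subtype.ext hpe⟩

/-- the six-dimensional representation -/
noncomputable def rho : G →* GL (Fin 6) K :=
  ((MonoidHom.fst _ _).comp Kp.subtype).comp (MulEquiv.ofBijective toG toG_bijective).symm.toMonoidHom

theorem rho_injective : Function.Injective rho := by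
  refine (injective_iff_map_eq_one rho).2 fun g hg => ?_
  set p := (MulEquiv.ofBijective toG toG_bijective).symm g with hp
  have h1 : p.1.1 = 1 := hg
  have : p = 1 := Subtype.ext (Prod.ext h1 ((pair_inj _ p.2).1 h1))
  exact (MulEquiv.map_eq_one_iff _).1 this

/-- a root element of the group -/
noncomputable def g (r : Fin 12) (t : K) : G := toG ⟨(u6 r t, u14 r t), Subgroup.subset_closure ⟨r, t, rfl⟩⟩

theorem rho_g (r : Fin 12) (t : K) : rho (g r t) = u6 r t := by
  show ((MulEquiv.ofBijective toG toG_bijective).symm (g r t)).1.1 = _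
  rw [show (MulEquiv.ofBijective toG toG_bijective).symm (g r t) =
    ⟨(u6 r t, u14 r t), Subgroup.subset_closure ⟨r, t, rfl⟩⟩ from
    (MulEquiv.ofBijective toG toG_bijective).symm_apply_apply _]

/-- a product of root elements -/
noncomputable def word (w : List (Fin 12 × K)) : G := (w.map fun p => g p.1 p.2).prod

/-- its matrix -/
def wordM (w : List (Fin 12 × K)) : M6 :=
  w.foldr (fun p M => mul6 (x6 p.1 p.2) M) (1 : M6)

theorem rho_word (w : List (Fin 12 × K)) : (rho (word w) : M6) = wordM w := by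
  induction w with
  | nil =>
    simp only [word, List.map_nil, List.prod_nil, map_one, Units.val_one, wordM, List.foldr_nil]
  | cons p w ih =>
    have : word (p :: w) = g p.1 p.2 * word w := rfl
    rw [this, map_mul, Units.val_mul, rho_g, ih]
    show x6 p.1 p.2 * wordM w = _
    rw [mul_eq_mul6]; rfl

/-- powers for evaluation -/
def powM6 (a : M6) : ℕ → M6
  | 0 => (1 : M6)
  | n + 1 => mul6 (powM6 a n) a

theorem powM6_eq (a : M6) (n : ℕ) : powM6 a n = a ^ n := by
  induction n with
  | zero => rw [pow_zero]; rfl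
  | succ n ih => rw [powM6, ih, pow_succ, mul_eq_mul6]

theorem word_pow_eq_one_iff (w : List (Fin 12 × K)) (n : ℕ) :
    word w ^ n = 1 ↔ powM6 (wordM w) n = (1 : M6) := by
  rw [← rho_injective.eq_iff, map_pow, map_one, Units.ext_iff, Units.val_pow_eq_pow_val, rho_word,
    ← powM6_eq, Units.val_one]

/-- witness of order 6 -/
def w6 : List (Fin 12 × K) := [(6, 1), (7, 1), (5, 1)]
/-- witness of order 10 -/
def w10 : List (Fin 12 × K) := [(6, 1), (7, 1), (5, K.ω)]
/-- witness of order 7 -/
def w7 : List (Fin 12 × K) := [(6, 1), (7, 1), (2, 1)]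
/-- witness of order 13 -/
def w13 : List (Fin 12 × K) := [(6, 1), (7, 1), (5, 1), (2, K.ω)]

theorem orderOf_w6 : orderOf (word w6) = 2 * 3 := by
  rw [orderOf_eq_iff (by norm_num)]
  refine ⟨(word_pow_eq_one_iff _ _).2 (by decide +kernel), fun k hk hk0 => ?_⟩
  rw [Ne, word_pow_eq_one_iff]
  interval_cases k <;> decide +kernel

theorem orderOf_w10 : orderOf (word w10) = 2 * 5 := by
  rw [orderOf_eq_iff (by norm_num)]
  refine ⟨(word_pow_eq_one_iff _ _).2 (by decide +kernel), fun k hk hk0 => ?_⟩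
  rw [Ne, word_pow_eq_one_iff]
  interval_cases k <;> decide +kernel

theorem orderOf_w7 : orderOf (word w7) = 7 :=
  haveI := Fact.mk (show Nat.Prime 7 by norm_num)
  orderOf_eq_prime ((word_pow_eq_one_iff _ _).2 (by decide +kernel)) fun h => by
    rw [← pow_one (word w7), word_pow_eq_one_iff] at h
    revert h; decide +kernel

theorem orderOf_w13 : orderOf (word w13) = 13 :=
  haveI := Fact.mk (show Nat.Prime 13 by norm_num)
  orderOf_eq_prime ((word_pow_eq_one_iff _ _).2 (by decide +kernel)) fun h => by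
    rw [← pow_one (word w13), word_pow_eq_one_iff] at h
    revert h; decide +kernel

/-- the sum of the powers below `n` -/
def sumPow (a : M6) : ℕ → M6
  | 0 => (0 : M6)
  | n + 1 => sumPow a n + powM6 a n

theorem sumPow_eq (a : M6) (n : ℕ) : sumPow a n = ∑ i ∈ Finset.range n, a ^ i := by
  induction n with
  | zero => rw [Finset.range_zero, Finset.sum_empty]; rfl
  | succ n ih => rw [Finset.sum_range_succ, ← ih, ← powM6_eq]; rfl

theorem no_fixed (w : List (Fin 12 × K)) (n : ℕ)
    (hs : sumPow (wordM w) n = (0 : M6)) (hn : (n : K) = 1) (v : Fin 6 → K)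
    (hv : (rho (word w) : M6) *ᵥ v = v) : v = 0 := by
  have h0 : (∑ i ∈ Finset.range n, (wordM w) ^ i) *ᵥ v = 0 := by
    rw [← sumPow_eq, hs, Matrix.zero_mulVec]
  have hp : ∀ i, ((wordM w) ^ i) *ᵥ v = v := by
    intro i
    induction i with
    | zero => rw [pow_zero, Matrix.one_mulVec]
    | succ i ih => rw [pow_succ, ← Matrix.mulVec_mulVec, ← rho_word, hv, rho_word, ih]
  rw [Matrix.sum_mulVec, Finset.sum_congr rfl fun i _ => hp i, Finset.sum_const, Finset.card_range,
    ← Nat.cast_smul_eq_nsmul K, hn, one_smul] at h0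
  exact h0

theorem card_G : Nat.card G = 2 ^ 12 * 3 ^ 3 * 5 ^ 2 * 7 * 13 := by
  have := Chev.card_G2 (F := K) (q := 4) K.card_eq
  rw [one_mul] at this
  rw [this]; norm_num

theorem fix_free {p : ℕ} (hp : p.Prime) (hexp : (Nat.card G).factorization p = 1) {a x : G}
    (ha : orderOf a = p) (hfree : ∀ v, (rho a : M6) *ᵥ v = v → v = 0) (hx : orderOf x = p)
    (v : Fin 6 → K) (hv : (rho x : M6) *ᵥ v = v) : v = 0 := by
  haveI := Fact.mk hp
  have hc : ∀ y : G, orderOf y = p → ∃ P : Sylow p G, (P : Subgroup G) = Subgroup.zpowers y := fun y hy =>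
    ⟨Sylow.ofCard (Subgroup.zpowers y) (by rw [Nat.card_zpowers, hy, hexp, pow_one]), by simp⟩
  obtain ⟨P, hP⟩ := hc a ha
  obtain ⟨Q, hQ⟩ := hc x hx
  obtain ⟨c, hc'⟩ := MulAction.exists_smul_eq G Q P
  have hax : a ∈ Subgroup.zpowers (MulAut.conj c x) := by
    have h1 : a ∈ ((c • Q : Sylow p G) : Subgroup G) := by rw [hc', hP]; exact Subgroup.mem_zpowers a
    rw [Sylow.coe_subgroup_smul, hQ, Subgroup.mem_pointwise_smul_iff_inv_smul_mem,
      Subgroup.mem_zpowers_iff] at h1
    obtain ⟨k, hk⟩ := h1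
    refine Subgroup.mem_zpowers_iff.2 ⟨k, ?_⟩
    rw [← map_zpow, hk]
    simp [MulAut.smul_def, mul_assoc]
  obtain ⟨k, hk⟩ := (mem_powers_iff_mem_zpowers.2 hax)
  have hfix : (rho a : M6) *ᵥ ((rho c : M6) *ᵥ v) = (rho c : M6) *ᵥ v := by
    rw [← hk]
    simp only [map_pow, Units.val_pow_eq_pow_val, MulAut.conj_apply, map_mul, map_inv]
    rw [← Units.val_pow_eq_pow_val, conj_pow, Units.val_mul, Units.val_mul, Units.val_pow_eq_pow_val,
      Matrix.mulVec_mulVec, Matrix.mul_assoc, ← Units.val_mul, inv_mul_cancel, Units.val_one, Matrix.mul_one,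
      ← Matrix.mulVec_mulVec]
    congr 1
    clear hk
    induction k with
    | zero => rw [pow_zero, Matrix.one_mulVec]
    | succ k ih => rw [pow_succ, ← Matrix.mulVec_mulVec, hv, ih]
  have h0 := hfree _ hfix
  calc v = (((rho c)⁻¹ : GL (Fin 6) K) : M6) *ᵥ ((rho c : M6) *ᵥ v) := by
        rw [Matrix.mulVec_mulVec, ← Units.val_mul, inv_mul_cancel, Units.val_one, Matrix.one_mulVec]
    _ = 0 := by rw [h0, Matrix.mulVec_zero]

/-- the module in `m` copies -/
abbrev V (m : ℕ) : Type := Multiplicative (Fin m → Fin 6 → K)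

/-- the action on the module -/
noncomputable def act (m : ℕ) : G →* MulAut (V m) where
  toFun g :=
    { toFun := fun v => Multiplicative.ofAdd fun k => (rho g : M6) *ᵥ v.toAdd k
      invFun := fun v => Multiplicative.ofAdd fun k => (((rho g)⁻¹ : GL (Fin 6) K) : M6) *ᵥ v.toAdd k
      left_inv := fun v => by
        apply Multiplicative.toAdd.injective; funext k
        simp [Matrix.mulVec_mulVec, ← Units.val_mul]
      right_inv := fun v => by
        apply Multiplicative.toAdd.injective; funext k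
        simp [Matrix.mulVec_mulVec, ← Units.val_mul]
      map_mul' := fun v w => by
        apply Multiplicative.toAdd.injective; funext k
        simp [Matrix.mulVec_add] }
  map_one' := by
    ext v : 1
    apply Multiplicative.toAdd.injective; funext k
    simp
  map_mul' g h := by
    ext v : 1
    apply Multiplicative.toAdd.injective; funext k
    simp [Matrix.mulVec_mulVec]

/-- the groups with the same prime graph -/
abbrev H (m : ℕ) : Type := V m ⋊[act m] G

instance (m : ℕ) : Finite (H m) := Finite.of_equiv _ SemidirectProduct.equivProd.symm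

theorem card_H (m : ℕ) : Nat.card (H m) = 4 ^ (6 * m) * Nat.card G := by
  rw [SemidirectProduct.card, Nat.card_congr Multiplicative.toAdd, Nat.card_fun, Nat.card_fun,
    Nat.card_eq_fintype_card (α := K), K.card_eq, Nat.card_fin, Nat.card_fin, ← pow_mul]

theorem primes_eq {m p : ℕ} (hp : p.Prime) : p ∣ Nat.card G ↔ p ∣ Nat.card (H m) := by
  rw [card_H]
  refine ⟨fun h => dvd_mul_of_dvd_right h _, fun h => (hp.dvd_mul.1 h).elim (fun h4 => ?_) id⟩
  have h2 : p ∣ 2 := by
    have : p ∣ 2 * 2 := hp.dvd_of_dvd_pow (h4.trans (by rfl))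
    rcases hp.dvd_mul.1 this with e | e <;> exact e
  exact h2.trans (by rw [card_G]; norm_num)

theorem edge_fixed {p : ℕ} (hp : p.Prime) (hp2 : p ≠ 2) {x : G} (hx : orderOf x = p) {v : Fin 6 → K} (hv0 : v ≠ 0)
    (hv : (rho x : M6) *ᵥ v = v) : ∃ y : G, orderOf y = 2 * p := by
  have hd : p ∣ 2 ^ 12 * 3 ^ 3 * 5 ^ 2 * 7 * 13 := by
    rw [← card_G, ← hx]; exact orderOf_dvd_natCard x
  have hfac : ∀ q : ℕ, q.Prime → q = 7 ∨ q = 13 → (Nat.card G).factorization q = 1 := by
    intro q hq hqq
    rw [card_G]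
    rcases hqq with rfl | rfl
    · rw [show (2 ^ 12 * 3 ^ 3 * 5 ^ 2 * 7 * 13 : ℕ) = 7 * (2 ^ 12 * 3 ^ 3 * 5 ^ 2 * 13) by norm_num,
        Nat.factorization_mul (by norm_num) (by norm_num), Finsupp.add_apply, hq.factorization_self,
        Nat.factorization_eq_zero_of_not_dvd (n := _) (by norm_num)]
    · rw [show (2 ^ 12 * 3 ^ 3 * 5 ^ 2 * 7 * 13 : ℕ) = 13 * (2 ^ 12 * 3 ^ 3 * 5 ^ 2 * 7) by norm_num,
        Nat.factorization_mul (by norm_num) (by norm_num), Finsupp.add_apply, hq.factorization_self,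
        Nat.factorization_eq_zero_of_not_dvd (n := _) (by norm_num)]
  have hmem : p = 3 ∨ p = 5 ∨ p = 7 ∨ p = 13 := by
    have hpp : ∀ q : ℕ, q.Prime → p ∣ q → p = q := fun q hq h => (Nat.prime_dvd_prime_iff_eq hp hq).1 h
    rcases hp.dvd_mul.1 hd with h | h
    · rcases hp.dvd_mul.1 h with h | h
      · rcases hp.dvd_mul.1 h with h | h
        · rcases hp.dvd_mul.1 h with h | h
          · exact absurd (hpp 2 Nat.prime_two (hp.dvd_of_dvd_pow h)) hp2
          · exact Or.inl (hpp 3 Nat.prime_three (hp.dvd_of_dvd_pow h))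
        · exact Or.inr (Or.inl (hpp 5 (by norm_num) (hp.dvd_of_dvd_pow h)))
      · exact Or.inr (Or.inr (Or.inl (hpp 7 (by norm_num) h)))
    · exact Or.inr (Or.inr (Or.inr (hpp 13 (by norm_num) h)))
  rcases hmem with rfl | rfl | rfl | rfl
  · exact ⟨_, orderOf_w6⟩
  · exact ⟨_, orderOf_w10⟩
  · exact absurd (fix_free hp (hfac _ hp (Or.inl rfl)) orderOf_w7
      (no_fixed w7 7 (by decide +kernel) (by decide +kernel)) hx v hv) hv0
  · exact absurd (fix_free hp (hfac _ hp (Or.inr rfl)) orderOf_w13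
      (no_fixed w13 13 (by decide +kernel) (by decide +kernel)) hx v hv) hv0

theorem edge_aux {m p q : ℕ} (hp : p.Prime) (hq : q.Prime) (hpq : p ≠ q) {h : H m} (ho : orderOf h = p * q)
    (hx : orderOf h.right = p) : ∃ g : G, orderOf g = p * q := by
  have hone : (h ^ p).right = 1 := by
    have : SemidirectProduct.rightHom (h ^ p) = (1 : G) := by
      rw [map_pow, SemidirectProduct.rightHom_eq_right, ← hx, pow_orderOf_eq_one]
    rwa [SemidirectProduct.rightHom_eq_right] at this
  obtain ⟨v, hv⟩ : ∃ v : V m, h ^ p = (SemidirectProduct.inl v : H m) :=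
    ⟨(h ^ p).left, SemidirectProduct.ext (by simp) (by simp [hone])⟩
  have hov : orderOf v = q := by
    rw [← orderOf_injective (SemidirectProduct.inl : V m →* H m) SemidirectProduct.inl_injective v, ← hv,
      orderOf_pow_of_dvd hp.ne_zero (ho ▸ dvd_mul_right p q), ho, Nat.mul_div_cancel_left _ hp.pos]
  have hne : v ≠ 1 := fun e => by rw [e, orderOf_one] at hov; exact hq.one_lt.ne hov
  have hv2 : v ^ 2 = 1 := by
    apply Multiplicative.toAdd.injective
    funext k i
    simp only [toAdd_pow, toAdd_one, Pi.smul_apply, Pi.zero_apply, two_nsmul]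
    exact (by decide +kernel : ∀ a : K, a + a = 0) _
  have hq2 : q = 2 := by
    have : orderOf v ∣ 2 := orderOf_dvd_of_pow_eq_one hv2
    rw [hov] at this
    exact (Nat.prime_dvd_prime_iff_eq hq Nat.prime_two).1 this
  have hfix : act m h.right v = v := by
    have hcomm : h * SemidirectProduct.inl v = SemidirectProduct.inl v * h := by
      rw [← hv]; exact (Commute.self_pow h p).eq
    have e := congrArg SemidirectProduct.left hcomm
    simp only [SemidirectProduct.mul_left, SemidirectProduct.left_inl, SemidirectProduct.right_inl, map_one,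
      MulAut.one_apply] at e
    exact mul_left_cancel (e.trans (mul_comm _ _))
  obtain ⟨k, hk⟩ : ∃ k, v.toAdd k ≠ 0 := by
    by_contra hall
    push_neg at hall
    exact hne (Multiplicative.toAdd.injective (funext hall))
  subst hq2
  rw [mul_comm]
  refine edge_fixed hp hpq hx hk ?_
  exact congrFun (congrArg Multiplicative.toAdd hfix) k

theorem edges {m p q : ℕ} (hp : p.Prime) (hq : q.Prime) (hpq : p ≠ q) :
    (∃ g : G, orderOf g = p * q) ↔ ∃ g : H m, orderOf g = p * q := by
  constructor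
  · rintro ⟨g, hg⟩
    exact ⟨SemidirectProduct.inr g,
      by rw [orderOf_injective SemidirectProduct.inr SemidirectProduct.inr_injective, hg]⟩
  · rintro ⟨h, hh⟩
    have hd : orderOf h.right ∣ p * q := by
      rw [← hh, ← SemidirectProduct.rightHom_eq_right]; exact orderOf_map_dvd _ h
    obtain ⟨a, b, ha, hb, hab⟩ := (Nat.dvd_mul).1 hd
    rcases (Nat.dvd_prime hp).1 ha with rfl | rfl <;> rcases (Nat.dvd_prime hq).1 hb with rfl | rfl
    · exfalso
      have h1 : h.right = 1 := orderOf_eq_one_iff.1 (by rw [← hab, mul_one])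
      have h2 : h ^ 2 = 1 := by
        have he : h = SemidirectProduct.inl h.left := SemidirectProduct.ext (by simp) (by simp [h1])
        rw [he, ← map_pow, show h.left ^ 2 = 1 from ?_, map_one]
        apply Multiplicative.toAdd.injective
        funext k i
        simp only [toAdd_pow, toAdd_one, Pi.smul_apply, Pi.zero_apply, two_nsmul]
        exact (by decide +kernel : ∀ a : K, a + a = 0) _
      have h3 : p * q ∣ 2 := hh ▸ orderOf_dvd_of_pow_eq_one h2
      have := Nat.le_of_dvd two_pos h3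
      have := Nat.mul_le_mul hp.two_le hq.two_le
      omega
    · rw [mul_comm] at hh
      rw [mul_comm p]
      exact edge_aux hq hp (Ne.symm hpq) hh (by rw [← hab, one_mul])
    · exact edge_aux hp hq hpq hh (by rw [← hab, mul_one])
    · exact ⟨h.right, hab.symm⟩

theorem exists_iso {F : Type*} [Field F] [Fintype F] (hF : Fintype.card F = 4) :
    Nonempty (↥(chevG2.group F) ≃* G) := by
  let e : F ≃+* K := FiniteField.ringEquivOfCardEq (by rw [hF, K.card_eq])
  let φ : ↥(chevG2.group F) →* G :=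
    { toFun := fun x => ⟨gmap chevG2 e.toRingHom x.1, Chev.G2.checked.gmap_group _ x.2⟩
      map_one' := Subtype.ext (map_one _)
      map_mul' := fun x y => Subtype.ext (map_mul _ _ _) }
  refine ⟨MulEquiv.ofBijective φ ⟨fun x y h => Subtype.ext (gmap_injective _ (congrArg Subtype.val h)),
    fun y => ⟨⟨gmap chevG2 e.symm.toRingHom y.1, Chev.G2.checked.gmap_group _ y.2⟩, Subtype.ext ?_⟩⟩⟩
  show gmap chevG2 e.toRingHom (gmap chevG2 e.symm.toRingHom y.1) = y.1
  apply Units.ext
  funext a b
  simp [val_gmap]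

end Cfsg.Agent.Lib.Recog.G2Four
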