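import Mathlib

/-!
Groups with a normal Heisenberg subgroup of order 27, quotient `SL(2,3)` and no normal 2-subgroup: coordinates.
-/

set_option autoImplicit false

namespace Cfsg.Agent.Lib.Recog.HeisSL

open scoped Matrix commutatorElement

abbrev SL3 := Matrix.SpecialLinearGroup (Fin 2) (ZMod 3)

abbrev V2 := Fin 2 → ZMod 3

/-- The alternating form. -/
def det2 (v w : V2) : ZMod 3 := v 0 * w 1 - v 1 * w 0

theorem exists_entries (g : SL3) : ∃ a b c d : ZMod 3, (g : Matrix (Fin 2) (Fin 2) (ZMod 3)) = !![a, b; c, d] ∧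
    a * d - b * c = 1 := by
  refine ⟨g.1 0 0, g.1 0 1, g.1 1 0, g.1 1 1, Matrix.eta_fin_two g.1, ?_⟩
  have h := g.2
  rw [Matrix.det_fin_two] at h
  linear_combination h

/-- The element of order four used in the normal closure computation. -/
def iSL : SL3 := ⟨!![0, -1; 1, 0], by decide⟩

theorem sl3_cases (g : SL3) :
    g = 1 ∨ g = -1 ∨ g ^ 2 = -1 ∨ g ^ 3 = -1 ∨ (g * iSL * g⁻¹ * iSL⁻¹) ^ 2 = -1 := by
  have key : ∀ a b c d : ZMod 3, a * d - b * c = 1 →
      let g : Matrix (Fin 2) (Fin 2) (ZMod 3) := !![a, b; c, d]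
      let i : Matrix (Fin 2) (Fin 2) (ZMod 3) := !![0, -1; 1, 0]
      let h := g * i * !![d, -b; -c, a] * !![0, 1; -1, 0]
      g = 1 ∨ g = -1 ∨ g * g = -1 ∨ g * g * g = -1 ∨ h * h = -1 := by decide +kernel
  obtain ⟨a, b, c, d, hg, hdet⟩ := exists_entries g
  have h := key a b c d hdet
  simp only at h
  have hgi : (g⁻¹).1 = !![d, -b; -c, a] := by
    rw [Matrix.SpecialLinearGroup.coe_inv, hg, Matrix.adjugate_fin_two_of]
  have hii : (iSL⁻¹).1 = !![0, 1; -1, 0] := by decide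
  have hi : !![(0 : ZMod 3), -1; 1, 0] = iSL.1 := rfl
  rw [← hg, ← hgi, ← hii, hi] at h
  rcases h with h | h | h | h | h
  · exact Or.inl (Subtype.ext h)
  · exact Or.inr (Or.inl (Subtype.ext (by simpa using h)))
  · exact Or.inr (Or.inr (Or.inl (Subtype.ext (by simpa [pow_two] using h))))
  · exact Or.inr (Or.inr (Or.inr (Or.inl (Subtype.ext (by simpa [pow_succ] using h)))))
  · exact Or.inr (Or.inr (Or.inr (Or.inr (Subtype.ext (by
      rw [pow_two, Matrix.SpecialLinearGroup.coe_mul, Matrix.SpecialLinearGroup.coe_mul,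
        Matrix.SpecialLinearGroup.coe_mul, Matrix.SpecialLinearGroup.coe_mul]
      simpa using h)))))

/-- The four transvections. -/
def tv : Fin 4 → SL3 :=
  ![⟨!![1, 1; 0, 1], by decide⟩, ⟨!![1, 2; 0, 1], by decide⟩, ⟨!![1, 0; 1, 1], by decide⟩, ⟨!![1, 0; 2, 1], by decide⟩]

theorem tv_cube : ∀ i, tv i ^ 3 = 1 := by decide

theorem tv_vals : (tv 1)⁻¹.1 = !![1, 1; 0, 1] ∧ (tv 0)⁻¹.1 = !![1, 2; 0, 1] ∧ (tv 3)⁻¹.1 = !![1, 0; 1, 1] ∧
    (tv 2)⁻¹.1 = !![1, 0; 2, 1] := by decide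

theorem neg_one_mem_normal (N : Subgroup SL3) [N.Normal] {g : SL3} (hg : g ∈ N) (hne : g ≠ 1) : (-1 : SL3) ∈ N := by
  rcases sl3_cases g with h | h | h | h | h
  · exact absurd h hne
  · exact h ▸ hg
  · exact h ▸ pow_mem hg 2
  · exact h ▸ pow_mem hg 3
  · refine h ▸ pow_mem ?_ 2
    rw [show g * iSL * g⁻¹ * iSL⁻¹ = g * (iSL * g⁻¹ * iSL⁻¹) by group]
    exact mul_mem hg (Subgroup.Normal.conj_mem inferInstance _ (inv_mem hg) _)

theorem sl3_order_three (g : SL3) :
    ∃ u h : SL3, g = u * h ∧ u ^ 3 = 1 ∧ (h ^ 3 = 1 ∨ h ^ 3 = -1) := by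
  have key : ∀ a b c d : ZMod 3, a * d - b * c = 1 →
      let g : Matrix (Fin 2) (Fin 2) (ZMod 3) := !![a, b; c, d]
      let p := fun h : Matrix (Fin 2) (Fin 2) (ZMod 3) => h * h * h = 1 ∨ h * h * h = -1
      p g ∨ p (!![1, 1; 0, 1] * g) ∨ p (!![1, 2; 0, 1] * g) ∨ p (!![1, 0; 1, 1] * g) ∨
        p (!![1, 0; 2, 1] * g) := by decide +kernel
  obtain ⟨a, b, c, d, hg, hdet⟩ := exists_entries g
  have h := key a b c d hdet
  simp only [← hg] at h
  have fin : ∀ (u : SL3), u ^ 3 = 1 → ((u⁻¹ : SL3).1 * g.1 * ((u⁻¹ : SL3).1 * g.1) * ((u⁻¹ : SL3).1 * g.1) = 1 ∨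
      (u⁻¹ : SL3).1 * g.1 * ((u⁻¹ : SL3).1 * g.1) * ((u⁻¹ : SL3).1 * g.1) = -1) →
      ∃ u h : SL3, g = u * h ∧ u ^ 3 = 1 ∧ (h ^ 3 = 1 ∨ h ^ 3 = -1) := fun u hu hh => by
    refine ⟨u, u⁻¹ * g, by group, hu, ?_⟩
    rcases hh with hh | hh
    · exact Or.inl (Subtype.ext (by simpa [pow_three, Matrix.mul_assoc] using hh))
    · exact Or.inr (Subtype.ext (by simpa [pow_three, Matrix.mul_assoc] using hh))
  rcases h with h | h | h | h | h
  · exact fin 1 (one_pow 3) (by simpa using h)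
  · exact fin (tv 1) (tv_cube 1) (by rwa [tv_vals.1])
  · exact fin (tv 0) (tv_cube 0) (by rwa [tv_vals.2.1])
  · exact fin (tv 3) (tv_cube 3) (by rwa [tv_vals.2.2.1])
  · exact fin (tv 2) (tv_cube 2) (by rwa [tv_vals.2.2.2])

theorem hom_sl3_eq_one {A : Type*} [Group A] (hA : ∀ a : A, a ^ 2 = 1) (f : SL3 →* A) (g : SL3) : f g = 1 := by
  have key : ∀ h : SL3, (h ^ 3 = 1 ∨ h ^ 3 = -1) → f h = 1 := by
    intro h hh
    have hm : f (-1) = 1 := by
      rw [show (-1 : SL3) = iSL ^ 2 by decide, map_pow, hA]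
    have h3 : f h ^ 3 = 1 := by
      rw [← map_pow]
      rcases hh with hh | hh <;> rw [hh]
      · exact map_one f
      · exact hm
    rwa [pow_succ, hA, one_mul] at h3
  obtain ⟨u, h, rfl, hu, hh⟩ := sl3_order_three g
  rw [map_mul, key u (Or.inl hu), key h hh, one_mul]

theorem three_zero : (3 : ZMod 3) = 0 := by decide

theorem two_ne : (2 : ZMod 3) ≠ 0 := by decide

theorem conj_neg_one (y : SL3) : y * -1 * y⁻¹ = -1 := by
  rw [mul_neg, mul_one, neg_mul, mul_inv_cancel]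

theorem neg_one_mul_self : (-1 : SL3) * -1 = 1 := by decide

theorem add_self_eq_neg : ∀ y : ZMod 3, y + y = -y := by decide

theorem eq_zero_of_neg_eq : ∀ y : ZMod 3, -y = y → y = 0 := by decide

theorem eight_eq : ((8 : ℕ) : ZMod 3) = -1 := by decide

theorem units_sq : ∀ a : (ZMod 3)ˣ, a ^ 2 = 1 := by decide

theorem exists_smul_of_det2 : ∀ v w : V2, w ≠ 0 → det2 v w = 0 → ∃ l : ZMod 3, v = l • w := by
  unfold det2
  decide +kernel

theorem card_sl3 : Nat.card SL3 = 24 := by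
  rw [Nat.card_eq_fintype_card]
  decide +kernel

section Structure

variable {X : Type*} [Group X]

theorem commute_pow_three {Z : Subgroup X} (hZc : Nat.card Z = 3) {z : X} (hz : z ∈ Z) : z ^ 3 = 1 := by
  have h := pow_card_eq_one' (G := Z) (x := ⟨z, hz⟩)
  rw [hZc] at h
  simpa using congrArg Subtype.val h

theorem generator_of_card_three {Z : Subgroup X} (hZc : Nat.card Z = 3) {z : X} (hz : z ∈ Z) (hz1 : z ≠ 1) {x : X}
    (hx : x ∈ Z) : ∃ s : ZMod 3, x = z ^ s.val := by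
  haveI : Fact (Nat.Prime 3) := ⟨Nat.prime_three⟩
  have hz1' : (⟨z, hz⟩ : Z) ≠ 1 := fun h => hz1 (congrArg Subtype.val h)
  obtain ⟨k, hk⟩ := mem_powers_of_prime_card hZc hz1' (g' := ⟨x, hx⟩)
  refine ⟨(k : ZMod 3), ?_⟩
  rw [ZMod.val_natCast, ← pow_eq_pow_mod k (commute_pow_three hZc hz)]
  exact (congrArg Subtype.val hk).symm

set_option maxHeartbeats 4000000 in
/-- Coordinates of `X`. -/
theorem exists_coords [Finite X] (R : Subgroup X) [hRn : R.Normal] (hRc : Nat.card R = 27) (hRe : ∀ r ∈ R, r ^ 3 = 1)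
    (hZc : Nat.card (Subgroup.center R) = 3) (hcm : commutator R = Subgroup.center R)
    (e : X ⧸ R ≃* SL3) (hO2 : ∀ N : Subgroup X, N.Normal → IsPGroup 2 N → N = ⊥)
    (hE : ∃ E : Subgroup X, IsMulCommutative E ∧ (∀ a ∈ E, a ^ 3 = 1) ∧ Nat.card E = 27) :
    ∃ θ : V2 × ZMod 3 × SL3 → X, Function.Bijective θ ∧ ∀ (v w : V2) (s r : ZMod 3) (g h : SL3),
      θ (v, s, g) * θ (w, r, h) = θ (v + g.1 *ᵥ w, s + r + det2 v (g.1 *ᵥ w), g * h) := by
  classical
  haveI : Fact (Nat.Prime 3) := ⟨Nat.prime_three⟩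
  haveI : Fact (Nat.Prime 2) := ⟨Nat.prime_two⟩
  set π : X →* SL3 := e.toMonoidHom.comp (QuotientGroup.mk' R) with hπdef
  have hπker : ∀ x, π x = 1 ↔ x ∈ R := fun x => by simp [hπdef]
  have hπsurj : Function.Surjective π := e.surjective.comp (QuotientGroup.mk'_surjective R)
  have hXc : Nat.card X = 648 := by
    rw [Subgroup.card_eq_card_quotient_mul_card_subgroup R, Nat.card_congr e.toEquiv, card_sl3, hRc]
  -- the centre of `R`
  let Z : Subgroup X := (Subgroup.center R).map R.subtype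
  have hZR : Z ≤ R := Subgroup.map_subtype_le _
  have hZcard : Nat.card Z = 3 := by
    rw [← hZc]
    exact (Nat.card_congr ((Subgroup.center R).equivMapOfInjective R.subtype R.subtype_injective).toEquiv).symm
  have hZ3 : ∀ z ∈ Z, z ^ 3 = 1 := fun z hz => commute_pow_three hZcard hz
  have hZcomm : ∀ z ∈ Z, ∀ r ∈ R, z * r = r * z := by
    rintro _ ⟨z, hz, rfl⟩ r hr
    exact (congrArg Subtype.val (Subgroup.mem_center_iff.1 hz ⟨r, hr⟩)).symm
  have hZof : ∀ z ∈ R, (∀ r ∈ R, z * r = r * z) → z ∈ Z := fun z hz h =>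
    ⟨⟨z, hz⟩, Subgroup.mem_center_iff.2 fun r => Subtype.ext (h r r.2).symm, rfl⟩
  have hcommZ : ∀ x ∈ R, ∀ y ∈ R, x * y * x⁻¹ * y⁻¹ ∈ Z := by
    intro x hx y hy
    refine ⟨⁅(⟨x, hx⟩ : R), ⟨y, hy⟩⁆, ?_, by simp [commutatorElement_def]⟩
    rw [SetLike.mem_coe, ← hcm, commutator_def]
    exact Subgroup.commutator_mem_commutator (Subgroup.mem_top _) (Subgroup.mem_top _)
  have hZn : Z.Normal := ⟨fun z hz g => hZof _ (hRn.conj_mem z (hZR hz) g) fun r hr => by
    have h := hZcomm z hz (g⁻¹ * r * g) (by simpa using hRn.conj_mem r hr g⁻¹)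
    calc g * z * g⁻¹ * r = g * (z * (g⁻¹ * r * g)) * g⁻¹ := by group
      _ = g * ((g⁻¹ * r * g) * z) * g⁻¹ := by rw [h]
      _ = r * (g * z * g⁻¹) := by group⟩
  -- elements centralising `R` lie in the centre of `R`
  have hD : ∀ x : X, (∀ r ∈ R, x * r = r * x) → x ∈ R := by
    by_contra! hcon
    obtain ⟨x, hx, hxR⟩ := hcon
    let D : Subgroup X := Subgroup.centralizer (R : Set X)
    have hDmem : ∀ {y}, y ∈ D ↔ ∀ r ∈ R, r * y = y * r := Iff.rfl
    haveI : D.Normal := inferInstance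
    haveI : (D.map π).Normal := Subgroup.Normal.map inferInstance π hπsurj
    obtain ⟨d, hd, hd1⟩ := neg_one_mem_normal (D.map π)
      (Subgroup.mem_map_of_mem π (hDmem.2 fun r hr => (hx r hr).symm)) (fun h => hxR ((hπker x).1 h))
    have hd2 : d * d ∈ R := (hπker _).1 (by rw [map_mul, hd1]; decide)
    have hd6 : (d ^ 3) * (d ^ 3) = 1 := by
      rw [← pow_add, show 3 + 3 = 2 * 3 from rfl, pow_mul, pow_two]
      exact hRe _ hd2
    have ht1 : π (d ^ 3) = -1 := by rw [map_pow, hd1]; decide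
    have hcen : ∀ g : X, g * d ^ 3 * g⁻¹ = d ^ 3 := by
      intro g
      have hgD : g * d ^ 3 * g⁻¹ ∈ D := Subgroup.Normal.conj_mem inferInstance _ (pow_mem hd 3) g
      set u := (d ^ 3)⁻¹ * (g * d ^ 3 * g⁻¹) with hu
      have huR : u ∈ R := (hπker _).1 (by
        rw [hu, map_mul, map_inv, map_mul, map_mul, map_inv, ht1]
        have : ∀ y : SL3, y * -1 * y⁻¹ = -1 := fun y => by
          rw [mul_neg, mul_one, neg_mul, mul_inv_cancel]
        rw [this, inv_mul_cancel])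
      have huD : u ∈ D := mul_mem (inv_mem (pow_mem hd 3)) hgD
      have huZ : u ∈ Z := hZof u huR fun r hr => (hDmem.1 huD r hr).symm
      have hcomm : u * d ^ 3 = d ^ 3 * u := hDmem.1 (pow_mem hd 3) u huR
      have hsq : (g * d ^ 3 * g⁻¹) * (g * d ^ 3 * g⁻¹) = 1 := by
        rw [show (g * d ^ 3 * g⁻¹) * (g * d ^ 3 * g⁻¹) = g * (d ^ 3 * d ^ 3) * g⁻¹ by group, hd6, mul_one,
          mul_inv_cancel]
      rw [show g * d ^ 3 * g⁻¹ = d ^ 3 * u by rw [hu]; group] at hsq ⊢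
      rw [mul_assoc (d ^ 3), ← mul_assoc u, hcomm, mul_assoc (d ^ 3) u, ← mul_assoc (d ^ 3), hd6, one_mul] at hsq
      have hu1 : u = 1 := by
        have h3 := hZ3 u huZ
        rw [pow_three, hsq, mul_one] at h3
        exact h3
      rw [hu1, mul_one]
    have hN : (Subgroup.zpowers (d ^ 3)).Normal := ⟨fun n hn g => by
      obtain ⟨k, rfl⟩ := hn
      exact ⟨k, by
        show (d ^ 3) ^ k = g * (d ^ 3) ^ k * g⁻¹
        rw [← conj_zpow, hcen g]⟩⟩
    have hp : IsPGroup 2 (Subgroup.zpowers (d ^ 3)) := by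
      intro a
      obtain ⟨a, k, rfl⟩ := a
      refine ⟨1, Subtype.ext ?_⟩
      show ((d ^ 3) ^ k) ^ (2 ^ 1) = 1
      rw [pow_one, pow_two, ← zpow_add, ← two_mul, zpow_mul, zpow_two, hd6, one_zpow]
    have := hO2 _ hN hp
    rw [Subgroup.zpowers_eq_bot] at this
    exact absurd (ht1.symm.trans (by rw [this, map_one])) (by decide)
  -- an involution over `-1`
  obtain ⟨d, hd⟩ := hπsurj (-1)
  set t := d ^ 3 with htdef
  have htπ : π t = -1 := by rw [map_pow, hd]; decide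
  have htt : t * t = 1 := by
    rw [htdef, ← pow_add, show 3 + 3 = 2 * 3 from rfl, pow_mul]
    exact hRe _ ((hπker _).1 (by rw [map_pow, hd]; decide))
  have htinv : t⁻¹ = t := inv_eq_of_mul_eq_one_right htt
  have htR : t ∉ R := fun h => absurd (htπ.symm.trans ((hπker t).2 h)) (by decide)
  let τ : X → X := fun r => t * r * t
  have hτmul : ∀ a b, τ (a * b) = τ a * τ b := fun a b => by
    show t * (a * b) * t = t * a * t * (t * b * t)
    rw [show t * a * t * (t * b * t) = t * a * (t * t) * b * t by group, htt]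
    group
  have hττ : ∀ a, τ (τ a) = a := fun a => by
    show t * (t * a * t) * t = a
    rw [show t * (t * a * t) * t = (t * t) * a * (t * t) by group, htt]
    group
  have hτinv : ∀ a, τ a⁻¹ = (τ a)⁻¹ := fun a => by
    show t * a⁻¹ * t = (t * a * t)⁻¹
    rw [mul_inv_rev, mul_inv_rev, htinv, mul_assoc]
  have hτR : ∀ a ∈ R, τ a ∈ R := fun a ha => by
    have := hRn.conj_mem a ha t
    rwa [htinv] at this
  -- the quotient modulo the centre
  have hcong : ∀ a b a' b' : X, a⁻¹ * a' ∈ Z → b⁻¹ * b' ∈ Z → (a * b)⁻¹ * (a' * b') ∈ Z := fun a b a' b' h1 h2 => by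
    rw [show (a * b)⁻¹ * (a' * b') = (b⁻¹ * (a⁻¹ * a') * b⁻¹⁻¹) * (b⁻¹ * b') by group]
    exact mul_mem (hZn.conj_mem _ h1 _) h2
  have hswap : ∀ a ∈ R, ∀ b ∈ R, (a * b)⁻¹ * (b * a) ∈ Z := fun a ha b hb => by
    rw [show (a * b)⁻¹ * (b * a) = b⁻¹ * a⁻¹ * b⁻¹⁻¹ * a⁻¹⁻¹ by group]
    exact hcommZ _ (inv_mem hb) _ (inv_mem ha)
  let A : Subgroup X :=
    { carrier := {r | r ∈ R ∧ r⁻¹ * τ r ∈ Z}
      one_mem' := ⟨one_mem _, by simp [τ, htt]⟩
      mul_mem' := fun {a b} ha hb => ⟨mul_mem ha.1 hb.1, by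
        rw [hτmul]; exact hcong _ _ _ _ ha.2 hb.2⟩
      inv_mem' := fun {a} ha => ⟨inv_mem ha.1, by
        rw [hτinv, show a⁻¹⁻¹ * (τ a)⁻¹ = a * (a⁻¹ * τ a)⁻¹ * a⁻¹ by group]
        exact hZn.conj_mem _ (inv_mem ha.2) _⟩ }
  let B : Subgroup X :=
    { carrier := {r | r ∈ R ∧ r * τ r ∈ Z}
      one_mem' := ⟨one_mem _, by simp [τ, htt]⟩
      mul_mem' := fun {a b} ha hb => ⟨mul_mem ha.1 hb.1, by
        rw [hτmul, show a * b * (τ a * τ b) = a * ((b * τ a) * (τ a * b)⁻¹) * a⁻¹ * ((a * τ a) * (b * τ b)) by group]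
        refine mul_mem (hZn.conj_mem _ ?_ _) (mul_mem ha.2 hb.2)
        rw [show (b * τ a) * (τ a * b)⁻¹ = b * τ a * b⁻¹ * (τ a)⁻¹ by group]
        exact hcommZ _ hb.1 _ (hτR a ha.1)⟩
      inv_mem' := fun {a} ha => ⟨inv_mem ha.1, by
        rw [hτinv, ← mul_inv_rev]
        refine inv_mem ?_
        rw [show τ a * a = a⁻¹ * (a * τ a) * a⁻¹⁻¹ by group]
        exact hZn.conj_mem _ ha.2 _⟩ }
  have hAR : A ≤ R := fun r hr => hr.1
  have hBR : B ≤ R := fun r hr => hr.1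
  have hτZ : ∀ z ∈ Z, τ z ∈ Z := fun z hz => by
    have := hZn.conj_mem z hz t
    rwa [htinv] at this
  have hZA : Z ≤ A := fun z hz => ⟨hZR hz, mul_mem (inv_mem hz) (hτZ z hz)⟩
  have hZB : Z ≤ B := fun z hz => ⟨hZR hz, mul_mem hz (hτZ z hz)⟩
  have hdec : ∀ r ∈ R, r * τ r ∈ A ∧ r⁻¹ * τ r ∈ B := by
    intro r hr
    refine ⟨⟨mul_mem hr (hτR r hr), ?_⟩, ⟨mul_mem (inv_mem hr) (hτR r hr), ?_⟩⟩
    · rw [hτmul, hττ]
      exact hswap r hr (τ r) (hτR r hr)
    · rw [hτmul, hττ, hτinv, show r⁻¹ * τ r * ((τ r)⁻¹ * r) = 1 by group]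
      exact one_mem _
  have hAnot : ¬ R ≤ A := by
    intro hle
    apply htR
    refine hD t fun r hr => ?_
    have hz := (hle hr).2
    have hτfix : ∀ z ∈ Z, τ z = z := by
      intro z hz
      obtain ⟨a, b, ha, hb, hab⟩ : ∃ a b, a ∈ R ∧ b ∈ R ∧ a * b ≠ b * a := by
        by_contra! hc
        have : Subgroup.center R = ⊤ := eq_top_iff.2 fun x _ =>
          Subgroup.mem_center_iff.2 fun y => Subtype.ext (hc _ _ y.2 x.2)
        rw [this, Subgroup.card_top, hRc] at hZc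
        omega
      have hz0 := hcommZ a ha b hb
      have hne : a * b * a⁻¹ * b⁻¹ ≠ 1 := fun h => hab (by
        rwa [mul_inv_eq_one, mul_inv_eq_iff_eq_mul] at h)
      obtain ⟨k, hk⟩ := generator_of_card_three hZcard hz0 hne hz
      have hfix : τ (a * b * a⁻¹ * b⁻¹) = a * b * a⁻¹ * b⁻¹ := by
        obtain ⟨u, hu, hua⟩ : ∃ u ∈ Z, τ a = a * u := ⟨a⁻¹ * τ a, (hle ha).2, by group⟩
        obtain ⟨v, hv, hvb⟩ : ∃ v ∈ Z, τ b = b * v := ⟨b⁻¹ * τ b, (hle hb).2, by group⟩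
        have hu1 := hZcomm u hu
        have hv1 := hZcomm v hv
        rw [hτmul, hτmul, hτmul, hτinv, hτinv, hua, hvb, mul_inv_rev, mul_inv_rev]
        rw [show a * u * (b * v) * (u⁻¹ * a⁻¹) * (v⁻¹ * b⁻¹) = a * (u * b) * ((v * u⁻¹) * a⁻¹) * (v⁻¹ * b⁻¹)
          by group, hu1 b hb, ← hv1 u⁻¹ (inv_mem (hZR hu)) |>.symm,
          show a * (b * u) * (u⁻¹ * v * a⁻¹) * (v⁻¹ * b⁻¹) = a * b * (v * a⁻¹) * (v⁻¹ * b⁻¹) by group,
          hv1 a⁻¹ (inv_mem ha)]
        group
      rw [hk]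
      generalize k.val = n
      induction n with
      | zero => simp [τ, htt]
      | succ n ih => rw [pow_succ, hτmul, ih, hfix]
    have h2 : τ r = r := by
      obtain ⟨w, hw, hrw⟩ : ∃ w ∈ Z, τ r = r * w := ⟨r⁻¹ * τ r, hz, by group⟩
      have h := hττ r
      rw [hrw, hτmul, hrw, hτfix w hw, mul_assoc, mul_eq_left, ← pow_two] at h
      have h3 := hZ3 w hw
      rw [pow_succ, h, one_mul] at h3
      rw [hrw, h3, mul_one]
    calc t * r = t * r * (t * t) := by rw [htt, mul_one]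
      _ = τ r * t := by show _ = t * r * t * t; group
      _ = r * t := by rw [h2]
  have hinvR : R ≤ B := by
    by_contra hBnot
    -- both halves are proper and invariant under the whole group
    have hz2 : ∀ {z : X}, z ∈ Z → ∀ g : X, g * z * g⁻¹ ∈ Z := fun hz g => hZn.conj_mem _ hz g
    have hinvt : ∀ g : X, ∃ m ∈ R, g⁻¹ * t * g = t * m := fun g =>
      ⟨t⁻¹ * (g⁻¹ * t * g), (hπker _).1 (by
        rw [map_mul, map_inv, map_mul, map_mul, map_inv, htπ]
        rw [show (π g)⁻¹ * -1 * π g = -1 by rw [mul_neg, mul_one, neg_mul, inv_mul_cancel], inv_mul_cancel]), by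
        group⟩
    have hτconj : ∀ g, ∀ r ∈ R, (g * τ r * g⁻¹)⁻¹ * τ (g * r * g⁻¹) ∈ Z := by
      intro g r hr
      obtain ⟨m, hm, hgm⟩ := hinvt g
      have hgm' : g⁻¹ * t * g = (t * m)⁻¹ := by
        rw [← hgm, show (g⁻¹ * t * g)⁻¹ = g⁻¹ * t⁻¹ * g by group, htinv]
      have heq : τ (g * r * g⁻¹) = g * (t * (m * r * m⁻¹) * t) * g⁻¹ := by
        calc t * (g * r * g⁻¹) * t = g * ((g⁻¹ * t * g) * r * (g⁻¹ * t * g)) * g⁻¹ := by group
          _ = g * (t * m * r * (t * m)⁻¹) * g⁻¹ := by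
            nth_rw 1 [hgm]
            rw [hgm']
          _ = g * (t * (m * r * m⁻¹) * t) * g⁻¹ := by rw [mul_inv_rev, htinv]; group
      rw [heq, show (g * τ r * g⁻¹)⁻¹ * (g * (t * (m * r * m⁻¹) * t) * g⁻¹) =
        g * ((τ r)⁻¹ * τ (m * r * m⁻¹)) * g⁻¹ by show _ = g * ((τ r)⁻¹ * (t * (m * r * m⁻¹) * t)) * g⁻¹; group]
      refine hz2 ?_ g
      rw [← hτinv, ← hτmul]
      refine hτZ _ ?_
      rw [show r⁻¹ * (m * r * m⁻¹) = r⁻¹ * m * r⁻¹⁻¹ * m⁻¹ by group]
      exact hcommZ _ (inv_mem hr) _ hm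
    have hAinv : ∀ g, ∀ r ∈ A, g * r * g⁻¹ ∈ A := fun g r hr => ⟨hRn.conj_mem r hr.1 g, by
      rw [show (g * r * g⁻¹)⁻¹ * τ (g * r * g⁻¹) =
        (g * (r⁻¹ * τ r) * g⁻¹) * ((g * τ r * g⁻¹)⁻¹ * τ (g * r * g⁻¹)) by group]
      exact mul_mem (hz2 hr.2 g) (hτconj g r hr.1)⟩
    have hBinv : ∀ g, ∀ r ∈ B, g * r * g⁻¹ ∈ B := fun g r hr => ⟨hRn.conj_mem r hr.1 g, by
      rw [show (g * r * g⁻¹) * τ (g * r * g⁻¹) =
        (g * (r * τ r) * g⁻¹) * ((g * τ r * g⁻¹)⁻¹ * τ (g * r * g⁻¹)) by group]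
      exact mul_mem (hz2 hr.2 g) (hτconj g r hr.1)⟩
    have gen : ∀ (H : Subgroup X), H ≤ R → ¬ R ≤ H → Z ≤ H → ∀ x ∈ H, x ∉ Z → ∀ y ∈ H, ∃ k : ℕ, (x ^ k)⁻¹ * y ∈ Z := by
      intro H hH hne hZH x hx hxZ y hy
      have hidx : Z.relIndex H = 3 ∨ Z.relIndex H = 1 := by
        have h1 : Nat.card H ∣ 27 := hRc ▸ Subgroup.card_dvd_of_le hH
        have h2 : Nat.card H ≠ 27 := fun h => hne (Subgroup.eq_of_le_of_card_ge hH (by omega)).ge
        have h3 : Z.relIndex H * 3 = Nat.card H := by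
          rw [← hZcard, mul_comm, ← Subgroup.relIndex_bot_left, ← Subgroup.relIndex_bot_left]
          exact Subgroup.relIndex_mul_relIndex _ _ _ bot_le hZH
        have : Nat.card H ≤ 9 := by
          obtain ⟨i, hi, hHi⟩ := (Nat.dvd_prime_pow Nat.prime_three).1 (show Nat.card H ∣ 3 ^ 3 from h1)
          interval_cases i <;> simp_all
        obtain ⟨c, hc⟩ : 3 ∣ Nat.card H := Dvd.intro_left _ h3
        have hdiv : Nat.card H ∣ 3 ^ 3 := h1
        obtain ⟨i, hi, hHi⟩ := (Nat.dvd_prime_pow Nat.prime_three).1 hdiv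
        interval_cases i <;> omega
      rcases hidx with hidx | hidx
      · haveI : (Z.subgroupOf H).Normal := Subgroup.Normal.subgroupOf hZn _
        have hcardq : Nat.card (H ⧸ Z.subgroupOf H) = 3 := hidx
        have hne' : (QuotientGroup.mk' (Z.subgroupOf H) ⟨x, hx⟩) ≠ 1 := by
          rw [ne_eq, QuotientGroup.mk'_apply, QuotientGroup.eq_one_iff]
          exact hxZ
        obtain ⟨k, hk⟩ := mem_powers_of_prime_card hcardq hne' (g' := QuotientGroup.mk' (Z.subgroupOf H) ⟨y, hy⟩)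
        refine ⟨k, ?_⟩
        have := QuotientGroup.eq.1 (show ((⟨x, hx⟩ ^ k : H) : H ⧸ Z.subgroupOf H) = (⟨y, hy⟩ : H) from hk)
        simpa [Subgroup.mem_subgroupOf] using this
      · exact absurd (Subgroup.relIndex_eq_one.1 hidx hx) hxZ
    -- a 3-element centralises every invariant half modulo the centre
    have key : ∀ (H : Subgroup X), H ≤ R → ¬ R ≤ H → Z ≤ H → (∀ g, ∀ r ∈ H, g * r * g⁻¹ ∈ H) →
        ∀ g : X, g ^ 9 = 1 → ∀ y ∈ H, y⁻¹ * (g * y * g⁻¹) ∈ Z := by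
      intro H hH hne hZH hinv g hg y hy
      by_cases hyZ : y ∈ Z
      · exact mul_mem (inv_mem hyZ) (hz2 hyZ g)
      obtain ⟨k, hk⟩ := gen H hH hne hZH y hy hyZ _ (hinv g y hy)
      -- `g` acts as the power map by `k`, and its ninth power is trivial
      have hpow : ∀ n : ℕ, (y ^ (k ^ n))⁻¹ * (g ^ n * y * (g ^ n)⁻¹) ∈ Z := by
        intro n
        induction n with
        | zero => simp
        | succ n ih =>
          have hpm : ∀ m : ℕ, ((y ^ k) ^ m)⁻¹ * ((g * y * g⁻¹) ^ m) ∈ Z := by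
            intro m
            induction m with
            | zero => simp
            | succ m ihm => rw [pow_succ, pow_succ]; exact hcong _ _ _ _ ihm hk
          have h1 := mul_mem (hpm (k ^ n)) (hz2 ih g)
          rw [← pow_mul, ← pow_succ'] at h1
          rw [conj_pow] at h1
          rw [show g ^ (n + 1) = g * g ^ n from pow_succ' g n]
          convert h1 using 1
          group
      have h9 := hpow 9
      rw [hg, one_mul, inv_one, mul_one] at h9
      have hyR := hH hy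
      have hy3 : y ^ 3 = 1 := hRe y hyR
      have hk3 : k % 3 = 1 := by
        have hk9 : (k ^ 9) % 3 = 1 := by
          by_contra hne3
          have hrew : y ^ (k ^ 9) = y ^ ((k ^ 9) % 3) := pow_eq_pow_mod _ hy3
          rw [hrew] at h9
          have hlt := Nat.mod_lt (k ^ 9) (show 0 < 3 by norm_num)
          interval_cases hm : (k ^ 9) % 3
          · exact hyZ (by simpa using h9)
          · exact hne3 rfl
          · rw [show (y ^ 2)⁻¹ * y = y⁻¹ by group] at h9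
            exact hyZ (inv_mem_iff.1 h9)
        rw [Nat.pow_mod] at hk9
        have hlt := Nat.mod_lt k (show 0 < 3 by norm_num)
        interval_cases hm : k % 3 <;> simp_all
      rwa [pow_eq_pow_mod k hy3, hk3, pow_one] at hk
    -- a nontrivial element of 3-power order outside `R`
    obtain ⟨g0, hg0⟩ := hπsurj (tv 0)
    obtain ⟨g, hg9, hgR⟩ : ∃ g : X, g ^ 9 = 1 ∧ g ∉ R := by
      refine ⟨g0, ?_, fun h => ?_⟩
      · have h3 : g0 ^ 3 ∈ R := (hπker _).1 (by rw [map_pow, hg0]; decide)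
        rw [show 9 = 3 * 3 from rfl, pow_mul]
        exact hRe _ h3
      · exact absurd (hg0.symm.trans ((hπker g0).2 h)) (by decide)
    -- elements acting trivially modulo the centre
    let N : Subgroup X :=
      { carrier := {x | ∀ r ∈ R, r⁻¹ * (x * r * x⁻¹) ∈ Z}
        one_mem' := fun r _ => by simp
        mul_mem' := fun {a b} ha hb r hr => by
          rw [show r⁻¹ * (a * b * r * (a * b)⁻¹) =
            (r⁻¹ * (a * r * a⁻¹)) * (a * (r⁻¹ * (b * r * b⁻¹)) * a⁻¹) by group]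
          exact mul_mem (ha r hr) (hz2 (hb r hr) a)
        inv_mem' := fun {a} ha r hr => by
          have h := hz2 (inv_mem (ha r hr)) a⁻¹
          rw [show r⁻¹ * (a⁻¹ * r * a⁻¹⁻¹) = (a⁻¹ * (r⁻¹ * (a * r * a⁻¹)) * a) ⁻¹ by group]
          refine inv_mem ?_
          simpa using hz2 (ha r hr) a⁻¹ }
    have hNn : N.Normal := ⟨fun a ha b r hr => by
      have h := hz2 (ha (b⁻¹ * r * b) (by simpa using hRn.conj_mem r hr b⁻¹)) b
      convert h using 1
      group⟩
    haveI : (N.map π).Normal := hNn.map π hπsurj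
    have hgN : g ∈ N := by
      intro r hr
      -- `r` is a product of parts in the two halves modulo the centre
      obtain ⟨ha, hb⟩ := hdec r hr
      have h1 := key A hAR hAnot hZA hAinv g hg9 _ (inv_mem ha)
      have h2 := key B hBR hBnot hZB hBinv g hg9 _ hb
      have hm : ((r * τ r)⁻¹ * (r⁻¹ * τ r))⁻¹ * (g * ((r * τ r)⁻¹ * (r⁻¹ * τ r)) * g⁻¹) ∈ Z := by
        rw [show g * ((r * τ r)⁻¹ * (r⁻¹ * τ r)) * g⁻¹ =
          (g * (r * τ r)⁻¹ * g⁻¹) * (g * (r⁻¹ * τ r) * g⁻¹) by group]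
        exact hcong _ _ _ _ h1 h2
      -- that product is congruent to `r` as the exponent is three
      have hrm : r⁻¹ * ((r * τ r)⁻¹ * (r⁻¹ * τ r)) ∈ Z := by
        have hr3 : r⁻¹ * r⁻¹ = r := by
          have := hRe r hr
          rw [pow_three] at this
          rw [← mul_inv_rev]
          exact inv_eq_of_mul_eq_one_left this
        rw [show r⁻¹ * ((r * τ r)⁻¹ * (r⁻¹ * τ r)) =
          r⁻¹ * ((τ r)⁻¹ * (r⁻¹ * r⁻¹) * (τ r)⁻¹⁻¹) by group, hr3]
        rw [show r⁻¹ * ((τ r)⁻¹ * r * (τ r)⁻¹⁻¹) = r⁻¹ * (τ r)⁻¹ * r⁻¹⁻¹ * (τ r)⁻¹⁻¹ by group]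
        exact hcommZ _ (inv_mem hr) _ (inv_mem (hτR r hr))
      set m := (r * τ r)⁻¹ * (r⁻¹ * τ r)
      rw [show r⁻¹ * (g * r * g⁻¹) =
        (r⁻¹ * m) * (m⁻¹ * (g * m * g⁻¹)) * (g * (r⁻¹ * m) * g⁻¹)⁻¹ by group]
      exact mul_mem (mul_mem hrm hm) (inv_mem (hz2 hrm g))
    obtain ⟨n, hn, hn1⟩ := neg_one_mem_normal (N.map π) (Subgroup.mem_map_of_mem π hgN)
      (fun h => hgR ((hπker g).1 h))
    apply hAnot
    intro r hr
    refine ⟨hr, ?_⟩
    have hm : n⁻¹ * t ∈ R := (hπker _).1 (by rw [map_mul, map_inv, hn1, htπ, inv_mul_cancel])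
    have hmN : n⁻¹ * t ∈ N := fun y hy => by
      rw [show y⁻¹ * (n⁻¹ * t * y * (n⁻¹ * t)⁻¹) = y⁻¹ * (n⁻¹ * t) * y⁻¹⁻¹ * (n⁻¹ * t)⁻¹ by group]
      exact hcommZ _ (inv_mem hy) _ hm
    have htN : t ∈ N := by
      have := mul_mem hn hmN
      rwa [mul_inv_cancel_left] at this
    have := htN r hr
    rwa [htinv] at this
  -- representatives inverted by `t`
  have hinvrep : ∀ r ∈ R, ∃ z ∈ Z, τ (r * z) = (r * z)⁻¹ := by
    intro r hr
    obtain ⟨-, hz⟩ := hinvR hr
    set w := r * τ r with hw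
    have hτr : τ r = r⁻¹ * w := by rw [hw]; group
    have hrw : Commute r w := (hZcomm w hz r hr).symm
    have hfix : τ w = w := by
      calc τ w = τ r * r := by rw [hw, hτmul, hττ]
        _ = r⁻¹ * (w * r) := by rw [hτr, mul_assoc]
        _ = w := by rw [← hrw.eq]; group
    refine ⟨w, hz, ?_⟩
    rw [hτmul, hfix, hτr, mul_inv_rev, ← (hrw.inv_left.inv_right).eq, mul_assoc]
    have := hZ3 w hz
    rw [pow_three] at this
    rw [inv_eq_of_mul_eq_one_right this]
  obtain ⟨a₀, b₀, ha₀, hb₀, hab₀⟩ : ∃ a b, a ∈ R ∧ b ∈ R ∧ a * b ≠ b * a := by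
    by_contra! hc
    have : Subgroup.center R = ⊤ := eq_top_iff.2 fun x _ =>
      Subgroup.mem_center_iff.2 fun y => Subtype.ext (hc _ _ y.2 x.2)
    rw [this, Subgroup.card_top, hRc] at hZc
    omega
  obtain ⟨za, hza, hta⟩ := hinvrep a₀ ha₀
  obtain ⟨zb, hzb, htb⟩ := hinvrep b₀ hb₀
  obtain ⟨a, ha_def⟩ : ∃ a, a = a₀ * za := ⟨_, rfl⟩
  obtain ⟨b, hb_def⟩ : ∃ b, b = b₀ * zb := ⟨_, rfl⟩
  rw [← ha_def] at hta
  rw [← hb_def] at htb
  have haR : a ∈ R := ha_def ▸ mul_mem ha₀ (hZR hza)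
  have hbR : b ∈ R := hb_def ▸ mul_mem hb₀ (hZR hzb)
  have hab : a * b ≠ b * a := by
    intro h
    apply hab₀
    have e1 : a₀ = a * za⁻¹ := by rw [ha_def]; group
    have e2 : b₀ = b * zb⁻¹ := by rw [hb_def]; group
    have c1 := hZcomm za⁻¹ (inv_mem hza)
    have c2 := hZcomm zb⁻¹ (inv_mem hzb)
    rw [e1, e2, mul_assoc a, ← mul_assoc za⁻¹, c1 b hbR, mul_assoc b za⁻¹,
      mul_assoc b, ← mul_assoc zb⁻¹, c2 a haR, mul_assoc a zb⁻¹,
      c2 za⁻¹ (inv_mem (hZR hza)), ← mul_assoc a b, ← mul_assoc b a, h]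
  set z := (a * b)⁻¹ * (b * a) with hz_def
  have hzZ : z ∈ Z := hswap a haR b hbR
  have hz1 : z ≠ 1 := fun h => hab (inv_mul_eq_one.1 h)
  have hz3 : z ^ 3 = 1 := hZ3 z hzZ
  have hzc : ∀ r ∈ R, Commute z r := fun r hr => hZcomm z hzZ r hr
  have ha3 : a ^ 3 = 1 := hRe a haR
  have hb3 : b ^ 3 = 1 := hRe b hbR
  have pv : ∀ {x : X}, x ^ 3 = 1 → ∀ i j : ZMod 3, x ^ (i + j).val = x ^ i.val * x ^ j.val := fun hx i j => by
    rw [ZMod.val_add, ← pow_eq_pow_mod _ hx, pow_add]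
  have pn : ∀ {x : X}, x ^ 3 = 1 → ∀ n : ℕ, x ^ n = x ^ ((n : ZMod 3)).val := fun hx n => by
    rw [ZMod.val_natCast, ← pow_eq_pow_mod _ hx]
  have hba : ∀ i j : ℕ, b ^ i * a ^ j = a ^ j * b ^ i * z ^ (i * j) := by
    have h1 : b * a = a * b * z := by rw [hz_def]; group
    have hj : ∀ j : ℕ, b * a ^ j = a ^ j * b * z ^ j := by
      intro j
      induction j with
      | zero => simp
      | succ j ih =>
        rw [pow_succ, ← mul_assoc, ih, mul_assoc, ((hzc a haR).pow_left j).eq, ← mul_assoc,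
          mul_assoc (a ^ j) b a, h1, pow_succ' z j]
        group
    intro i j
    induction i with
    | zero => simp
    | succ i ih =>
      rw [pow_succ', mul_assoc, ih, ← mul_assoc, ← mul_assoc, hj, mul_assoc (a ^ j * b),
        ((hzc (b ^ i) (pow_mem hbR i)).pow_left j).eq, ← mul_assoc, mul_assoc (a ^ j) b, mul_assoc (a ^ j * _),
        ← pow_add]
      congr 2
      ring
  obtain ⟨I, hIdef⟩ : ∃ I : V2 → X, ∀ v, I v = a ^ (v 0).val * b ^ (v 1).val * z ^ (-(v 0 * v 1)).val :=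
    ⟨_, fun _ => rfl⟩
  have hIR : ∀ v, I v ∈ R := fun v => hIdef v ▸
    mul_mem (mul_mem (pow_mem haR _) (pow_mem hbR _)) (pow_mem (hZR hzZ) _)
  have hzI : ∀ (v : V2) (s : ZMod 3), Commute (z ^ s.val) (I v) := fun v s => (hzc _ (hIR v)).pow_left _
  have hII : ∀ v w, I v * I w = I (v + w) * z ^ (det2 v w).val := by
    intro v w
    have hc : ∀ (n : ℕ) (r : X), r ∈ R → ∀ x : X, r * (z ^ n * x) = z ^ n * (r * x) := fun n r hr x => by
      rw [← mul_assoc, ← mul_assoc, ((hzc r hr).pow_left n).eq]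
    rw [hIdef, hIdef, hIdef]
    simp only [Pi.add_apply]
    show a ^ (v 0).val * b ^ (v 1).val * z ^ (-(v 0 * v 1)).val *
        (a ^ (w 0).val * b ^ (w 1).val * z ^ (-(w 0 * w 1)).val) =
      a ^ (v 0 + w 0).val * b ^ (v 1 + w 1).val * z ^ (-((v 0 + w 0) * (v 1 + w 1))).val * z ^ (det2 v w).val
    rw [pv ha3, pv hb3, mul_assoc (_ * _) (z ^ _) (z ^ (det2 v w).val), ← pv hz3]
    calc _ = a ^ (v 0).val * (b ^ (v 1).val * a ^ (w 0).val) * b ^ (w 1).val *
          (z ^ (-(v 0 * v 1)).val * z ^ (-(w 0 * w 1)).val) := by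
            simp only [mul_assoc]
            rw [← hc _ _ (pow_mem haR _), ← hc _ _ (pow_mem hbR _)]
      _ = a ^ (v 0).val * a ^ (w 0).val * (b ^ (v 1).val * b ^ (w 1).val) *
          (z ^ ((v 1).val * (w 0).val) * (z ^ (-(v 0 * v 1)).val * z ^ (-(w 0 * w 1)).val)) := by
            rw [hba]
            simp only [mul_assoc]
            rw [← hc _ _ (pow_mem hbR _)]
      _ = _ := by
            congr 1
            rw [pn hz3, ← pv hz3, ← pv hz3]
            congr 2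
            rw [Nat.cast_mul, ZMod.natCast_zmod_val, ZMod.natCast_zmod_val, det2]
            have h3 : (3 : ZMod 3) = 0 := three_zero
            linear_combination (w 0 * v 1) * h3
  have hI0 : I 0 = 1 := by simp [hIdef]
  have hIneg : ∀ v, (I v)⁻¹ = I (-v) := fun v => inv_eq_of_mul_eq_one_right (by
    rw [hII, add_neg_cancel, hI0, one_mul, show det2 v (-v) = 0 by simp [det2]; ring, ZMod.val_zero, pow_zero])
  have hτpow : ∀ (x : X) (n : ℕ), τ (x ^ n) = τ x ^ n := fun x n => by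
    induction n with
    | zero => simp [τ, htt]
    | succ n ih => rw [pow_succ, pow_succ, hτmul, ih]
  have hτz : τ z = z := by
    show τ ((a * b)⁻¹ * (b * a)) = (a * b)⁻¹ * (b * a)
    rw [hτmul, hτinv, hτmul a b, hτmul b a, hta, htb]
    have hz' : b * a = a * b * z := by rw [hz_def]; group
    have hzc' := (hzc b hbR).eq
    calc (a⁻¹ * b⁻¹)⁻¹ * (b⁻¹ * a⁻¹) = b * a * (a * b)⁻¹ := by group
      _ = a * b * z * (a * b)⁻¹ := by rw [hz']
      _ = z := by rw [mul_assoc (a * b), (hzc _ (inv_mem (mul_mem haR hbR))).eq]; group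
      _ = (a * b)⁻¹ * (b * a) := hz_def
  have hτI : ∀ v, τ (I v) = I (-v) := by
    intro v
    have pneg : ∀ {x : X}, x ^ 3 = 1 → ∀ i : ZMod 3, (x⁻¹) ^ i.val = x ^ (-i).val := fun hx i => by
      rw [inv_pow]
      refine inv_eq_of_mul_eq_one_right ?_
      rw [← pv hx, add_neg_cancel, ZMod.val_zero, pow_zero]
    rw [hIdef, hIdef]
    show τ (a ^ (v 0).val * b ^ (v 1).val * z ^ (-(v 0 * v 1)).val) =
      a ^ ((-v) 0).val * b ^ ((-v) 1).val * z ^ (-((-v) 0 * (-v) 1)).val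
    rw [hτmul, hτmul, hτpow, hτpow, hτpow, hta, htb, hτz, pneg ha3, pneg hb3, Pi.neg_apply, Pi.neg_apply,
      neg_mul_neg]
  have hτIz : ∀ v (s : ZMod 3), τ (I v * z ^ s.val) = I (-v) * z ^ s.val := fun v s => by
    rw [hτmul, hτI, hτpow, hτz]
  -- coordinates on `R`
  have hcomI : ∀ v w, I v * I w = I w * I v ↔ det2 v w = 0 := by
    intro v w
    rw [hII, hII, add_comm w v, mul_right_inj]
    constructor
    · intro h
      have hinj : ∀ i j : ZMod 3, z ^ i.val = z ^ j.val → i = j := fun i j hij => by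
        apply ZMod.val_injective
        have ho : orderOf z = 3 := orderOf_eq_prime hz3 hz1
        exact (pow_injOn_Iio_orderOf (x := z)) (by rw [Set.mem_Iio, ho]; exact ZMod.val_lt i)
          (by rw [Set.mem_Iio, ho]; exact ZMod.val_lt j) hij
      have h' := hinj _ _ h
      simp only [det2] at h' ⊢
      have h2 : (2 : ZMod 3) * (v 0 * w 1 - v 1 * w 0) = 0 := by linear_combination h'
      exact (mul_eq_zero.1 h2).resolve_left two_ne
    · intro h
      rw [h, show det2 w v = 0 by simp only [det2] at h ⊢; linear_combination -h]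
  have hzinj : ∀ i j : ZMod 3, z ^ i.val = z ^ j.val → i = j := fun i j hij => by
    apply ZMod.val_injective
    have ho : orderOf z = 3 := orderOf_eq_prime hz3 hz1
    exact (pow_injOn_Iio_orderOf (x := z)) (by rw [Set.mem_Iio, ho]; exact ZMod.val_lt i)
      (by rw [Set.mem_Iio, ho]; exact ZMod.val_lt j) hij
  have hIinj : ∀ v w (s r : ZMod 3), I v * z ^ s.val = I w * z ^ r.val → v = w ∧ s = r := by
    intro v w s r h
    have hd : ∀ u, det2 v u = det2 w u := fun u => by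
      have h1 : I v * z ^ s.val * I u = I w * z ^ r.val * I u := by rw [h]
      have h2 : I u * (I v * z ^ s.val) = I u * (I w * z ^ r.val) := by rw [h]
      rw [mul_assoc, (hzI u s).eq, ← mul_assoc, mul_assoc (I w), (hzI u r).eq, ← mul_assoc, hII, hII, mul_assoc,
        mul_assoc, ← pv hz3, ← pv hz3] at h1
      rw [← mul_assoc, ← mul_assoc, hII, hII, mul_assoc, mul_assoc, ← pv hz3, ← pv hz3, add_comm u, add_comm u] at h2
      have h3 := h1.symm.trans rfl
      have k1 : I (v + u) = I (w + u) * z ^ ((det2 w u + r) - (det2 v u + s)).val := by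
        have := pv hz3 ((det2 w u + r) - (det2 v u + s)) (det2 v u + s)
        rw [sub_add_cancel] at this
        rw [← mul_right_cancel_iff (a := z ^ (det2 v u + s).val), mul_assoc, ← this]
        exact h1
      rw [k1, mul_assoc, ← pv hz3, mul_right_inj] at h2
      have := hzinj _ _ h2
      simp only [det2] at this ⊢
      have h4 : (2 : ZMod 3) * ((v 0 * u 1 - v 1 * u 0) - (w 0 * u 1 - w 1 * u 0)) = 0 := by
        linear_combination -this
      exact sub_eq_zero.1 ((mul_eq_zero.1 h4).resolve_left two_ne)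
    have hvw : v = w := by
      have h0 := hd ![0, 1]
      have h1 := hd ![1, 0]
      simp [det2] at h0 h1
      ext i
      fin_cases i
      · exact h0
      · exact h1
    subst hvw
    exact ⟨rfl, hzinj _ _ (mul_left_cancel h)⟩
  let fR : V2 × ZMod 3 → R := fun p => ⟨I p.1 * z ^ p.2.val, mul_mem (hIR _) (pow_mem (hZR hzZ) _)⟩
  have hfR : Function.Bijective fR := by
    rw [Nat.bijective_iff_injective_and_card]
    refine ⟨fun p q h => ?_, ?_⟩
    · obtain ⟨h1, h2⟩ := hIinj _ _ _ _ (congrArg Subtype.val h)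
      exact Prod.ext h1 h2
    · rw [hRc, Nat.card_prod, Nat.card_fun, Nat.card_zmod, Nat.card_eq_fintype_card, Fintype.card_fin]
      rfl
  have hcoord : ∀ r ∈ R, ∃ v s, r = I v * z ^ (s : ZMod 3).val := fun r hr => by
    obtain ⟨p, hp⟩ := hfR.2 ⟨r, hr⟩
    exact ⟨p.1, p.2, (congrArg Subtype.val hp).symm⟩
  have hinv_unique : ∀ r ∈ R, τ r = r⁻¹ → ∃ v, r = I v := by
    intro r hr h
    obtain ⟨v, s, rfl⟩ := hcoord r hr
    rw [hτIz, mul_inv_rev, ← ((hzI v s).inv_left.inv_right).eq.symm, hIneg, mul_right_inj] at h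
    have h0 : z ^ (s + s).val = 1 := by rw [pv hz3]; nth_rw 1 [h]; exact inv_mul_cancel _
    have hs : s + s = 0 := hzinj _ _ (by rw [h0, ZMod.val_zero, pow_zero])
    have hs0 : s = 0 := (mul_eq_zero.1 (by rwa [two_mul] : (2 : ZMod 3) * s = 0)).resolve_left two_ne
    exact ⟨v, by rw [hs0, ZMod.val_zero, pow_zero, mul_one]⟩
  -- the centraliser of `t`
  let C : Subgroup X := Subgroup.centralizer ({t} : Set X)
  have hCmem : ∀ {x}, x ∈ C ↔ x * t = t * x := by
    intro x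
    rw [Subgroup.mem_centralizer_iff]
    simp [eq_comm]
  have hCR : ∀ x : X, ∃ v, ∃ c ∈ C, x = I v * c := by
    intro x
    set r := x * t * x⁻¹ * t with hr
    have hrR : r ∈ R := (hπker _).1 (by
      rw [map_mul, map_mul, map_mul, map_inv, htπ, conj_neg_one, neg_one_mul_self])
    have hτr : τ r = r⁻¹ := by
      show t * (x * t * x⁻¹ * t) * t = (x * t * x⁻¹ * t)⁻¹
      rw [show (x * t * x⁻¹ * t)⁻¹ = t⁻¹ * x * t⁻¹ * x⁻¹ by group, htinv,
        show t * (x * t * x⁻¹ * t) * t = t * x * t * x⁻¹ * (t * t) by group, htt, mul_one]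
    obtain ⟨v, hv⟩ := hinv_unique r hrR hτr
    have hxt : x * t * x⁻¹ = I v * t := by
      rw [← hv, hr, mul_assoc _ t t, htt, mul_one]
    refine ⟨-v, I v * x, ?_, by rw [← mul_assoc, hII, neg_add_cancel, hI0, one_mul,
      show det2 (-v) v = 0 by simp [det2]; ring, ZMod.val_zero, pow_zero, one_mul]⟩
    rw [hCmem]
    have hvv : I v * I v = I (-v) := by
      rw [hII, show v + v = -v by
        ext i; exact add_self_eq_neg (v i), show det2 v v = 0 by simp [det2, mul_comm], ZMod.val_zero, pow_zero, mul_one]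
    calc I v * x * t = I v * (x * t * x⁻¹) * x := by group
      _ = I (-v) * t * x := by rw [hxt, ← mul_assoc, hvv]
      _ = (t * I v * t) * t * x := by rw [← hτI]
      _ = t * I v * (t * t) * x := by group
      _ = t * (I v * x) := by rw [htt]; group
  have hCI : ∀ v (s : ZMod 3), I v * z ^ s.val ∈ C → v = 0 := by
    intro v s h
    have h2 : τ (I v * z ^ s.val) = I v * z ^ s.val := by
      show t * _ * t = _
      rw [← hCmem.1 h, mul_assoc _ t t, htt, mul_one]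
    rw [hτIz] at h2
    have h3 := congrFun (hIinj _ _ _ _ h2).1
    ext i
    exact eq_zero_of_neg_eq (v i) (h3 i)
  have hzC : ∀ k : ℕ, z ^ k ∈ C := fun k => by
    rw [hCmem]
    have : τ (z ^ k) = z ^ k := by rw [hτpow, hτz]
    calc z ^ k * t = (t * z ^ k * t) * t := by nth_rw 1 [← this]
      _ = t * z ^ k * (t * t) := by group
      _ = t * z ^ k := by rw [htt, mul_one]
  -- the matrix of an element of the centraliser
  have hact : ∀ c : C, ∀ v, ∃ w, (c : X) * I v * (c : X)⁻¹ = I w := by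
    intro c v
    refine hinv_unique _ (hRn.conj_mem _ (hIR v) _) ?_
    have hc := hCmem.1 c.2
    have hct : t * (c : X) = (c : X) * t := hc.symm
    have hct' : (c : X)⁻¹ * t = t * (c : X)⁻¹ := by
      rw [inv_mul_eq_iff_eq_mul, ← mul_assoc, hc, mul_assoc, mul_inv_cancel, mul_one]
    calc t * ((c : X) * I v * (c : X)⁻¹) * t = (t * c) * I v * ((c : X)⁻¹ * t) := by group
      _ = (c : X) * (t * I v * t) * (c : X)⁻¹ := by rw [hct, hct']; group
      _ = ((c : X) * I v * (c : X)⁻¹)⁻¹ := by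
        rw [show t * I v * t = (I v)⁻¹ by rw [hIneg, ← hτI]]; group
  choose f hf using hact
  have hIeq : ∀ v w, I v = I w → v = w := fun v w h => (hIinj v w 0 0 (by rw [h])).1
  have hzconj : ∀ c : C, ∃ k : ZMod 3, (c : X) * z * (c : X)⁻¹ = z ^ k.val := fun c =>
    generator_of_card_three hZcard hzZ hz1 (hZn.conj_mem z hzZ c)
  choose κ hκ using hzconj
  have hκpow : ∀ (c : C) (s : ZMod 3), (c : X) * z ^ s.val * (c : X)⁻¹ = z ^ (κ c * s).val := fun c s => by
    rw [← conj_pow, hκ, ← pow_mul, pn hz3, Nat.cast_mul, ZMod.natCast_zmod_val, ZMod.natCast_zmod_val]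
  have hflin : ∀ (c : C) v w, f c (v + w) = f c v + f c w ∧ det2 (f c v) (f c w) = κ c * det2 v w := by
    intro c v w
    have h : (c : X) * (I v * I w) * (c : X)⁻¹ = I (f c v) * I (f c w) := by
      rw [← hf, ← hf]; group
    rw [hII, hII, show (c : X) * (I (v + w) * z ^ (det2 v w).val) * (c : X)⁻¹ =
      ((c : X) * I (v + w) * (c : X)⁻¹) * ((c : X) * z ^ (det2 v w).val * (c : X)⁻¹) by group, hf, hκpow] at h
    obtain ⟨h1, h2⟩ := hIinj _ _ _ _ h
    exact ⟨h1, h2.symm⟩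
  let M : C → Matrix (Fin 2) (Fin 2) (ZMod 3) := fun c =>
    !![f c ![1, 0] 0, f c ![0, 1] 0; f c ![1, 0] 1, f c ![0, 1] 1]
  have hfM : ∀ c v, f c v = M c *ᵥ v := by
    intro c v
    let F₁ : V2 →+ V2 := AddMonoidHom.mk' (f c) fun v w => (hflin c v w).1
    have hv : v = (v 0).val • ![1, 0] + (v 1).val • ![0, 1] := by
      ext i; fin_cases i <;> simp [nsmul_eq_mul, ZMod.natCast_zmod_val]
    have h : f c v = (v 0).val • f c ![1, 0] + (v 1).val • f c ![0, 1] := by
      conv_lhs => rw [hv]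
      show F₁ _ = _
      rw [map_add, map_nsmul, map_nsmul]
      rfl
    rw [h]
    ext i
    simp only [Pi.add_apply, Pi.smul_apply, smul_eq_mul, nsmul_eq_mul, Pi.natCast_apply, Pi.mul_apply, ZMod.natCast_zmod_val]
    fin_cases i <;> simp [M, Matrix.mulVec, dotProduct, Fin.sum_univ_two, mul_comm]
  have hMmul : ∀ c d, M (c * d) = M c * M d := by
    intro c d
    refine Matrix.ext_iff_mulVec.2 fun v => hIeq _ _ ?_
    rw [← hfM, ← Matrix.mulVec_mulVec, ← hfM, ← hfM, ← hf (c * d), ← hf c, ← hf d, Subgroup.coe_mul]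
    group
  have hM1 : M 1 = 1 := by
    refine Matrix.ext_iff_mulVec.2 fun v => hIeq _ _ ?_
    rw [← hfM, Matrix.one_mulVec, ← hf 1]; simp
  let Mh : C →* Matrix (Fin 2) (Fin 2) (ZMod 3) := { toFun := M, map_one' := hM1, map_mul' := hMmul }
  have hdetκ : ∀ c, (M c).det = κ c := fun c => by
    have := (hflin c ![1, 0] ![0, 1]).2
    simp [det2] at this
    simp [M, Matrix.det_fin_two]
    linear_combination this
  let detu : C →* (ZMod 3)ˣ := (Matrix.detMonoidHom.comp Mh).toHomUnits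
  have hker : ∀ c : C, M c = 1 → ∃ s : ZMod 3, (c : X) = z ^ s.val := by
    intro c h
    have hzfix : (c : X) * z * (c : X)⁻¹ = z := by
      have h1 : κ c = 1 := by rw [← hdetκ, h, Matrix.det_one]
      rw [hκ, h1, ZMod.val_one, pow_one]
    have hcR : (c : X) ∈ R := hD c fun r hr => by
      obtain ⟨v, s, rfl⟩ := hcoord r hr
      have h1 : (c : X) * I v * (c : X)⁻¹ = I v := by rw [hf, hfM, h, Matrix.one_mulVec]
      have h2 : Commute (c : X) (I v) := mul_inv_eq_iff_eq_mul.1 h1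
      have h3 : Commute (c : X) z := mul_inv_eq_iff_eq_mul.1 hzfix
      exact (h2.mul_right (h3.pow_right _)).eq
    obtain ⟨v, s, hvs⟩ := hcoord _ hcR
    have hv0 := hCI v s (hvs ▸ c.2)
    exact ⟨s, by rw [hvs, hv0, hI0, one_mul]⟩
  have hπC : ∀ g : SL3, ∃ c : C, π c = g := fun g => by
    obtain ⟨x, rfl⟩ := hπsurj g
    obtain ⟨v, c, hc, rfl⟩ := hCR x
    exact ⟨⟨c, hc⟩, by rw [map_mul, (hπker _).2 (hIR v), one_mul]⟩
  have hzpowM : ∀ (s : ZMod 3), M ⟨z ^ s.val, hzC _⟩ = 1 := by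
    intro s
    refine Matrix.ext_iff_mulVec.2 fun v => hIeq _ _ ?_
    rw [← hfM, Matrix.one_mulVec, ← hf]
    show z ^ s.val * I v * (z ^ s.val)⁻¹ = I v
    rw [(hzI v s).eq, mul_inv_cancel_right]
  have hπCker : ∀ c : C, π c = 1 → ∃ s : ZMod 3, (c : X) = z ^ s.val := fun c h => by
    obtain ⟨v, s, hvs⟩ := hcoord _ ((hπker _).1 h)
    exact ⟨s, by rw [hvs, hCI v s (hvs ▸ c.2), hI0, one_mul]⟩
  let πC : C →* SL3 := π.comp C.subtype
  have hπCsurj : Function.Surjective πC := hπC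
  have hdet1 : ∀ c, detu c = 1 := by
    have hle : πC.ker ≤ detu.ker := fun c hc => by
      obtain ⟨s, hs⟩ := hπCker c hc
      rw [MonoidHom.mem_ker]
      ext
      rw [show c = ⟨z ^ s.val, hzC _⟩ from Subtype.ext hs]
      simp [detu, Mh, hzpowM]
    intro c
    have := hom_sl3_eq_one units_sq
      (MonoidHom.liftOfSurjective πC hπCsurj ⟨detu, hle⟩) (πC c)
    rwa [MonoidHom.liftOfRightInverse_comp_apply] at this
  let ρ : C →* SL3 :=
    { toFun := fun c => ⟨M c, by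
        have := congrArg Units.val (hdet1 c)
        simpa [detu, Mh] using this⟩
      map_one' := Subtype.ext hM1
      map_mul' := fun c d => Subtype.ext (hMmul c d) }
  have hκ1 : ∀ c, κ c = 1 := fun c => by rw [← hdetκ]; exact (ρ c).2
  have hρker : ∀ c : C, ρ c = 1 ↔ ∃ s : ZMod 3, (c : X) = z ^ s.val := fun c =>
    ⟨fun h => hker c (congrArg Subtype.val h), fun ⟨s, hs⟩ => Subtype.ext (by
      show M c = 1
      rw [show c = ⟨z ^ s.val, hzC _⟩ from Subtype.ext hs, hzpowM])⟩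
  have hzcen : ∀ (c : C) (s : ZMod 3), Commute (c : X) (z ^ s.val) := fun c s => by
    have := hκpow c s
    rw [hκ1, one_mul, mul_inv_eq_iff_eq_mul] at this
    exact this
  -- order of the centraliser
  let ZC : Subgroup C := ρ.ker
  have hZCcard : Nat.card ZC = 3 := by
    let φ : ZMod 3 → ZC := fun s => ⟨⟨z ^ s.val, hzC _⟩, (hρker _).2 ⟨s, rfl⟩⟩
    have hφ : Function.Bijective φ := ⟨fun s r h => hzinj _ _ (congrArg (fun x : ZC => ((x : C) : X)) h),
      fun x => by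
        obtain ⟨s, hs⟩ := (hρker _).1 x.2
        exact ⟨s, Subtype.ext (Subtype.ext hs.symm)⟩⟩
    rw [← Nat.card_congr (Equiv.ofBijective φ hφ), Nat.card_zmod]
  have hkerC : ∀ c : C, πC c = 1 ↔ ρ c = 1 := fun c => by
    rw [hρker]
    refine ⟨hπCker c, fun ⟨s, hs⟩ => ?_⟩
    show π c = 1
    rw [hs]
    exact (hπker _).2 (pow_mem (hZR hzZ) _)
  have hCcard : Nat.card C = 72 := by
    have hk : πC.ker = ρ.ker := Subgroup.ext fun c => hkerC c
    rw [Subgroup.card_eq_card_quotient_mul_card_subgroup πC.ker,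
      Nat.card_congr (QuotientGroup.quotientKerEquivOfSurjective πC hπCsurj).toEquiv, card_sl3, hk]
    exact congrArg _ hZCcard
  have hρsurj : Function.Surjective ρ := by
    rw [← MonoidHom.range_eq_top]
    refine Subgroup.eq_top_of_card_eq _ ?_
    have h := Subgroup.card_eq_card_quotient_mul_card_subgroup ρ.ker
    rw [Nat.card_congr (QuotientGroup.quotientKerEquivRange ρ).toEquiv, hCcard] at h
    rw [card_sl3]
    rw [show Nat.card ρ.ker = 3 from hZCcard] at h
    omega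
  -- an element of order three over a transvection
  obtain ⟨E, hEc, hE3, hEcard⟩ := hE
  obtain ⟨c, hc3, hcρ⟩ : ∃ c : C, c ^ 3 = 1 ∧ ρ c ≠ 1 := by
    have hER : ¬ E ≤ R := fun h => by
      have heq := Subgroup.eq_of_le_of_card_ge h (by omega)
      subst heq
      exact hab (congrArg Subtype.val (hEc.is_comm.comm ⟨a, haR⟩ ⟨b, hbR⟩))
    obtain ⟨u, huE, huR⟩ := SetLike.not_le_iff_exists.1 hER
    obtain ⟨v, c₀, hc₀, hu⟩ := hCR u
    -- a non-central element of `E ∩ R`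
    obtain ⟨w, s, hwE, hw0⟩ : ∃ w, ∃ s : ZMod 3, I w * z ^ s.val ∈ E ∧ w ≠ 0 := by
      by_contra! hnone
      have hle : E ⊓ R ≤ Z := fun r hr => by
        obtain ⟨w, s, rfl⟩ := hcoord r hr.2
        rw [hnone w s hr.1, hI0, one_mul]
        exact pow_mem hzZ _
      let φ : E →* SL3 := π.comp E.subtype
      have h1 : Nat.card φ.ker ∣ 3 := by
        refine dvd_trans ?_ (dvd_of_eq hZcard)
        have e1 : φ.ker.map E.subtype ≤ Z := by
          rintro _ ⟨x, hx, rfl⟩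
          exact hle ⟨x.2, (hπker _).1 hx⟩
        rw [← Subgroup.card_map_of_injective E.subtype_injective]
        exact Subgroup.card_dvd_of_le e1
      have h2 : Nat.card φ.range ∣ 24 := card_sl3 ▸ Subgroup.card_subgroup_dvd_card _
      have h3 := Subgroup.card_eq_card_quotient_mul_card_subgroup φ.ker
      rw [Nat.card_congr (QuotientGroup.quotientKerEquivRange φ).toEquiv, hEcard] at h3
      have h4 : 27 ∣ 24 * 3 := h3 ▸ mul_dvd_mul h2 h1
      norm_num at h4
    refine ⟨⟨c₀, hc₀⟩, ?_, ?_⟩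
    · have hcm' : Commute (I v * c₀) (I w * z ^ s.val) := by
        have := congrArg Subtype.val (hEc.is_comm.comm ⟨u, huE⟩ ⟨_, hwE⟩)
        simp only [Subgroup.coe_mul] at this
        rw [← hu]
        exact this
      have hcz : Commute (I v * c₀) (z ^ s.val) := Commute.mul_left (hzI v s).symm (hzcen ⟨c₀, hc₀⟩ s)
      have hcw : Commute (I v * c₀) (I w) := by
        have := hcm'.mul_right hcz.inv_right
        rwa [mul_inv_cancel_right] at this
      set g := M ⟨c₀, hc₀⟩ with hg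
      have hconj : c₀ * I w = I (g *ᵥ w) * c₀ := by
        rw [hg, ← hfM, ← hf ⟨c₀, hc₀⟩ w]; group
      have heq : I v * I (g *ᵥ w) = I w * I v := by
        apply mul_right_cancel (b := c₀)
        calc I v * I (g *ᵥ w) * c₀ = I v * c₀ * I w := by rw [mul_assoc, ← hconj, ← mul_assoc]
          _ = I w * (I v * c₀) := hcw
          _ = I w * I v * c₀ := by group
      rw [hII, hII] at heq
      obtain ⟨e1, e2⟩ := hIinj _ _ _ _ heq
      rw [add_comm w v, add_right_inj] at e1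
      rw [e1] at e2
      have hvw : det2 v w = 0 := by
        have h2 : (2 : ZMod 3) * det2 v w = 0 := by
          simp only [det2] at e2 ⊢
          linear_combination e2
        exact (mul_eq_zero.1 h2).resolve_left two_ne
      obtain ⟨l, hl⟩ : ∃ l : ZMod 3, v = l • w :=
        exists_smul_of_det2 v w hw0 hvw
      have hgv : g *ᵥ v = v := by rw [hl, Matrix.mulVec_smul, e1]
      have hcv : Commute c₀ (I v) := by
        have h := hf ⟨c₀, hc₀⟩ v
        rw [hfM, ← hg, hgv, mul_inv_eq_iff_eq_mul] at h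
        exact h
      have h3 : (I v * c₀) ^ 3 = 1 := hu ▸ hE3 u huE
      rw [hcv.symm.mul_pow, hRe _ (hIR v), one_mul] at h3
      exact Subtype.ext h3
    · intro h
      exact huR (by rw [hu]; exact mul_mem (hIR v) ((hπker _).1 ((hkerC _).2 h)))
  -- the complement
  let S : Subgroup C :=
    { carrier := {x | ∃ (s : ZMod 3) (i : ℕ), (x : X) = z ^ s.val * (c : X) ^ i}
      one_mem' := ⟨0, 0, by simp⟩
      mul_mem' := by
        rintro x y ⟨s, i, hx⟩ ⟨r, j, hy⟩
        refine ⟨s + r, i + j, ?_⟩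
        rw [Subgroup.coe_mul, hx, hy, pv hz3, pow_add]
        rw [show z ^ s.val * (c : X) ^ i * (z ^ r.val * (c : X) ^ j) =
          z ^ s.val * ((c : X) ^ i * z ^ r.val) * (c : X) ^ j by group, ((hzcen c r).pow_left i).eq]
        group
      inv_mem' := by
        rintro x ⟨s, i, hx⟩
        refine ⟨-s, 2 * i, ?_⟩
        rw [Subgroup.coe_inv, hx]
        refine inv_eq_of_mul_eq_one_right ?_
        rw [show z ^ s.val * (c : X) ^ i * (z ^ (-s).val * (c : X) ^ (2 * i)) =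
          z ^ s.val * ((c : X) ^ i * z ^ (-s).val) * (c : X) ^ (2 * i) by group, ((hzcen c (-s)).pow_left i).eq,
          ← mul_assoc, ← pv hz3, add_neg_cancel, ZMod.val_zero, pow_zero, one_mul, ← pow_add]
        rw [show i + 2 * i = 3 * i by ring, pow_mul]
        have := congrArg Subtype.val hc3
        simp only [Subgroup.coe_pow, Subgroup.coe_one] at this
        rw [this, one_pow] }
  have hc3X : (c : X) ^ 3 = 1 := by simpa using congrArg Subtype.val hc3
  have huniq : ∀ (s r : ZMod 3) (i j : ℕ), z ^ s.val * (c : X) ^ i = z ^ r.val * (c : X) ^ j →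
      s = r ∧ i % 3 = j % 3 := by
    intro s r i j h
    have h' : (⟨z ^ s.val, hzC _⟩ : C) * c ^ i = ⟨z ^ r.val, hzC _⟩ * c ^ j := Subtype.ext (by simpa using h)
    have hρ' := congrArg ρ h'
    rw [map_mul, map_mul, (hρker ⟨z ^ s.val, hzC _⟩).2 ⟨s, rfl⟩, (hρker ⟨z ^ r.val, hzC _⟩).2 ⟨r, rfl⟩, one_mul,
      one_mul, map_pow, map_pow,
      pow_eq_pow_iff_modEq] at hρ'
    have ho : orderOf (ρ c) = 3 := orderOf_eq_prime (by rw [← map_pow, hc3, map_one]) hcρ
    rw [ho] at hρ'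
    refine ⟨hzinj _ _ ?_, hρ'⟩
    rw [pow_eq_pow_mod i hc3X, pow_eq_pow_mod j hc3X, hρ'] at h
    exact mul_right_cancel h
  have hSrep : ∀ x : S, ∃ s : ZMod 3, ∃ i : ℕ, (((x : C) : X)) = z ^ s.val * (c : X) ^ i := fun x => x.2
  choose σ ι hσι using hSrep
  let r₀ : S →* Multiplicative (ZMod 3) :=
    { toFun := fun x => Multiplicative.ofAdd (σ x)
      map_one' := by
        have h := hσι 1
        have := (huniq (σ 1) 0 (ι 1) 0 (by rw [← h]; simp)).1
        rw [this]; rfl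
      map_mul' := fun x y => by
        obtain ⟨k, hk⟩ : ∃ k : ℕ, ((((x * y : S) : C) : X)) = z ^ (σ x + σ y).val * (c : X) ^ k := ⟨ι x + ι y, by
          rw [Subgroup.coe_mul, Subgroup.coe_mul, hσι x, hσι y, pv hz3, pow_add]
          rw [show z ^ (σ x).val * (c : X) ^ ι x * (z ^ (σ y).val * (c : X) ^ ι y) =
            z ^ (σ x).val * ((c : X) ^ ι x * z ^ (σ y).val) * (c : X) ^ ι y by group,
            ((hzcen c (σ y)).pow_left _).eq]
          group⟩
        have := (huniq _ _ _ _ ((hσι (x * y)).symm.trans hk)).1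
        show Multiplicative.ofAdd _ = Multiplicative.ofAdd _ * Multiplicative.ofAdd _
        rw [this]; rfl }
  have hidx : S.index = 8 := by
    let ψ : ZMod 3 × ZMod 3 → S := fun p => ⟨⟨z ^ p.1.val * (c : X) ^ p.2.val,
      mul_mem (hzC _) (pow_mem c.2 _)⟩, p.1, p.2.val, rfl⟩
    have hψ : Function.Bijective ψ := by
      refine ⟨fun p q h => ?_, fun x => ?_⟩
      · obtain ⟨h1, h2⟩ := huniq _ _ _ _ (congrArg (fun y : S => ((y : C) : X)) h)
        rw [Nat.mod_eq_of_lt (ZMod.val_lt _), Nat.mod_eq_of_lt (ZMod.val_lt _)] at h2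
        exact Prod.ext h1 (ZMod.val_injective _ h2)
      · refine ⟨(σ x, (ι x : ZMod 3)), Subtype.ext (Subtype.ext ?_)⟩
        show z ^ (σ x).val * (c : X) ^ (ι x : ZMod 3).val = _
        rw [← pn hc3X]
        exact (hσι x).symm
    have hS9 : Nat.card S = 9 := by
      rw [← Nat.card_congr (Equiv.ofBijective ψ hψ), Nat.card_prod, Nat.card_zmod]
    have := Subgroup.card_mul_index S
    rw [hS9, hCcard] at this
    omega
  let T : C →* Multiplicative (ZMod 3) := MonoidHom.transfer r₀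
  have hTz : ∀ s : ZMod 3, T ⟨z ^ s.val, hzC _⟩ = Multiplicative.ofAdd (-s) := by
    intro s
    have key : ∀ (k : ℕ) (g₀ : C), g₀⁻¹ * (⟨z ^ s.val, hzC _⟩ : C) ^ k * g₀ = (⟨z ^ s.val, hzC _⟩ : C) ^ k := by
      intro k g₀
      apply Subtype.ext
      simp only [Subgroup.coe_mul, Subgroup.coe_inv, Subgroup.coe_pow]
      rw [mul_assoc, ← ((hzcen g₀ s).pow_right k).eq]
      group
    show MonoidHom.transfer r₀ _ = _
    rw [MonoidHom.transfer_eq_pow r₀ _ fun k g₀ _ => key k g₀]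
    show Multiplicative.ofAdd (σ _) = _
    congr 1
    refine (huniq _ (-s) _ 0 ((hσι _).symm.trans ?_)).1
    simp only [Subgroup.coe_pow, pow_zero, mul_one, hidx]
    rw [← pow_mul, pn hz3, Nat.cast_mul, ZMod.natCast_zmod_val]
    congr 2
    have h9 : ((8 : ℕ) : ZMod 3) = -1 := eight_eq
    rw [h9]; ring
  let L : Subgroup C := T.ker
  have hLinj : Function.Injective (ρ.comp L.subtype) := by
    rw [injective_iff_map_eq_one]
    intro x hx
    obtain ⟨s, hs⟩ := (hρker _).1 hx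
    have h1 : T (x : C) = 1 := x.2
    rw [show (x : C) = ⟨z ^ s.val, hzC _⟩ from Subtype.ext hs, hTz] at h1
    have hs0 : s = 0 := neg_eq_zero.1 (Multiplicative.ofAdd.injective h1)
    have hs' : ((x : C) : X) = z ^ s.val := hs
    exact Subtype.ext (Subtype.ext (by rw [hs', hs0]; simp))
  have hLsurj : ∀ g : SL3, ∃ l : L, ρ (l : C) = g := by
    intro g
    obtain ⟨x, hx⟩ := hρsurj g
    refine ⟨⟨⟨z ^ (Multiplicative.toAdd (T x)).val, hzC _⟩ * x, ?_⟩, ?_⟩
    · show T _ = 1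
      rw [map_mul, hTz, ← ofAdd_toAdd (T x), ← ofAdd_add, toAdd_ofAdd, neg_add_cancel, ofAdd_zero]
    · rw [map_mul, (hρker _).2 ⟨_, rfl⟩, one_mul, hx]
  let eL : L ≃* SL3 := MulEquiv.ofBijective (ρ.comp L.subtype) ⟨hLinj, hLsurj⟩
  let lam : SL3 → X := fun g => (((eL.symm g : L) : C) : X)
  have hlamρ : ∀ g, ρ ((eL.symm g : L) : C) = g := fun g => eL.apply_symm_apply g
  have hlam : ∀ (g : SL3) w, lam g * I w = I (g.1 *ᵥ w) * lam g := by
    intro g w
    have h := hf ((eL.symm g : L) : C) w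
    rw [hfM, show M ((eL.symm g : L) : C) = g.1 from congrArg Subtype.val (hlamρ g)] at h
    rw [← h]
    show _ = lam g * I w * (lam g)⁻¹ * lam g
    group
  refine ⟨fun p => I p.1 * z ^ p.2.1.val * lam p.2.2, ?_, ?_⟩
  · rw [Nat.bijective_iff_injective_and_card]
    refine ⟨?_, ?_⟩
    · rintro ⟨v, s, g⟩ ⟨w, r, h⟩ heq
      simp only at heq
      set x := (eL.symm g : L)
      set y := (eL.symm h : L)
      have hd : (I w * z ^ r.val)⁻¹ * (I v * z ^ s.val) = (((y : C) * (x : C)⁻¹ : C) : X) := by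
        show _ = lam h * (lam g)⁻¹
        rw [inv_mul_eq_iff_eq_mul, ← mul_assoc, eq_mul_inv_iff_mul_eq]
        exact heq
      have hmem : (I w * z ^ r.val)⁻¹ * (I v * z ^ s.val) ∈ R :=
        mul_mem (inv_mem (mul_mem (hIR _) (pow_mem (hZR hzZ) _))) (mul_mem (hIR _) (pow_mem (hZR hzZ) _))
      rw [hd] at hmem
      have h1 : ρ ((y : C) * (x : C)⁻¹) = 1 := (hkerC _).1 ((hπker _).2 hmem)
      rw [map_mul, map_inv, hlamρ, hlamρ, mul_inv_eq_one] at h1
      subst h1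
      obtain ⟨hv, hs⟩ := hIinj _ _ _ _ (mul_right_cancel heq)
      rw [hv, hs]
    · rw [Nat.card_prod, Nat.card_prod, hXc, Nat.card_fun, Nat.card_zmod, card_sl3, Nat.card_eq_fintype_card,
        Fintype.card_fin]
      rfl
  · intro v w s r g h
    simp only
    have hl : lam (g * h) = lam g * lam h := by simp [lam]
    have hlz : Commute (lam g) (z ^ r.val) := hzcen _ r
    rw [hl, pv hz3, pv hz3]
    calc I v * z ^ s.val * lam g * (I w * z ^ r.val * lam h)
        = I v * z ^ s.val * (lam g * I w) * (z ^ r.val * lam h) := by group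
      _ = I v * z ^ s.val * I (g.1 *ᵥ w) * (lam g * z ^ r.val) * lam h := by rw [hlam]; group
      _ = I v * (z ^ s.val * I (g.1 *ᵥ w)) * (z ^ r.val * lam g) * lam h := by rw [hlz.eq]; group
      _ = I v * I (g.1 *ᵥ w) * (z ^ s.val * z ^ r.val) * (lam g * lam h) := by rw [(hzI _ s).eq]; group
      _ = I (v + g.1 *ᵥ w) * (z ^ (det2 v (g.1 *ᵥ w)).val * (z ^ s.val * z ^ r.val)) * (lam g * lam h) := by
        rw [hII]; group
      _ = _ := by
        congr 2
        simp only [← pv hz3]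
        congr 2
        ring

end Structure

end Cfsg.Agent.Lib.Recog.HeisSL
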