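import Cfsg.Prelude.Def_Classical
import Cfsg.Agent.Lib.Recog.HeisSLStructure
import Cfsg.Agent.Lib.Classical.SympOrder

/-!
The centralizer of a transvection in `PSp(4,3)` in Heisenberg coordinates.
-/

set_option autoImplicit false

namespace Cfsg.Agent.Lib.Recog.HeisSL

open scoped Matrix

variable {F : Type*} [Field F]

/-- The matrix attached to Heisenberg coordinates, entries read in `F`. -/
def modelMat (v0 v1 s g00 g01 g10 g11 : F) : Matrix (Fin 2 ⊕ Fin 2) (Fin 2 ⊕ Fin 2) F :=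
  Matrix.fromBlocks !![1, v0 * g10 - v1 * g00; 0, g00] !![s, v0 * g11 - v1 * g01; v0, g01]
    !![0, 0; 0, g10] !![1, 0; v1, g11]

theorem modelMat_mem (v0 v1 s g00 g01 g10 g11 : F) (h : g00 * g11 - g01 * g10 = 1) :
    modelMat v0 v1 s g00 g01 g10 g11 ∈ Matrix.symplecticGroup (Fin 2) F := by
  rw [SymplecticGroup.mem_iff]
  ext (i | i) (j | j) <;> fin_cases i <;> fin_cases j <;>
    simp [modelMat, Matrix.J, Matrix.mul_apply, Matrix.fromBlocks_transpose, Fintype.sum_sum_type,
      Matrix.transpose_apply, Matrix.one_apply, Fin.sum_univ_two] <;>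
    first
      | ring1
      | linear_combination h
      | linear_combination -h
      | linear_combination v0 * h
      | linear_combination -v0 * h
      | linear_combination v1 * h
      | linear_combination -v1 * h

theorem modelMat_mul (v0 v1 s g00 g01 g10 g11 w0 w1 r h00 h01 h10 h11 : F) (hd : g00 * g11 - g01 * g10 = 1) :
    modelMat v0 v1 s g00 g01 g10 g11 * modelMat w0 w1 r h00 h01 h10 h11 =
      modelMat (v0 + (g00 * w0 + g01 * w1)) (v1 + (g10 * w0 + g11 * w1))
        (s + r + (v0 * (g10 * w0 + g11 * w1) - v1 * (g00 * w0 + g01 * w1)))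
        (g00 * h00 + g01 * h10) (g00 * h01 + g01 * h11) (g10 * h00 + g11 * h10) (g10 * h01 + g11 * h11) := by
  ext (i | i) (j | j) <;> fin_cases i <;> fin_cases j <;>
    simp [modelMat, Matrix.mul_apply, Fintype.sum_sum_type, Fin.sum_univ_two] <;>
    first
      | ring1
      | linear_combination (w0 * h10 - w1 * h00) * hd
      | linear_combination -(w0 * h10 - w1 * h00) * hd
      | linear_combination (w0 * h11 - w1 * h01) * hd
      | linear_combination -(w0 * h11 - w1 * h01) * hd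

/-- Scalars are the only central elements. -/
theorem center_scalar {A : Matrix.symplecticGroup (Fin 2) F}
    (hA : A ∈ Subgroup.center (Matrix.symplecticGroup (Fin 2) F)) :
    ∃ μ : F, μ * μ = 1 ∧ (A : Matrix (Fin 2 ⊕ Fin 2) (Fin 2 ⊕ Fin 2) F) = μ • 1 := by
  obtain ⟨M, hM⟩ := A
  obtain ⟨P, Q, R, T, rfl⟩ : ∃ P Q R T, M = Matrix.fromBlocks P Q R T :=
    ⟨_, _, _, _, (Matrix.fromBlocks_toBlocks M).symm⟩
  have hU : ∀ S : Matrix (Fin 2) (Fin 2) F, Sᵀ = S →
      Matrix.fromBlocks (1 : Matrix (Fin 2) (Fin 2) F) S 0 1 ∈ Matrix.symplecticGroup (Fin 2) F := fun S hS => by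
    rw [SymplecticGroup.mem_iff]
    simp [Matrix.J, Matrix.fromBlocks_transpose, Matrix.fromBlocks_multiply, hS]
  have key : ∀ S : Matrix (Fin 2) (Fin 2) F, Sᵀ = S → R * S = 0 ∧ P * S + Q = Q + S * T := fun S hS => by
    have h := congrArg Subtype.val (Subgroup.mem_center_iff.1 hA ⟨_, hU S hS⟩)
    simp [Matrix.fromBlocks_multiply] at h
    obtain ⟨-, h2, h4⟩ := h
    exact ⟨h4, h2.symm⟩
  have hR : R = 0 := by simpa using (key 1 (by simp)).1
  have hJ := congrArg Subtype.val (Subgroup.mem_center_iff.1 hA ⟨_, SymplecticGroup.J_mem (Fin 2) F⟩)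
  simp [Matrix.J, Matrix.fromBlocks_multiply] at hJ
  have hQ : Q = 0 := by
    obtain ⟨h1, h2, h3, h4⟩ := hJ
    first
      | simpa [hR] using h1
      | simpa [hR] using h1.symm
      | simpa [hR] using h4
      | simpa [hR] using h4.symm
  have hPT : P = T := by
    have := (key 1 (by simp)).2
    simpa [hQ] using this
  have c1 := (key !![1, 0; 0, 0] (by ext i j; fin_cases i <;> fin_cases j <;> simp)).2
  have c2 := (key !![0, 1; 1, 0] (by ext i j; fin_cases i <;> fin_cases j <;> simp)).2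
  rw [hQ, ← hPT, add_zero, zero_add] at c1 c2
  have e01 : P 0 1 = 0 := by
    have := congrFun (congrFun c1 0) 1
    simp [Matrix.mul_apply, Fin.sum_univ_two] at this
    first | exact this | exact this.symm
  have e10 : P 1 0 = 0 := by
    have := congrFun (congrFun c1 1) 0
    simp [Matrix.mul_apply, Fin.sum_univ_two] at this
    first | exact this | exact this.symm
  have e11 : P 1 1 = P 0 0 := by
    have := congrFun (congrFun c2 0) 1
    simp [Matrix.mul_apply, Fin.sum_univ_two] at this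
    first | exact this | exact this.symm
  have hPs : P = P 0 0 • 1 := by
    ext i j
    fin_cases i <;> fin_cases j <;> simp [e01, e10, e11]
  refine ⟨P 0 0, ?_, ?_⟩
  · have h := SymplecticGroup.mem_iff.1 hM
    rw [hQ, hR, ← hPT] at h
    simp [Matrix.J, Matrix.fromBlocks_transpose, Matrix.fromBlocks_multiply] at h
    rw [hPs] at h
    have h3 := congrFun (congrFun h 0) 0
    simp [Matrix.mul_apply, Fin.sum_univ_two] at h3
    exact h3
  · show Matrix.fromBlocks P Q R T = _
    rw [hQ, hR, ← hPT]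
    ext (i | i) (j | j) <;> fin_cases i <;> fin_cases j <;> simp [e01, e10, e11, Matrix.one_apply]

/-- The symplectic element attached to coordinates over `ZMod 3`. -/
def modelSp (φ : ZMod 3 →+* F) (p : V2 × ZMod 3 × SL3) : Matrix.symplecticGroup (Fin 2) F :=
  ⟨modelMat (φ (p.1 0)) (φ (p.1 1)) (φ p.2.1) (φ (p.2.2.1 0 0)) (φ (p.2.2.1 0 1)) (φ (p.2.2.1 1 0))
    (φ (p.2.2.1 1 1)), modelMat_mem _ _ _ _ _ _ _ (by
      rw [← map_mul, ← map_mul, ← map_sub, ← Matrix.det_fin_two, p.2.2.2, map_one])⟩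

theorem modelSp_mul (φ : ZMod 3 →+* F) (v w : V2) (s r : ZMod 3) (g h : SL3) :
    modelSp φ (v, s, g) * modelSp φ (w, r, h) =
      modelSp φ (v + g.1 *ᵥ w, s + r + det2 v (g.1 *ᵥ w), g * h) := by
  refine Subtype.ext ((modelMat_mul _ _ _ _ _ _ _ _ _ _ _ _ _ _ (by
    rw [← map_mul, ← map_mul, ← map_sub, ← Matrix.det_fin_two, g.2, map_one])).trans ?_)
  simp [modelSp, det2, Matrix.mulVec, dotProduct, Fin.sum_univ_two, Matrix.mul_apply]

theorem modelSp_one (φ : ZMod 3 →+* F) : modelSp φ (0, 0, 1) = 1 := by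
  refine Subtype.ext ?_
  ext (i | i) (j | j) <;> fin_cases i <;> fin_cases j <;> simp [modelSp, modelMat, Matrix.one_apply]

theorem modelSp_eq_scalar (φ : ZMod 3 →+* F) {p : V2 × ZMod 3 × SL3} {μ : F}
    (h : (modelSp φ p : Matrix (Fin 2 ⊕ Fin 2) (Fin 2 ⊕ Fin 2) F) = μ • 1) : p = (0, 0, 1) := by
  have hφ := φ.injective
  have e := fun i j => congrFun (congrFun h i) j
  have hμ : μ = 1 := by
    have := e (Sum.inl 0) (Sum.inl 0)
    simpa [modelSp, modelMat] using this.symm
  subst hμ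
  have h0 : φ (p.1 0) = 0 := by simpa [modelSp, modelMat] using e (Sum.inl 1) (Sum.inr 0)
  have h1 : φ (p.1 1) = 0 := by simpa [modelSp, modelMat] using e (Sum.inr 1) (Sum.inr 0)
  have hs : φ p.2.1 = 0 := by simpa [modelSp, modelMat] using e (Sum.inl 0) (Sum.inr 0)
  have g00 : φ (p.2.2.1 0 0) = 1 := by simpa [modelSp, modelMat] using e (Sum.inl 1) (Sum.inl 1)
  have g01 : φ (p.2.2.1 0 1) = 0 := by simpa [modelSp, modelMat] using e (Sum.inl 1) (Sum.inr 1)
  have g10 : φ (p.2.2.1 1 0) = 0 := by simpa [modelSp, modelMat] using e (Sum.inr 1) (Sum.inl 1)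
  have g11 : φ (p.2.2.1 1 1) = 1 := by simpa [modelSp, modelMat] using e (Sum.inr 1) (Sum.inr 1)
  rw [map_eq_zero_iff φ hφ] at h0 h1 hs g01 g10
  rw [← map_one φ] at g00 g11
  have g00' := hφ g00
  have g11' := hφ g11
  obtain ⟨v, s, g⟩ := p
  simp only at h0 h1 hs g00' g01 g10 g11'
  refine Prod.ext ?_ (Prod.ext hs (Subtype.ext ?_))
  · ext i; fin_cases i
    · exact h0
    · exact h1
  · show g.1 = (1 : SL3).1
    ext i j; fin_cases i <;> fin_cases j <;> simp [g00', g01, g10, g11']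

theorem modelSp_comm_transvection (φ : ZMod 3 →+* F) (p : V2 × ZMod 3 × SL3) :
    modelSp φ p * modelSp φ (0, 1, 1) = modelSp φ (0, 1, 1) * modelSp φ p := by
  obtain ⟨v, s, g⟩ := p
  rw [modelSp_mul, modelSp_mul]
  simp [det2, add_comm]

/-- Elements centralising the transvection are, up to sign, given by coordinates. -/
theorem exists_model_of_commute (φ : ZMod 3 →+* F) (hφ : Function.Surjective φ)
    (A : Matrix.symplecticGroup (Fin 2) F) (hA : A * modelSp φ (0, 1, 1) = modelSp φ (0, 1, 1) * A) :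
    ∃ μ : F, μ * μ = 1 ∧ ∃ p, (A : Matrix (Fin 2 ⊕ Fin 2) (Fin 2 ⊕ Fin 2) F) =
      μ • (modelSp φ p : Matrix (Fin 2 ⊕ Fin 2) (Fin 2 ⊕ Fin 2) F) := by
  obtain ⟨M, hM⟩ := A
  have hc := congrArg Subtype.val hA
  have c := fun i j => congrFun (congrFun hc i) j
  have hJ := SymplecticGroup.mem_iff.1 hM
  have f := fun i j => congrFun (congrFun hJ i) j
  -- the zero entries
  have z1 : M (Sum.inl 1) (Sum.inl 0) = 0 := by
    simpa [modelSp, modelMat, Matrix.mul_apply, Fintype.sum_sum_type, Fin.sum_univ_two] using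
      c (Sum.inl 1) (Sum.inr 0)
  have z2 : M (Sum.inr 0) (Sum.inl 0) = 0 := by
    simpa [modelSp, modelMat, Matrix.mul_apply, Fintype.sum_sum_type, Fin.sum_univ_two] using
      c (Sum.inr 0) (Sum.inr 0)
  have z3 : M (Sum.inr 1) (Sum.inl 0) = 0 := by
    simpa [modelSp, modelMat, Matrix.mul_apply, Fintype.sum_sum_type, Fin.sum_univ_two] using
      c (Sum.inr 1) (Sum.inr 0)
  have z4 : M (Sum.inr 0) (Sum.inl 1) = 0 := by
    simpa [modelSp, modelMat, Matrix.mul_apply, Fintype.sum_sum_type, Fin.sum_univ_two] using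
      (c (Sum.inl 0) (Sum.inl 1)).symm
  have z5 : M (Sum.inr 0) (Sum.inr 1) = 0 := by
    simpa [modelSp, modelMat, Matrix.mul_apply, Fintype.sum_sum_type, Fin.sum_univ_two] using
      (c (Sum.inl 0) (Sum.inr 1)).symm
  have hq : M (Sum.inr 0) (Sum.inr 0) = M (Sum.inl 0) (Sum.inl 0) := by
    have := c (Sum.inl 0) (Sum.inr 0)
    simp [modelSp, modelMat, Matrix.mul_apply, Fintype.sum_sum_type, Fin.sum_univ_two] at this
    linear_combination -this
  set μ := M (Sum.inl 0) (Sum.inl 0) with hμdef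
  have hμ : μ * μ = 1 := by
    have := f (Sum.inl 0) (Sum.inr 0)
    simp [Matrix.J, Matrix.mul_apply, Fintype.sum_sum_type, Fin.sum_univ_two, Matrix.transpose_apply,
      Matrix.one_apply, z1, z2, z3, z4, z5, hq, ← hμdef] at this
    first | exact this | linear_combination this | linear_combination -this
  have hdet : M (Sum.inl 1) (Sum.inl 1) * M (Sum.inr 1) (Sum.inr 1) -
      M (Sum.inl 1) (Sum.inr 1) * M (Sum.inr 1) (Sum.inl 1) = 1 := by
    have := f (Sum.inl 1) (Sum.inr 1)
    simp [Matrix.J, Matrix.mul_apply, Fintype.sum_sum_type, Fin.sum_univ_two, Matrix.transpose_apply,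
      Matrix.one_apply, z1, z2, z3, z4, z5] at this
    first | exact this | linear_combination this | linear_combination -this
  have e1 := f (Sum.inl 0) (Sum.inl 1)
  have e2 := f (Sum.inl 0) (Sum.inr 1)
  simp [Matrix.J, Matrix.mul_apply, Fintype.sum_sum_type, Fin.sum_univ_two, Matrix.transpose_apply,
    Matrix.one_apply, z1, z2, z3, z4, z5, ← hμdef] at e1 e2
  obtain ⟨ψ, hψ⟩ := Classical.axiomOfChoice hφ
  let g : Matrix (Fin 2) (Fin 2) (ZMod 3) := !![ψ (μ * M (Sum.inl 1) (Sum.inl 1)), ψ (μ * M (Sum.inl 1) (Sum.inr 1));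
    ψ (μ * M (Sum.inr 1) (Sum.inl 1)), ψ (μ * M (Sum.inr 1) (Sum.inr 1))]
  have hg : g.det = 1 := φ.injective (by
    rw [Matrix.det_fin_two, map_sub, map_mul, map_mul, map_one]
    simp [g, hψ]
    linear_combination (M (Sum.inl 1) (Sum.inl 1) * M (Sum.inr 1) (Sum.inr 1) -
      M (Sum.inl 1) (Sum.inr 1) * M (Sum.inr 1) (Sum.inl 1)) * hμ + hdet)
  refine ⟨μ, hμ, (![ψ (μ * M (Sum.inl 1) (Sum.inr 0)), ψ (μ * M (Sum.inr 1) (Sum.inr 0))],
    ψ (μ * M (Sum.inl 0) (Sum.inr 0)), ⟨g, hg⟩), ?_⟩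
  have hmm : ∀ x : F, μ * (μ * x) = x := fun x => by rw [← mul_assoc, hμ, one_mul]
  show M = _
  ext (i | i) (j | j) <;> fin_cases i <;> fin_cases j <;>
    simp [modelSp, modelMat, g, hψ, hmm, z1, z2, z3, z4, z5, hq, ← hμdef]
  all_goals first
    | linear_combination M (Sum.inr 1) (Sum.inl 1) * e1 - M (Sum.inl 1) (Sum.inl 1) * e2 - M (Sum.inl 0) (Sum.inl 1) * hdet - μ * (M (Sum.inl 1) (Sum.inr 0) * M (Sum.inr 1) (Sum.inl 1) - M (Sum.inr 1) (Sum.inr 0) * M (Sum.inl 1) (Sum.inl 1)) * hμ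
    | linear_combination -(M (Sum.inr 1) (Sum.inl 1) * e1 - M (Sum.inl 1) (Sum.inl 1) * e2 - M (Sum.inl 0) (Sum.inl 1) * hdet - μ * (M (Sum.inl 1) (Sum.inr 0) * M (Sum.inr 1) (Sum.inl 1) - M (Sum.inr 1) (Sum.inr 0) * M (Sum.inl 1) (Sum.inl 1)) * hμ)
    | linear_combination M (Sum.inr 1) (Sum.inr 1) * e1 - M (Sum.inl 1) (Sum.inr 1) * e2 - M (Sum.inl 0) (Sum.inr 1) * hdet - μ * (M (Sum.inl 1) (Sum.inr 0) * M (Sum.inr 1) (Sum.inr 1) - M (Sum.inr 1) (Sum.inr 0) * M (Sum.inl 1) (Sum.inr 1)) * hμ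
    | linear_combination -(M (Sum.inr 1) (Sum.inr 1) * e1 - M (Sum.inl 1) (Sum.inr 1) * e2 - M (Sum.inl 0) (Sum.inr 1) * hdet - μ * (M (Sum.inl 1) (Sum.inr 0) * M (Sum.inr 1) (Sum.inr 1) - M (Sum.inr 1) (Sum.inr 0) * M (Sum.inl 1) (Sum.inr 1)) * hμ)

set_option maxHeartbeats 1000000 in
/-- The embedding of a coordinatised group as a transvection centralizer. -/
theorem exists_centralizer_iso {X : Type*} [Group X] (θ : V2 × ZMod 3 × SL3 → X) (hθ : Function.Bijective θ)
    (hmul : ∀ (v w : V2) (s r : ZMod 3) (g h : SL3),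
      θ (v, s, g) * θ (w, r, h) = θ (v + g.1 *ᵥ w, s + r + det2 v (g.1 *ᵥ w), g * h))
    [Fintype F] (hF : Fintype.card F = 3) :
    ∃ (c : Cfsg.PSp 2 F) (S : Sylow 3 (Cfsg.PSp 2 F)), orderOf c = 3 ∧ c ∈ (S : Subgroup (Cfsg.PSp 2 F)) ∧
      c ∈ Subgroup.centralizer ((S : Subgroup (Cfsg.PSp 2 F)) : Set (Cfsg.PSp 2 F)) ∧
      Nonempty (X ≃* Subgroup.centralizer ({c} : Set (Cfsg.PSp 2 F))) := by
  classical
  haveI : Fact (Nat.Prime 3) := ⟨Nat.prime_three⟩
  haveI : CharP F 3 := charP_of_card_eq_prime hF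
  let φ : ZMod 3 →+* F := ZMod.castHom (dvd_refl 3) F
  have hφ : Function.Surjective φ :=
    ((Fintype.bijective_iff_injective_and_card φ).2 ⟨φ.injective, by rw [ZMod.card, hF]⟩).2
  let Sp := Matrix.symplecticGroup (Fin 2) F
  let π : Sp →* Cfsg.PSp 2 F := QuotientGroup.mk' (Subgroup.center Sp)
  let e := Equiv.ofBijective θ hθ
  let Ψ : X →* Cfsg.PSp 2 F := MonoidHom.mk' (fun x => π (modelSp φ (e.symm x))) fun x y => by
    obtain ⟨⟨v, s, g⟩, rfl⟩ := e.surjective x
    obtain ⟨⟨w, r, h⟩, rfl⟩ := e.surjective y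
    rw [show e (v, s, g) * e (w, r, h) = e (v + g.1 *ᵥ w, s + r + det2 v (g.1 *ᵥ w), g * h) from hmul v w s r g h]
    simp only [Equiv.symm_apply_apply]
    rw [← map_mul, modelSp_mul]
  have hΨ : Function.Injective Ψ := by
    rw [injective_iff_map_eq_one]
    intro x hx
    obtain ⟨μ, -, hμ⟩ := center_scalar ((QuotientGroup.eq_one_iff _).1 hx)
    have h0 := modelSp_eq_scalar φ hμ
    have h1 : (1 : X) = e (0, 0, 1) := by
      have := hmul 0 0 0 0 1 1
      simp [det2] at this
      exact this.symm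
    rw [h1, ← h0, Equiv.apply_symm_apply]
  let T := modelSp φ (0, 1, 1)
  let c := π T
  have hc3 : orderOf c = 3 := by
    refine orderOf_eq_prime ?_ ?_
    · show π T ^ 3 = 1
      rw [← map_pow, pow_three, modelSp_mul, modelSp_mul]
      have h3 : (1 : ZMod 3) + (1 + 1) = 0 := by rfl
      simp [det2, h3, modelSp_one]
    · intro h
      obtain ⟨μ, -, hμ⟩ := center_scalar ((QuotientGroup.eq_one_iff _).1 h)
      have h0 := congrArg (fun p : V2 × ZMod 3 × SL3 => p.2.1) (modelSp_eq_scalar φ hμ)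
      exact one_ne_zero h0
  have hrange : Ψ.range = Subgroup.centralizer ({c} : Set (Cfsg.PSp 2 F)) := by
    refine le_antisymm ?_ fun y hy => ?_
    · rintro _ ⟨x, rfl⟩
      rw [Subgroup.mem_centralizer_iff]
      rintro _ rfl
      show π T * π _ = π _ * π T
      rw [← map_mul, ← map_mul, modelSp_comm_transvection]
    · obtain ⟨A, rfl⟩ := QuotientGroup.mk'_surjective (Subgroup.center Sp) y
      have hy' : π T * π A = π A * π T := Subgroup.mem_centralizer_iff.1 hy _ rfl
      rw [← map_mul, ← map_mul] at hy'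
      obtain ⟨μ, hμ, hζ⟩ := center_scalar (QuotientGroup.eq.1 hy')
      have hmat : (A.1 * T.1) = μ • (T.1 * A.1) := by
        have : (T * A) * ((T * A)⁻¹ * (A * T)) = A * T := by group
        have h2 := congrArg Subtype.val this
        rw [Submonoid.coe_mul, hζ, Matrix.mul_smul, mul_one] at h2
        exact h2.symm
      have hμ1 : μ = 1 := by
        have hsplit : (μ - 1) * (μ + 1) = 0 := by linear_combination hμ
        rcases mul_eq_zero.1 hsplit with h | h
        · exact sub_eq_zero.1 h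
        exfalso
        have hμ' : μ = -1 := eq_neg_of_add_eq_zero_left h
        subst hμ'
        have h3 : (2 : F) ≠ 0 := Ring.two_ne_zero (by rw [ringChar.eq F 3]; norm_num)
        -- `T` would be conjugate to minus itself, against unipotence
        have hN : (T.1 - 1) * (T.1 - 1) = 0 := by
          ext (i | i) (j | j) <;> fin_cases i <;> fin_cases j <;>
            simp [T, modelSp, modelMat, Matrix.mul_apply, Fintype.sum_sum_type, Fin.sum_univ_two, Matrix.one_apply]
        have hAinv : (A⁻¹ : Sp).1 * A.1 = 1 := congrArg Subtype.val (inv_mul_cancel A)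
        have hmat' : A.1 * T.1 = -(T.1 * A.1) := by rw [hmat, neg_smul, one_smul]
        have h4 : A.1 * ((T.1 - 1) * (T.1 - 1)) = (T.1 + 1) * (T.1 + 1) * A.1 := by
          have e1 : A.1 * (T.1 - 1) = -((T.1 + 1) * A.1) := by
            rw [mul_sub, hmat', mul_one, add_mul, one_mul]; abel
          rw [← mul_assoc, e1, neg_mul, mul_assoc, e1, mul_neg, neg_neg, mul_assoc]
        rw [hN, mul_zero] at h4
        have h5 := congrArg (fun Y => Y * (A⁻¹ : Sp).1) h4
        have hAinv' : A.1 * (A⁻¹ : Sp).1 = 1 := congrArg Subtype.val (mul_inv_cancel A)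
        simp only [zero_mul, mul_assoc, hAinv', mul_one] at h5
        have h6 := congrFun (congrFun h5 (Sum.inl 0)) (Sum.inl 0)
        simp [T, modelSp, modelMat, Matrix.mul_apply, Fintype.sum_sum_type, Fin.sum_univ_two,
          Matrix.one_apply] at h6
        exact h3 (by linear_combination h6)
      have hAT : A * T = T * A := Subtype.ext (by
        rw [hμ1, one_smul] at hmat
        exact hmat)
      obtain ⟨ν, hν, p, hp⟩ := exists_model_of_commute φ hφ A hAT
      refine ⟨e p, ?_⟩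
      show π (modelSp φ (e.symm (e p))) = π A
      rw [Equiv.symm_apply_apply]
      refine QuotientGroup.eq.2 ?_
      rw [Subgroup.mem_center_iff]
      have hval : ((modelSp φ p)⁻¹ * A : Sp).1 = ν • 1 := by
        rw [Submonoid.coe_mul, hp, Matrix.mul_smul, ← Submonoid.coe_mul, inv_mul_cancel, Submonoid.coe_one]
      intro Y
      refine Subtype.ext ?_
      show Y.1 * ((modelSp φ p)⁻¹ * A : Sp).1 = ((modelSp φ p)⁻¹ * A : Sp).1 * Y.1
      rw [hval]
      simp
  let ι : X ≃* Subgroup.centralizer ({c} : Set (Cfsg.PSp 2 F)) :=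
    (MonoidHom.ofInjective hΨ).trans (MulEquiv.subgroupCongr hrange)
  -- orders
  have hXc : Nat.card X = 648 := by
    rw [← Nat.card_congr e, Nat.card_prod, Nat.card_prod, Nat.card_fun, Nat.card_zmod, card_sl3]
    simp
  have hcenter : Nat.card (Subgroup.center Sp) = 2 := by
    rw [Nat.card_eq_two_iff]
    have hmem : (-1 : Matrix (Fin 2 ⊕ Fin 2) (Fin 2 ⊕ Fin 2) F) ∈ Matrix.symplecticGroup (Fin 2) F := by
      rw [SymplecticGroup.mem_iff]; simp
    have hm1 : (⟨-1, hmem⟩ : Sp) ∈ Subgroup.center Sp :=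
      Subgroup.mem_center_iff.2 fun Y => Subtype.ext (by simp)
    refine ⟨1, ⟨_, hm1⟩, fun h => ?_, ?_⟩
    · have := congrFun (congrFun (congrArg (fun y : Subgroup.center Sp => y.1.1) h) (Sum.inl 0)) (Sum.inl 0)
      simp at this
      have h2 : (2 : F) ≠ 0 := Ring.two_ne_zero (by rw [ringChar.eq F 3]; norm_num)
      exact h2 (by linear_combination this)
    · ext ⟨y, hy⟩
      simp only [Set.mem_insert_iff, Set.mem_singleton_iff, Set.mem_univ, iff_true]
      obtain ⟨μ, hμ, hyμ⟩ := center_scalar hy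
      have hsplit : (μ - 1) * (μ + 1) = 0 := by linear_combination hμ
      rcases mul_eq_zero.1 hsplit with h | h
      · left
        refine Subtype.ext (Subtype.ext ?_)
        rw [hyμ, sub_eq_zero.1 h, one_smul]; rfl
      · right
        refine Subtype.ext (Subtype.ext ?_)
        rw [hyμ, eq_neg_of_add_eq_zero_left h, neg_smul, one_smul]
  have hPc : Nat.card (Cfsg.PSp 2 F) = 25920 := by
    have h := Subgroup.card_eq_card_quotient_mul_card_subgroup (Subgroup.center Sp)
    rw [hcenter, show Nat.card Sp = _ from Cfsg.Agent.Lib.Classical.card_symplecticGroup (F := F) 2, hF] at h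
    norm_num [Finset.prod_range_succ] at h
    show Nat.card (Sp ⧸ Subgroup.center Sp) = 25920
    rw [Nat.card_eq_fintype_card]
    omega
  set C := Subgroup.centralizer ({c} : Set (Cfsg.PSp 2 F))
  have hCc : Nat.card C = 648 := by rw [← Nat.card_congr ι.toEquiv, hXc]
  have hcC : c ∈ C := Subgroup.mem_centralizer_iff.2 (by rintro _ rfl; rfl)
  have hz : IsPGroup 3 (Subgroup.zpowers (⟨c, hcC⟩ : C)) := by
    refine IsPGroup.of_card (n := 1) ?_
    rw [Nat.card_zpowers, Subgroup.orderOf_mk, hc3, pow_one]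
  obtain ⟨P, hP⟩ := hz.exists_le_sylow
  obtain ⟨S, hS⟩ := (P.2.map C.subtype).exists_le_sylow
  have hcardP : Nat.card (P : Subgroup C) = 81 := by
    rw [Sylow.card_eq_multiplicity, hCc]
    rw [show (648 : ℕ) = 2 ^ 3 * 3 ^ 4 by norm_num, Nat.factorization_mul (by norm_num) (by norm_num),
      Nat.factorization_pow, Nat.factorization_pow, Nat.prime_two.factorization, Nat.prime_three.factorization]
    norm_num
  have hcardS : Nat.card (S : Subgroup (Cfsg.PSp 2 F)) = 81 := by
    rw [Sylow.card_eq_multiplicity, hPc]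
    rw [show (25920 : ℕ) = 2 ^ 6 * 3 ^ 4 * 5 by norm_num, Nat.factorization_mul (by norm_num) (by norm_num),
      Nat.factorization_mul (by norm_num) (by norm_num), Nat.factorization_pow, Nat.factorization_pow,
      Nat.prime_two.factorization, Nat.prime_three.factorization, (by norm_num : Nat.Prime 5).factorization]
    norm_num
  have hSeq : (P : Subgroup C).map C.subtype = S := by
    refine Subgroup.eq_of_le_of_card_ge hS ?_
    rw [Subgroup.card_map_of_injective C.subtype_injective, hcardP, hcardS]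
  refine ⟨c, S, hc3, ?_, ?_, ⟨ι⟩⟩
  · rw [← hSeq]
    exact ⟨⟨c, hcC⟩, hP (Subgroup.mem_zpowers _), rfl⟩
  · rw [Subgroup.mem_centralizer_iff]
    intro y hy
    rw [SetLike.mem_coe, ← hSeq] at hy
    obtain ⟨y', -, rfl⟩ := hy
    exact (Subgroup.mem_centralizer_iff.1 y'.2 c rfl).symm

end Cfsg.Agent.Lib.Recog.HeisSL
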