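import Cfsg.Agent.Lib.Recog.OddOrthTori
import Cfsg.Agent.Lib.Recog.SympPrimeGraphFull
import Cfsg.Agent.Lib.Classical.OrthTorsionOmega

/-! Adjacency in the prime graph of `Ω(2n+1, q)`, `q` odd. -/

set_option autoImplicit false

namespace Cfsg.Agent.Lib.Recog.OddOrthPrimeGraph

open Polynomial QuadraticMap
open Cfsg.Agent.Lib.Classical.Quad Cfsg.Agent.Lib.Classical.QuadOmega Cfsg.Agent.Lib.Classical.OrthTorsion
open Cfsg.Agent.Lib.Recog.SympPrimeGraph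

universe u

variable {F : Type u} [Field F] [Fintype F] (p : ℕ) [Fact p.Prime] [CharP F p] {n r : ℕ}

local notation "Ω" => Cfsg.POmega F (Cfsg.quadFormOdd n F)

theorem mem_of_odd (h2 : (2 : F) ≠ 0) (hn : 2 ≤ n) {L : ℕ} (hL : Odd L)
    (h : ∃ g : isoG (oddQ n F), L ∣ orderOf g) : L ∈ Set.range (orderOf : Ω → ℕ) := by
  obtain ⟨g, hg⟩ := exists_exact h
  refine (range_iff h2 hn L).2 ⟨g, ?_, hg⟩
  exact mem_commutator_of_pow (nd_oddQ h2 n) (reg_of_two_ne_zero h2) hL (hg ▸ pow_orderOf_eq_one g)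

theorem mem_of_four (h2 : (2 : F) ≠ 0) (hn : 2 ≤ n) {L : ℕ}
    (h : ∃ g : isoG (oddQ n F), 4 * L ∣ orderOf g) : 2 * L ∈ Set.range (orderOf : Ω → ℕ) := by
  obtain ⟨g, hg⟩ := exists_exact h
  refine (range_iff h2 hn _).2 ⟨g ^ 2, (mem_commutator_iff (nd_oddQ h2 n) h2 _).2 ?_, ?_⟩
  · simp [map_pow, Int.units_sq]
  · rw [orderOf_pow' g two_ne_zero, hg, show Nat.gcd (4 * L) 2 = 2 from Nat.gcd_eq_right ⟨2 * L, by ring⟩]
    omega

include p in
/-- Adjacency of two odd primes. -/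
theorem pair_iff' (hp2 : p ≠ 2) (hn : 2 ≤ n) {s : ℕ} (hr : r.Prime) (hs : s.Prime)
    (hr2 : r ≠ 2) (hs2 : s ≠ 2) (hrp : r ≠ p) (hsp : s ≠ p) (hrs : r ≠ s)
    {k l η θ : ℕ} (hk : k = orderOf ((Fintype.card F : ℕ) : ZMod r)) (hl : l = orderOf ((Fintype.card F : ℕ) : ZMod s))
    (hη : IsEta k η) (hθ : IsEta l θ) :
    r * s ∈ Set.range (orderOf : Ω → ℕ) ↔
      η + θ ≤ n ∨ ∃ e, 1 ≤ e ∧ e ≤ n ∧ (r * s ∣ Fintype.card F ^ e + 1 ∨ r * s ∣ Fintype.card F ^ e - 1) := by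
  have h2 : (2 : F) ≠ 0 := two_ne_zero' p hp2
  have hq1 : 1 ≤ Fintype.card F := Fintype.card_pos
  constructor
  · intro h
    obtain ⟨g, -, hg⟩ := (range_iff h2 hn _).1 h
    exact pair_nec p h2 g hr hs hr2 hs2 hrs (natCast_ne_zero p hr hrp) (natCast_ne_zero p hs hsp) hg hk hl hη hθ
  · intro h
    refine mem_of_odd h2 hn ((hr.odd_of_ne_two hr2).mul (hs.odd_of_ne_two hs2)) ?_
    rcases h with hsum | ⟨e, he1, hen, he⟩
    · obtain ⟨hη1, hr1⟩ := torus_dvd hq1 hr hk (hk ▸ ord_pos p hr hrp) hη odd_one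
      obtain ⟨hθ1, hs1⟩ := torus_dvd hq1 hs hl (hl ▸ ord_pos p hs hsp) hθ odd_one
      rw [mul_one] at hr1 hs1
      obtain ⟨g, hg⟩ := two_tori (F := F) p h2 hη1 hθ1 hsum
        (N := if Odd k then Fintype.card F ^ η - 1 else Fintype.card F ^ η + 1) (by split_ifs <;> simp)
        (M := if Odd l then Fintype.card F ^ θ - 1 else Fintype.card F ^ θ + 1) (by split_ifs <;> simp)
      exact ⟨g, (((Nat.coprime_primes hr hs).2 hrs).mul_dvd_of_dvd_of_dvd (hr1.trans (Nat.dvd_lcm_left _ _))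
        (hs1.trans (Nat.dvd_lcm_right _ _))).trans hg⟩
    · rcases he with he | he
      · obtain ⟨g, hg⟩ := one_torus (F := F) p h2 he1 hen (N := Fintype.card F ^ e + 1) (Or.inl rfl)
        exact ⟨g, he.trans hg⟩
      · obtain ⟨g, hg⟩ := one_torus (F := F) p h2 he1 hen (N := Fintype.card F ^ e - 1) (Or.inr rfl)
        exact ⟨g, he.trans hg⟩

include p in
/-- Adjacency to the characteristic. -/
theorem char_iff' (hp2 : p ≠ 2) (hn : 2 ≤ n) (hr : r.Prime) (hr2 : r ≠ 2) (hrp : r ≠ p)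
    {k η : ℕ} (hk : k = orderOf ((Fintype.card F : ℕ) : ZMod r)) (hη : IsEta k η) :
    r * p ∈ Set.range (orderOf : Ω → ℕ) ↔ η + 1 ≤ n := by
  have h2 : (2 : F) ≠ 0 := two_ne_zero' p hp2
  have hq1 : 1 ≤ Fintype.card F := Fintype.card_pos
  have hp := (Fact.out : p.Prime)
  constructor
  · intro h
    obtain ⟨g, hgc, hg⟩ := (range_iff h2 hn _).1 h
    exact char_nec p h2 g hr hr2 hrp (natCast_ne_zero p hr hrp) hg hgc hk hη
  · intro hle
    refine mem_of_odd h2 hn ((hr.odd_of_ne_two hr2).mul (hp.odd_of_ne_two hp2)) ?_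
    obtain ⟨hη1, hr1⟩ := torus_dvd hq1 hr hk (hk ▸ ord_pos p hr hrp) hη odd_one
    rw [mul_one] at hr1
    obtain ⟨u, hu⟩ := exists_unip (F := F) p (d := n - η) (by omega)
    obtain ⟨g, hg⟩ := torus_block (F := F) p h2 hη1 (show η + (n - η) = n by omega)
      (N := if Odd k then Fintype.card F ^ η - 1 else Fintype.card F ^ η + 1) (by split_ifs <;> simp) u
    exact ⟨g, (((Nat.coprime_primes hr hp).2 hrp).mul_dvd_of_dvd_of_dvd (hr1.trans (Nat.dvd_lcm_left _ _))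
      ((dvd_of_eq hu.symm).trans (Nat.dvd_lcm_right _ _))).trans hg⟩

include p in
/-- Adjacency of two and an odd prime. -/
theorem two_iff' (hp2 : p ≠ 2) (hn : 2 ≤ n) (hr : r.Prime) (hr2 : r ≠ 2) (hrp : r ≠ p)
    {k η : ℕ} (hk : k = orderOf ((Fintype.card F : ℕ) : ZMod r)) (hη : IsEta k η) :
    2 * r ∈ Set.range (orderOf : Ω → ℕ) ↔
      η + 1 ≤ n ∨ 4 * r ∣ Fintype.card F ^ n + 1 ∨ 4 * r ∣ Fintype.card F ^ n - 1 := by
  have h2 : (2 : F) ≠ 0 := two_ne_zero' p hp2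
  have hq1 : 1 ≤ Fintype.card F := Fintype.card_pos
  constructor
  · intro h
    obtain ⟨g, hgc, hg⟩ := (range_iff h2 hn _).1 h
    exact two_nec p (nd_oddQ h2 n) (finrank_odd n) (odd_card_of_two_ne_zero h2) (by omega) g hgc hr hr2 hrp
      (natCast_ne_zero p hr hrp) hg hk hη
  · intro h
    refine mem_of_four h2 hn ?_
    rcases h with hle | h
    · obtain ⟨hη1, hr1⟩ := torus_dvd hq1 hr hk (hk ▸ ord_pos p hr hrp) hη odd_one
      rw [mul_one] at hr1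
      have h4 : Nat.Coprime 4 r :=
        (Nat.Coprime.pow_left 2 ((Nat.coprime_primes Nat.prime_two hr).2 (Ne.symm hr2)) : Nat.Coprime (2 ^ 2) r)
      obtain ⟨M, hM, h4M⟩ : ∃ M, (M = Fintype.card F ^ 1 + 1 ∨ M = Fintype.card F ^ 1 - 1) ∧ 4 ∣ M := by
        rw [pow_one]
        rcases four_mul_torus (F := F) p hp2 with h | h
        exacts [⟨_, Or.inl rfl, h⟩, ⟨_, Or.inr rfl, h⟩]
      obtain ⟨g, hg⟩ := two_tori (F := F) p h2 hη1 (le_refl 1) hle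
        (N := if Odd k then Fintype.card F ^ η - 1 else Fintype.card F ^ η + 1) (by split_ifs <;> simp) hM
      exact ⟨g, (h4.mul_dvd_of_dvd_of_dvd (h4M.trans (Nat.dvd_lcm_right _ _))
        (hr1.trans (Nat.dvd_lcm_left _ _))).trans hg⟩
    · rcases h with h | h
      · obtain ⟨g, hg⟩ := one_torus (F := F) p h2 (show 1 ≤ n by omega) le_rfl
          (N := Fintype.card F ^ n + 1) (Or.inl rfl)
        exact ⟨g, h.trans hg⟩
      · obtain ⟨g, hg⟩ := one_torus (F := F) p h2 (show 1 ≤ n by omega) le_rfl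
          (N := Fintype.card F ^ n - 1) (Or.inr rfl)
        exact ⟨g, h.trans hg⟩

include p in
/-- Two and the characteristic are adjacent. -/
theorem two_char (hp2 : p ≠ 2) (hn : 2 ≤ n) : 2 * p ∈ Set.range (orderOf : Ω → ℕ) := by
  have h2 : (2 : F) ≠ 0 := two_ne_zero' p hp2
  have hp := (Fact.out : p.Prime)
  refine mem_of_four h2 hn ?_
  obtain ⟨M, hM, h4M⟩ : ∃ M, (M = Fintype.card F ^ 1 + 1 ∨ M = Fintype.card F ^ 1 - 1) ∧ 4 ∣ M := by
    rw [pow_one]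
    rcases four_mul_torus (F := F) p hp2 with h | h
    exacts [⟨_, Or.inl rfl, h⟩, ⟨_, Or.inr rfl, h⟩]
  obtain ⟨u, hu⟩ := exists_unip (F := F) p (d := n - 1) (by omega)
  obtain ⟨g, hg⟩ := torus_block (F := F) p h2 (le_refl 1) (show 1 + (n - 1) = n by omega) hM u
  have h4 : Nat.Coprime 4 p :=
    (Nat.Coprime.pow_left 2 ((Nat.coprime_primes Nat.prime_two hp).2 (Ne.symm hp2)) : Nat.Coprime (2 ^ 2) p)
  exact ⟨g, (h4.mul_dvd_of_dvd_of_dvd (h4M.trans (Nat.dvd_lcm_left _ _))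
    ((dvd_of_eq hu.symm).trans (Nat.dvd_lcm_right _ _))).trans hg⟩

end Cfsg.Agent.Lib.Recog.OddOrthPrimeGraph
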