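import Cfsg.Agent.Lib.Recog.OddOrthTori
import Cfsg.Agent.Lib.Classical.OrthTorsionOmega

/-! Orthogonal groups in odd characteristic: unipotent parts and lifts to the natural module. -/

set_option autoImplicit false

namespace Cfsg.Agent.Lib.Recog.OrthNine

open Polynomial QuadraticMap
open Cfsg.Agent.Lib.Classical.Quad Cfsg.Agent.Lib.Classical.QuadOmega Cfsg.Agent.Lib.Classical.OrthTorsion
open Cfsg.Agent.Lib.Recog.OddOrthPrimeGraph

universe u v w

variable {F : Type u} [Field F]

section linear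

variable {V : Type v} [AddCommGroup V] [Module F V] [FiniteDimensional F V]

theorem nil_pow {f : Module.End F V} (hf : IsNilpotent f) : f ^ Module.finrank F V = 0 := by
  obtain ⟨N, hN⟩ := hf
  refine LinearMap.ker_eq_top.1 (top_le_iff.1 ?_)
  exact (LinearMap.ker_eq_top.2 hN).ge.trans (Module.End.ker_pow_le_ker_pow_finrank f N)

theorem pow_finrank_range {f : Module.End F V} (hf : IsNilpotent f) :
    f ^ (Module.finrank F (LinearMap.range f) + 1) = 0 := by
  obtain ⟨N, hN⟩ := hf
  have hinv : ∀ x ∈ LinearMap.range f, f x ∈ LinearMap.range f := fun x _ => ⟨x, rfl⟩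
  have hpow : ∀ (n : ℕ) (x : LinearMap.range f), ((((f.restrict hinv)) ^ n) x : V) = (f ^ n) (x : V) := by
    intro n
    induction n with
    | zero => intro x; rfl
    | succ n ih => intro x; rw [pow_succ, pow_succ, Module.End.mul_apply, Module.End.mul_apply, ih]; rfl
  have h0 : (f.restrict hinv) ^ Module.finrank F (LinearMap.range f) = 0 :=
    nil_pow ⟨N, LinearMap.ext fun x => Subtype.ext (by rw [hpow, hN]; rfl)⟩
  refine LinearMap.ext fun v => ?_
  rw [pow_succ, Module.End.mul_apply, ← hpow _ ⟨f v, v, rfl⟩, h0]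
  rfl

end linear

variable [Fintype F] (p : ℕ) [Fact p.Prime] [CharP F p]

section iso

variable {V : Type v} [AddCommGroup V] [Module F V] {Q : QuadraticForm F V}

/-- An isometry as an endomorphism. -/
abbrev lin (g : isoG Q) : Module.End F V := g.1.toLinearMap

omit [Fintype F] in
theorem lin_pow (g : isoG Q) (n : ℕ) : lin (g ^ n) = lin g ^ n := by
  induction n with
  | zero => rfl
  | succ n ih => rw [pow_succ, pow_succ, ← ih]; rfl

omit [Fintype F] in
theorem lin_inj {g h : isoG Q} (e : lin g = lin h) : g = h := iso_ext (LinearMap.congr_fun e)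

omit [Fintype F] in
theorem sum_apply (g : isoG Q) (n : ℕ) (v : V) :
    ∑ i ∈ Finset.range n, (g ^ i).1 v = (∑ i ∈ Finset.range n, lin g ^ i) v := by
  rw [LinearMap.sum_apply]
  exact Finset.sum_congr rfl fun i _ => by rw [← lin_pow]; rfl

/-- Unipotent isometries. -/
def Uni (g : isoG Q) : Prop := IsNilpotent (lin g - 1)

include p in
omit [Fintype F] in
theorem pow_eq_one_iff (g : isoG Q) (j : ℕ) : g ^ p ^ j = 1 ↔ (lin g - 1) ^ p ^ j = 0 := by
  have e : (lin g - 1) ^ p ^ j = lin (g ^ p ^ j) - 1 := by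
    have h := congrArg (aeval (lin g)) (sub_pow_char_pow (R := F[X]) (p := p) (n := j) X 1)
    simpa [lin_pow, aeval_X] using h
  rw [e, sub_eq_zero]
  exact ⟨fun h => by rw [h]; rfl, fun h => lin_inj h⟩

include p in
omit [Fintype F] in
theorem geom (g : isoG Q) (j : ℕ) : ∑ i ∈ Finset.range (p ^ j), lin g ^ i = (lin g - 1) ^ (p ^ j - 1) := by
  have hp := (Fact.out : p.Prime)
  have hpoly : ∑ i ∈ Finset.range (p ^ j), (X : F[X]) ^ i = (X - 1) ^ (p ^ j - 1) := by
    have hX1 : (X - 1 : F[X]) ≠ 0 := by simpa using (monic_X_sub_C (1 : F)).ne_zero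
    refine mul_left_cancel₀ hX1 ?_
    rw [mul_geom_sum, ← pow_succ', Nat.sub_add_cancel (Nat.one_le_pow _ _ hp.pos), sub_pow_char_pow, one_pow]
  simpa [map_sum] using congrArg (aeval (lin g)) hpoly

omit [Fintype F] in
theorem periodic (g : isoG Q) {m : ℕ} (hm : g ^ m = 1) (M : ℕ) (v : V) :
    ∑ i ∈ Finset.range (m * M), (g ^ i).1 v = (M : F) • ∑ i ∈ Finset.range m, (g ^ i).1 v := by
  induction M with
  | zero => simp
  | succ M ih =>
    rw [Nat.mul_succ, Finset.sum_range_add, ih, Nat.cast_succ, add_smul, one_smul]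
    congr 1
    refine Finset.sum_congr rfl fun i _ => ?_
    rw [pow_add, pow_mul, hm, one_pow, one_mul]

variable [FiniteDimensional F V]

include p in
omit [Fintype F] in
theorem uni_order {g : isoG Q} (hg : Uni g) : ∃ j, orderOf g = p ^ j := by
  have hp := (Fact.out : p.Prime)
  obtain ⟨N, hN⟩ := hg
  have : g ^ p ^ N = 1 := (pow_eq_one_iff p g N).2 (pow_eq_zero_of_le (Nat.lt_pow_self hp.one_lt).le hN)
  obtain ⟨j, -, hj⟩ := (Nat.dvd_prime_pow hp).1 (orderOf_dvd_of_pow_eq_one this)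
  exact ⟨j, hj⟩

variable [Finite V]

include p in
theorem uni_mem (hp2 : p ≠ 2) (hQ : Nd Q) (h2 : (2 : F) ≠ 0) {g : isoG Q} (hg : Uni g) :
    g ∈ commutator (isoG Q) := by
  obtain ⟨j, hj⟩ := uni_order p hg
  obtain ⟨c, hc⟩ := ((Fact.out : p.Prime).odd_of_ne_two hp2).pow (n := j)
  have h1 : ∀ f : isoG Q →* ℤˣ, f g = 1 := fun f => by
    have := congrArg f (pow_orderOf_eq_one g)
    rwa [map_pow, map_one, hj, hc, pow_succ, pow_mul, pow_two, Int.units_mul_self, one_pow, one_mul] at this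
  exact (mem_commutator_iff hQ h2 g).2 ⟨h1 _, h1 _⟩

include p in
/-- In even dimension a unipotent isometry has no block of full size. -/
theorem uni_even (hp2 : p ≠ 2) (hQ : Nd Q) (h2 : (2 : F) ≠ 0) {g : isoG Q} (hg : Uni g) {m : ℕ}
    (hm : Module.finrank F V = 2 * m) (hm1 : 1 ≤ m) : (lin g - 1) ^ (2 * m - 1) = 0 := by
  have hd : dick hQ g = 1 := ((mem_commutator_iff hQ h2 g).1 (uni_mem p hp2 hQ h2 hg)).1
  rw [dick_eq, hm] at hd
  have hfix : fixS g = LinearMap.ker (lin g - 1) := rfl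
  have hev : Even (Module.finrank F (fixS g)) := by
    rcases Nat.even_or_odd (Module.finrank F (fixS g)) with h | h
    · exact h
    · rw [((even_two_mul m).add_odd h).neg_one_pow] at hd
      exact absurd hd (by decide)
  have hsum := LinearMap.finrank_range_add_finrank_ker (lin g - 1)
  rw [← hfix, hm] at hsum
  have hpos : Module.finrank F (fixS g) ≠ 0 := fun h0 => by
    rw [hfix, Submodule.finrank_eq_zero, LinearMap.ker_eq_bot] at h0
    obtain ⟨N, hN⟩ := hg
    haveI : Nontrivial V := Module.nontrivial_of_finrank_pos (R := F) (by omega)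
    obtain ⟨v, hv⟩ := exists_ne (0 : V)
    refine hv ((Function.Injective.iterate h0 N) ?_)
    rw [← Module.End.coe_pow, hN, LinearMap.zero_apply, LinearMap.zero_apply]
  obtain ⟨k, hk⟩ := hev
  exact pow_eq_zero_of_le (by omega) (pow_finrank_range hg)

end iso

/-! ### Invariants of sums -/

section sums

variable {V : Type v} [AddCommGroup V] [Module F V] [Finite V] {W : Type w} [AddCommGroup W] [Module F W]
  [Finite W] {Q : QuadraticForm F V} {R : QuadraticForm F W}

theorem invs_prod (hQ : Nd Q) (hR : Nd R) (h2 : (2 : F) ≠ 0) (g : isoG Q) (h : isoG R) :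
    dick (nd_prod hQ hR) (prodHom Q R (g, h)) = dick hQ g * dick hR h ∧
      spn (nd_prod hQ hR) (prodHom Q R (g, h)) = spn hQ g * spn hR h := by
  have e : prodHom Q R (g, h) = prodHom Q R (g, 1) * prodHom Q R (1, h) := by
    rw [← map_mul, Prod.mk_mul_mk, mul_one, one_mul]
  rw [e, map_mul, map_mul, dick_inl hQ hR, dick_inr hQ hR, spn_inl hQ hR h2, spn_inr hQ hR h2]
  exact ⟨rfl, rfl⟩

theorem invs_conj (hQ : Nd Q) (hR : Nd R) (h2 : (2 : F) ≠ 0) (e : V ≃ₗ[F] W) (he : ∀ v, R (e v) = Q v)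
    (g : isoG Q) : dick hR (isoConj e he g) = dick hQ g ∧ spn hR (isoConj e he g) = spn hQ g := by
  have hh : g ∈ Subgroup.closure {r | ∃ w, Q w ≠ 0 ∧ r = refl Q w} :=
    closure_refl_eq_top' hQ (reg_of_two_ne_zero h2) ▸ Subgroup.mem_top g
  have key : ∀ w, Q w ≠ 0 → isoConj e he (refl Q w) = refl R (e w) := fun w hw => iso_ext fun v => by
    obtain ⟨v, rfl⟩ := e.surjective v
    rw [isoConj_apply, e.symm_apply_apply, refl_apply hw, refl_apply (by rwa [he]), map_sub, map_smul, he,
      show polar R (e v) (e w) = polar Q v w by simp [polar, ← map_add, he]]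
  constructor
  · refine MonoidHom.eqOn_closure (f := (dick hR).comp (isoConj e he)) (g := dick hQ) ?_ hh
    rintro _ ⟨w, hw, rfl⟩
    rw [MonoidHom.comp_apply, key w hw, dick_refl _ (by rwa [he]), dick_refl _ hw]
  · refine MonoidHom.eqOn_closure (f := (spn hR).comp (isoConj e he)) (g := spn hQ) ?_ hh
    rintro _ ⟨w, hw, rfl⟩
    rw [MonoidHom.comp_apply, key w hw, spn_refl _ h2 (by rwa [he]), spn_refl _ h2 hw, he]

/-- The spinor norm of minus one. -/
noncomputable def chi (hQ : Nd Q) : ℤˣ := spn hQ (negOne Q)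

theorem chi_prod (hQ : Nd Q) (hR : Nd R) (h2 : (2 : F) ≠ 0) :
    chi (nd_prod hQ hR) = chi hQ * chi hR := by
  have e : negOne (Q.prod R) = prodHom Q R (negOne Q, negOne R) := iso_ext fun x => by
    rw [negOne_apply, prodHom_apply, negOne_apply, negOne_apply]; rfl
  rw [chi, e, (invs_prod hQ hR h2 _ _).2]
  rfl

theorem chi_conj (hQ : Nd Q) (hR : Nd R) (h2 : (2 : F) ≠ 0) (e : V ≃ₗ[F] W) (he : ∀ v, R (e v) = Q v) :
    chi hR = chi hQ := by
  rw [chi, ← isoConj_negOne e he, (invs_conj hQ hR h2 e he _).2]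
  rfl

theorem dick_negOne (hQ : Nd Q) (h2 : (2 : F) ≠ 0) :
    dick hQ (negOne Q) = (-1) ^ Module.finrank F V := by
  have hfix : fixS (negOne Q) = ⊥ := by
    refine (Submodule.eq_bot_iff _).2 fun v hv => ?_
    rw [mem_fixS, negOne_apply, neg_eq_iff_add_eq_zero, ← two_smul F v] at hv
    exact (smul_eq_zero.1 hv).resolve_left h2
  rw [dick_eq, hfix, finrank_bot, add_zero]

end sums

/-- An element order of the split extension by the natural module, up to divisors. -/
def InL {V : Type v} [AddCommGroup V] [Module F V] (Q : QuadraticForm F V) (n : ℕ) : Prop :=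
  ∃ g : isoG Q, g ∈ commutator (isoG Q) ∧
    (n ∣ orderOf g ∨ ∃ v : V, ∑ i ∈ Finset.range (orderOf g), (g ^ i).1 v ≠ 0 ∧ n ∣ p * orderOf g)

omit [Fintype F] [Fact p.Prime] [CharP F p] in
theorem InL.dvd {V : Type v} [AddCommGroup V] [Module F V] {Q : QuadraticForm F V} {n m : ℕ} (h : InL p Q n)
    (hmn : m ∣ n) : InL p Q m := by
  obtain ⟨g, hg, h | ⟨v, hv, h⟩⟩ := h
  · exact ⟨g, hg, Or.inl (hmn.trans h)⟩
  · exact ⟨g, hg, Or.inr ⟨v, hv, hmn.trans h⟩⟩

omit [Fintype F] [Fact p.Prime] [CharP F p] in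
theorem InL.map {V : Type v} [AddCommGroup V] [Module F V] {W : Type w} [AddCommGroup W] [Module F W]
    {Q : QuadraticForm F V} {R : QuadraticForm F W} {n : ℕ} (h : InL p Q n) (e : V ≃ₗ[F] W)
    (he : ∀ v, R (e v) = Q v) : InL p R n := by
  obtain ⟨g, hg, h⟩ := h
  refine ⟨isoConj e he g, map_commutator_le (isoConj e he) ⟨g, hg, rfl⟩, ?_⟩
  rw [orderOf_injective _ (fun a b hab => iso_ext fun v => by
    simpa [isoConj_apply] using congrArg (fun k : isoG R => k.1 (e v)) hab : Function.Injective (isoConj e he))]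
  rcases h with h | ⟨v, hv, h⟩
  · exact Or.inl h
  · refine Or.inr ⟨e v, fun h0 => hv (e.injective ?_), h⟩
    rw [map_sum, map_zero]
    refine Eq.trans (Finset.sum_congr rfl fun i _ => ?_) h0
    rw [← map_pow, isoConj_apply, e.symm_apply_apply]

section block

variable {V : Type v} [AddCommGroup V] [Module F V] [Finite V] {W : Type w} [AddCommGroup W] [Module F W]
  [Finite W] [FiniteDimensional F W] {R : QuadraticForm F V} {S : QuadraticForm F W}

include p in
/-- A unipotent block contributes a power of the characteristic. -/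
theorem block (hp2 : p ≠ 2) (hR : Nd R) (hS : Nd S) (h2 : (2 : F) ≠ 0) {h : isoG R}
    (hh : h ∈ commutator (isoG R)) {w : isoG S} (hw : Uni w) {k : ℕ} (hk : (lin w - 1) ^ (k - 1) ≠ 0)
    (j : ℕ) (hj : j = 0 ∨ p ^ (j - 1) ≤ k) : InL p (R.prod S) (Nat.lcm (p ^ j) (orderOf h)) := by
  have hp := (Fact.out : p.Prime)
  set g := prodHom R S (h, w) with hg
  have hgm : g ∈ commutator (isoG (R.prod S)) := prodHom_commutator hh (uni_mem p hp2 hS h2 hw)
  have hgo : orderOf g = Nat.lcm (orderOf h) (orderOf w) := by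
    rw [hg, orderOf_injective _ (prodHom_injective R S), Prod.orderOf]
  rcases Nat.eq_zero_or_pos j with rfl | hj0
  · exact ⟨g, hgm, Or.inl (by rw [pow_zero, Nat.lcm_one_left, hgo]; exact Nat.dvd_lcm_left _ _)⟩
  obtain ⟨i, rfl⟩ : ∃ i, j = i + 1 := ⟨j - 1, by omega⟩
  have hik : p ^ i ≤ k := by simpa using hj
  have hN : (lin w - 1) ^ (p ^ i - 1) ≠ 0 := fun h0 => hk (pow_eq_zero_of_le (by omega) h0)
  obtain ⟨l, hl⟩ := uni_order p hw
  have hil : i ≤ l := by
    by_contra hlt
    apply hN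
    refine pow_eq_zero_of_le ?_ ((pow_eq_one_iff p w l).1 (hl ▸ pow_orderOf_eq_one w))
    have := Nat.pow_lt_pow_right hp.one_lt (not_le.1 hlt)
    omega
  rcases Nat.eq_or_lt_of_le hil with rfl | hlt
  swap
  · refine ⟨g, hgm, Or.inl ?_⟩
    rw [hgo, hl]
    exact Nat.lcm_dvd ((pow_dvd_pow p hlt).trans (Nat.dvd_lcm_right _ _)) (Nat.dvd_lcm_left _ _)
  obtain ⟨s, M, hpM, hM⟩ := Nat.exists_eq_pow_mul_and_not_dvd (orderOf_pos h).ne' p hp.ne_one
  rcases Nat.lt_or_ge i s with hs | hs
  · refine ⟨g, hgm, Or.inl ?_⟩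
    rw [hgo]
    exact Nat.lcm_dvd (((pow_dvd_pow p hs).trans ⟨M, hM⟩).trans (Nat.dvd_lcm_left _ _)) (Nat.dvd_lcm_left _ _)
  · obtain ⟨c, hc⟩ : p ^ i ∣ orderOf g := hgo ▸ hl ▸ Nat.dvd_lcm_right _ _
    have hcM : c ∣ M := by
      refine (Nat.mul_dvd_mul_iff_left (pow_pos hp.pos i)).1 ?_
      rw [← hc, hgo, hl, hM]
      exact Nat.lcm_dvd (mul_dvd_mul (pow_dvd_pow p hs) dvd_rfl) (dvd_mul_right _ _)
    obtain ⟨v, hv⟩ : ∃ v, ((lin w - 1) ^ (p ^ i - 1)) v ≠ 0 := by
      by_contra! hcon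
      exact hN (LinearMap.ext hcon)
    refine ⟨g, hgm, Or.inr ⟨(0, v), fun h0 => ?_, Nat.lcm_dvd ?_ (dvd_mul_of_dvd_right (hgo ▸ Nat.dvd_lcm_left _ _) _)⟩⟩
    · have h1 := congrArg Prod.snd h0
      rw [Prod.snd_sum, Prod.snd_zero] at h1
      have h2' : ∑ i ∈ Finset.range (orderOf g), (w ^ i).1 v = 0 := by
        refine Eq.trans (Finset.sum_congr rfl fun i _ => ?_) h1
        rw [hg, ← map_pow, Prod.pow_mk, prodHom_apply]
      rw [hc, periodic w (hl ▸ pow_orderOf_eq_one w), sum_apply, geom p, smul_eq_zero] at h2'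
      rcases h2' with h3 | h3
      · exact hpM (((CharP.cast_eq_zero_iff F p c).1 h3).trans hcM)
      · exact hv h3
    · rw [hc, pow_succ']; exact mul_dvd_mul_left p (dvd_mul_right _ _)

end block

/-! ### Generalised eigenspaces -/

section eigen

variable {V : Type v} [AddCommGroup V] [Module F V] [FiniteDimensional F V] {Q : QuadraticForm F V}

omit [Fintype F] in
theorem polar_pow (g : isoG Q) {σ : F} (hσ : σ * σ = 1) (n : ℕ) :
    ∀ x y : V, ((lin g - algebraMap F _ σ) ^ n) x = 0 → polar Q x (((lin g - algebraMap F _ σ) ^ n) y) = 0 := by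
  intro x y hx
  set N := lin g - algebraMap F (Module.End F V) σ with hN
  have hadj : ∀ a b : V, polar Q a (N b) = polar Q ((-σ) • N (g.1.symm a)) b := fun a b => by
    simp only [hN, LinearMap.sub_apply, Module.algebraMap_end_apply, LinearEquiv.coe_coe, g.1.apply_symm_apply,
      polar_sub_right, polar_smul_right, polar_smul_left, polar_sub_left, smul_eq_mul]
    have : polar Q a (g.1 b) = polar Q (g.1.symm a) b := by
      conv_lhs => rw [← g.1.apply_symm_apply a]
      exact iso_B g _ _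
    rw [this]
    linear_combination (-(polar Q (g.1.symm a) b)) * hσ
  have hcomm : ∀ (k : ℕ) (a : V), (N ^ k) (g.1.symm a) = g.1.symm ((N ^ k) a) := by
    intro k
    induction k with
    | zero => intro a; rfl
    | succ k ih =>
      intro a
      rw [pow_succ, Module.End.mul_apply, Module.End.mul_apply, ← ih]
      congr 1
      simp [hN, map_sub, map_smul]
  induction n generalizing x y with
  | zero => simp at hx; rw [hx, polar_zero_left]
  | succ n ih =>
    rw [pow_succ', Module.End.mul_apply, hadj]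
    refine ih _ _ ?_
    rw [map_smul, ← Module.End.mul_apply, ← pow_succ, hcomm, hx, map_zero, smul_zero]

omit [Fintype F] in
/-- The generalised eigenspace for `σ = ±1` splits off. -/
theorem split_eigen (hQ : Nd Q) (g : isoG Q) {σ : F} (hσ : σ * σ = 1) :
    ∃ (U R : Submodule F V) (e : (U × R) ≃ₗ[F] V)
      (he : ∀ x, Q (e x) = (Q.comp U.subtype).prod (Q.comp R.subtype) x)
      (gU : isoG (Q.comp U.subtype)) (gR : isoG (Q.comp R.subtype)),
      Nd (Q.comp U.subtype) ∧ Nd (Q.comp R.subtype) ∧ g = isoConj e he (prodHom _ _ (gU, gR)) ∧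
      IsNilpotent (lin gU - algebraMap F _ σ) ∧ ∀ v, gR.1 v = σ • v → v = 0 := by
  set N := lin g - algebraMap F (Module.End F V) σ with hN
  obtain ⟨n, hn⟩ := Filter.eventually_atTop.1 N.eventually_isCompl_ker_pow_range_pow
  have hc := hn (n + 1) (Nat.le_succ n)
  set U := LinearMap.ker (N ^ (n + 1))
  set R := LinearMap.range (N ^ (n + 1))
  have horth : ∀ x ∈ U, ∀ y ∈ R, polar Q x y = 0 := by
    rintro x hx _ ⟨y, rfl⟩
    exact polar_pow g hσ (n + 1) x y hx
  let e := Submodule.prodEquivOfIsCompl U R hc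
  have he : ∀ x, Q (e x) = (Q.comp U.subtype).prod (Q.comp R.subtype) x := fun x => by
    simp [e, Submodule.coe_prodEquivOfIsCompl', QuadraticMap.map_add ⇑Q, horth _ x.1.2 _ x.2.2]
  have hcomm : Commute (lin g) (N ^ (n + 1)) :=
    ((Commute.refl _).sub_right (Algebra.commute_algebraMap_right σ _)).pow_right _
  have hginv : lin g⁻¹ * lin g = 1 := LinearMap.ext fun v => g.1.symm_apply_apply v
  have hginv' : lin g * lin g⁻¹ = 1 := LinearMap.ext fun v => g.1.apply_symm_apply v
  have hcomm' : Commute (lin g⁻¹) (N ^ (n + 1)) := by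
    calc lin g⁻¹ * N ^ (n + 1) = lin g⁻¹ * N ^ (n + 1) * (lin g * lin g⁻¹) := by rw [hginv', mul_one]
      _ = lin g⁻¹ * (lin g * N ^ (n + 1)) * lin g⁻¹ := by
        rw [hcomm.eq]; noncomm_ring
      _ = N ^ (n + 1) * lin g⁻¹ := by rw [← mul_assoc, hginv, one_mul]
  have hU : ∀ (h : isoG Q), Commute (lin h) (N ^ (n + 1)) → ∀ v ∈ U, h.1 v ∈ U := fun h hh v hv => by
    rw [LinearMap.mem_ker] at hv ⊢
    have := LinearMap.congr_fun hh.eq v
    simp only [Module.End.mul_apply, hv, map_zero] at this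
    exact this.symm
  have hR : ∀ (h : isoG Q), Commute (lin h) (N ^ (n + 1)) → ∀ v ∈ R, h.1 v ∈ R := by
    rintro h hh _ ⟨w, rfl⟩
    exact ⟨h.1 w, (LinearMap.congr_fun hh.eq w).symm⟩
  set gU := restr U g (hU g hcomm) (hU g⁻¹ hcomm')
  set gR := restr R g (hR g hcomm) (hR g⁻¹ hcomm')
  have hprod : Nd ((Q.comp U.subtype).prod (Q.comp R.subtype)) :=
    nd_map e.symm (fun v => by rw [← he, e.apply_symm_apply]) hQ
  refine ⟨U, R, e, he, gU, gR, fun x hx => congrArg Prod.fst (hprod (x, 0) fun z => by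
      rw [polar_prod', hx, polar_zero_left, add_zero]),
    fun x hx => congrArg Prod.snd (hprod (0, x) fun z => by rw [polar_prod', hx, polar_zero_left, zero_add]),
    iso_ext fun v => ?_, ⟨n + 1, ?_⟩, fun v hv => ?_⟩
  · obtain ⟨x, rfl⟩ := e.surjective v
    rw [isoConj_apply, e.symm_apply_apply, prodHom_apply]
    simp [e, Submodule.coe_prodEquivOfIsCompl', gU, gR, restr_apply]
  · have key : ∀ (k : ℕ) (x : U), ((((lin gU - algebraMap F _ σ)) ^ k) x : V) = (N ^ k) (x : V) := by
      intro k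
      induction k with
      | zero => intro x; rfl
      | succ k ih =>
        intro x
        rw [pow_succ, pow_succ, Module.End.mul_apply, Module.End.mul_apply, ih]
        rfl
    exact LinearMap.ext fun x => Subtype.ext ((key _ x).trans x.2)
  · have h1 : N (v : V) = 0 := by
      have := congrArg Subtype.val hv
      rw [restr_apply] at this
      simpa [hN, sub_eq_zero] using this
    have h2 : (v : V) ∈ U := by
      rw [LinearMap.mem_ker, pow_succ, Module.End.mul_apply, h1, map_zero]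
    exact Subtype.ext ((Submodule.disjoint_def.1 hc.disjoint) _ h2 v.2)

end eigen

end Cfsg.Agent.Lib.Recog.OrthNine
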