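import Cfsg.Agent.Lib.Recog.OrthNineBase
import Cfsg.Agent.Lib.AutOmega.Types
import Cfsg.Agent.Lib.Classical.QuadOmega.Generation

/-! Orthogonal groups in odd characteristic: tori with their spinor norms, regular unipotent elements. -/

set_option autoImplicit false

namespace Cfsg.Agent.Lib.Recog.OrthNine

open Polynomial QuadraticMap Matrix
open Cfsg.Agent.Lib.Classical.Quad Cfsg.Agent.Lib.Classical.QuadOmega Cfsg.Agent.Lib.Classical.OrthTorsion
open Cfsg.Agent.Lib.Classical.QuadF2 Cfsg.Agent.Lib.AutOmega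
open Cfsg.Agent.Lib.Recog.OddOrthPrimeGraph

universe u v w

variable {F : Type u} [Field F] [Fintype F]

theorem odd_card (h2 : (2 : F) ≠ 0) : Odd (Fintype.card F) := by
  refine Nat.odd_iff.2 ?_
  rcases Nat.mod_two_eq_zero_or_one (Fintype.card F) with h | h
  · refine absurd ?_ h2
    have hch := (FiniteField.even_card_iff_char_two (F := F)).2 h
    have : CharP F 2 := hch ▸ ringChar.charP F
    exact CharTwo.two_eq_zero
  · exact h

/-! ### The forms -/

/-- A line. -/
noncomputable def lineQ (c : F) : QuadraticForm F (Unit → F) := c • sqQ F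

theorem nd_lineQ (h2 : (2 : F) ≠ 0) {c : F} (hc : c ≠ 0) : Nd (lineQ c) :=
  nd_smul hc (nd_sqQ h2)

theorem chi_line (h2 : (2 : F) ≠ 0) {c : F} (hc : c ≠ 0) : chi (nd_lineQ h2 hc) = sqSign c := by
  have hw : lineQ c (fun _ => 1) = c := by simp [lineQ, sqQ_apply]
  have hw0 : lineQ c (fun _ => 1) ≠ 0 := by rw [hw]; exact hc
  have e : negOne (lineQ c) = refl (lineQ c) (fun _ => 1) := iso_ext fun v => by
    rw [negOne_apply, refl_apply hw0]
    funext i
    simp [polar, lineQ, sqQ_apply]
    field_simp
    ring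
  rw [chi, e, spn_refl _ h2 hw0, hw]

theorem chi_plus (h2 : (2 : F) ≠ 0) (m : ℕ) : chi (nd_plusQ (F := F) m) = sqSign ((-1 : F) ^ m) := by
  have hn : Nd (splitQ m (zeroQ F)) := nd_splitQ (fun x _ => Subsingleton.elim _ _) m
  rw [chi_conj hn (nd_plusQ m) h2 (ePlus m) (fun v => by rw [plusQ_apply, plus_apply]), chi]
  have e : negOne (splitQ m (zeroQ F)) = scaleHom m (zeroQ F) (fun _ => -1) := iso_ext fun x => by
    rw [negOne_apply, scaleHom_apply]
    refine Prod.ext (Prod.ext (funext fun i => ?_) (funext fun i => ?_)) (Subsingleton.elim _ _) <;> simp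
  rw [e, (invs_scaleHom (fun x _ => Subsingleton.elim _ _) h2 m _).2]
  simp

theorem sqSign_neg_one_sq {k : ℕ} (hk : Even k) : sqSign ((-1 : F) ^ k) = 1 := by
  rw [hk.neg_one_pow, sqSign_one]

theorem chi_minus (h2 : (2 : F) ≠ 0) {a b : F} (hab : Aniso a b) (m : ℕ) :
    chi (nd_minusQ hab m) = - sqSign ((-1 : F) ^ (m + 1)) := by
  have hn : Nd (splitQ m (binQ a b)) := nd_splitQ (nd_binQ hab) m
  rw [chi_conj hn (nd_minusQ hab m) h2 (eMinus m) (fun v => by rw [minusQ_apply, minus_apply])]
  have hd : dick hn (negOne _) = 1 := by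
    rw [dick_negOne hn h2, Module.finrank_prod, Module.finrank_prod, Module.finrank_fin_fun, Module.finrank_fin_fun,
      ← two_mul]
    exact ((even_two_mul m).add even_two).neg_one_pow
  have key := negOne_mem_minus rfl (odd_card h2) hab m
  rw [mem_commutator_iff hn h2] at key
  have hsq := isSquare_neg_one_pow (F := F) rfl (odd_card h2) (m + 1)
  have h4 : Fintype.card F ^ (m + 1) % 4 = 1 ∨ Fintype.card F ^ (m + 1) % 4 = 3 := by
    have := Nat.odd_iff.1 ((odd_card h2).pow (n := m + 1)); omega
  rcases h4 with h4 | h4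
  · rw [sqSign_eq_one_iff.2 (hsq.2 h4)]
    rcases Int.units_eq_one_or (chi hn) with h | h
    · exact absurd (key.1 ⟨hd, h⟩) (by omega)
    · exact h
  · rw [sqSign, if_neg (fun h => by have := hsq.1 h; omega), neg_neg]
    exact (key.2 h4).2

variable {p : ℕ} [Fact p.Prime] [CharP F p]

/-! ### Free actions -/

/-- No power other than the identity fixes a non-zero vector. -/
def SemiReg {V : Type v} [AddCommGroup V] [Module F V] {Q : QuadraticForm F V} (g : isoG Q) : Prop :=
  ∀ (i : ℕ) (v : V), v ≠ 0 → (g ^ i).1 v = v → g ^ i = 1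

omit [Fintype F] in
theorem free_dvd {V : Type v} [AddCommGroup V] [Module F V] [Finite V] {Q : QuadraticForm F V} {g : isoG Q}
    (hg : SemiReg g) : orderOf g ∣ numSing Q - 1 := by
  classical
  let T := {v : V // Q v = 0 ∧ v ≠ 0}
  letI : MulAction (Subgroup.zpowers g) T :=
    { smul := fun k v => ⟨(k : isoG Q).1 v.1, by rw [iso_Q]; exact v.2.1, fun h => v.2.2 ((k : isoG Q).1.map_eq_zero_iff.1 h)⟩
      one_smul := fun v => Subtype.ext rfl
      mul_smul := fun k l v => Subtype.ext rfl }
  have hfree : ∀ t : T, MulAction.stabilizer (Subgroup.zpowers g) t = ⊥ := fun t => by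
    refine (Subgroup.eq_bot_iff_forall _).2 fun k hk => Subtype.ext ?_
    obtain ⟨i, hi⟩ := (isOfFinOrder_of_finite g).mem_powers_iff_mem_zpowers.2 k.2
    have hi' : g ^ i = (k : isoG Q) := hi
    have hk' : (k : isoG Q).1 t.1 = t.1 := congrArg Subtype.val hk
    rw [← hi'] at hk' ⊢
    exact hg i t.1 t.2.2 hk'
  have hT : orderOf g ∣ Nat.card T := by
    rw [Nat.card_congr (MulAction.selfEquivOrbitsQuotientProd hfree), Nat.card_prod, Nat.card_zpowers]
    exact dvd_mul_left _ _
  have e : numSing Q = Nat.card T + 1 := by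
    let E : {z : V // Q z = 0} ≃ Option T :=
      { toFun := fun z => if h : z.1 = 0 then none else some ⟨z.1, z.2, h⟩
        invFun := fun o => o.elim ⟨0, map_zero Q⟩ fun z => ⟨z.1, z.2.1⟩
        left_inv := fun z => by
          by_cases h : z.1 = 0
          · simp only [dif_pos h]; exact Subtype.ext h.symm
          · simp only [dif_neg h]; rfl
        right_inv := fun o => by
          cases o with
          | none => simp
          | some z => simp [z.2.2] }
    rw [numSing, Nat.card_congr E, Finite.card_option]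
  rw [e]; simpa using hT

omit [Fintype F] in
theorem SemiReg.fix {V : Type v} [AddCommGroup V] [Module F V] {Q : QuadraticForm F V} {g : isoG Q}
    (hg : SemiReg g) (hg1 : g ≠ 1) : fixS g = ⊥ :=
  (Submodule.eq_bot_iff _).2 fun v hv => by
    by_contra h
    exact hg1 (by simpa using hg 1 v h (by simpa using mem_fixS.1 hv))

/-! ### Scalars of order `q + 1` -/

theorem plus_plane_false {V : Type v} [AddCommGroup V] [Module F V] [Finite V] {Q : QuadraticForm F V}
    (hQ : Nd Q) (h2 : (2 : F) ≠ 0) (hV : Module.finrank F V = 2) (y : isoG Q)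
    (ho : orderOf y = Fintype.card F + 1) (hy : dick hQ y = 1) (E : (Fin 1 ⊕ Fin 1 → F) ≃ₗ[F] V)
    (hE : ∀ v, Q (E v) = Cfsg.quadFormPlus 1 F v) : False := by
  haveI := Module.Finite.of_finite (R := F) (M := V)
  haveI : Nontrivial V := Module.nontrivial_of_finrank_pos (R := F) (by omega)
  have hsurj : Function.Surjective (dick hQ) := fun s => by
    obtain ⟨g, hg⟩ := invPair_surjective hQ h2 (by omega) (s, 1)
    exact ⟨g, congrArg Prod.fst hg⟩
  have hker : Nat.card (isoG Q) = 2 * Nat.card (dick hQ).ker := by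
    rw [← (dick hQ).ker.card_mul_index, Subgroup.index_ker, MonoidHom.range_eq_top.2 hsurj, Subgroup.card_top,
      show Nat.card ℤˣ = 2 by simp, mul_comm]
  have hq1 : 1 < Fintype.card F := Fintype.one_lt_card
  have hmem : Subgroup.zpowers y ≤ (dick hQ).ker := Subgroup.zpowers_le.2 hy
  have hdvd : Fintype.card F + 1 ∣ Nat.card (dick hQ).ker := by
    have := Subgroup.card_dvd_of_le hmem
    rwa [Nat.card_zpowers, ho] at this
  have hc : Nat.card (isoG Q) = 2 * (Fintype.card F - 1) := by
    rw [← card_isoG_congr E fun v => by rw [hE, ← plusQ_apply]]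
    have h := card_O_plus (F := F) 0
    rw [card_isometryGroup _ (ePlus 1) (plus_apply 1)] at h
    rw [← card_isoG_congr (ePlus 1) fun v => by rw [plusQ_apply, plus_apply]]
    simpa using h
  have := Nat.le_of_dvd (by omega) hdvd
  omega

theorem spn_plane {V : Type v} [AddCommGroup V] [Module F V] [Finite V] {Q : QuadraticForm F V}
    (hQ : Nd Q) (h2 : (2 : F) ≠ 0) (hV : Module.finrank F V = 2) (y : isoG Q)
    (ho : orderOf y = Fintype.card F + 1) (hy : dick hQ y = 1) : spn hQ y = -1 := by
  haveI := Module.Finite.of_finite (R := F) (M := V)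
  haveI : Nontrivial V := Module.nontrivial_of_finrank_pos (R := F) (by omega)
  have hsurj : Function.Surjective (dick hQ) := fun s => by
    obtain ⟨g, hg⟩ := invPair_surjective hQ h2 (by omega) (s, 1)
    exact ⟨g, congrArg Prod.fst hg⟩
  have hker : Nat.card (isoG Q) = 2 * Nat.card (dick hQ).ker := by
    rw [← (dick hQ).ker.card_mul_index, Subgroup.index_ker, MonoidHom.range_eq_top.2 hsurj, Subgroup.card_top,
      show Nat.card ℤˣ = 2 by simp, mul_comm]
  have hq1 : 1 < Fintype.card F := Fintype.one_lt_card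
  have hmem : Subgroup.zpowers y ≤ (dick hQ).ker := Subgroup.zpowers_le.2 hy
  have hdvd : Fintype.card F + 1 ∣ Nat.card (dick hQ).ker := by
    have := Subgroup.card_dvd_of_le hmem
    rwa [Nat.card_zpowers, ho] at this
  rcases exists_normal_even 0 hQ hV with ⟨E, hE⟩ | ⟨ζ, hζ, E, hE⟩
  · exact (plus_plane_false hQ h2 hV y ho hy E hE).elim
  · have hc : Nat.card (isoG Q) = 2 * (Fintype.card F + 1) := by
      rw [← card_isoG_congr E fun v => by rw [hE, ← minusQ_apply],
        ← card_isoG_congr ((eMinus 0)) fun v => by rw [minusQ_apply, minus_apply]]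
      rw [← card_isoG_congr (R := splitQ 0 (binQ (1 : F) ζ)) (Q := binQ (1 : F) ζ) (zeroEquiv (F := F) (V := Fin 2 → F)).symm fun v => by
        simp [zeroEquiv, splitQ_apply]]
      exact card_isoG_binQ hζ
    have heq : Subgroup.zpowers y = (dick hQ).ker :=
      Subgroup.eq_of_le_of_card_ge hmem (by rw [Nat.card_zpowers, ho]; omega)
    obtain ⟨z, hz⟩ := invPair_surjective hQ h2 (by omega) (1, -1)
    have hz' : z ∈ Subgroup.zpowers y := heq ▸ congrArg Prod.fst hz
    obtain ⟨i, rfl⟩ := hz'
    rcases Int.units_eq_one_or (spn hQ y) with h | h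
    · have := congrArg Prod.snd hz
      simp [invPair, h] at this
    · exact h

/-- An element acting as a scalar of order `q + 1`. -/
theorem spn_scalar (h2 : (2 : F) ≠ 0) : ∀ (k : ℕ) {V : Type v} [AddCommGroup V] [Module F V] [Finite V]
    {Q : QuadraticForm F V} (hQ : Nd Q), Module.finrank F V = 2 * k → ∀ (y : isoG Q) (t : F), t * t ≠ 4 →
    (∀ x, y.1 (y.1 x) = t • y.1 x - x) → (1 ≤ k → orderOf y = Fintype.card F + 1) → SemiReg y →
    spn hQ y = (-1) ^ k := by
  intro k
  induction k with
  | zero =>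
    intro V _ _ _ Q hQ hV y t _ _ _ _
    haveI := Module.Finite.of_finite (R := F) (M := V)
    haveI : Subsingleton V := (Module.finrank_zero_iff (R := F) (M := V)).1 (by omega)
    rw [show y = 1 from iso_ext fun x => Subsingleton.elim _ _, map_one, pow_zero]
  | succ k ih =>
    intro V _ _ _ Q hQ hV y t ht hy ho hsr
    haveI := Module.Finite.of_finite (R := F) (M := V)
    haveI : Nontrivial V := Module.nontrivial_of_finrank_pos (R := F) (by omega)
    have hq1 : 1 < Fintype.card F := Fintype.one_lt_card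
    have ho' := ho (by omega)
    obtain ⟨v, hv⟩ := hQ.exists_nonsing
    have hv0 : v ≠ 0 := fun h => hv (by rw [h, map_zero])
    have hbv : polar Q v (y.1 v) = t * Q v := by
      have h1 := iso_B y v (y.1 v)
      rw [hy, polar_sub_right, polar_smul_right, polar_self, polar_comm Q (y.1 v) v, iso_Q, smul_eq_mul,
        nsmul_eq_mul, Nat.cast_ofNat] at h1
      have h3 : 2 * (polar Q v (y.1 v) - t * Q v) = 0 := by linear_combination -h1
      exact sub_eq_zero.1 ((mul_eq_zero.1 h3).resolve_left h2)
    set P : Submodule F V := Submodule.span F {v, y.1 v} with hP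
    have hvP : v ∈ P := Submodule.subset_span (Set.mem_insert _ _)
    have hyvP : y.1 v ∈ P := Submodule.subset_span (Set.mem_insert_of_mem _ rfl)
    have hmem : ∀ x ∈ P, y.1 x ∈ P := fun x hx => by
      obtain ⟨c, d, rfl⟩ := Submodule.mem_span_pair.1 hx
      rw [map_add, map_smul, map_smul, hy]
      exact P.add_mem (P.smul_mem _ hyvP) (P.smul_mem _ (P.sub_mem (P.smul_mem _ hyvP) hvP))
    have hmem' : ∀ x ∈ P, (y⁻¹).1 x ∈ P := fun x hx => by
      have e : (y⁻¹).1 x = t • x - y.1 x := by
        have := hy (y.1.symm x)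
        rw [y.1.apply_symm_apply] at this
        show y.1.symm x = _
        rw [eq_sub_iff_add_eq, add_comm, ← eq_sub_iff_add_eq]
        exact this
      rw [e]; exact P.sub_mem (P.smul_mem _ hx) (hmem x hx)
    have hPnd : ∀ x ∈ P, (∀ z ∈ P, polar Q x z = 0) → x = 0 := fun x hx hz => by
      obtain ⟨c, d, rfl⟩ := Submodule.mem_span_pair.1 hx
      have e1 := hz v hvP
      have e2 := hz (y.1 v) hyvP
      simp only [polar_add_left, polar_smul_left, polar_self, iso_Q, polar_comm Q (y.1 v) v, hbv, smul_eq_mul,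
        nsmul_eq_mul, Nat.cast_ofNat] at e1 e2
      have hne : Q v * (4 - t * t) ≠ 0 := mul_ne_zero hv (sub_ne_zero.2 ht.symm)
      have hc0 : c * (Q v * (4 - t * t)) = 0 := by linear_combination 2 * e1 - t * e2
      have hd0 : d * (Q v * (4 - t * t)) = 0 := by linear_combination 2 * e2 - t * e1
      rw [(mul_eq_zero.1 hc0).resolve_right hne, (mul_eq_zero.1 hd0).resolve_right hne]
      simp
    set R : Submodule F V := LinearMap.BilinForm.orthogonal (polarBilin Q) P with hR
    have hR' : ∀ x, x ∈ R ↔ ∀ z ∈ P, polar Q z x = 0 := fun x => Iff.rfl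
    have hrefl : (polarBilin Q).IsRefl := fun a b h => by
      simp only [polarBilin_apply_apply] at h ⊢; rwa [polar_comm]
    have hc : IsCompl P R := by
      refine LinearMap.BilinForm.isCompl_orthogonal_of_restrict_nondegenerate hrefl ?_
      exact ⟨fun x hx => Subtype.ext (hPnd _ x.2 fun z hz => hx ⟨z, hz⟩),
        fun x hx => Subtype.ext (hPnd _ x.2 fun z hz => by rw [polar_comm]; exact hx ⟨z, hz⟩)⟩
    have hRm : ∀ (h : isoG Q), (∀ z ∈ P, (h⁻¹).1 z ∈ P) → ∀ x ∈ R, h.1 x ∈ R := fun h hh x hx => by
      rw [hR'] at hx ⊢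
      intro z hz
      rw [← h.1.apply_symm_apply z, iso_B]
      exact hx _ (hh z hz)
    let e := Submodule.prodEquivOfIsCompl P R hc
    have he : ∀ x, Q (e x) = (Q.comp P.subtype).prod (Q.comp R.subtype) x := fun x => by
      simp [e, Submodule.coe_prodEquivOfIsCompl', QuadraticMap.map_add ⇑Q, (hR' _).1 x.2.2 _ x.1.2]
    set yP := restr P y hmem hmem'
    set yR := restr R y (hRm y hmem') (hRm y⁻¹ (by rw [inv_inv]; exact hmem))
    have hy' : y = isoConj e he (prodHom _ _ (yP, yR)) := iso_ext fun x => by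
      obtain ⟨x, rfl⟩ := e.surjective x
      rw [isoConj_apply, e.symm_apply_apply, prodHom_apply]
      simp [e, Submodule.coe_prodEquivOfIsCompl', yP, yR, restr_apply]
    have hprod : Nd ((Q.comp P.subtype).prod (Q.comp R.subtype)) :=
      nd_map e.symm (fun v => by rw [← he, e.apply_symm_apply]) hQ
    have hP' : Nd (Q.comp P.subtype) := fun x hx => congrArg Prod.fst (hprod (x, 0) fun z => by
      rw [polar_prod', hx, polar_zero_left, add_zero])
    have hR'' : Nd (Q.comp R.subtype) := fun x hx => congrArg Prod.snd (hprod (0, x) fun z => by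
      rw [polar_prod', hx, polar_zero_left, zero_add])
    have hsr' : ∀ (S : Submodule F V) (h₁ : ∀ x ∈ S, y.1 x ∈ S) (h₂ : ∀ x ∈ S, (y⁻¹).1 x ∈ S),
        SemiReg (restr S y h₁ h₂) ∧ (S ≠ ⊥ → orderOf (restr S y h₁ h₂) = orderOf y) := by
      intro S h₁ h₂
      refine ⟨fun i x hx hfix => iso_ext fun z => Subtype.ext ?_, fun hS => ?_⟩
      · have := hsr i x (fun h => hx (Subtype.ext h)) (by
          have := congrArg Subtype.val hfix
          rwa [restr_pow] at this)
        rw [restr_pow, this]
        rfl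
      · obtain ⟨x, hxS, hx0⟩ := (Submodule.ne_bot_iff S).1 hS
        refine Nat.dvd_antisymm (orderOf_dvd_of_pow_eq_one (iso_ext fun z => Subtype.ext ?_))
          (orderOf_dvd_of_pow_eq_one (hsr _ x hx0 ?_))
        · rw [restr_pow, pow_orderOf_eq_one]; rfl
        · have h := restr_pow S y h₁ h₂ (orderOf (restr S y h₁ h₂)) ⟨x, hxS⟩
          rw [pow_orderOf_eq_one] at h
          exact h.symm
    have hdimP : Module.finrank F P = 2 := by
      refine le_antisymm ?_ ?_
      · have hr : Submodule.span F (Set.range ![v, y.1 v]) = P := by rw [hP, Matrix.range_cons_cons_empty]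
        have := finrank_range_le_card (R := F) ![v, y.1 v]
        rw [Set.finrank, hr, Fintype.card_fin] at this
        exact this
      · have hli : LinearIndependent F ![(⟨v, hvP⟩ : P), ⟨y.1 v, hyvP⟩] := by
          refine linearIndependent_fin2.2 ⟨fun h => hv0 ?_, fun c hc => ?_⟩
          · exact y.1.map_eq_zero_iff.1 (congrArg Subtype.val h)
          · have h1 : c • y.1 v = v := congrArg Subtype.val hc
            have e1 : c * (t * Q v) = 2 * Q v := by
              have := congrArg (polar Q v) h1
              rwa [polar_smul_right, hbv, polar_self, nsmul_eq_mul, Nat.cast_ofNat, smul_eq_mul] at this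
            have e2 : c * (c * Q v) = Q v := by
              have := congrArg Q h1
              rwa [QuadraticMap.map_smul, iso_Q, smul_eq_mul, mul_assoc] at this
            have e3 : c * t = 2 := mul_right_cancel₀ hv (by linear_combination e1)
            have e4 : c * c = 1 := mul_right_cancel₀ hv (by linear_combination e2)
            exact ht (by linear_combination (c * t + 2) * e3 - t * t * e4)
        have := hli.fintype_card_le_finrank
        simpa using this
    have hsum := Submodule.finrank_add_eq_of_isCompl hc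
    have hPne : P ≠ ⊥ := (Submodule.ne_bot_iff P).2 ⟨v, hvP, hv0⟩
    have hoP : orderOf yP = Fintype.card F + 1 :=
      ((hsr' P hmem hmem').2 hPne).trans ho'
    have hdP : dick hP' yP = 1 := by
      have hf : fixS yP = ⊥ := (hsr' P hmem hmem').1.fix (fun h => by rw [show yP = 1 from h, orderOf_one] at hoP; omega)
      rw [dick_eq, hf, finrank_bot, hdimP]
      decide
    have hsP := spn_plane hP' h2 hdimP yP hoP hdP
    have hsR : spn hR'' yR = (-1) ^ k := by
      refine ih hR'' (by omega) yR t ht (fun x => Subtype.ext ?_) (fun hk => ?_) (hsr' R _ _).1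
      · simp [yR, restr_apply, hy]
      · exact ((hsr' R _ _).2 fun h => by rw [h, finrank_bot] at hsum; omega).trans ho'
    rw [hy', (invs_conj hprod hQ h2 e he _).2, (invs_prod hP' hR'' h2 _ _).2, hsP, hsR, pow_succ']

/-! ### Tori -/

include p in
/-- The torus of order `q ^ e - 1`. -/
theorem torus_plus (h2 : (2 : F) ≠ 0) {e : ℕ} (he : 1 ≤ e) : ∃ g : isoG (plusQ e F),
    dick (nd_plusQ e) g = 1 ∧ spn (nd_plusQ e) g = -1 ∧ orderOf g = Fintype.card F ^ e - 1 := by
  classical
  haveI : NeZero e := ⟨by omega⟩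
  let K := FiniteField.Extension F p e
  haveI : Fintype K := Fintype.ofFinite K
  obtain ⟨u, hu⟩ := IsCyclic.exists_generator (α := Kˣ)
  let b : Module.Basis (Fin e) F K := Module.finBasisOfFinrankEq F K (FiniteField.finrank_extension F p e)
  let A : GL (Fin e) F := Units.map (Algebra.leftMulMatrix b).toRingHom.toMonoidHom u
  have hA : orderOf A = Fintype.card F ^ e - 1 := by
    rw [orderOf_injective _ (Units.map_injective (Algebra.leftMulMatrix_injective b)),
      orderOf_eq_card_of_forall_mem_zpowers hu, Nat.card_units, FiniteField.natCard_extension,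
      Nat.card_eq_fintype_card]
  have hdet : ¬ IsSquare (A : Matrix (Fin e) (Fin e) F).det := by
    have e0 : (A : Matrix (Fin e) (Fin e) F).det = Algebra.norm F (u : K) := (Algebra.norm_eq_matrix_det b _).symm
    rw [e0]
    rintro ⟨r, hr⟩
    obtain ⟨x, hx⟩ := FiniteField.exists_nonsquare (F := F) (fun h => h2 (by
      have : CharP F 2 := h ▸ ringChar.charP F
      exact CharTwo.two_eq_zero))
    have hx0 : x ≠ 0 := fun h => hx.elim (h ▸ IsSquare.zero)
    obtain ⟨z, hz⟩ := FiniteField.unitsMap_norm_surjective F K (Units.mk0 x hx0)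
    obtain ⟨i, rfl⟩ := (isOfFinOrder_of_finite u).mem_powers_iff_mem_zpowers.2 (hu z)
    refine hx ⟨r ^ i, ?_⟩
    have hz' := congrArg Units.val hz
    simp only [Units.coe_map, Units.val_pow_eq_pow_val, Units.val_mk0, MonoidHom.coe_coe, map_pow] at hz'
    rw [← hz', hr, mul_pow]
  have hz : Nd (zeroQ F) := fun x _ => Subsingleton.elim _ _
  have hn : Nd (splitQ e (zeroQ F)) := nd_splitQ hz e
  have hinj : Function.Injective (glHom e (zeroQ F)) := fun a b hab => Units.ext (Matrix.ext_iff_mulVec.2 fun v => by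
    have := congrArg Prod.fst (congrArg Prod.fst (congrArg
      (fun g : isoG (splitQ e (zeroQ F)) => g.1 ((v, 0), 0)) hab))
    simpa [glHom_apply] using this)
  obtain ⟨i1, i2⟩ := invs_conj hn (nd_plusQ e) h2 (ePlus e) (fun v => by rw [plusQ_apply, plus_apply])
    (glHom e (zeroQ F) A)
  refine ⟨_, i1.trans (dick_glHom hz e A), i2.trans ?_, ?_⟩
  · rw [spn_glHom hz h2, sqSign, if_neg hdet]
  · rw [orderOf_injective _ (isoConj_injective _ _), orderOf_injective _ hinj, hA]

include p in
/-- The torus of order `q ^ (e + 1) + 1`. -/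
theorem torus_minus (h2 : (2 : F) ≠ 0) {a b : F} (hab : Aniso a b) (e : ℕ) : ∃ g : isoG (minusQ e a b),
    dick (nd_minusQ hab e) g = 1 ∧ spn (nd_minusQ hab e) g = -1 ∧ orderOf g = Fintype.card F ^ (e + 1) + 1 := by
  classical
  haveI : NeZero (2 * (e + 1)) := ⟨by omega⟩
  let K := FiniteField.Extension F p (2 * (e + 1))
  haveI : Fintype K := Fintype.ofFinite K
  haveI : CharP K p := charP_of_injective_algebraMap (algebraMap F K).injective p
  have hq1 : 1 < Fintype.card F := Fintype.one_lt_card
  have hodd := odd_card h2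
  set q := Fintype.card F with hq
  set c := q ^ (e + 1) with hc
  have hc1 : 1 < c := Nat.one_lt_pow (by omega) hq1
  have hK : Nat.card K = c * c := by
    rw [FiniteField.natCard_extension, Nat.card_eq_fintype_card, hc, ← pow_add, two_mul]
  let σ : K →ₐ[F] K := FiniteField.frobeniusAlgHom F K ^ (e + 1)
  have hσ : ∀ z : K, σ z = z ^ c := fun z => by
    show (FiniteField.frobeniusAlgHom F K ^ (e + 1)) z = _
    rw [AlgHom.coe_pow, FiniteField.coe_frobeniusAlgHom, pow_iterate]
  have hσσ : ∀ z : K, σ (σ z) = z := fun z => by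
    rw [hσ, hσ, ← pow_mul, ← hK, Nat.card_eq_fintype_card, FiniteField.pow_card]
  obtain ⟨u, hu⟩ := IsCyclic.exists_generator (α := Kˣ)
  have hou : orderOf u = (c + 1) * (c - 1) := by
    rw [orderOf_eq_card_of_forall_mem_zpowers hu, Nat.card_units, hK]
    simpa [pow_two] using Nat.sq_sub_sq c 1
  set x : Kˣ := u ^ (c - 1) with hx
  have hox : orderOf x = c + 1 := by
    rw [hx, orderOf_pow' _ (by omega), hou, Nat.gcd_mul_left_left, Nat.mul_div_cancel _ (by omega)]
  have hxσ : (x : K) * σ (x : K) = 1 := by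
    rw [hσ, ← Units.val_pow_eq_pow_val, ← Units.val_mul, ← pow_succ', ← hox, pow_orderOf_eq_one, Units.val_one]
  obtain ⟨ψ, hψ⟩ : ∃ ψ : Module.Dual F K, ψ 2 ≠ 0 := by
    by_contra! hcon
    have h' : (2 : K) = 0 := (Module.forall_dual_apply_eq_zero_iff F _).1 hcon
    rw [← map_ofNat (algebraMap F K) 2, map_eq_zero_iff _ (algebraMap F K).injective] at h'
    exact h2 h'
  let β : K →ₗ[F] K →ₗ[F] F :=
    LinearMap.mk₂ F (fun a b => ψ (a * σ b)) (fun a b d => by simp [add_mul])
      (fun a b d => by simp) (fun a b d => by simp [mul_add]) (fun a b d => by simp)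
  set Q : QuadraticForm F K := LinearMap.BilinMap.toQuadraticMap β with hQdef
  have hQ : ∀ a, Q a = ψ (a * σ a) := fun a => rfl
  have hpol : ∀ a b, polar Q a b = ψ (a * σ b + b * σ a) := fun a b => by
    simp only [polar, hQ, map_add, add_mul, mul_add]
    ring
  have hnd : Nd Q := by
    intro a ha
    by_contra ha0
    have := ha (σ a⁻¹)
    rw [hpol, hσσ, mul_inv_cancel₀ ha0, ← map_mul, inv_mul_cancel₀ ha0, map_one] at this
    exact hψ (by rwa [one_add_one_eq_two] at this)
  let m : Kˣ →* (K ≃ₗ[F] K) :=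
    { toFun := fun a => LinearEquiv.ofLinear (LinearMap.mulLeft F (a : K)) (LinearMap.mulLeft F ((a⁻¹ : Kˣ) : K))
        (LinearMap.ext fun z => by simp) (LinearMap.ext fun z => by simp)
      map_one' := LinearEquiv.ext fun z => by simp
      map_mul' := fun a b => LinearEquiv.ext fun z => by simp [mul_assoc] }
  have hm : Function.Injective m := fun a b hab => Units.ext (by
    have h' := congrArg (fun g : K ≃ₗ[F] K => g 1) hab
    simpa [m] using h')
  have hmQ : m x ∈ isoG Q := fun z => by
    show Q ((x : K) * z) = Q z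
    rw [hQ, hQ, map_mul σ, show (x : K) * z * (σ (x : K) * σ z) = (x : K) * σ (x : K) * (z * σ z) by ring, hxσ, one_mul]
  set g : isoG Q := ⟨m x, hmQ⟩ with hg
  have hgpow : ∀ (i : ℕ) (z : K), (g ^ i).1 z = ((x ^ i : Kˣ) : K) * z := fun i z => by
    rw [hg, SubgroupClass.coe_pow, ← map_pow]; rfl
  have hord : orderOf g = c + 1 := by
    rw [hg, ← Subgroup.orderOf_coe, orderOf_injective m hm, hox]
  have hsr : SemiReg g := fun i z hz hfix => by
    rw [hgpow] at hfix
    have h1 : x ^ i = 1 := Units.ext (mul_right_cancel₀ hz (hfix.trans (one_mul z).symm))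
    refine iso_ext fun w => ?_
    rw [hgpow, h1]; simp
  have hdim : Module.finrank F K = 2 * e + 2 := by rw [FiniteField.finrank_extension]; ring
  have hdick : dick hnd g = 1 := by
    rw [dick_eq, hsr.fix (fun h => by rw [h, orderOf_one] at hord; omega), finrank_bot, hdim, add_zero]
    exact ((even_two_mul e).add even_two).neg_one_pow
  rcases exists_normal_even e hnd hdim with ⟨E, hE⟩ | ⟨ζ, hζ, E, hE⟩
  · exfalso
    have hdvd := free_dvd hsr
    rw [hord] at hdvd
    have hn : numSing Q = Nat.card {v : Fin (e + 1) ⊕ Fin (e + 1) → F // Cfsg.quadFormPlus (e + 1) F v = 0} :=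
      (card_sing_bridge _ E.symm fun z => by rw [← hE, E.apply_symm_apply]).symm
    rw [card_sing_plus (e + 1) (by omega), show 2 * (e + 1) - 1 = (e + 1) + e by omega, Nat.add_sub_cancel,
      pow_add, ← hc] at hn
    set d := q ^ e with hd
    have hd1 : 1 ≤ d := Nat.one_le_pow _ _ (by omega)
    have hcd : c = q * d := by rw [hc, hd, pow_succ']
    have hkey : numSing Q - 1 = (c - 1) * (d + 1) := by
      rw [hn]
      clear_value c
      obtain ⟨c', rfl⟩ : ∃ c', c = c' + 1 := ⟨c - 1, by omega⟩
      simp only [Nat.add_sub_cancel, add_mul, one_mul, mul_add, mul_one]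
      omega
    rw [hkey] at hdvd
    have h2c : c + 1 ∣ 2 * (d + 1) := by
      have h3 : c + 1 ∣ (c + 1) * (d + 1) := dvd_mul_right _ _
      have h4 : (c + 1) * (d + 1) - (c - 1) * (d + 1) = 2 * (d + 1) := by
        rw [← Nat.sub_mul]; congr 1; omega
      exact h4 ▸ Nat.dvd_sub h3 hdvd
    have h3d : 3 * d ≤ c := by
      rw [hcd]; exact Nat.mul_le_mul_right d (by have := Nat.odd_iff.1 hodd; omega)
    have hle := Nat.le_of_dvd (by omega) h2c
    rcases Nat.lt_or_ge d 2 with hd2 | hd2
    · have he0 : e = 0 := by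
        by_contra h0
        have h := Nat.le_self_pow h0 q
        rw [← hd] at h
        omega
      subst he0
      exact plus_plane_false hnd h2 (by omega) g (by rw [hord, hc, zero_add, pow_one]) hdick E hE
    · omega
  · obtain ⟨e', he'⟩ := exists_bin_equiv hab hζ e
    have hE' : ∀ z, minusQ e 1 ζ (E.symm z) = Q z := fun z => by
      rw [minusQ_apply, ← hE, E.apply_symm_apply]
    obtain ⟨i1, i2⟩ := invs_conj hnd (nd_minusQ hab e) h2 (E.symm.trans e') (fun z => by
      rw [LinearEquiv.trans_apply, he', hE']) g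
    refine ⟨_, i1.trans hdick, i2.trans ?_, (orderOf_injective _ (isoConj_injective _ _) g).trans hord⟩
    rcases Nat.even_or_odd (e + 1) with heven | hod
    · -- the spinor norm of minus one
      have hc4 : c % 4 = 1 := by
        obtain ⟨k, hk⟩ := heven
        rw [hc, hk, ← two_mul, pow_mul, Nat.pow_mod]
        have : q ^ 2 % 4 = 1 := by
          rw [Nat.pow_mod]
          rcases (show q % 4 = 1 ∨ q % 4 = 3 by have := Nat.odd_iff.1 hodd; omega) with h | h <;> simp [h]
        rw [this]; simp
      obtain ⟨k, hk⟩ : ∃ k, c + 1 = 2 * (2 * k + 1) := ⟨(c - 1) / 4, by omega⟩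
      have hneg : g ^ (2 * k + 1) = negOne Q := iso_ext fun z => by
        rw [hgpow, negOne_apply]
        have h1 : ((x ^ (2 * k + 1) : Kˣ) : K) * ((x ^ (2 * k + 1) : Kˣ) : K) = 1 := by
          rw [← Units.val_mul, ← pow_add, ← two_mul, ← hk, ← hox, pow_orderOf_eq_one, Units.val_one]
        rcases mul_self_eq_one_iff.1 h1 with h | h
        · exfalso
          have := orderOf_le_of_pow_eq_one (by omega) (Units.ext (h.trans Units.val_one.symm) : x ^ (2 * k + 1) = 1)
          omega
        · rw [h, neg_one_mul]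
      have hchi : chi hnd = -1 := by
        rw [← chi_conj hnd (nd_minusQ hζ e) h2 E.symm hE', chi_minus h2 hζ e, sqSign_neg_one_sq heven]
      rcases Int.units_eq_one_or (spn hnd g) with h | h
      · rw [chi, ← hneg, map_pow, h, one_pow] at hchi
        exact absurd hchi (by decide)
      · exact h
    · obtain ⟨n, hn⟩ : q + 1 ∣ c + 1 := by simpa [hc] using hod.nat_add_dvd_pow_add_pow q 1
      have hn1 : 1 ≤ n := Nat.pos_of_ne_zero fun h => by rw [h, mul_zero] at hn; omega
      have hnd' : n ∣ c + 1 := hn ▸ dvd_mul_left _ _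
      set y := g ^ n with hy
      have hoy : orderOf y = q + 1 := by
        rw [hy, orderOf_pow' g (by omega), hord, Nat.gcd_eq_right hnd', hn, Nat.mul_div_cancel _ hn1]
      set z : K := ((x ^ n : Kˣ) : K) with hz
      have hzq : z ^ (q + 1) = 1 := by
        rw [hz, ← Units.val_pow_eq_pow_val, ← pow_mul, Nat.mul_comm n (q + 1), ← hn, ← hox, pow_orderOf_eq_one, Units.val_one]
      have hzz : z ^ q * z = 1 := by rw [← pow_succ, hzq]
      have hfix : (z + z ^ q) ^ q = z + z ^ q := by
        obtain ⟨f, -, hf⟩ := FiniteField.card F p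
        have e2 : (z ^ q) ^ q = z := by
          have h' : (z ^ q) ^ (q + 1) = 1 := by rw [← pow_mul, Nat.mul_comm q (q + 1), pow_mul, hzq, one_pow]
          rw [pow_succ] at h'
          exact mul_right_cancel₀ (left_ne_zero_of_mul_eq_one hzz) (h'.trans (hzz.symm.trans (mul_comm _ _)))
        rw [hq, hf, add_pow_char_pow, ← hf, ← hq, e2, add_comm]
      obtain ⟨t, ht⟩ : ∃ t : F, algebraMap F K t = z + z ^ q := by
        by_contra! hcon
        have h1 : (Finset.univ.image (algebraMap F K) ∪ {z + z ^ q}).card ≤ q := by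
          have hsub : (Finset.univ.image (algebraMap F K) ∪ {z + z ^ q}) ⊆
              ((X : K[X]) ^ q - X).roots.toFinset := by
            intro w hw
            have hne : ((X : K[X]) ^ q - X) ≠ 0 := FiniteField.X_pow_card_sub_X_ne_zero K hq1
            rw [Multiset.mem_toFinset, mem_roots hne, IsRoot, eval_sub, eval_pow, eval_X, sub_eq_zero]
            rcases Finset.mem_union.1 hw with hw | hw
            · obtain ⟨r, -, rfl⟩ := Finset.mem_image.1 hw
              rw [← map_pow, FiniteField.pow_card]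
            · rw [Finset.mem_singleton.1 hw]; exact hfix
          refine (Finset.card_le_card hsub).trans ((Multiset.toFinset_card_le _).trans ((card_roots' _).trans ?_))
          rw [FiniteField.X_pow_card_sub_X_natDegree_eq K hq1]
        rw [Finset.card_union_of_disjoint (by
          simp only [Finset.disjoint_singleton_right, Finset.mem_image, Finset.mem_univ, true_and, not_exists]
          exact hcon), Finset.card_image_of_injective _ (algebraMap F K).injective, Finset.card_univ,
          Finset.card_singleton, ← hq] at h1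
        omega
      have hy2 : ∀ w, y.1 (y.1 w) = t • y.1 w - w := fun w => by
        rw [hy, hgpow, hgpow, Algebra.smul_def, ht, ← hz]
        linear_combination -w * hzz
      have ht4 : t * t ≠ 4 := fun h4 => by
        have h4' : (z + z ^ q) * (z + z ^ q) = 4 := by
          rw [← ht, ← map_mul, h4, map_ofNat]
        have hsq : (z - z ^ q) * (z - z ^ q) = 0 := by linear_combination h4' - 4 * hzz
        have heq : z = z ^ q := sub_eq_zero.1 (mul_self_eq_zero.1 hsq)
        have h2' : z * z = 1 := by linear_combination hzz + z * heq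
        have hx2 : x ^ (n * 2) = 1 := Units.ext (by
          rw [pow_mul, Units.val_pow_eq_pow_val, ← hz, Units.val_one, pow_two, h2'])
        have := Nat.le_of_dvd (by omega) (hox ▸ orderOf_dvd_of_pow_eq_one hx2)
        rw [hn] at this
        have h3n : 3 * n ≤ (q + 1) * n := Nat.mul_le_mul_right n (by omega)
        omega
      have hys : SemiReg y := fun i w hw hf => by
        rw [hy, ← pow_mul] at hf ⊢; exact hsr _ w hw hf
      have h := spn_scalar h2 (e + 1) hnd (by omega) y t ht4 hy2 (fun _ => hoy) hys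
      rw [hod.neg_one_pow, hy, map_pow] at h
      rcases Int.units_eq_one_or (spn hnd g) with h' | h'
      · rw [h', one_pow] at h; exact absurd h (by decide)
      · exact h'

/-! ### Regular unipotent elements -/

include p in
/-- A regular unipotent element in odd dimension. -/
theorem regular_unip (h2 : (2 : F) ≠ 0) (d : ℕ) :
    ∃ u : isoG (oddQ d F), Uni u ∧ (lin u - 1) ^ (2 * d) ≠ 0 := by
  classical
  rcases d with _ | d
  · refine ⟨1, ⟨1, ?_⟩, ?_⟩
    · rw [pow_one]; exact sub_self _
    · rw [mul_zero, pow_zero]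
      intro h
      have := congrFun (LinearMap.congr_fun h (fun _ => 1)) (.inl ())
      simp at this
  set S : Matrix (Fin (d + 1)) (Fin (d + 1)) F := Matrix.of fun i j => if (j : ℕ) = i + 1 then 1 else 0 with hS
  have hSap : ∀ i j, S i j = if (j : ℕ) = i + 1 then 1 else 0 := fun i j => rfl
  have hSpow : ∀ (k : ℕ) (i j : Fin (d + 1)), (S ^ k) i j = if (j : ℕ) = i + k then 1 else 0 := by
    intro k
    induction k with
    | zero => intro i j; simp [Matrix.one_apply, Fin.ext_iff, eq_comm]
    | succ k ih =>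
      intro i j
      rw [pow_succ, Matrix.mul_apply]
      simp only [ih, hSap]
      by_cases hik : (i : ℕ) + k < d + 1
      · rw [Finset.sum_eq_single ⟨i + k, hik⟩ (fun l _ hl => by
          rw [if_neg (fun h => hl (Fin.ext h)), zero_mul]) (by simp)]
        simp [add_assoc]
      · rw [Finset.sum_eq_zero (fun l _ => by rw [if_neg (by omega), zero_mul]), if_neg (by omega)]
  have hSnil : S ^ (d + 1) = 0 := by ext i j; rw [hSpow, if_neg (by omega)]; rfl
  obtain ⟨A, hA⟩ : ∃ A : GL (Fin (d + 1)) F, ((A⁻¹ : GL _ F) : Matrix _ _ F) = 1 + S :=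
    ⟨(IsNilpotent.isUnit_one_add ⟨d + 1, hSnil⟩).unit⁻¹, by rw [inv_inv]; rfl⟩
  set Q0 := splitQ (d + 1) (sqQ F) with hQ0
  set x0 : ((Fin (d + 1) → F) × (Fin (d + 1) → F)) × (Unit → F) := ((Pi.single (Fin.last d) 1, 0), 0) with hx0
  set w0 : ((Fin (d + 1) → F) × (Fin (d + 1) → F)) × (Unit → F) := (0, fun _ => 1) with hw0
  have hx : Q0 x0 = 0 := by simp [hQ0, hx0, splitQ_apply, sqQ_apply]
  have hxw : polar Q0 x0 w0 = 0 := by
    rw [hQ0, polar_splitQ]
    simp [hx0, hw0, polar, sqQ_apply]
  set J := (A : Matrix (Fin (d + 1)) (Fin (d + 1)) F) with hJ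
  have hJS : (1 + S) * J = 1 := by rw [hJ, ← hA, Units.inv_mul]
  have hlast : ∀ v, (J *ᵥ v) (Fin.last d) = v (Fin.last d) := fun v => by
    have h := congrFun (congrArg (fun M => M *ᵥ v) hJS) (Fin.last d)
    simp only [← Matrix.mulVec_mulVec, Matrix.one_mulVec, Matrix.add_mulVec, Pi.add_apply] at h
    have h0 : (S *ᵥ (J *ᵥ v)) (Fin.last d) = 0 := by
      simp only [hS, Matrix.mulVec, dotProduct, Matrix.of_apply]
      exact Finset.sum_eq_zero fun l _ => by
        rw [if_neg (by simp only [Fin.val_last]; omega), zero_mul]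
    rw [h0, add_zero] at h
    exact h
  set u0 : isoG Q0 := glHom (d + 1) (sqQ F) A * sie Q0 x0 w0 with hu0
  have hu : ∀ v, (lin u0 - 1) v = ((J *ᵥ (v.1.1 + Pi.single (Fin.last d) (-(2 * v.2 ()) - v.1.2 (Fin.last d))) - v.1.1,
      v.1.2 ᵥ* S), fun _ => v.1.2 (Fin.last d)) := fun v => by
    rw [LinearMap.sub_apply, Module.End.one_apply, LinearEquiv.coe_coe, hu0, Subgroup.coe_mul,
      LinearEquiv.mul_apply, sie_apply hx hxw, glHom_apply, hA]
    refine Prod.ext (Prod.ext ?_ ?_) (funext fun i => ?_)
    · simp only [Prod.fst_sub]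
      congr 2
      funext i
      simp only [hQ0, polar_splitQ]
      simp [hx0, hw0, polar, sqQ_apply, splitQ_apply, Pi.single_apply]
      split_ifs <;> ring
    · simp [hQ0, hx0, hw0, polar_splitQ, Matrix.vecMul_add, Matrix.vecMul_one]
    · simp only [hQ0, polar_splitQ]
      simp [hx0, hw0, Pi.single_apply, polar, sqQ_apply]
  set N := lin u0 - 1 with hN
  have hy : ∀ (k : ℕ) (v : ((Fin (d + 1) → F) × (Fin (d + 1) → F)) × (Unit → F)), ((N ^ k) v).1.2 = v.1.2 ᵥ* S ^ k := by
    intro k
    induction k with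
    | zero => intro v; simp
    | succ k ih => intro v; rw [pow_succ', Module.End.mul_apply, hu, ih, Matrix.vecMul_vecMul, ← pow_succ]
  -- the part with `y = 0`, `z = 0`
  have hx' : ∀ (k : ℕ) (v : Fin (d + 1) → F), (N ^ k) ((v, 0), 0) = (((J - 1) ^ k *ᵥ v, 0), 0) := by
    intro k
    induction k with
    | zero => intro v; simp
    | succ k ih =>
      intro v
      rw [pow_succ', Module.End.mul_apply, ih, hu, pow_succ', ← Matrix.mulVec_mulVec, Matrix.sub_mulVec,
        Matrix.one_mulVec]
      simp
      rfl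
  have hJ1 : J - 1 = -(S * J) := by
    have h' : J + S * J = 1 := by rwa [add_mul, one_mul] at hJS
    rw [← h']; abel
  have hnilJ : (J - 1) ^ (d + 1) = 0 := by
    have hcomm : Commute S J := by
      have : Commute (1 + S) J := by
        show (1 + S) * J = J * (1 + S)
        rw [hJS, hJ, ← hA, Units.mul_inv]
      simpa [Commute, SemiconjBy, add_mul, mul_add] using this
    rw [hJ1, neg_pow, hcomm.mul_pow, hSnil, zero_mul, mul_zero]
  have hnil : IsNilpotent N := by
    refine ⟨(d + 1) + (1 + (d + 1)), LinearMap.ext fun v => ?_⟩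
    rw [show d + 1 + (1 + (d + 1)) = (d + 1) + 1 + (d + 1) by ring, pow_add, Module.End.mul_apply]
    set w := (N ^ (d + 1)) v with hw
    have hw2 : w.1.2 = 0 := by rw [hw, hy, hSnil, Matrix.vecMul_zero]
    rw [pow_succ, Module.End.mul_apply]
    have h1 : N w = ((J *ᵥ (w.1.1 + Pi.single (Fin.last d) (-(2 * w.2 ()))) - w.1.1, 0), 0) := by
      rw [hu, hw2]; simp
      rfl
    rw [h1, hx', hnilJ]; simp
  have hne : N ^ (2 * (d + 1)) ≠ 0 := by
    intro h0
    set v0 : ((Fin (d + 1) → F) × (Fin (d + 1) → F)) × (Unit → F) := ((0, Pi.single 0 1), 0) with hv0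
    have hyd : ∀ (k : ℕ) (hk : k ≤ d), ((N ^ k) v0) = ((0, Pi.single (⟨k, by omega⟩ : Fin (d+1)) 1), 0) ∨ d < k := by
      intro k hk
      left
      induction k with
      | zero => simp [hv0]
      | succ k ih =>
        rw [pow_succ', Module.End.mul_apply, ih (by omega), hu]
        have hk' : (⟨k, by omega⟩ : Fin (d + 1)) ≠ Fin.last d := by
          intro h; have := congrArg Fin.val h; simp at this; omega
        refine Prod.ext (Prod.ext ?_ ?_) ?_
        · simp [Pi.single_eq_of_ne hk'.symm]
        · funext j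
          simp [Matrix.vecMul, dotProduct, Pi.single_apply, hS, Fin.ext_iff, eq_comm]
          rw [Finset.sum_eq_single ⟨k, by omega⟩ (fun l _ hl => by
            rw [if_neg (fun h : k = (l : ℕ) => hl (Fin.ext h.symm))]; simp) (by simp)]
          simp
        · funext _; simp [Pi.single_eq_of_ne hk'.symm]
    have h1 := (hyd d le_rfl).resolve_right (lt_irrefl d)
    have h2' : (N ^ (d + 1)) v0 = ((J *ᵥ Pi.single (Fin.last d) (-1), 0), fun _ => 1) := by
      rw [pow_succ', Module.End.mul_apply, h1, hu]
      refine Prod.ext (Prod.ext ?_ ?_) ?_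
      · simp [show (⟨d, by omega⟩ : Fin (d + 1)) = Fin.last d from rfl]
      · funext j
        simp [Matrix.vecMul, dotProduct, Pi.single_apply, hS]
        exact Finset.sum_eq_zero fun l _ => by
          split_ifs with ha hb
          · have := congrArg Fin.val hb; simp at this; omega
          · rfl
          · rfl
      · funext _; simp [show (⟨d, by omega⟩ : Fin (d + 1)) = Fin.last d from rfl]
    set x1 := J *ᵥ Pi.single (Fin.last d) (-1 : F) with hx1
    set x2 := J *ᵥ (x1 + Pi.single (Fin.last d) (-2)) - x1 with hx2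
    have h3 : (N ^ (d + 2)) v0 = ((x2, 0), 0) := by
      rw [pow_succ', Module.End.mul_apply, h2', hu]
      simp [hx2]
      rfl
    have hx2l : x2 (Fin.last d) = -2 := by
      rw [hx2, Pi.sub_apply, hlast, Pi.add_apply, hx1, hlast]
      simp
    have h4 : (N ^ (2 * (d + 1))) v0 = (((J - 1) ^ d *ᵥ x2, 0), 0) := by
      rw [show 2 * (d + 1) = d + (d + 2) by ring, pow_add, Module.End.mul_apply, h3, hx']
    rw [h0, LinearMap.zero_apply] at h4
    have h5 := congrArg (fun t => t.1.1 0) h4
    have hcomm : Commute S J := by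
      have : Commute (1 + S) J := by
        show (1 + S) * J = J * (1 + S)
        rw [hJS, hJ, ← hA, Units.mul_inv]
      simpa [Commute, SemiconjBy, add_mul, mul_add] using this
    have hlastpow : ∀ (k : ℕ) (v : Fin (d + 1) → F), ((J ^ k) *ᵥ v) (Fin.last d) = v (Fin.last d) := by
      intro k
      induction k with
      | zero => simp
      | succ k ih => intro v; rw [pow_succ', ← Matrix.mulVec_mulVec, hlast, ih]
    have h6 : ((S ^ d) *ᵥ ((J ^ d) *ᵥ x2)) 0 = -2 := by
      rw [Matrix.mulVec, dotProduct, Finset.sum_eq_single (Fin.last d)]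
      · rw [hSpow, if_pos (by simp), one_mul, hlastpow, hx2l]
      · intro l _ hl
        rw [hSpow, if_neg (fun h => hl (Fin.ext (by simpa using h))), zero_mul]
      · simp
    simp only at h5
    rw [hJ1, neg_pow, hcomm.mul_pow, ← Matrix.mulVec_mulVec, ← Matrix.mulVec_mulVec] at h5
    rcases neg_one_pow_eq_or (Matrix (Fin (d + 1)) (Fin (d + 1)) F) d with hs | hs <;>
      rw [hs] at h5 <;> simp only [Matrix.mulVec_mulVec] at h5 h6 <;> simp [Matrix.neg_mulVec, h6] at h5 <;> exact h2 (by first | linear_combination h5 | linear_combination -h5)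
  set e := eOdd (F := F) (d + 1)
  refine ⟨isoConj e (fun v => by rw [oddQ_apply, odd_apply]) u0, ?_, ?_⟩
  all_goals
    have key : ∀ (k : ℕ) v, ((lin (isoConj e (fun v => by rw [oddQ_apply, odd_apply]) u0) - 1 :
        Module.End F (Unit ⊕ (Fin (d + 1) ⊕ Fin (d + 1)) → F)) ^ k) (e v) = e ((N ^ k) v) := by
      intro k
      induction k with
      | zero => intro v; rfl
      | succ k ih =>
        intro v
        rw [pow_succ, pow_succ, Module.End.mul_apply, Module.End.mul_apply, ← ih]
        congr 1
        simp [hN, isoConj_apply]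
  · obtain ⟨k, hk⟩ := hnil
    refine ⟨k, LinearMap.ext fun v => ?_⟩
    obtain ⟨v, rfl⟩ := e.surjective v
    rw [key, hk]; simp
  · intro h
    apply hne
    refine LinearMap.ext fun v => e.injective ?_
    rw [← key, h]; simp

end Cfsg.Agent.Lib.Recog.OrthNine
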