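import Cfsg.Agent.Lib.Recog.OrthNineBlocks
import Cfsg.Agent.Lib.Recog.SpEightBound

/-! Element orders of the orthogonal group of plus type in dimension eight without eigenvalues `±1`. -/

set_option autoImplicit false

namespace Cfsg.Agent.Lib.Recog.OrthNine

open Polynomial QuadraticMap
open Matrix hiding inv_zero
open Cfsg.Agent.Lib.Classical.Quad Cfsg.Agent.Lib.Classical.QuadOmega Cfsg.Agent.Lib.Classical.OrthTorsion
open Cfsg.Agent.Lib.Classical.QuadF2 Cfsg.Agent.Lib.AutOmega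
open Cfsg.Agent.Lib.Recog.OddOrthPrimeGraph
open Cfsg.Agent.Lib.Recog.SympPrimeGraph
open Cfsg.Agent.Lib.Recog.SpEight (pow_sub_one_dvd reverse_assoc rev_rev dvd_two dvd_three)

universe u v

/-- The middle torus order. -/
def midA (q : ℕ) : ℕ := Nat.lcm (q ^ 2 + 1) (q ^ 2 - 1)

/-- The targets. -/
def Tgt (q p n : ℕ) : Prop :=
  n ∣ midA q ∨ n ∣ Nat.lcm (q ^ 3 + 1) (q - 1) ∨ n ∣ Nat.lcm (q ^ 3 - 1) (q + 1) ∨
  n ∣ p * Nat.lcm (q ^ 2 + 1) (q + 1) ∨ n ∣ p * Nat.lcm (q ^ 2 + 1) (q - 1) ∨ n ∣ p * (q ^ 2 - 1) ∨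
  (p = 3 ∧ (n ∣ 9 * (q + 1) ∨ n ∣ 9 * (q - 1)))

/-- A torus order with half dimension `D` and multiplicity at most `k`. -/
inductive Tor (q : ℕ) : ℕ → ℕ → ℕ → Prop
  | nil : Tor q 0 0 1
  | one {j a N : ℕ} (hj : 1 ≤ j) (hj4 : j ≠ 4) (ha : 1 ≤ a) (hN : N = q ^ j + 1 ∨ N = q ^ j - 1) : Tor q (j * a) a N
  | join {D D' k k' L L' : ℕ} : Tor q D k L → Tor q D' k' L' → Tor q (D + D') (max k k') (Nat.lcm L L')

section Arith

variable {q : ℕ}

theorem Tor.cases {D k L : ℕ} (hP : Tor q D k L) :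
    k ≤ D ∧ (D = 0 → L = 1) ∧
    (D = 1 → L ∣ q + 1 ∨ L ∣ q - 1) ∧
    (D = 2 → L ∣ q ^ 2 + 1 ∨ L ∣ q ^ 2 - 1) ∧
    (D = 3 → L ∣ q ^ 3 + 1 ∨ L ∣ q ^ 3 - 1 ∨ L ∣ Nat.lcm (q ^ 2 + 1) (q + 1) ∨ L ∣ Nat.lcm (q ^ 2 + 1) (q - 1) ∨
      L ∣ q ^ 2 - 1) ∧
    (D = 4 → L ∣ midA q ∨ L ∣ Nat.lcm (q ^ 3 + 1) (q - 1) ∨ L ∣ Nat.lcm (q ^ 3 - 1) (q + 1)) := by
  obtain ⟨h2a, h2b⟩ := dvd_two (q := q)
  obtain ⟨h3a, h3b⟩ := dvd_three (q := q)
  have hA1 : q ^ 2 + 1 ∣ midA q := Nat.dvd_lcm_left _ _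
  have hA2 : q ^ 2 - 1 ∣ midA q := Nat.dvd_lcm_right _ _
  induction hP with
  | nil => simp
  | @one j a N hj hj4 ha hN =>
    have hja : a ≤ j * a := Nat.le_mul_of_pos_left _ hj
    have hjj : j ≤ j * a := Nat.le_mul_of_pos_right _ ha
    refine ⟨hja, fun h => by omega, fun h => ?_, fun h => ?_, fun h => ?_, fun h => ?_⟩
    · obtain rfl : j = 1 := by omega
      rw [pow_one] at hN
      rcases hN with rfl | rfl <;> simp
    · rcases (show j = 1 ∨ j = 2 by omega) with rfl | rfl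
      · rw [pow_one] at hN
        rcases hN with rfl | rfl
        exacts [Or.inr h2a, Or.inr h2b]
      · rcases hN with rfl | rfl <;> simp
    · rcases (show j = 1 ∨ j = 2 ∨ j = 3 by omega) with rfl | rfl | rfl
      · rw [pow_one] at hN
        rcases hN with rfl | rfl
        exacts [Or.inr (Or.inr (Or.inr (Or.inr h2a))), Or.inr (Or.inr (Or.inr (Or.inr h2b)))]
      · omega
      · rcases hN with rfl | rfl <;> simp
    · rcases (show j = 1 ∨ j = 2 ∨ j = 3 by omega) with rfl | rfl | rfl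
      · rw [pow_one] at hN
        rcases hN with rfl | rfl
        exacts [Or.inl (h2a.trans hA2), Or.inl (h2b.trans hA2)]
      · rcases hN with rfl | rfl
        exacts [Or.inl hA1, Or.inl hA2]
      · omega
  | @join D D' k k' L L' _ _ ih ih' =>
    obtain ⟨ak, a0, a1, a2, a3, -⟩ := id ih
    obtain ⟨bk, b0, b1, b2, b3, -⟩ := id ih'
    have hk : max k k' ≤ D + D' := by omega
    rcases Nat.eq_zero_or_pos D with rfl | hD
    · obtain ⟨-, hrest⟩ := ih'
      rw [a0 rfl, Nat.lcm_one_left, zero_add]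
      exact ⟨by omega, hrest⟩
    rcases Nat.eq_zero_or_pos D' with rfl | hD'
    · obtain ⟨-, hrest⟩ := ih
      rw [b0 rfl, Nat.lcm_one_right, add_zero]
      exact ⟨by omega, hrest⟩
    have key12 : ∀ {A B : ℕ}, (A ∣ q + 1 ∨ A ∣ q - 1) → (B ∣ q ^ 2 + 1 ∨ B ∣ q ^ 2 - 1) →
        Nat.lcm A B ∣ Nat.lcm (q ^ 2 + 1) (q + 1) ∨ Nat.lcm A B ∣ Nat.lcm (q ^ 2 + 1) (q - 1) ∨
          Nat.lcm A B ∣ q ^ 2 - 1 := by
      intro A B hA hB
      rcases hB with hB | hB
      · rcases hA with hA | hA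
        · exact Or.inl (Nat.lcm_dvd (hA.trans (Nat.dvd_lcm_right _ _)) (hB.trans (Nat.dvd_lcm_left _ _)))
        · exact Or.inr (Or.inl (Nat.lcm_dvd (hA.trans (Nat.dvd_lcm_right _ _)) (hB.trans (Nat.dvd_lcm_left _ _))))
      · refine Or.inr (Or.inr (Nat.lcm_dvd ?_ hB))
        rcases hA with hA | hA
        exacts [hA.trans h2a, hA.trans h2b]
    have key13 : ∀ {A B : ℕ}, (A ∣ q + 1 ∨ A ∣ q - 1) → (B ∣ q ^ 3 + 1 ∨ B ∣ q ^ 3 - 1 ∨
        B ∣ Nat.lcm (q ^ 2 + 1) (q + 1) ∨ B ∣ Nat.lcm (q ^ 2 + 1) (q - 1) ∨ B ∣ q ^ 2 - 1) →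
        Nat.lcm A B ∣ midA q ∨ Nat.lcm A B ∣ Nat.lcm (q ^ 3 + 1) (q - 1) ∨
          Nat.lcm A B ∣ Nat.lcm (q ^ 3 - 1) (q + 1) := by
      intro A B hA hB
      have hA4 : A ∣ midA q := by
        rcases hA with hA | hA
        exacts [(hA.trans h2a).trans hA2, (hA.trans h2b).trans hA2]
      rcases hB with hB | hB | hB | hB | hB
      · refine Or.inr (Or.inl (Nat.lcm_dvd ?_ (hB.trans (Nat.dvd_lcm_left _ _))))
        rcases hA with hA | hA
        exacts [(hA.trans h3a).trans (Nat.dvd_lcm_left _ _), hA.trans (Nat.dvd_lcm_right _ _)]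
      · refine Or.inr (Or.inr (Nat.lcm_dvd ?_ (hB.trans (Nat.dvd_lcm_left _ _))))
        rcases hA with hA | hA
        exacts [hA.trans (Nat.dvd_lcm_right _ _), (hA.trans h3b).trans (Nat.dvd_lcm_left _ _)]
      · exact Or.inl (Nat.lcm_dvd hA4 (hB.trans (Nat.lcm_dvd hA1 (h2a.trans hA2))))
      · exact Or.inl (Nat.lcm_dvd hA4 (hB.trans (Nat.lcm_dvd hA1 (h2b.trans hA2))))
      · exact Or.inl (Nat.lcm_dvd hA4 (hB.trans hA2))
    refine ⟨hk, fun h => by omega, fun h => by omega, fun h => ?_, fun h => ?_, fun h => ?_⟩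
    · right
      rcases a1 (by omega) with hA | hA <;> rcases b1 (by omega) with hB | hB <;>
        exact Nat.lcm_dvd (hA.trans (by assumption)) (hB.trans (by assumption))
    · rcases (show D = 1 ∧ D' = 2 ∨ D = 2 ∧ D' = 1 by omega) with ⟨rfl, rfl⟩ | ⟨rfl, rfl⟩
      · exact Or.inr (Or.inr (key12 (a1 rfl) (b2 rfl)))
      · rw [Nat.lcm_comm]; exact Or.inr (Or.inr (key12 (b1 rfl) (a2 rfl)))
    · rcases (show D = 1 ∧ D' = 3 ∨ D = 2 ∧ D' = 2 ∨ D = 3 ∧ D' = 1 by omega) with ⟨rfl, rfl⟩ | ⟨rfl, rfl⟩ | ⟨rfl, rfl⟩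
      · exact key13 (a1 rfl) (b3 rfl)
      · refine Or.inl (Nat.lcm_dvd ?_ ?_)
        · rcases a2 rfl with h | h
          exacts [h.trans hA1, h.trans hA2]
        · rcases b2 rfl with h | h
          exacts [h.trans hA1, h.trans hA2]
      · rw [Nat.lcm_comm]; exact key13 (b1 rfl) (a3 rfl)

/-- A class of maximal multiplicity. -/
theorem Tor.high {D k L : ℕ} (hP : Tor q D k L) (hk : 1 ≤ k) :
    ∃ j N D' k' L', 1 ≤ j ∧ (N = q ^ j + 1 ∨ N = q ^ j - 1) ∧ Tor q D' k' L' ∧ k * j + D' ≤ D ∧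
      L ∣ Nat.lcm N L' := by
  induction hP with
  | nil => omega
  | @one j a N hj hj4 ha hN => exact ⟨j, N, 0, 0, 1, hj, hN, .nil, by rw [mul_comm]; omega, Nat.dvd_lcm_left _ _⟩
  | @join D D' k k' L L' h h' ih ih' =>
    rcases le_total k' k with hle | hle
    · rw [max_eq_left hle] at hk ⊢
      obtain ⟨j, N, E, e, M, hj, hN, hE, hb, hd⟩ := ih hk
      refine ⟨j, N, _, _, _, hj, hN, hE.join h', by omega, Nat.lcm_dvd (hd.trans ?_) ?_⟩
      · exact Nat.lcm_dvd (Nat.dvd_lcm_left _ _) ((Nat.dvd_lcm_left _ _).trans (Nat.dvd_lcm_right _ _))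
      · exact (Nat.dvd_lcm_right _ _).trans (Nat.dvd_lcm_right _ _)
    · rw [max_eq_right hle] at hk ⊢
      obtain ⟨j, N, E, e, M, hj, hN, hE, hb, hd⟩ := ih' hk
      refine ⟨j, N, _, _, _, hj, hN, hE.join h, by omega, Nat.lcm_dvd ?_ (hd.trans ?_)⟩
      · exact (Nat.dvd_lcm_right _ _).trans (Nat.dvd_lcm_right _ _)
      · exact Nat.lcm_dvd (Nat.dvd_lcm_left _ _) ((Nat.dvd_lcm_left _ _).trans (Nat.dvd_lcm_right _ _))

theorem Tor.dim_le {D k L : ℕ} (hP : Tor q D k L) {E : ℕ} (h : D ≤ E) :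
    ∃ k' L', L ∣ L' ∧ Tor q E k' L' := by
  induction E, h using Nat.le_induction with
  | base => exact ⟨k, L, dvd_rfl, hP⟩
  | succ m _ ih =>
    obtain ⟨k', L', h1, h2⟩ := ih
    have h3 := h2.join (Tor.one (q := q) (j := 1) (a := 1) (N := q - 1) le_rfl (by omega) le_rfl (Or.inr (by rw [pow_one])))
    exact ⟨_, _, h1.trans (Nat.dvd_lcm_left _ _), h3⟩

/-- Torus part and unipotent part. -/
theorem tgt_of {p : ℕ} (hp : 3 ≤ p) {D k L o : ℕ} (hP : Tor q D k L) (hD : D ≤ 4)
    (ho : ∀ c, k ≤ p ^ c → o ∣ p ^ c * L) : Tgt q p o := by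
  have hk := (Tor.cases hP).1
  rcases Nat.lt_or_ge k 2 with h | h
  · obtain ⟨k', L', hL, hP'⟩ := hP.dim_le hD
    have h0 : o ∣ L := by simpa using ho 0 (by rw [pow_zero]; omega)
    obtain ⟨-, -, -, -, -, h4⟩ := Tor.cases hP'
    rcases h4 rfl with h | h | h
    · exact Or.inl ((h0.trans hL).trans h)
    · exact Or.inr (Or.inl ((h0.trans hL).trans h))
    · exact Or.inr (Or.inr (Or.inl ((h0.trans hL).trans h)))
  obtain ⟨h2a, h2b⟩ := dvd_two (q := q)
  obtain ⟨j, N, D', k', L', hj, hN, hP', hb, hd⟩ := hP.high (by omega)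
  have hkj : k ≤ k * j := Nat.le_mul_of_pos_right _ hj
  have hjk : 2 * j ≤ k * j := Nat.mul_le_mul_right _ h
  obtain ⟨-, h0, h1, h2, -, -⟩ := Tor.cases hP'
  -- the order divides `p` times a multiple of `L`
  have hN1 : j = 1 → (N ∣ q + 1 ∨ N ∣ q - 1) := fun h => by
    subst h; rw [pow_one] at hN
    rcases hN with rfl | rfl <;> simp
  rcases Nat.lt_or_ge k 4 with hk4 | hk4
  · have hop : o ∣ p * Nat.lcm N L' := (ho 1 (by rw [pow_one]; omega)).trans (by rw [pow_one]; exact mul_dvd_mul_left _ hd)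
    suffices Nat.lcm N L' ∣ Nat.lcm (q ^ 2 + 1) (q + 1) ∨ Nat.lcm N L' ∣ Nat.lcm (q ^ 2 + 1) (q - 1) ∨
        Nat.lcm N L' ∣ q ^ 2 - 1 by
      rcases this with h | h | h
      · exact Or.inr (Or.inr (Or.inr (Or.inl (hop.trans (mul_dvd_mul_left _ h)))))
      · exact Or.inr (Or.inr (Or.inr (Or.inr (Or.inl (hop.trans (mul_dvd_mul_left _ h))))))
      · exact Or.inr (Or.inr (Or.inr (Or.inr (Or.inr (Or.inl (hop.trans (mul_dvd_mul_left _ h)))))))
    rcases (show j = 1 ∨ j = 2 by omega) with rfl | rfl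
    · have hN' := hN1 rfl
      rcases (show D' = 0 ∨ D' = 1 ∨ D' = 2 by omega) with rfl | rfl | rfl
      · rw [h0 rfl, Nat.lcm_one_right]
        rcases hN' with h | h
        exacts [Or.inr (Or.inr (h.trans h2a)), Or.inr (Or.inr (h.trans h2b))]
      · refine Or.inr (Or.inr (Nat.lcm_dvd ?_ ?_))
        · rcases hN' with h | h
          exacts [h.trans h2a, h.trans h2b]
        · rcases h1 rfl with h | h
          exacts [h.trans h2a, h.trans h2b]
      · rcases h2 rfl with h | h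
        · rcases hN' with h' | h'
          · exact Or.inl (Nat.lcm_dvd (h'.trans (Nat.dvd_lcm_right _ _)) (h.trans (Nat.dvd_lcm_left _ _)))
          · exact Or.inr (Or.inl (Nat.lcm_dvd (h'.trans (Nat.dvd_lcm_right _ _)) (h.trans (Nat.dvd_lcm_left _ _))))
        · refine Or.inr (Or.inr (Nat.lcm_dvd ?_ h))
          rcases hN' with h' | h'
          exacts [h'.trans h2a, h'.trans h2b]
    · rw [h0 (by omega), Nat.lcm_one_right]
      rcases hN with rfl | rfl
      exacts [Or.inl (Nat.dvd_lcm_left _ _), Or.inr (Or.inr dvd_rfl)]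
  · obtain rfl : k = 4 := by omega
    obtain rfl : j = 1 := by omega
    rw [h0 (by omega), Nat.lcm_one_right] at hd
    rcases eq_or_ne p 3 with rfl | hp3
    · refine Or.inr (Or.inr (Or.inr (Or.inr (Or.inr (Or.inr ⟨rfl, ?_⟩)))))
      have h9 := ho 2 (by norm_num)
      rcases hN1 rfl with h | h
      exacts [Or.inl (h9.trans (mul_dvd_mul (by norm_num) (hd.trans h))),
        Or.inr (h9.trans (mul_dvd_mul (by norm_num) (hd.trans h)))]
    · refine Or.inr (Or.inr (Or.inr (Or.inr (Or.inr (Or.inl ((ho 1 (by rw [pow_one]; omega)).trans ?_))))))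
      rw [pow_one]
      refine mul_dvd_mul_left _ (hd.trans ?_)
      rcases hN1 rfl with h | h
      exacts [h.trans h2a, h.trans h2b]

theorem irr_arith (hq : Odd q) {o : ℕ} (h1 : o ∣ q ^ 4 + 1) (h2 : o ∣ (q ^ 4 - 1) * (q ^ 3 + 1)) : o ∣ midA q := by
  have hq1 : 1 ≤ q := hq.pos
  have h8 : (q ^ 4 + 1) % 4 = 2 := by
    obtain ⟨c, rfl⟩ := hq
    have : (2 * c + 1) ^ 4 + 1 = 4 * (4 * c ^ 4 + 8 * c ^ 3 + 6 * c ^ 2 + 2 * c) + 2 := by ring
    omega
  have hd2 : 2 ∣ midA q := Nat.dvd_trans (by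
    obtain ⟨c, rfl⟩ := hq
    exact ⟨2 * c ^ 2 + 2 * c + 1, by ring⟩) (Nat.dvd_lcm_left _ _)
  have h41 : 1 ≤ q ^ 4 := Nat.one_le_pow _ _ (by omega)
  obtain ⟨a, b, ha, hb, rfl⟩ := exists_dvd_and_dvd_of_dvd_mul h2
  have ha' : a ∣ q ^ 4 + 1 := (dvd_mul_right a b).trans h1
  have hb' : b ∣ q ^ 4 + 1 := (dvd_mul_left b a).trans h1
  have e2 : q ^ 4 + 1 - (q ^ 4 - 1) = 2 := by omega
  have ha2 : a ∣ 2 := e2 ▸ Nat.dvd_sub ha' ha
  have hbq : b ∣ q - 1 := by
    have e : q * (q ^ 3 + 1) - (q ^ 4 + 1) = q - 1 := by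
      rw [show q * (q ^ 3 + 1) = q ^ 4 + q by ring]; omega
    exact e ▸ Nat.dvd_sub (hb.mul_left q) hb'
  have hb2 : b ∣ 2 := by
    have hb4 : b ∣ q ^ 4 - 1 := hbq.trans (by simpa using Nat.sub_dvd_pow_sub_pow q 1 4)
    exact e2 ▸ Nat.dvd_sub hb' hb4
  rcases (Nat.dvd_prime Nat.prime_two).1 ha2 with rfl | rfl
  · rw [one_mul]; exact hb2.trans hd2
  · rcases (Nat.dvd_prime Nat.prime_two).1 hb2 with rfl | rfl
    · rw [mul_one]; exact hd2
    · exfalso; omega

theorem pair_arith (hq : Odd q) (hq1 : 1 < q) {M : ℕ} (hM : M * 2 = q ^ 4 - 1) : M ∣ midA q := by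
  have hprod : (q ^ 2 + 1) * (q ^ 2 - 1) = M * 2 := by
    rw [hM, show q ^ 4 = (q ^ 2) ^ 2 by ring]
    simpa using (Nat.sq_sub_sq (q ^ 2) 1).symm
  have hg : Nat.gcd (q ^ 2 + 1) (q ^ 2 - 1) ∣ 2 := by
    have h := Nat.dvd_sub (Nat.gcd_dvd_left (q ^ 2 + 1) (q ^ 2 - 1)) (Nat.gcd_dvd_right (q ^ 2 + 1) (q ^ 2 - 1))
    have : 1 ≤ q ^ 2 := Nat.one_le_pow _ _ (by omega)
    rwa [show q ^ 2 + 1 - (q ^ 2 - 1) = 2 by omega] at h
  have h := Nat.gcd_mul_lcm (q ^ 2 + 1) (q ^ 2 - 1)
  rw [hprod] at h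
  refine (Nat.mul_dvd_mul_iff_right two_pos).1 ?_
  rw [← h, mul_comm (midA q)]
  exact mul_dvd_mul_right hg _

end Arith

section Decomp

variable {F : Type u} [Field F] [Finite F]

/-- The classes of a self-reciprocal polynomial without the roots `±1`. -/
theorem tor_decomp (μ : F[X]) : μ ≠ 0 → ¬ X ∣ μ → Associated μ μ.reverse → μ.eval 1 ≠ 0 → μ.eval (-1) ≠ 0 →
    (∀ f : F[X], Irreducible f → f.Monic → f ∣ μ → f.natDegree ≠ 8) →
    (∀ f f' : F[X], Irreducible f → Irreducible f' → f.Monic → f'.Monic → f ∣ μ → f' ∣ μ → f' ≠ f →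
      f' ∣ f.reverse → f.natDegree ≠ 4) →
    ∃ D k L, Tor (Nat.card F) D k L ∧ 2 * D ≤ μ.natDegree ∧ μ ∣ (X ^ L - 1) ^ k := by
  induction hd : μ.natDegree using Nat.strong_induction_on generalizing μ with
  | _ D ih =>
  subst hd
  intro hμ0 hX hμ h1 hm1 hb8 hb4
  by_cases hu : IsUnit μ
  · exact ⟨0, 0, 1, .nil, by simp, by rw [pow_zero]; exact isUnit_iff_dvd_one.1 hu⟩
  obtain ⟨f, hfm, hf, hfd⟩ := exists_monic_irreducible_factor μ hu
  have hfX : ¬ f ∣ X := fun h =>
    hX (((hf.associated_of_dvd Polynomial.irreducible_X h).dvd_iff_dvd_left).1 hfd)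
  have hroot : ∀ (L : Type u) [Field L] [Algebra F L] (α : L), aeval α μ = 0 → aeval α⁻¹ μ = 0 := by
    intro L _ _ α hα
    rcases eq_or_ne α 0 with rfl | h0
    · rwa [inv_zero]
    obtain ⟨c, hc⟩ := hμ.dvd
    have h1 : aeval α μ.reverse = 0 := by rw [hc, map_mul, hα, zero_mul]
    have : Invertible α⁻¹ := invertibleOfNonzero (inv_ne_zero h0)
    refine (eval₂_reverse_eq_zero_iff (algebraMap F L) α⁻¹ μ).1 ?_
    rw [invOf_eq_inv, inv_inv]
    exact h1
  -- the general step, for a self-reciprocal class `P`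
  have step : ∀ (P R : F[X]) (a : ℕ), μ = P ^ a * R → 1 ≤ a → Associated P P.reverse → IsCoprime P R →
      (∃ j N, 1 ≤ j ∧ j ≠ 4 ∧ P.natDegree = 2 * j ∧
        (N = Nat.card F ^ j + 1 ∨ N = Nat.card F ^ j - 1) ∧ P ∣ X ^ N - 1) →
      ∃ D k L, Tor (Nat.card F) D k L ∧ 2 * D ≤ μ.natDegree ∧ μ ∣ (X ^ L - 1) ^ k := by
    rintro P R a hμR ha hPr hcop ⟨j, N, hj, hj4, hjd, hN, hPN⟩
    have hP0 : P ≠ 0 := by rintro rfl; simp at hjd; omega
    have hR0 : R ≠ 0 := by rintro rfl; exact hμ0 (by rw [hμR, mul_zero])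
    have hdeg : μ.natDegree = a * P.natDegree + R.natDegree := by
      rw [hμR, natDegree_mul (pow_ne_zero _ hP0) hR0, natDegree_pow]
    have hlt : R.natDegree < μ.natDegree := by
      have : P.natDegree ≤ a * P.natDegree := Nat.le_mul_of_pos_left _ ha
      omega
    have hRX : ¬ X ∣ R := fun h => hX (hμR ▸ h.mul_left _)
    have hRr : Associated R R.reverse := by
      have h1 := hμ
      rw [hμR, reverse_mul_of_domain, SympSpec.reverse_pow'] at h1
      exact Associated.of_mul_left h1 (hPr.pow_pow) (pow_ne_zero _ hP0)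
    have hRd : R ∣ μ := hμR ▸ dvd_mul_left _ _
    obtain ⟨D, k, L, hT, hb, hR'⟩ := ih _ hlt R rfl hR0 hRX hRr
      (fun h => h1 (by rw [hμR, eval_mul, h, mul_zero])) (fun h => hm1 (by rw [hμR, eval_mul, h, mul_zero]))
      (fun f hf hfm hfd => hb8 f hf hfm (hfd.trans hRd))
      (fun f f' hf hf' hfm hfm' hfd hfd' => hb4 f f' hf hf' hfm hfm' (hfd.trans hRd) (hfd'.trans hRd))
    refine ⟨_, _, _, (Tor.one hj hj4 ha hN).join hT, ?_, ?_⟩
    · rw [hdeg, hjd]; nlinarith
    · rw [hμR]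
      refine hcop.pow_left.mul_dvd ?_ ?_
      · exact (pow_dvd_pow_of_dvd (hPN.trans (pow_sub_one_dvd (Nat.dvd_lcm_left _ _))) a).trans
          (pow_dvd_pow _ (le_max_left _ _))
      · exact (hR'.trans (pow_dvd_pow_of_dvd (pow_sub_one_dvd (Nat.dvd_lcm_right _ _)) _)).trans
          (pow_dvd_pow _ (le_max_right _ _))
  obtain ⟨a, R, hfR, hμR⟩ := WfDvdMonoid.max_power_factor hμ0 hf
  have ha : 1 ≤ a := by
    rcases Nat.eq_zero_or_pos a with rfl | h
    · rw [pow_zero, one_mul] at hμR; exact absurd (hμR ▸ hfd) hfR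
    · exact h
  have hf0 : f.coeff 0 ≠ 0 := fun h =>
    hfX ((Polynomial.irreducible_X.associated_of_dvd hf (X_dvd_iff.2 h)).symm).dvd
  rcases GS.SelfRecip.factor_cases hroot hf hfm hfX hfd with h | ⟨j, hj, hjd, hjX⟩ | ⟨f', hf', hf'm, hf'd, hne, hdeg', hback, hrev⟩
  · obtain ⟨c, hc⟩ := hfd
    rcases h with rfl | rfl
    · exact absurd (by rw [hc]; simp) h1
    · exact absurd (by rw [hc]; simp) hm1
  · have hfr : Associated f f.reverse := by
      haveI : Fact (Irreducible f) := ⟨hf⟩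
      refine Polynomial.associated_of_dvd_of_natDegree_le ?_ (fun h => hf.ne_zero (reverse_eq_zero.1 h))
        f.reverse_natDegree_le
      rw [← AdjoinRoot.mk_eq_zero, ← AdjoinRoot.aeval_eq]
      set α : AdjoinRoot f := AdjoinRoot.root f
      have hα : aeval α f = 0 := by rw [AdjoinRoot.aeval_eq, AdjoinRoot.mk_self]
      have hαN : α ^ (Nat.card F ^ j + 1) = 1 := by
        have := AdjoinRoot.mk_eq_zero.2 hjX
        rwa [map_sub, map_pow, AdjoinRoot.mk_X, map_one, sub_eq_zero] at this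
      have hinv : α⁻¹ = α ^ Nat.card F ^ j := inv_eq_of_mul_eq_one_right (by rw [← pow_succ', hαN])
      have hα0 : α ≠ 0 := fun h => by rw [h, zero_pow (by omega)] at hαN; exact zero_ne_one hαN
      have : Invertible α := invertibleOfNonzero hα0
      have h0 : aeval α⁻¹ f = 0 := by
        haveI : Module.Finite F (AdjoinRoot f) := (AdjoinRoot.powerBasis hf.ne_zero).finite
        haveI : Finite (AdjoinRoot f) := Module.finite_of_finite F
        letI : Fintype F := Fintype.ofFinite F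
        rw [hinv, Nat.card_eq_fintype_card]
        have h' := aeval_algHom_apply (FiniteField.frobeniusAlgHom F (AdjoinRoot f) ^ j) α f
        rw [hα, map_zero, AlgHom.coe_pow, FiniteField.coe_frobeniusAlgHom, pow_iterate] at h'
        exact h'
      have : Invertible α⁻¹ := invertibleOfNonzero (inv_ne_zero hα0)
      have h3 := (eval₂_reverse_eq_zero_iff (algebraMap F (AdjoinRoot f)) α⁻¹ f).2 h0
      rwa [invOf_eq_inv, inv_inv] at h3
    refine step f R a hμR ha hfr (hf.coprime_iff_not_dvd.2 hfR) ⟨j, _, hj, ?_, hjd, Or.inl rfl, hjX⟩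
    rintro rfl
    exact hb8 f hf hfm hfd hjd
  · have hrevf : Associated f'.reverse f := by
      have h1 : Associated f' f.reverse := Polynomial.associated_of_dvd_of_natDegree_le hrev
        (fun h => hf.ne_zero (reverse_eq_zero.1 h)) (by rw [hdeg']; exact f.reverse_natDegree_le)
      have h2' := reverse_assoc h1
      rwa [rev_rev hf0] at h2'
    have hcop : IsCoprime f f' := (hf.coprime_iff_not_dvd).2 fun h =>
      hne (eq_of_monic_of_associated hfm hf'm (hf.associated_of_dvd hf' h)).symm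
    have hrevμ : ∀ m : ℕ, ∀ g g' : F[X], Associated g'.reverse g → g' ^ m ∣ μ → g ^ m ∣ μ := by
      intro m g g' hg ⟨c, hc⟩
      refine dvd_trans ?_ hμ.symm.dvd
      rw [hc, reverse_mul_of_domain, SympSpec.reverse_pow']
      exact (pow_dvd_pow_of_dvd hg.symm.dvd m).mul_right _
    have hf'a : f' ^ a ∣ μ := hrevμ a f' f ((Polynomial.associated_of_dvd_of_natDegree_le hrev
      (fun h => hf.ne_zero (reverse_eq_zero.1 h)) (by rw [hdeg']; exact f.reverse_natDegree_le)).symm) ⟨R, hμR⟩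
    obtain ⟨R', rfl⟩ : f' ^ a ∣ R := ((hcop.symm).pow (m := a) (n := a)).dvd_of_dvd_mul_left (hμR ▸ hf'a)
    have hne' : ¬ f' ∣ R' := by
      intro h
      have h1 : f' ^ (a + 1) ∣ μ := by
        rw [hμR, pow_succ]; exact (mul_dvd_mul_left _ h).mul_left _
      have h3 := hrevμ (a + 1) f f' hrevf h1
      rw [hμR, pow_succ] at h3
      exact hfR ((mul_dvd_mul_iff_left (pow_ne_zero a hf.ne_zero)).1 h3)
    have hPr : Associated (f * f') (f * f').reverse := by
      rw [reverse_mul_of_domain, mul_comm f.reverse]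
      exact (hrevf.symm).mul_mul (Polynomial.associated_of_dvd_of_natDegree_le hrev
        (fun h => hf.ne_zero (reverse_eq_zero.1 h)) (by rw [hdeg']; exact f.reverse_natDegree_le))
    have hN : f ∣ X ^ (Nat.card F ^ f.natDegree - 1) - 1 := GLOrders.pow_card_pow_sub_one f hf hfX
    refine step (f * f') R' a (by rw [hμR, mul_pow, mul_assoc]) ha hPr
      ((hf.coprime_iff_not_dvd.2 fun h => hfR (h.mul_left _)).mul_left (hf'.coprime_iff_not_dvd.2 hne'))
      ⟨f.natDegree, _, hf.natDegree_pos, hb4 f f' hf hf' hfm hf'm hfd hf'd hne hrev, ?_, Or.inr rfl,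
        hcop.mul_dvd hN (partner_pow hrev hN)⟩
    rw [natDegree_mul hf.ne_zero hf'.ne_zero, hdeg', two_mul]

end Decomp

section plus

variable {F : Type u} [Field F] [Fintype F] {p : ℕ} [Fact p.Prime] [CharP F p]
variable {V : Type v} [AddCommGroup V] [Module F V] [Finite V] {Q : QuadraticForm F V}

omit [Fintype F] [Fact p.Prime] [CharP F p] [Finite V] in
theorem aeval_restrict' (f : Module.End F V) (S : Submodule F V) (h : ∀ x ∈ S, f x ∈ S) (g : F[X]) (x : S) :
    ((aeval (f.restrict h) g) x : V) = (aeval f g) (x : V) := by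
  induction g using Polynomial.induction_on' generalizing x with
  | add g g' hp hq => simp [hp, hq]
  | monomial n c =>
    have key : ∀ (n : ℕ) (x : S), (((f.restrict h) ^ n) x : V) = (f ^ n) (x : V) := by
      intro n
      induction n with
      | zero => intro x; rfl
      | succ n ih => intro x; rw [pow_succ, pow_succ, Module.End.mul_apply, Module.End.mul_apply, ih]; rfl
    simp [aeval_monomial, key]

omit [Fintype F] in
theorem isUnit_rev {x : F[X]} (h : IsUnit x) : IsUnit x.reverse := by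
  obtain ⟨c, hc, rfl⟩ := Polynomial.isUnit_iff.1 h
  rw [reverse_C]; exact isUnit_C.2 hc

omit [Fintype F] [Fact p.Prime] [CharP F p] [Finite V] in
theorem aeval_pow_sub (h : isoG Q) (n : ℕ) (v : V) :
    aeval (lin h) (X ^ n - 1 : F[X]) v = (h ^ n).1 v - v := by
  rw [map_sub, map_pow, aeval_X, map_one, ← lin_pow]; rfl

omit [Fintype F] [Fact p.Prime] [CharP F p] [Finite V] in
theorem pow_eq_one_of_aeval (h : isoG Q) {n : ℕ} (h0 : aeval (lin h) (X ^ n - 1 : F[X]) = 0) : h ^ n = 1 :=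
  iso_ext fun v => (sub_eq_zero.1 (by rw [← aeval_pow_sub, h0]; rfl) : (h ^ n).1 v = v)

omit [Fintype F] [Fact p.Prime] [CharP F p] in
theorem polar_aeval (h : isoG Q) (g : F[X]) (x y : V) :
    polar Q (aeval (lin h) g x) y = polar Q x (aeval (lin h) (g.comp (X ^ (orderOf h - 1))) y) := by
  set T := lin h
  have ho0 : orderOf h ≠ 0 := (orderOf_pos h).ne'
  have hTo : T ^ orderOf h = 1 := by rw [← lin_pow, pow_orderOf_eq_one]; rfl
  have hpT : ∀ x y, polar Q (T x) (T y) = polar Q x y := Classical.OrthTorsion.polar_iso h.2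
  have hadj1 : ∀ x y, polar Q (T x) y = polar Q x ((T ^ (orderOf h - 1)) y) := fun x y => by
    conv_lhs => rw [show y = T ((T ^ (orderOf h - 1)) y) by
      rw [← Module.End.mul_apply, ← pow_succ', Nat.sub_add_cancel (Nat.one_le_iff_ne_zero.2 ho0), hTo,
        Module.End.one_apply]]
    rw [hpT]
  induction g using Polynomial.induction_on' generalizing x y with
  | add g g' hg hg' =>
    rw [map_add, LinearMap.add_apply, add_comp, map_add, LinearMap.add_apply, polar_add_left, polar_add_right,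
      hg, hg']
  | monomial k c =>
    have hk : ∀ k x y, polar Q ((T ^ k) x) y = polar Q x (((T ^ (orderOf h - 1)) ^ k) y) := fun k => by
      induction k with
      | zero => simp
      | succ k ih =>
        intro x y
        rw [pow_succ, Module.End.mul_apply, ih, hadj1, pow_succ', Module.End.mul_apply]
    rw [aeval_monomial, monomial_comp, map_mul, aeval_C, map_pow, map_pow, aeval_X, Module.End.mul_apply,
      Module.End.mul_apply, Module.algebraMap_end_apply, Module.algebraMap_end_apply, polar_smul_left,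
      polar_smul_right, hk]

omit [Fact p.Prime] [CharP F p] in
/-- A pair of totally singular invariant halves: the spinor norm is a determinant. -/
theorem pair_square (hQ : Nd Q) (h2 : (2 : F) ≠ 0) (hV : Module.finrank F V = 8) {h : isoG Q}
    (hh : h ∈ commutator (isoG Q)) {f f' : F[X]} (hf : Irreducible f) (hf' : Irreducible f') (hfm : f.Monic)
    (hfm' : f'.Monic) (hfX : ¬ f ∣ X) (hfX' : ¬ f' ∣ X) (hne : f' ≠ f) (hrev : f' ∣ f.reverse)
    (hdeg' : f'.natDegree = f.natDegree) (hd : f.natDegree = 4)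
    (hμ : minpoly F (lin h) = f * f') : IsSquare (f.coeff 0) := by
  classical
  haveI := Module.Finite.of_finite (R := F) (M := V)
  set T := lin h
  have hcop : IsCoprime f f' := (hf.coprime_iff_not_dvd).2 fun hd =>
    hne (eq_of_monic_of_associated hfm hfm' (hf.associated_of_dvd hf' hd)).symm
  have h0 : aeval T (f * f') = 0 := by rw [← hμ, minpoly.aeval]
  have hXo : f * f' ∣ X ^ orderOf h - 1 := hμ ▸ minpoly.dvd F T (by
    rw [map_sub, map_pow, aeval_X, map_one, ← lin_pow, pow_orderOf_eq_one]; exact sub_self _)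
  have hf0 : f.coeff 0 ≠ 0 := fun h =>
    hfX ((Polynomial.irreducible_X.associated_of_dvd hf (X_dvd_iff.2 h)).symm).dvd
  have hrev' : f ∣ f'.reverse := by
    have h1 : Associated f' f.reverse := Polynomial.associated_of_dvd_of_natDegree_le hrev
      (fun h => hf.ne_zero (reverse_eq_zero.1 h)) (by rw [hdeg']; exact f.reverse_natDegree_le)
    have h2' := reverse_assoc h1
    rw [rev_rev hf0] at h2'
    exact h2'.symm.dvd
  -- the adjoint of each factor is prime to it
  have hadj : ∀ g g' : F[X], Irreducible g → g.Monic → Irreducible g' → g'.Monic → ¬ g ∣ X → g' ≠ g → g' ∣ g.reverse →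
      g.natDegree = g'.natDegree → g ∣ X ^ orderOf h - 1 → IsCoprime g (g.comp (X ^ (orderOf h - 1))) := by
    intro g g' hg hgm hg' hgm' hgX hgne hgrev hgd hgo
    refine hg.coprime_iff_not_dvd.2 fun hdvd => hgne ?_
    haveI : Fact (Irreducible g) := ⟨hg⟩
    set α : AdjoinRoot g := AdjoinRoot.root g
    have hαo : α ^ orderOf h = 1 := by
      have := AdjoinRoot.mk_eq_zero.2 hgo
      rwa [map_sub, map_pow, AdjoinRoot.mk_X, map_one, sub_eq_zero] at this
    have hα0 : α ≠ 0 := fun h' => by rw [h', zero_pow (orderOf_pos h).ne'] at hαo; exact zero_ne_one hαo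
    have hinv : α⁻¹ = α ^ (orderOf h - 1) := inv_eq_of_mul_eq_one_right (by
      rw [← pow_succ', Nat.sub_add_cancel (orderOf_pos h), hαo])
    have h0 : aeval α⁻¹ g = 0 := by
      have := AdjoinRoot.mk_eq_zero.2 hdvd
      rw [← AdjoinRoot.aeval_eq, aeval_comp, map_pow, aeval_X, ← hinv] at this
      exact this
    have : Invertible α := invertibleOfNonzero hα0
    have : Invertible α⁻¹ := invertibleOfNonzero (inv_ne_zero hα0)
    have h3 := (eval₂_reverse_eq_zero_iff (algebraMap F (AdjoinRoot g)) α⁻¹ g).2 h0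
    rw [invOf_eq_inv, inv_inv] at h3
    have h4 : g ∣ g.reverse := by rwa [← AdjoinRoot.mk_eq_zero, ← AdjoinRoot.aeval_eq]
    have e1 := Polynomial.associated_of_dvd_of_natDegree_le h4
      (fun h => hg.ne_zero (reverse_eq_zero.1 h)) g.reverse_natDegree_le
    exact eq_of_monic_of_associated hgm' hgm (hg'.associated_of_dvd hg (hgrev.trans e1.symm.dvd))
  have hc1 := hadj f f' hf hfm hf' hfm' hfX hne hrev hdeg'.symm ((dvd_mul_right f f').trans hXo)
  have hc2 := hadj f' f hf' hfm' hf hfm hfX' (Ne.symm hne) hrev' hdeg' ((dvd_mul_left f' f).trans hXo)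
  have hts : ∀ g : F[X], IsCoprime g (g.comp (X ^ (orderOf h - 1))) → ∀ u ∈ LinearMap.ker (aeval T g),
      ∀ v ∈ LinearMap.ker (aeval T g), polar Q u v = 0 := by
    intro g ⟨a, c, hac⟩ u hu v hv
    have h2' := congrArg (fun t => aeval T t v) hac
    simp only [map_add, map_mul, map_one, LinearMap.add_apply, Module.End.mul_apply, Module.End.one_apply,
      LinearMap.mem_ker.1 hv, map_zero, zero_add] at h2'
    rw [← h2', ← Module.End.mul_apply, ← map_mul, mul_comm, map_mul, Module.End.mul_apply, ← polar_aeval,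
      LinearMap.mem_ker.1 hu, polar_zero_left]
  set U1 := LinearMap.ker (aeval T f) with hU1
  set U2 := LinearMap.ker (aeval T f') with hU2
  have hc : IsCompl U1 U2 := by
    obtain ⟨a, c, hac⟩ := hcop
    refine ⟨Submodule.disjoint_def.2 fun v hv hv' => ?_, codisjoint_iff.2 (eq_top_iff.2 fun v _ => ?_)⟩
    · have := congrArg (fun t => aeval T t v) hac
      simp only [map_add, map_mul, map_one, LinearMap.add_apply, Module.End.mul_apply, Module.End.one_apply,
        LinearMap.mem_ker.1 hv, LinearMap.mem_ker.1 hv', map_zero, add_zero] at this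
      exact this.symm
    · have h2' := congrArg (fun t => aeval T t v) hac
      simp only [map_add, map_one, LinearMap.add_apply, Module.End.one_apply] at h2'
      have hz : ∀ g : F[X], aeval T (g * (f * f')) v = 0 := fun g => by
        rw [map_mul, h0, mul_zero, LinearMap.zero_apply]
      rw [← h2', add_comm]
      refine Submodule.add_mem_sup ?_ ?_ <;> rw [LinearMap.mem_ker, ← Module.End.mul_apply, ← map_mul]
      · rw [show f * (c * f') = c * (f * f') by ring]; exact hz c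
      · rw [show f' * (a * f) = a * (f * f') by ring]; exact hz a
  have hb1 := hts f hc1
  have hb2 := hts f' hc2
  have hsum := Submodule.finrank_add_eq_of_isCompl hc
  have hl1 := hQ.two_mul_finrank_le U1 hb1
  have hl2 := hQ.two_mul_finrank_le U2 hb2
  rw [hV] at hsum hl1 hl2
  have hd1 : Module.finrank F U1 = 4 := by omega
  have hd2 : Module.finrank F U2 = 4 := by omega
  have hQ0 : ∀ (S : Submodule F V), (∀ u ∈ S, ∀ v ∈ S, polar Q u v = 0) → ∀ u ∈ S, Q u = 0 := fun S hS u hu => by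
    have := hS u hu u hu
    rw [polar_self, nsmul_eq_mul, Nat.cast_ofNat] at this
    exact (mul_eq_zero.1 this).resolve_left h2
  let b := Module.finBasisOfFinrankEq F U1 hd1
  let φ : U2 →ₗ[F] (Fin 4 → F) := LinearMap.pi fun i => (polarBilin Q (b i : V)).comp U2.subtype
  have hφ : Function.Injective φ := (injective_iff_map_eq_zero φ).2 fun y hy => Subtype.ext (hQ y fun z => by
    obtain ⟨z1, hz1, z2, hz2, rfl⟩ := Submodule.mem_sup.1 (hc.sup_eq_top ▸ Submodule.mem_top : z ∈ U1 ⊔ U2)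
    rw [polar_add_right, hb2 _ y.2 _ hz2, add_zero, polar_comm]
    have hl : ((polarBilin Q).flip (y : V)).comp U1.subtype = 0 := b.ext fun i => by
      simpa [φ] using congrFun hy i
    simpa using LinearMap.congr_fun hl ⟨z1, hz1⟩)
  let e2 : U2 ≃ₗ[F] (Fin 4 → F) := LinearEquiv.ofBijective φ
    ⟨hφ, (LinearMap.injective_iff_surjective_of_finrank_eq_finrank (by rw [hd2, Module.finrank_fin_fun])).1 hφ⟩
  let P := Submodule.prodEquivOfIsCompl U1 U2 hc
  let e : (((Fin 4 → F) × (Fin 4 → F)) × (Fin 0 → F)) ≃ₗ[F] V :=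
    (LinearEquiv.prodUnique (R := F) (M := (Fin 4 → F) × (Fin 4 → F)) (M₂ := Fin 0 → F)).trans
      ((b.equivFun.symm.prodCongr e2.symm).trans P)
  have he : ∀ x, Q (e x) = splitQ 4 (zeroQ F) x := fun x => by
    set y := e2.symm x.1.2 with hy
    have hy' : ∀ i, polar Q (b i : V) (y : V) = x.1.2 i := fun i => by
      have := congrFun (e2.apply_symm_apply x.1.2) i
      exact this
    have ex : e x = (b.equivFun.symm x.1.1 : V) + (y : V) := by
      simp [e, P, hy, Submodule.coe_prodEquivOfIsCompl']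
    rw [ex, QuadraticMap.map_add ⇑Q, hQ0 U1 hb1 _ (b.equivFun.symm x.1.1).2, hQ0 U2 hb2 _ y.2, zero_add, zero_add,
      splitQ_apply, show zeroQ F x.2 = 0 from rfl, add_zero, Module.Basis.equivFun_symm_apply, Submodule.coe_sum,
      ← polarBilin_apply_apply, map_sum, LinearMap.sum_apply]
    simp [hy']
  -- the matrix on the first half
  have hinvU : ∀ (k : isoG Q) (S : Submodule F V) (g : F[X]), S = LinearMap.ker (aeval T g) → Commute k h →
      ∀ v ∈ S, k.1 v ∈ S := by
    intro k S g hS hk v hv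
    subst hS
    rw [LinearMap.mem_ker] at hv ⊢
    have hcm : Commute (lin k) (aeval T g) := by
      have hkT : Commute (lin k) T := congrArg lin hk.eq
      clear hv
      induction g using Polynomial.induction_on' with
      | add g g' hg hg' => rw [map_add]; exact hg.add_right hg'
      | monomial n c => rw [aeval_monomial]; exact (Algebra.commute_algebraMap_right c _).mul_right (hkT.pow_right n)
    have := LinearMap.congr_fun hcm.eq v
    simp only [Module.End.mul_apply, hv, map_zero] at this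
    exact this.symm
  have hU1h := hinvU h U1 f rfl (Commute.refl h)
  have hU1h' := hinvU h⁻¹ U1 f rfl (Commute.refl h).inv_left
  have hU2h := hinvU h U2 f' rfl (Commute.refl h)
  let A : GL (Fin 4) F := mat b (Q.comp U1.subtype) (restr U1 h hU1h hU1h')
  have hA : glHom 4 (zeroQ F) A = isoConj e.symm (fun v => by rw [← he, e.apply_symm_apply]) h := iso_ext fun x => by
    rw [isoConj_apply, LinearEquiv.symm_symm, eq_comm, LinearEquiv.symm_apply_eq]
    set y := e2.symm x.1.2 with hy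
    have ex : ∀ x, e x = (b.equivFun.symm x.1.1 : V) + (e2.symm x.1.2 : V) := fun x => by
      simp [e, P, Submodule.coe_prodEquivOfIsCompl']
    rw [ex, ex, glHom_apply, map_add]
    congr 1
    · have hm : ∀ (z : U1), (A : Matrix (Fin 4) (Fin 4) F) *ᵥ b.equivFun z =
          b.equivFun ⟨h.1 z, hU1h _ z.2⟩ := fun z => by
        rw [mat_val]
        exact LinearMap.toMatrix_mulVec_repr b b _ z
      have h5 := hm (b.equivFun.symm x.1.1)
      rw [LinearEquiv.apply_symm_apply] at h5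
      simp only [h5, LinearEquiv.symm_apply_apply]
    · have hy' : ∀ i, polar Q (b i : V) (y : V) = x.1.2 i := fun i => by
        have := congrFun (e2.apply_symm_apply x.1.2) i
        exact this
      suffices h5 : e2 ⟨h.1 y, hU2h _ y.2⟩ = x.1.2 ᵥ* ((A⁻¹ : GL (Fin 4) F) : Matrix (Fin 4) (Fin 4) F) by
        simp only [← h5, LinearEquiv.symm_apply_apply, hy]
      funext i
      show polar Q (b i : V) (h.1 y) = _
      rw [show (A⁻¹ : GL (Fin 4) F) = mat b (Q.comp U1.subtype) (restr U1 h hU1h hU1h')⁻¹ from (map_inv _ _).symm,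
        mat_val]
      have h6 : polar Q (b i : V) (h.1 y) = polar Q (h.1.symm (b i : V)) y := by
        conv_lhs => rw [← h.1.apply_symm_apply (b i : V)]
        exact iso_B h _ _
      rw [h6, show h.1.symm (b i : V) = (((restr U1 h hU1h hU1h')⁻¹).1 (b i) : V) from rfl,
        ← b.sum_equivFun (((restr U1 h hU1h hU1h')⁻¹).1 (b i))]
      rw [Submodule.coe_sum, ← polarBilin_apply_apply, map_sum, LinearMap.sum_apply]
      simp [polar_smul_left, hy', Matrix.vecMul, dotProduct, LinearMap.toMatrix_apply, mul_comm]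
  have hsq : IsSquare (A : Matrix (Fin 4) (Fin 4) F).det := by
    have hz : Nd (zeroQ F) := fun x _ => Subsingleton.elim _ _
    rw [← glHom_mem_iff hz 4 (reg_of_two_ne_zero h2) A, hA]
    exact map_commutator_le _ ⟨h, hh, rfl⟩
  have hchar : (A : Matrix (Fin 4) (Fin 4) F).charpoly = f := by
    have hcm : (A : Matrix (Fin 4) (Fin 4) F).charpoly.natDegree = 4 := by
      rw [Matrix.charpoly_natDegree_eq_dim, Fintype.card_fin]
    have hfA : minpoly F (A : Matrix (Fin 4) (Fin 4) F) ∣ f := by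
      rw [mat_val, LinearMap.minpoly_toMatrix]
      refine minpoly.dvd F _ (LinearMap.ext fun z => Subtype.ext ?_)
      rw [show (restr U1 h hU1h hU1h').1.toLinearMap = T.restrict hU1h from
        LinearMap.ext fun w => Subtype.ext (restr_apply U1 h hU1h hU1h' w), aeval_restrict' T U1 hU1h f z]
      exact z.2
    have hmm : (minpoly F (A : Matrix (Fin 4) (Fin 4) F)).Monic := minpoly.monic (Algebra.IsIntegral.isIntegral _)
    have hnu : ¬ IsUnit (minpoly F (A : Matrix (Fin 4) (Fin 4) F)) :=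
      minpoly.not_isUnit F _
    have heq : minpoly F (A : Matrix (Fin 4) (Fin 4) F) = f :=
      eq_of_monic_of_associated hmm hfm (associated_of_dvd_dvd hfA ((hf.dvd_iff.1 hfA).resolve_left hnu).dvd)
    refine (Polynomial.eq_of_monic_of_dvd_of_natDegree_le hfm (Matrix.charpoly_monic (A : Matrix (Fin 4) (Fin 4) F)) ?_ (by rw [hcm, hd]))
    exact heq ▸ Matrix.minpoly_dvd_charpoly _
  rwa [Matrix.det_eq_sign_charpoly_coeff, hchar, Fintype.card_fin,
    show ((-1 : F) ^ 4) = 1 by norm_num, one_mul] at hsq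

omit [Fact p.Prime] [CharP F p] in
/-- The order in the paired case. -/
theorem pair_order {f f' : F[X]} (hf : Irreducible f) (hfm : f.Monic) (hfX : ¬ f ∣ X) (hd : f.natDegree = 4)
    (hrev : f' ∣ f.reverse) (hodd : Odd (Fintype.card F)) (hsq : IsSquare (f.coeff 0)) :
    ∃ M, M ∣ midA (Fintype.card F) ∧ f ∣ X ^ M - 1 ∧ f' ∣ X ^ M - 1 := by
  haveI : Fact (Irreducible f) := ⟨hf⟩
  set q := Fintype.card F with hq
  have hq1 : 1 < q := Fintype.one_lt_card
  let pb := AdjoinRoot.powerBasis hf.ne_zero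
  haveI : Module.Finite F (AdjoinRoot f) := pb.finite
  haveI : Finite (AdjoinRoot f) := Module.finite_of_finite F
  have hnorm : Algebra.norm F (AdjoinRoot.root f) = f.coeff 0 := by
    have h := Algebra.PowerBasis.norm_gen_eq_coeff_zero_minpoly pb
    rw [AdjoinRoot.powerBasis_gen, AdjoinRoot.minpoly_root hf.ne_zero, hfm.leadingCoeff, inv_one, C_1, mul_one,
      AdjoinRoot.powerBasis_dim, hd] at h
    rw [h]; norm_num
  have hK : Nat.card (AdjoinRoot f) = q ^ 4 := by
    rw [Module.natCard_eq_pow_finrank (K := F), pb.finrank, AdjoinRoot.powerBasis_dim, hd, Nat.card_eq_fintype_card]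
  have hpow := FiniteField.algebraMap_norm_eq_pow (K := F) (K' := AdjoinRoot f) (x := AdjoinRoot.root f)
  rw [hnorm, hK, Nat.card_eq_fintype_card, ← hq] at hpow
  obtain ⟨s, hs⟩ : q - 1 ∣ q ^ 4 - 1 := by simpa using Nat.sub_dvd_pow_sub_pow q 1 4
  obtain ⟨m, hm⟩ : 2 ∣ q - 1 := by have := Nat.odd_iff.1 hodd; omega
  rw [hs, Nat.mul_div_cancel_left _ (by omega : 0 < q - 1)] at hpow
  refine ⟨m * s, pair_arith hodd hq1 (by rw [hs, hm]; ring), ?_⟩
  have hfM : f ∣ X ^ (m * s) - 1 := by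
    rw [← AdjoinRoot.mk_eq_zero, map_sub, map_pow, AdjoinRoot.mk_X, map_one, sub_eq_zero, mul_comm m, pow_mul, ← hpow]
    obtain ⟨r, hr⟩ := hsq
    have hf0 : f.coeff 0 ≠ 0 := fun h =>
      hfX ((Polynomial.irreducible_X.associated_of_dvd hf (X_dvd_iff.2 h)).symm).dvd
    rw [← map_pow, hr, ← pow_two, ← pow_mul, ← hm, FiniteField.pow_card_sub_one_eq_one r
      (fun h => hf0 (by rw [hr, h, mul_zero])), map_one]
  exact ⟨hfM, partner_pow hrev hfM⟩

/-- Element orders on the plus space of dimension eight without fixed or negated vectors. -/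
theorem plus_order (hQ : Nd Q) (h2 : (2 : F) ≠ 0) (hV : Module.finrank F V = 8) (hchi : chi hQ = 1) {h : isoG Q}
    (hh : h ∈ commutator (isoG Q)) (hfix : ∀ v, h.1 v = v → v = 0) (hneg : ∀ v, h.1 v = -v → v = 0) :
    Tgt (Fintype.card F) p (orderOf h) := by
  classical
  haveI := Module.Finite.of_finite (R := F) (M := V)
  haveI : Nontrivial V := Module.nontrivial_of_finrank_pos (R := F) (by omega)
  have hodd := odd_card h2
  set q := Fintype.card F with hq
  have hp3 : 3 ≤ p := by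
    have hp := (Fact.out : p.Prime)
    have : p ≠ 2 := fun e => h2 (by subst e; exact CharTwo.two_eq_zero)
    have := hp.two_le; omega
  set T := lin h
  set μ := minpoly F T with hμdef
  let b := Module.finBasisOfFinrankEq F V hV
  have hG : minpoly F (mat b Q h : Matrix (Fin 8) (Fin 8) F) = μ := by
    rw [mat_val, LinearMap.minpoly_toMatrix]
  have hassoc : Associated μ μ.reverse := hG ▸ GS.SelfRecip.assoc_reverse _ (mat_hinv b hQ h)
  have hX : ¬ X ∣ μ := hG ▸ GLOrders.not_X_dvd_minpoly (mat b Q h)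
  have hμm : μ.Monic := minpoly.monic (Algebra.IsIntegral.isIntegral _)
  have hμd : μ.natDegree ≤ 8 := by
    have := GLOrders.natDegree_minpoly_le (mat b Q h : Matrix (Fin 8) (Fin 8) F)
    rwa [hG, Fintype.card_fin] at this
  have heval : ∀ c : F, (∀ v, h.1 v = c • v → v = 0) → μ.eval c ≠ 0 := fun c hc h0 => by
    obtain ⟨v, hv⟩ := (Module.End.hasEigenvalue_of_isRoot (f := T) h0).exists_hasEigenvector
    exact hv.2 (hc v hv.apply_eq_smul)
  have h1 : μ.eval 1 ≠ 0 := heval 1 fun v hv => hfix v (by simpa using hv)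
  have hm1 : μ.eval (-1) ≠ 0 := heval (-1) fun v hv => hneg v (by simpa using hv)
  have hord : ∀ N, μ ∣ X ^ N - 1 → orderOf h ∣ N := fun N hN => orderOf_dvd_of_pow_eq_one
    (pow_eq_one_of_aeval h ((minpoly.dvd_iff).1 hN))
  have hfX : ∀ f : F[X], Irreducible f → f ∣ μ → ¬ f ∣ X := fun f hf hfd hfx =>
    hX (((hf.associated_of_dvd Polynomial.irreducible_X hfx).dvd_iff_dvd_left).1 hfd)
  have hroot : ∀ (L : Type u) [Field L] [Algebra F L] (α : L), aeval α μ = 0 → aeval α⁻¹ μ = 0 := by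
    intro L _ _ α hα
    rcases eq_or_ne α 0 with rfl | h0
    · rwa [inv_zero]
    obtain ⟨c, hc⟩ := hassoc.dvd
    have h1 : aeval α μ.reverse = 0 := by rw [hc, map_mul, hα, zero_mul]
    have : Invertible α⁻¹ := invertibleOfNonzero (inv_ne_zero h0)
    refine (eval₂_reverse_eq_zero_iff (algebraMap F L) α⁻¹ μ).1 ?_
    rw [invOf_eq_inv, inv_inv]
    exact h1
  by_cases hirr : ∃ f : F[X], Irreducible f ∧ f.Monic ∧ f ∣ μ ∧ f.natDegree = 8
  · -- an irreducible self-dual class of degree eight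
    obtain ⟨f, hf, hfm, hfd, hd8⟩ := hirr
    have heq : μ = f := Polynomial.eq_of_monic_of_dvd_of_natDegree_le hfm hμm hfd (by omega)
    have hμi : Irreducible μ := heq ▸ hf
    have hsr : SemiReg h := fun i v hv hfx => by
      refine pow_eq_one_of_aeval h ((minpoly.dvd_iff).1 ?_)
      by_contra hnd
      obtain ⟨a, c, hac⟩ := hμi.coprime_iff_not_dvd.2 hnd
      have := congrArg (fun t => aeval T t v) hac
      have e : aeval T (X ^ i - 1 : F[X]) v = 0 := (aeval_pow_sub h i v).trans (by rw [hfx, sub_self])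
      simp only [map_add, map_mul, map_one, LinearMap.add_apply, Module.End.mul_apply, Module.End.one_apply,
        e, map_zero, add_zero, zero_add, hμdef, minpoly.aeval, LinearMap.zero_apply] at this
      exact hv this.symm
    have hN : orderOf h ∣ q ^ 4 + 1 := by
      rcases GS.SelfRecip.factor_cases hroot hf hfm (hfX f hf hfd) hfd with h' | ⟨j, hj, hjd, hjX⟩ |
        ⟨f', hf', hf'm, hf'd, hne, hdeg', hback, hrev⟩
      · rcases h' with rfl | rfl
        · exact absurd (by rw [heq]; simp) h1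
        · exact absurd (by rw [heq]; simp) hm1
      · obtain rfl : j = 4 := by omega
        rw [Nat.card_eq_fintype_card] at hjX
        exact hord _ (heq ▸ hjX)
      · exact absurd (Polynomial.eq_of_monic_of_dvd_of_natDegree_le hf'm hfm (heq ▸ hf'd) (by omega)) (Ne.symm hne)
    rcases exists_normal_even 3 hQ hV with ⟨E, hE⟩ | ⟨ζ, hζ, E, hE⟩
    · have hn : numSing Q = Nat.card {v : Fin 4 ⊕ Fin 4 → F // Cfsg.quadFormPlus 4 F v = 0} :=
        (card_sing_bridge _ E.symm fun z => by rw [← hE, E.apply_symm_apply]).symm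
      rw [card_sing_plus 4 (by norm_num), ← hq] at hn
      have hkey : numSing Q - 1 = (q ^ 4 - 1) * (q ^ 3 + 1) := by
        rw [hn, show 2 * 4 - 1 = 7 from rfl, show 4 - 1 = 3 from rfl]
        have h7 : q ^ 7 = q ^ 4 * q ^ 3 := by ring
        have h41 : 1 ≤ q ^ 4 := Nat.one_le_pow _ _ Fintype.card_pos
        obtain ⟨c, hc⟩ : ∃ c, q ^ 4 = c + 1 := ⟨q ^ 4 - 1, by omega⟩
        rw [h7, hc, Nat.add_sub_cancel, add_mul, one_mul, mul_add, mul_one]
        omega
      exact Or.inl (irr_arith hodd hN (hkey ▸ free_dvd hsr))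
    · exfalso
      rw [chi_conj (nd_minusQ hζ 3) hQ h2 E (fun z => by rw [hE, minusQ_apply]),
        chi_minus h2 hζ 3, sqSign_neg_one_sq (by decide)] at hchi
      exact absurd hchi (by decide)
  by_cases hpair : ∃ f f' : F[X], Irreducible f ∧ Irreducible f' ∧ f.Monic ∧ f'.Monic ∧ f ∣ μ ∧ f' ∣ μ ∧ f' ≠ f ∧
      f' ∣ f.reverse ∧ f.natDegree = 4
  · obtain ⟨f, f', hf, hf', hfm, hfm', hfd, hfd', hne, hrev, hd⟩ := hpair
    have hX' : ¬ f ∣ X := hfX f hf hfd
    have hdeg' : f'.natDegree = f.natDegree := by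
      have hf0 : f.coeff 0 ≠ 0 := fun h =>
        hX' ((Polynomial.irreducible_X.associated_of_dvd hf (X_dvd_iff.2 h)).symm).dvd
      have hrd : f.reverse.natDegree = f.natDegree := by
        rw [reverse_natDegree, natTrailingDegree_eq_zero.2 (Or.inr hf0), Nat.sub_zero]
      have hr : Irreducible f.reverse := by
        refine ⟨fun hu => ?_, fun x y hxy => ?_⟩
        · have := natDegree_eq_zero_of_isUnit hu; omega
        · have h' := congrArg Polynomial.reverse hxy
          rw [rev_rev hf0, reverse_mul_of_domain] at h'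
          have hx0 : x.coeff 0 ≠ 0 ∧ y.coeff 0 ≠ 0 := by
            have h0 : f.reverse.coeff 0 ≠ 0 := by rw [coeff_zero_reverse, hfm.leadingCoeff]; exact one_ne_zero
            rw [hxy, mul_coeff_zero] at h0
            exact mul_ne_zero_iff.1 h0
          rcases hf.isUnit_or_isUnit h' with hu | hu
          · exact Or.inl (rev_rev hx0.1 ▸ isUnit_rev hu)
          · exact Or.inr (rev_rev hx0.2 ▸ isUnit_rev hu)
      rw [natDegree_eq_of_degree_eq (degree_eq_degree_of_associated (hf'.associated_of_dvd hr hrev)), hrd]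
    have hcop : IsCoprime f f' := (hf.coprime_iff_not_dvd).2 fun h =>
      hne (eq_of_monic_of_associated hfm hfm' (hf.associated_of_dvd hf' h)).symm
    have heq : μ = f * f' := Polynomial.eq_of_monic_of_dvd_of_natDegree_le (hfm.mul hfm') hμm
      (hcop.mul_dvd hfd hfd') (by rw [hfm.natDegree_mul hfm']; omega)
    obtain ⟨M, hM, hMf, hMf'⟩ := pair_order hf hfm hX' hd hrev hodd
      (pair_square hQ h2 hV hh hf hf' hfm hfm' hX' (hfX f' hf' hfd') hne hrev hdeg' hd heq)
    exact Or.inl ((hord M (heq ▸ hcop.mul_dvd hMf hMf')).trans hM)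
  obtain ⟨D, k, L, hT, hb, hdvd⟩ := tor_decomp μ hμm.ne_zero hX hassoc h1 hm1
    (fun f hf hfm hfd h8 => hirr ⟨f, hf, hfm, hfd, h8⟩)
    (fun f f' hf hf' hfm hfm' hfd hfd' hne hrev h4 => hpair ⟨f, f', hf, hf', hfm, hfm', hfd, hfd', hne, hrev, h4⟩)
  rw [Nat.card_eq_fintype_card] at hT
  refine tgt_of hp3 hT (by omega) fun c hc => hord _ (hdvd.trans ?_)
  rw [mul_comm, pow_mul, show ((X : F[X]) ^ L) ^ p ^ c - 1 = (X ^ L - 1) ^ p ^ c by rw [sub_pow_char_pow, one_pow]]
  exact pow_dvd_pow _ hc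

end plus

end Cfsg.Agent.Lib.Recog.OrthNine
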