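import Cfsg.Agent.Lib.Recog.OrthNineClasses

/-! Element orders of `PΩ(9, q)` and of the extension of `Ω⁻(8, q)` by its natural module, `q` odd. -/

set_option autoImplicit false

namespace Cfsg.Agent.Lib.Recog.OrthNine

open Polynomial QuadraticMap
open Cfsg.Agent.Lib.Classical.Quad Cfsg.Agent.Lib.Classical.QuadOmega Cfsg.Agent.Lib.Classical.OrthTorsion
open Cfsg.Agent.Lib.Classical.QuadF2 Cfsg.Agent.Lib.AutOmega
open Cfsg.Agent.Lib.Recog.OddOrthPrimeGraph

universe u v w

variable {F : Type u} [Field F] [Fintype F]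

/-! ### Small spaces -/

theorem exists_sign (h2 : (2 : F) ≠ 0) (s : ℤˣ) : ∃ c : F, c ≠ 0 ∧ sqSign c = s := by
  classical
  obtain ⟨ν, hν0, -, hνc, -⟩ := exists_nu (F := F)
  rcases Int.units_eq_one_or s with rfl | rfl
  · exact ⟨1, one_ne_zero, sqSign_one⟩
  · exact ⟨ν, hν0, by rw [sqSign, if_neg (quadraticChar_neg_one_iff_not_isSquare.1 (hνc h2))]⟩

/-- An even-dimensional space. -/
noncomputable def evenQ (m : ℕ) (c : F) : QuadraticForm F ((Unit ⊕ (Fin m ⊕ Fin m) → F) × (Unit → F)) :=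
  (oddQ m F).prod (lineQ c)

theorem finrank_evenQ (m : ℕ) :
    Module.finrank F ((Unit ⊕ (Fin m ⊕ Fin m) → F) × (Unit → F)) = 2 * m + 2 := by
  rw [Module.finrank_prod, finrank_odd]; simp

theorem exists_even (h2 : (2 : F) ≠ 0) (m : ℕ) (s : ℤˣ) :
    ∃ (c : F) (hn : Nd (evenQ m c)), chi hn = s := by
  obtain ⟨c, hc, hcs⟩ := exists_sign h2 (chi (nd_oddQ (F := F) h2 m) * s)
  refine ⟨c, nd_prod (nd_oddQ h2 m) (nd_lineQ h2 hc), ?_⟩
  refine (chi_prod (nd_oddQ h2 m) (nd_lineQ h2 hc) h2).trans ?_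
  rw [chi_line h2 hc, hcs, ← mul_assoc, Int.units_mul_self, one_mul]

section prod

variable {V : Type v} [AddCommGroup V] [Module F V] {W : Type w} [AddCommGroup W] [Module F W]
  {Q : QuadraticForm F V} {R : QuadraticForm F W}

omit [Fintype F] in
theorem lin_prod_pow (a : isoG Q) (b : isoG R) (k : ℕ) (x : V × W) :
    ((lin (prodHom Q R (a, b)) - 1) ^ k) x = (((lin a - 1) ^ k) x.1, ((lin b - 1) ^ k) x.2) := by
  induction k generalizing x with
  | zero => rfl
  | succ k ih =>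
    rw [pow_succ, pow_succ, pow_succ, Module.End.mul_apply, Module.End.mul_apply, Module.End.mul_apply, ih]
    rfl

omit [Fintype F] in
theorem uni_prod {a : isoG Q} {b : isoG R} (ha : Uni a) (hb : Uni b) : Uni (prodHom Q R (a, b)) := by
  obtain ⟨i, hi⟩ := ha
  obtain ⟨j, hj⟩ := hb
  exact ⟨max i j, LinearMap.ext fun x => by
    rw [lin_prod_pow, pow_eq_zero_of_le (le_max_left i j) hi, pow_eq_zero_of_le (le_max_right i j) hj]; rfl⟩

omit [Fintype F] in
theorem uni_one : Uni (1 : isoG Q) := ⟨1, by rw [pow_one]; exact sub_self _⟩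

omit [Fintype F] in
theorem ord_prod (a : isoG Q) (b : isoG R) : orderOf (prodHom Q R (a, b)) = Nat.lcm (orderOf a) (orderOf b) := by
  rw [orderOf_injective _ (prodHom_injective Q R), Prod.orderOf]

variable [Finite V] [Finite W]

theorem prod_mem (hQ : Nd Q) (hR : Nd R) (h2 : (2 : F) ≠ 0) {a : isoG Q} {b : isoG R}
    (hd : dick hQ a * dick hR b = 1) (hs : spn hQ a * spn hR b = 1) :
    prodHom Q R (a, b) ∈ commutator (isoG (Q.prod R)) := by
  obtain ⟨e1, e2⟩ := invs_prod hQ hR h2 a b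
  exact (mem_commutator_iff (nd_prod hQ hR) h2 _).2 ⟨e1.trans hd, e2.trans hs⟩

end prod

theorem regular_even {p : ℕ} [Fact p.Prime] [CharP F p] (h2 : (2 : F) ≠ 0) (m : ℕ) (c : F) :
    ∃ w : isoG (evenQ m c), Uni w ∧ (lin w - 1) ^ (2 * m) ≠ 0 := by
  obtain ⟨u, hu, hne⟩ := regular_unip (p := p) (F := F) h2 m
  refine ⟨prodHom _ _ (u, 1), uni_prod hu uni_one, fun h0 => hne (LinearMap.ext fun x => ?_)⟩
  have := congrArg Prod.fst ((lin_prod_pow u (1 : isoG (lineQ c)) (2 * m) (x, 0)).symm.trans (LinearMap.congr_fun h0 _))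
  exact this

theorem mem_range_of_dvd {G : Type*} [Group G] [Finite G] {g : G} {o : ℕ} (h : o ∣ orderOf g) :
    o ∈ Set.range (orderOf : G → ℕ) := by
  refine ⟨g ^ (orderOf g / o), ?_⟩
  have hne := (orderOf_pos g).ne'
  obtain ⟨c, hc⟩ := h
  have ho : o ≠ 0 := by rintro rfl; simp [hc] at hne
  have hc0 : c ≠ 0 := by rintro rfl; simp [hc] at hne
  rw [hc, Nat.mul_div_cancel_left _ (Nat.pos_of_ne_zero ho), orderOf_pow' _ hc0, hc,
    Nat.gcd_eq_right (dvd_mul_left c o), Nat.mul_div_cancel _ (Nat.pos_of_ne_zero hc0)]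

/-! ### The two standard spaces -/

/-- A space of dimension eight with non-square discriminant is the minus space. -/
theorem to_minus (h2 : (2 : F) ≠ 0) {a b : F} (hab : Aniso a b) {V : Type v} [AddCommGroup V] [Module F V] [Finite V]
    {Q : QuadraticForm F V} (hQ : Nd Q) (hV : Module.finrank F V = 8) (hchi : chi hQ = -1) {p n : ℕ}
    (h : InL p Q n) : InL p (minusQ 3 a b) n := by
  rcases exists_normal_even 3 hQ hV with ⟨E, hE⟩ | ⟨ζ, hζ, E, hE⟩
  · exfalso
    rw [chi_conj (nd_plusQ 4) hQ h2 E (fun z => by rw [hE, plusQ_apply]), chi_plus h2,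
      sqSign_neg_one_sq (by decide)] at hchi
    exact absurd hchi (by decide)
  · obtain ⟨e', he'⟩ := exists_bin_equiv hab hζ 3
    refine h.map p (E.symm.trans e') fun z => ?_
    rw [LinearEquiv.trans_apply, he', minusQ_apply, ← hE, E.apply_symm_apply]

/-- An element order of the orthogonal group in dimension nine, up to divisors. -/
def InO (F : Type u) [Field F] (n : ℕ) : Prop :=
  ∃ g : isoG (oddQ 4 F), g ∈ commutator (isoG (oddQ 4 F)) ∧ n ∣ orderOf g

theorem to_nine {V : Type v} [AddCommGroup V] [Module F V] [Finite V] {Q : QuadraticForm F V} (hQ : Nd Q)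
    (hV : Module.finrank F V = 9) {g : isoG Q} (hg : g ∈ commutator (isoG Q)) {n : ℕ} (hn : n ∣ orderOf g) :
    InO F n := by
  classical
  obtain ⟨c, hc, e, he⟩ := exists_normal_odd (Q := Q) 4 hQ (by omega)
  let φ : (Unit ⊕ (Fin 4 ⊕ Fin 4) → F) ≃ₗ[F] (Unit ⊕ (Fin 4 ⊕ Fin 4) → F) :=
    { toFun := fun v => Sum.elim (fun u => v (.inl u)) (Sum.elim (fun j => c * v (.inr (.inl j))) fun j => v (.inr (.inr j)))
      invFun := fun v => Sum.elim (fun u => v (.inl u)) (Sum.elim (fun j => c⁻¹ * v (.inr (.inl j))) fun j => v (.inr (.inr j)))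
      left_inv := fun v => by ext (u | j | j) <;> simp [hc]
      right_inv := fun v => by ext (u | j | j) <;> simp [hc]
      map_add' := fun v v' => by ext (u | j | j) <;> simp [mul_add]
      map_smul' := fun k v => by ext (u | j | j) <;> simp [mul_left_comm] }
  have hΨ : ∀ v, (c • oddQ 4 F) ((φ.trans e).symm v) = Q v := fun v => by
    obtain ⟨v', rfl⟩ := (φ.trans e).surjective v
    rw [LinearEquiv.symm_apply_apply, LinearEquiv.trans_apply, he]
    simp [oddQ_apply, Cfsg.quadFormOdd, φ, mul_add, Finset.mul_sum, mul_assoc]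
  let ψ : isoG Q →* isoG (oddQ 4 F) :=
    { toFun := fun k => ⟨(isoConj (φ.trans e).symm hΨ k).1, fun v => mul_left_cancel₀ hc ((isoConj (φ.trans e).symm hΨ k).2 v)⟩
      map_one' := Subtype.ext (by rw [map_one]; rfl)
      map_mul' := fun k l => Subtype.ext (by rw [map_mul]; rfl) }
  have hψ : Function.Injective ψ := fun k l hkl =>
    isoConj_injective _ hΨ (Subtype.ext (congrArg (fun z : isoG (oddQ 4 F) => z.1) hkl :))
  exact ⟨ψ g, map_commutator_le ψ ⟨g, hg, rfl⟩, by rwa [orderOf_injective ψ hψ]⟩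

variable {p : ℕ} [Fact p.Prime] [CharP F p]

/-! ### From the extension to dimension nine -/

theorem inO_of_inL (h2 : (2 : F) ≠ 0) {V : Type v} [AddCommGroup V] [Module F V] [Finite V] {Q : QuadraticForm F V}
    (hQ : Nd Q) (hV : Module.finrank F V = 8) {n : ℕ} (h : InL p Q n) : InO F n := by
  haveI := Module.Finite.of_finite (R := F) (M := V)
  have hp := (Fact.out : p.Prime)
  have hp2 : p ≠ 2 := fun e => h2 (by subst e; exact CharTwo.two_eq_zero)
  obtain ⟨g, hg, h | ⟨v, hv, h⟩⟩ := h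
  · refine to_nine (nd_prod hQ (nd_lineQ h2 (one_ne_zero : (1 : F) ≠ 0))) ?_
      (prodHom_commutator hg (one_mem _)) (h.trans ?_)
    · rw [Module.finrank_prod, hV]; simp
    · rw [ord_prod]; exact Nat.dvd_lcm_left _ _
  obtain ⟨U, R, e, he, gU, gR, hU, hR, hgeq, hnil, hfix⟩ := split_eigen hQ g (one_mul (1 : F))
  have huni : Uni gU := by rw [map_one] at hnil; exact hnil
  have hprod : Nd ((Q.comp U.subtype).prod (Q.comp R.subtype)) := nd_prod hU hR
  obtain ⟨hgd, hgs⟩ := (mem_commutator_iff hQ h2 g).1 hg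
  rw [hgeq, (invs_conj hprod hQ h2 e he _).1, (invs_prod hU hR h2 _ _).1] at hgd
  rw [hgeq, (invs_conj hprod hQ h2 e he _).2, (invs_prod hU hR h2 _ _).2] at hgs
  obtain ⟨hUd, hUs⟩ := (mem_commutator_iff hU h2 gU).1 (uni_mem p hp2 hU h2 huni)
  rw [hUd, one_mul] at hgd
  rw [hUs, one_mul] at hgs
  have hR0 : fixS gR = ⊥ := (Submodule.eq_bot_iff _).2 fun x hx => hfix x (by rw [one_smul]; exact mem_fixS.1 hx)
  have hReven : Even (Module.finrank F R) := by
    rcases Nat.even_or_odd (Module.finrank F R) with h' | h'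
    · exact h'
    · rw [dick_eq, hR0, finrank_bot, add_zero, h'.neg_one_pow] at hgd
      exact absurd hgd (by decide)
  have hsum : Module.finrank F U + Module.finrank F R = 8 := by
    rw [← hV, ← e.finrank_eq, Module.finrank_prod]
  set o := orderOf g with ho
  have hog : o = Nat.lcm (orderOf gU) (orderOf gR) := by
    rw [ho, hgeq, orderOf_injective _ (isoConj_injective _ _), ord_prod]
  obtain ⟨j, hj⟩ := uni_order p huni
  obtain ⟨⟨x, y⟩, rfl⟩ := e.surjective v
  have hS : ∑ i ∈ Finset.range o, (gU ^ i).1 x ≠ 0 := by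
    intro hx
    apply hv
    have hcomp : ∀ i : ℕ, (g ^ i).1 (e (x, y)) = e ((gU ^ i).1 x, (gR ^ i).1 y) := fun i => by
      rw [hgeq, ← map_pow, ← map_pow, Prod.pow_mk, isoConj_apply, e.symm_apply_apply, prodHom_apply]
    have hy : ∑ i ∈ Finset.range o, (gR ^ i).1 y = 0 := by
      refine hfix _ ?_
      rw [one_smul, map_sum]
      have hgo : gR ^ o = 1 := orderOf_dvd_iff_pow_eq_one.1 (hog ▸ Nat.dvd_lcm_right _ _)
      have h1 := Finset.sum_range_succ (fun i => (gR ^ i).1 y) o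
      rw [Finset.sum_range_succ', hgo, pow_zero] at h1
      refine Eq.trans ?_ (add_right_cancel h1)
      exact Finset.sum_congr rfl fun i _ => by rw [pow_succ']; rfl
    simp only [hcomp, ← map_sum]
    have : ∑ i ∈ Finset.range o, ((gU ^ i).1 x, (gR ^ i).1 y) = 0 := by
      rw [Prod.ext_iff, Prod.fst_sum, Prod.snd_sum]; exact ⟨hx, hy⟩
    rw [this, map_zero]
  obtain ⟨c, hc⟩ : p ^ j ∣ o := hj ▸ hog ▸ Nat.dvd_lcm_left _ _
  rw [hc, periodic gU (hj ▸ pow_orderOf_eq_one gU), sum_apply, geom p] at hS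
  have hcp : ¬ p ∣ c := fun hd => hS (by rw [(CharP.cast_eq_zero_iff F p c).2 hd, zero_smul])
  have hN : (lin gU - 1) ^ (p ^ j - 1) ≠ 0 := fun h0 => hS (by rw [h0, LinearMap.zero_apply, smul_zero])
  have hjU : p ^ j ≤ Module.finrank F U := by
    by_contra hlt
    exact hN (pow_eq_zero_of_le (by omega) (nil_pow huni))
  obtain ⟨m, hm⟩ : Even (Module.finrank F U) := (Nat.even_add.1 (hsum.symm ▸ (by decide : Even 8))).2 hReven
  obtain ⟨w, hw, hwne⟩ := regular_unip (p := p) (F := F) h2 m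
  obtain ⟨l, hl⟩ := uni_order p hw
  have hjl : j + 1 ≤ l := by
    by_contra hlt
    apply hwne
    refine pow_eq_zero_of_le ?_ ((pow_eq_one_iff p w l).1 (hl ▸ pow_orderOf_eq_one w))
    calc p ^ l ≤ p ^ j := Nat.pow_le_pow_right hp.pos (by omega)
      _ ≤ 2 * m := by omega
  have hgRm : gR ∈ commutator (isoG (Q.comp R.subtype)) := (mem_commutator_iff hR h2 gR).2 ⟨hgd, hgs⟩
  refine to_nine (nd_prod hR (nd_oddQ h2 m)) ?_
    (prodHom_commutator hgRm (uni_mem p hp2 (nd_oddQ h2 m) h2 hw)) (h.trans ?_)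
  · rw [Module.finrank_prod, finrank_odd]; omega
  · rw [ord_prod, hl, hc, ← mul_assoc, ← pow_succ']
    have hcR : c ∣ orderOf gR := by
      refine Nat.Coprime.dvd_of_dvd_mul_left ((Nat.Coprime.pow_right j ((hp.coprime_iff_not_dvd.2 hcp).symm))) ?_
      calc c ∣ o := hc ▸ dvd_mul_left _ _
        _ ∣ p ^ j * orderOf gR := hog ▸ hj ▸ Nat.lcm_dvd_mul _ _
    exact Nat.Coprime.mul_dvd_of_dvd_of_dvd (Nat.Coprime.pow_left _ (hp.coprime_iff_not_dvd.2 hcp))
      ((pow_dvd_pow p hjl).trans (Nat.dvd_lcm_right _ _)) (hcR.trans (Nat.dvd_lcm_left _ _))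

/-! ### The targets -/

theorem coprime_card (n : ℕ) : Nat.Coprime p (Fintype.card F ^ (n + 1) + 1) ∧
    Nat.Coprime p (Fintype.card F ^ (n + 1) - 1) := by
  have hp := (Fact.out : p.Prime)
  obtain ⟨f, -, hf⟩ := FiniteField.card F p
  have hd : p ∣ Fintype.card F ^ (n + 1) := by
    rw [hf]; exact (dvd_pow_self p f.ne_zero).trans (dvd_pow_self _ (Nat.succ_ne_zero n))
  have h1 : 1 ≤ Fintype.card F ^ (n + 1) := Nat.one_le_pow _ _ Fintype.card_pos
  constructor <;> refine hp.coprime_iff_not_dvd.2 fun h => ?_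
  · exact hp.one_lt.ne' (Nat.dvd_one.1 ((Nat.dvd_add_right hd).1 h))
  · have := Nat.dvd_sub hd h
    rw [show Fintype.card F ^ (n + 1) - (Fintype.card F ^ (n + 1) - 1) = 1 by omega] at this
    exact hp.one_lt.ne' (Nat.dvd_one.1 this)

theorem inL_tgt (h2 : (2 : F) ≠ 0) {a b : F} (hab : Aniso a b) {n : ℕ} (h : Tgt (Fintype.card F) p n) :
    InL p (minusQ 3 a b) n := by
  classical
  have hp := (Fact.out : p.Prime)
  have hp2 : p ≠ 2 := fun e => h2 (by subst e; exact CharTwo.two_eq_zero)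
  set q := Fintype.card F
  obtain ⟨t1, d1, s1, o1⟩ := torus_minus (p := p) h2 hab 0
  obtain ⟨t2, d2, s2, o2⟩ := torus_minus (p := p) h2 hab 1
  obtain ⟨t3, d3, s3, o3⟩ := torus_minus (p := p) h2 hab 2
  obtain ⟨u1, c1, r1, w1⟩ := torus_plus (p := p) (F := F) h2 (le_refl 1)
  obtain ⟨u2, c2, r2, w2⟩ := torus_plus (p := p) (F := F) h2 (show 1 ≤ 2 by norm_num)
  obtain ⟨u3, c3, r3, w3⟩ := torus_plus (p := p) (F := F) h2 (show 1 ≤ 3 by norm_num)
  rw [zero_add, pow_one] at o1
  rw [pow_one] at w1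
  have hsm : ∀ x : ℤˣ, x * x = 1 := fun x => Int.units_mul_self x
  -- elements on six dimensions beside a fixed plane
  have six : ∀ {V₁ V₂ : Type u} [AddCommGroup V₁] [Module F V₁] [Finite V₁] [AddCommGroup V₂] [Module F V₂] [Finite V₂]
      {Q₁ : QuadraticForm F V₁} {Q₂ : QuadraticForm F V₂} (h₁ : Nd Q₁) (h₂ : Nd Q₂) (x : isoG Q₁) (y : isoG Q₂),
      Module.finrank F V₁ + Module.finrank F V₂ = 6 → dick h₁ x = 1 → dick h₂ y = 1 → spn h₁ x = -1 → spn h₂ y = -1 →
      Nat.Coprime p (Nat.lcm (orderOf x) (orderOf y)) →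
      InL p (minusQ 3 a b) (p * Nat.lcm (orderOf x) (orderOf y)) := by
    intro V₁ V₂ _ _ _ _ _ _ Q₁ Q₂ h₁ h₂ x y hdim hdx hdy hsx hsy hcop
    obtain ⟨c, hP, hPc⟩ := exists_even (F := F) h2 0 (-(chi h₁ * chi h₂))
    have hm : prodHom Q₁ Q₂ (x, y) ∈ commutator (isoG (Q₁.prod Q₂)) :=
      prod_mem h₁ h₂ h2 (by rw [hdx, hdy, one_mul]) (by rw [hsx, hsy]; exact hsm _)
    haveI := Module.Finite.of_finite (R := F) (M := V₁)
    haveI := Module.Finite.of_finite (R := F) (M := V₂)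
    refine InL.dvd p (to_minus h2 hab (nd_prod (nd_prod h₁ h₂) hP) ?_ ?_ (block p hp2 (nd_prod h₁ h₂) hP h2 hm
      (w := 1) uni_one (k := 1) ?_ 1 (Or.inr (by simp)))) ?_
    · rw [Module.finrank_prod, Module.finrank_prod, finrank_evenQ]; omega
    · rw [chi_prod (nd_prod h₁ h₂) hP h2, chi_prod h₁ h₂ h2, hPc, mul_neg, hsm]
    · rw [Nat.sub_self, pow_zero]; exact one_ne_zero
    · rw [ord_prod, pow_one, Nat.Coprime.lcm_eq_mul hcop]
  -- elements on eight dimensions
  have eight : ∀ {V₁ V₂ : Type u} [AddCommGroup V₁] [Module F V₁] [Finite V₁] [AddCommGroup V₂] [Module F V₂] [Finite V₂]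
      {Q₁ : QuadraticForm F V₁} {Q₂ : QuadraticForm F V₂} (h₁ : Nd Q₁) (h₂ : Nd Q₂) (x : isoG Q₁) (y : isoG Q₂),
      Module.finrank F V₁ + Module.finrank F V₂ = 8 → chi h₁ * chi h₂ = -1 → dick h₁ x = 1 → dick h₂ y = 1 →
      spn h₁ x = -1 → spn h₂ y = -1 → InL p (minusQ 3 a b) (Nat.lcm (orderOf x) (orderOf y)) := by
    intro V₁ V₂ _ _ _ _ _ _ Q₁ Q₂ h₁ h₂ x y hdim hchi hdx hdy hsx hsy
    haveI := Module.Finite.of_finite (R := F) (M := V₁)
    haveI := Module.Finite.of_finite (R := F) (M := V₂)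
    refine to_minus h2 hab (nd_prod h₁ h₂) (by rw [Module.finrank_prod]; exact hdim) (by rw [chi_prod h₁ h₂ h2, hchi])
      ⟨prodHom Q₁ Q₂ (x, y), prod_mem h₁ h₂ h2 (by rw [hdx, hdy, one_mul]) (by rw [hsx, hsy]; exact hsm _),
        Or.inl (by rw [ord_prod])⟩
  -- nine times a torus
  have nine : ∀ {V₁ : Type u} [AddCommGroup V₁] [Module F V₁] [Finite V₁] {Q₁ : QuadraticForm F V₁} (h₁ : Nd Q₁)
      (x : isoG Q₁), Module.finrank F V₁ = 2 → dick h₁ x = 1 → spn h₁ x = -1 → p = 3 →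
      Nat.Coprime 9 (orderOf x) → InL p (minusQ 3 a b) (9 * orderOf x) := by
    intro V₁ _ _ _ Q₁ h₁ x hdim hdx hsx hp3 hcop
    haveI := Module.Finite.of_finite (R := F) (M := V₁)
    obtain ⟨c, hP, -⟩ := exists_even (F := F) h2 0 1
    obtain ⟨d, hW, hWc⟩ := exists_even (F := F) h2 1 (-(chi h₁ * chi hP))
    obtain ⟨y, hy⟩ := invPair_surjective hP h2 (by rw [finrank_evenQ]) (1, -1)
    have hm : prodHom Q₁ (evenQ 0 c) (x, y) ∈ commutator (isoG (Q₁.prod (evenQ 0 c))) :=
      prod_mem h₁ hP h2 (by rw [hdx, show dick hP y = 1 from congrArg Prod.fst hy, one_mul])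
        (by rw [hsx, show spn hP y = -1 from congrArg Prod.snd hy]; exact hsm _)
    obtain ⟨w, hw, hwne⟩ := regular_even (p := p) h2 1 d
    refine InL.dvd p (to_minus h2 hab (nd_prod (nd_prod h₁ hP) hW) ?_ ?_ (block p hp2 (nd_prod h₁ hP) hW h2 hm
      hw (k := 3) hwne 2 (Or.inr (by simp [hp3])))) ?_
    · rw [Module.finrank_prod, Module.finrank_prod, finrank_evenQ, finrank_evenQ]; omega
    · rw [chi_prod (nd_prod h₁ hP) hW h2, chi_prod h₁ hP h2, hWc, mul_neg, hsm]
    · rw [ord_prod, hp3, show (3 : ℕ) ^ 2 = 9 by norm_num, ← Nat.Coprime.lcm_eq_mul hcop]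
      exact Nat.lcm_dvd (Nat.dvd_lcm_left _ _) ((Nat.dvd_lcm_left _ _).trans (Nat.dvd_lcm_right _ _))
  rcases h with h | h | h | h | h | h | ⟨hp3, h⟩
  · refine InL.dvd p (eight (nd_minusQ hab 1) (nd_plusQ 2) t2 u2 (by simp [Module.finrank_pi]) ?_ d2 c2 s2 r2) ?_
    · rw [chi_minus h2 hab 1, chi_plus h2 2, sqSign_neg_one_sq (by decide), neg_one_mul]
    · rw [o2, w2]; exact h
  · refine InL.dvd p (eight (nd_minusQ hab 2) (nd_plusQ 1) t3 u1 (by simp [Module.finrank_pi]) ?_ d3 c1 s3 r1) ?_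
    · rw [chi_minus h2 hab 2, chi_plus h2 1, neg_mul]
      norm_num [hsm]
    · rw [o3, w1]; exact h
  · refine InL.dvd p (eight (nd_plusQ 3) (nd_minusQ hab 0) u3 t1 (by simp [Module.finrank_pi]) ?_ c3 d1 r3 s1) ?_
    · rw [chi_minus h2 hab 0, chi_plus h2 3, mul_neg]
      norm_num [hsm]
    · rw [o1, w3]; exact h
  · refine InL.dvd p (six (nd_minusQ hab 1) (nd_minusQ hab 0) t2 t1 (by simp [Module.finrank_pi]) d2 d1 s2 s1 ?_) ?_
    · rw [o2, o1]
      exact ((coprime_card (F := F) (p := p) 1).1.mul_right (by simpa using (coprime_card (F := F) (p := p) 0).1)).coprime_dvd_right (Nat.lcm_dvd_mul _ _)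
    · rw [o2, o1]; exact h
  · refine InL.dvd p (six (nd_minusQ hab 1) (nd_plusQ 1) t2 u1 (by simp [Module.finrank_pi]) d2 c1 s2 r1 ?_) ?_
    · rw [o2, w1]
      exact ((coprime_card (F := F) (p := p) 1).1.mul_right (by simpa using (coprime_card (F := F) (p := p) 0).2)).coprime_dvd_right (Nat.lcm_dvd_mul _ _)
    · rw [o2, w1]; exact h
  · refine InL.dvd p (six (nd_plusQ 2) (nd_minusQ hab 0) u2 t1 (by simp [Module.finrank_pi]) c2 d1 r2 s1 ?_) ?_
    · rw [o1, w2]
      exact ((coprime_card (F := F) (p := p) 1).2.mul_right (by simpa using (coprime_card (F := F) (p := p) 0).1)).coprime_dvd_right (Nat.lcm_dvd_mul _ _)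
    · rw [o1, w2]; exact h.trans (mul_dvd_mul_left _ (Nat.dvd_lcm_left _ _))
  · rcases h with h | h
    · refine InL.dvd p (nine (nd_minusQ hab 0) t1 (by simp [Module.finrank_pi]) d1 s1 hp3 ?_) ?_
      · rw [o1]; subst hp3
        exact (by simpa using (coprime_card (F := F) (p := 3) 0).1 : Nat.Coprime 3 (q + 1)).pow_left 2
      · rw [o1]; exact h
    · refine InL.dvd p (nine (nd_plusQ 1) u1 (by simp [Module.finrank_pi]) c1 r1 hp3 ?_) ?_
      · rw [w1]; subst hp3
        exact (by simpa using (coprime_card (F := F) (p := 3) 0).2 : Nat.Coprime 3 (q - 1)).pow_left 2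
      · rw [w1]; exact h

/-! ### From dimension nine to the extension -/

theorem orderOf_negOne_mul {V : Type v} [AddCommGroup V] [Module F V] [Finite V] {Q : QuadraticForm F V}
    [Nontrivial V] (h2 : (2 : F) ≠ 0) (g : isoG Q) : orderOf (negOne Q) = 2 ∧ Commute (negOne Q) g := by
  constructor
  · refine orderOf_eq_prime_iff.2 ⟨iso_ext fun v => ?_, fun h => ?_⟩
    · rw [pow_two, Subgroup.coe_mul, LinearEquiv.mul_apply, negOne_apply, negOne_apply, neg_neg]; rfl
    · obtain ⟨v, hv⟩ := exists_ne (0 : V)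
      have h' : (negOne Q).1 v = v := by rw [h]; rfl
      rw [negOne_apply, neg_eq_iff_add_eq_zero, ← two_smul F v] at h'
      exact hv ((smul_eq_zero.1 h').resolve_left h2)
  · exact iso_ext fun v => by
      show (negOne Q).1 (g.1 v) = g.1 ((negOne Q).1 v)
      rw [negOne_apply, negOne_apply, map_neg]

theorem inL_plus (h2 : (2 : F) ≠ 0) {a b : F} (hab : Aniso a b) {V : Type v} [AddCommGroup V] [Module F V] [Finite V]
    {Q : QuadraticForm F V} (hQ : Nd Q) (hV : Module.finrank F V = 8) (hchi : chi hQ = 1) {g : isoG Q}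
    (hg : g ∈ commutator (isoG Q)) (hfix : ∀ v, g.1 v = v → v = 0) : InL p (minusQ 3 a b) (orderOf g) := by
  classical
  haveI := Module.Finite.of_finite (R := F) (M := V)
  have hp := (Fact.out : p.Prime)
  have hp2 : p ≠ 2 := fun e => h2 (by subst e; exact CharTwo.two_eq_zero)
  obtain ⟨U, R, e, he, gU, gR, hU, hR, hgeq, hnil, hneg⟩ := split_eigen hQ g (show (-1 : F) * -1 = 1 by norm_num)
  have hprod : Nd ((Q.comp U.subtype).prod (Q.comp R.subtype)) := nd_prod hU hR
  obtain ⟨hgd, hgs⟩ := (mem_commutator_iff hQ h2 g).1 hg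
  rw [hgeq, (invs_conj hprod hQ h2 e he _).1, (invs_prod hU hR h2 _ _).1] at hgd
  rw [hgeq, (invs_conj hprod hQ h2 e he _).2, (invs_prod hU hR h2 _ _).2] at hgs
  have hsum : Module.finrank F U + Module.finrank F R = 8 := by
    rw [← hV, ← e.finrank_eq, Module.finrank_prod]
  set u := negOne (Q.comp U.subtype) * gU with hu
  have huni : Uni u := by
    have : lin u - 1 = - (lin gU - algebraMap F _ (-1 : F)) := LinearMap.ext fun v => by
      rw [hu]
      simp only [LinearMap.sub_apply, LinearMap.neg_apply, Module.End.one_apply, Module.algebraMap_end_apply,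
        LinearEquiv.coe_coe, Subgroup.coe_mul, LinearEquiv.mul_apply, negOne_apply, neg_smul, one_smul]
      abel
    show IsNilpotent (lin u - 1)
    rw [this]; exact hnil.neg
  have hgU : gU = negOne (Q.comp U.subtype) * u := by
    rw [hu, ← mul_assoc, show negOne (Q.comp U.subtype) * negOne (Q.comp U.subtype) = 1 from iso_ext fun v => by
      rw [Subgroup.coe_mul, LinearEquiv.mul_apply, negOne_apply, negOne_apply, neg_neg]; rfl, one_mul]
  obtain ⟨hUd, hUs⟩ := (mem_commutator_iff hU h2 u).1 (uni_mem p hp2 hU h2 huni)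
  rw [hgU, map_mul, hUd, mul_one, dick_negOne hU h2] at hgd
  rw [hgU, map_mul, hUs, mul_one] at hgs
  have hfixR : ∀ v, gR.1 v = v → v = 0 := fun v hv => by
    have h1 : g.1 (e (0, v)) = e (0, v) := by
      rw [hgeq, isoConj_apply, e.symm_apply_apply, prodHom_apply]
      simp [hv]
    exact congrArg Prod.snd (e.map_eq_zero_iff.1 (hfix _ h1))
  have hRf : fixS gR = ⊥ := (Submodule.eq_bot_iff _).2 fun x hx => hfixR x (mem_fixS.1 hx)
  have hRn : fixS (negOne (Q.comp R.subtype) * gR) = ⊥ := (Submodule.eq_bot_iff _).2 fun x hx => by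
    rw [mem_fixS, Subgroup.coe_mul, LinearEquiv.mul_apply, negOne_apply, neg_eq_iff_eq_neg] at hx
    exact hneg x (by rw [neg_one_smul]; exact hx)
  have hReven : Even (Module.finrank F R) := by
    rcases Nat.even_or_odd (Module.finrank F R) with h' | h'
    · exact h'
    · have h3 := dick_eq hR (negOne (Q.comp R.subtype) * gR)
      rw [map_mul, dick_negOne hR h2, h'.neg_one_pow, dick_eq hR gR, hRf, hRn, finrank_bot, add_zero,
        h'.neg_one_pow] at h3
      exact absurd h3 (by decide)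
  obtain ⟨m, hm⟩ : Even (Module.finrank F U) := (Nat.even_add.1 (hsum.symm ▸ (by decide : Even 8))).2 hReven
  have hdR : dick hR gR = 1 := by rw [dick_eq, hRf, finrank_bot, add_zero, hReven.neg_one_pow]
  have hog : orderOf g = Nat.lcm (orderOf gU) (orderOf gR) := by
    rw [hgeq, orderOf_injective _ (isoConj_injective _ _), ord_prod]
  rcases Nat.eq_zero_or_pos m with rfl | hm1
  · refine inL_tgt h2 hab (plus_order hQ h2 hV hchi hg hfix fun v hv => ?_)
    haveI : Subsingleton U := (Module.finrank_zero_iff (R := F) (M := U)).1 (by omega)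
    obtain ⟨⟨x, y⟩, rfl⟩ := e.surjective v
    rw [hgeq, isoConj_apply, e.symm_apply_apply, prodHom_apply, ← map_neg] at hv
    rw [Subsingleton.elim x 0, hneg y (by rw [neg_one_smul]; exact congrArg Prod.snd (e.injective hv))]
    exact map_zero e
  haveI : Nontrivial U := Module.nontrivial_of_finrank_pos (R := F) (by omega)
  obtain ⟨j, hj⟩ := uni_order p huni
  have hu2 := uni_even p hp2 hU h2 huni (show Module.finrank F U = 2 * m by omega) hm1
  have hjb : j = 0 ∨ p ^ (j - 1) < 2 * m - 1 := by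
    rcases Nat.eq_zero_or_pos j with h | h
    · exact Or.inl h
    · refine Or.inr (not_le.1 fun hle => ?_)
      have h1 := (pow_eq_one_iff p u (j - 1)).2 (pow_eq_zero_of_le hle hu2)
      have := Nat.le_of_dvd (pow_pos hp.pos _) (hj ▸ orderOf_dvd_of_pow_eq_one h1)
      exact absurd (Nat.pow_lt_pow_right hp.one_lt (show j - 1 < j by omega)) (not_lt.2 this)
  have hoU : orderOf gU ∣ Nat.lcm 2 (p ^ j) := by
    refine orderOf_dvd_of_pow_eq_one ?_
    rw [hgU, (orderOf_negOne_mul h2 u).2.mul_pow,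
      orderOf_dvd_iff_pow_eq_one.1 ((orderOf_negOne_mul h2 u).1 ▸ Nat.dvd_lcm_left _ _),
      orderOf_dvd_iff_pow_eq_one.1 (hj ▸ Nat.dvd_lcm_right _ _), one_mul]
  have hsR : spn hR gR = chi hU := by
    have h3 : chi hU * (chi hU * spn hR gR) = chi hU * 1 := congrArg _ hgs
    rw [← mul_assoc, Int.units_mul_self, one_mul, mul_one] at h3
    exact h3
  have hchiUR : chi hU * chi hR = 1 := by
    rw [← chi_prod hU hR h2, ← chi_conj hprod hQ h2 e he, hchi]
  rcases Nat.lt_or_ge m 2 with hm2 | hm2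
  · -- a negated plane
    obtain rfl : m = 1 := by omega
    have hj0 : j = 0 := hjb.resolve_right (fun h => by have := Nat.one_le_pow (j - 1) p hp.pos; omega)
    have hoU2 : orderOf gU ∣ 2 := by simpa [hj0] using hoU
    obtain ⟨c, hP, hPc⟩ := exists_even (F := F) h2 0 (-chi hR)
    have hdim : Module.finrank F (R × ((Unit ⊕ (Fin 0 ⊕ Fin 0) → F) × (Unit → F))) = 8 := by
      rw [Module.finrank_prod, finrank_evenQ]; omega
    have hneg1 : chi (nd_prod hR hP) = -1 := by rw [chi_prod hR hP h2, hPc, mul_neg, Int.units_mul_self]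
    rcases Nat.even_or_odd (orderOf gR) with hev | hodd
    · obtain ⟨y, hy⟩ := invPair_surjective hP h2 (by rw [finrank_evenQ]) (1, chi hU)
      refine InL.dvd p (to_minus h2 hab (nd_prod hR hP) hdim hneg1 ⟨prodHom _ _ (gR, y),
        prod_mem hR hP h2 (by rw [hdR, show dick hP y = 1 from congrArg Prod.fst hy, one_mul])
          (by rw [hsR, show spn hP y = chi hU from congrArg Prod.snd hy, Int.units_mul_self]), Or.inl dvd_rfl⟩) ?_
      rw [ord_prod, hog]
      exact Nat.lcm_dvd ((hoU2.trans hev.two_dvd).trans (Nat.dvd_lcm_left _ _)) (Nat.dvd_lcm_left _ _)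
    · have hs1 : chi hU = 1 := by
        rw [← hsR]
        obtain ⟨k, hk⟩ := hodd
        have := congrArg (spn hR) (pow_orderOf_eq_one gR)
        rwa [map_pow, map_one, hk, pow_succ, pow_mul, pow_two, Int.units_mul_self, one_pow, one_mul] at this
      haveI : Nontrivial R := Module.nontrivial_of_finrank_pos (R := F) (by omega)
      obtain ⟨ho2, hcomm⟩ := orderOf_negOne_mul h2 gR
      refine InL.dvd p (to_minus h2 hab (nd_prod hR hP) hdim hneg1 ⟨prodHom _ _ (negOne _ * gR, 1),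
        prod_mem hR hP h2 (by rw [map_mul, map_one, dick_negOne hR h2, hdR, hReven.neg_one_pow, one_mul, one_mul])
          (by rw [map_mul, map_one, hsR, hs1, mul_one, mul_one]
              rw [hs1, one_mul] at hchiUR
              exact hchiUR), Or.inl dvd_rfl⟩) ?_
      rw [ord_prod, hcomm.orderOf_mul_eq_mul_orderOf_of_coprime (by rw [ho2]; exact Nat.coprime_two_left.2 hodd), ho2, hog]
      exact (Nat.lcm_dvd (hoU2.trans (dvd_mul_right _ _)) (dvd_mul_left _ _)).trans (Nat.dvd_lcm_left _ _)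
  · -- a negated space of dimension at least four
    obtain ⟨c, hP, hPc⟩ := exists_even (F := F) h2 0 (chi hU)
    obtain ⟨d, hW, hWc⟩ := exists_even (F := F) h2 (m - 2) (-(chi hR * chi hP))
    obtain ⟨w, hw, hwne⟩ := regular_even (p := p) h2 (m - 2) d
    haveI : Nontrivial ((Unit ⊕ (Fin 0 ⊕ Fin 0) → F) × (Unit → F)) :=
      Module.nontrivial_of_finrank_pos (R := F) (by rw [finrank_evenQ]; omega)
    have hmem : prodHom _ _ (gR, negOne (evenQ 0 c)) ∈ commutator (isoG ((Q.comp R.subtype).prod (evenQ 0 c))) :=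
      prod_mem hR hP h2 (by rw [hdR, one_mul, dick_negOne hP h2, finrank_evenQ]; rfl)
        (by rw [hsR, show spn hP (negOne _) = chi hU from hPc, Int.units_mul_self])
    have hjk : j = 0 ∨ p ^ (j - 1) ≤ 2 * m - 3 := by
      refine hjb.imp_right fun h => ?_
      have hodd : Odd (p ^ (j - 1)) := (hp.odd_of_ne_two hp2).pow
      rcases hodd with ⟨r, hr⟩
      omega
    refine InL.dvd p (to_minus h2 hab (nd_prod (nd_prod hR hP) hW) ?_ ?_
      (block p hp2 (nd_prod hR hP) hW h2 hmem hw (k := 2 * m - 3)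
        (by rwa [show 2 * m - 3 - 1 = 2 * (m - 2) by omega]) j hjk)) ?_
    · rw [Module.finrank_prod, Module.finrank_prod, finrank_evenQ, finrank_evenQ]; omega
    · rw [chi_prod (nd_prod hR hP) hW h2, chi_prod hR hP h2, hWc, mul_neg, Int.units_mul_self]
    · rw [ord_prod, (orderOf_negOne_mul h2 (1 : isoG (evenQ 0 c))).1, hog]
      refine Nat.lcm_dvd (hoU.trans (Nat.lcm_dvd ?_ (Nat.dvd_lcm_left _ _))) ?_
      · exact (Nat.dvd_lcm_right _ _).trans (Nat.dvd_lcm_right _ _)
      · exact (Nat.dvd_lcm_left _ _).trans (Nat.dvd_lcm_right _ _)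

theorem inL_of_inO (h2 : (2 : F) ≠ 0) {a b : F} (hab : Aniso a b) {V : Type v} [AddCommGroup V] [Module F V] [Finite V]
    {Q : QuadraticForm F V} (hQ : Nd Q) (hV : Module.finrank F V = 9) {g : isoG Q}
    (hg : g ∈ commutator (isoG Q)) : InL p (minusQ 3 a b) (orderOf g) := by
  classical
  haveI := Module.Finite.of_finite (R := F) (M := V)
  have hp := (Fact.out : p.Prime)
  have hp2 : p ≠ 2 := fun e => h2 (by subst e; exact CharTwo.two_eq_zero)
  obtain ⟨U, R, e, he, gU, gR, hU, hR, hgeq, hnil, hfix'⟩ := split_eigen hQ g (one_mul (1 : F))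
  have huni : Uni gU := by rw [map_one] at hnil; exact hnil
  have hfix : ∀ v, gR.1 v = v → v = 0 := fun v hv => hfix' v (by rw [one_smul]; exact hv)
  have hprod : Nd ((Q.comp U.subtype).prod (Q.comp R.subtype)) := nd_prod hU hR
  obtain ⟨hgd, hgs⟩ := (mem_commutator_iff hQ h2 g).1 hg
  rw [hgeq, (invs_conj hprod hQ h2 e he _).1, (invs_prod hU hR h2 _ _).1] at hgd
  rw [hgeq, (invs_conj hprod hQ h2 e he _).2, (invs_prod hU hR h2 _ _).2] at hgs
  obtain ⟨hUd, hUs⟩ := (mem_commutator_iff hU h2 gU).1 (uni_mem p hp2 hU h2 huni)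
  rw [hUd, one_mul] at hgd
  rw [hUs, one_mul] at hgs
  have hgRm : gR ∈ commutator (isoG (Q.comp R.subtype)) := (mem_commutator_iff hR h2 gR).2 ⟨hgd, hgs⟩
  have hR0 : fixS gR = ⊥ := (Submodule.eq_bot_iff _).2 fun x hx => hfix x (mem_fixS.1 hx)
  have hReven : Even (Module.finrank F R) := by
    rcases Nat.even_or_odd (Module.finrank F R) with h' | h'
    · exact h'
    · rw [dick_eq, hR0, finrank_bot, add_zero, h'.neg_one_pow] at hgd
      exact absurd hgd (by decide)
  have hsum : Module.finrank F U + Module.finrank F R = 9 := by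
    rw [← hV, ← e.finrank_eq, Module.finrank_prod]
  obtain ⟨m, hm⟩ : Odd (Module.finrank F U) := by
    rcases hReven with ⟨r, hr⟩
    exact ⟨4 - r, by omega⟩
  have hog : orderOf g = Nat.lcm (orderOf gU) (orderOf gR) := by
    rw [hgeq, orderOf_injective _ (isoConj_injective _ _), ord_prod]
  obtain ⟨j, hj⟩ := uni_order p huni
  rw [hog, hj]
  rcases Nat.eq_zero_or_pos m with rfl | hm1
  · have hj0 : orderOf gU = 1 := by
      rw [orderOf_eq_one_iff]
      have : (lin gU - 1) ^ p ^ 0 = 0 := by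
        rw [pow_zero]
        exact pow_eq_zero_of_le (le_of_eq hm) (nil_pow huni)
      simpa using (pow_eq_one_iff p gU 0).2 this
    rw [show p ^ j = 1 from hj ▸ hj0, Nat.lcm_one_left]
    have hR8 : Module.finrank F R = 8 := by omega
    rcases Int.units_eq_one_or (chi hR) with h | h
    · exact inL_plus h2 hab hR hR8 h hgRm hfix
    · exact to_minus h2 hab hR hR8 h ⟨gR, hgRm, Or.inl dvd_rfl⟩
  have hjk : j = 0 ∨ p ^ (j - 1) ≤ 2 * m - 1 := by
    rcases Nat.eq_zero_or_pos j with h | h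
    · exact Or.inl h
    · refine Or.inr ?_
      have hlt : p ^ (j - 1) < 2 * m + 1 := not_le.1 fun hle => by
        have h1 := (pow_eq_one_iff p gU (j - 1)).2 (pow_eq_zero_of_le (hm ▸ hle) (nil_pow huni))
        have := Nat.le_of_dvd (pow_pos hp.pos _) (hj ▸ orderOf_dvd_of_pow_eq_one h1)
        exact absurd (Nat.pow_lt_pow_right hp.one_lt (show j - 1 < j by omega)) (not_lt.2 this)
      have hodd : Odd (p ^ (j - 1)) := (hp.odd_of_ne_two hp2).pow
      rcases hodd with ⟨r, hr⟩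
      omega
  obtain ⟨c, hW, hWc⟩ := exists_even (F := F) h2 (m - 1) (-chi hR)
  obtain ⟨w, hw, hwne⟩ := regular_even (p := p) h2 (m - 1) c
  refine InL.dvd p (to_minus h2 hab (nd_prod hR hW) ?_ ?_
    (block p hp2 hR hW h2 hgRm hw (k := 2 * m - 1) (by rwa [show 2 * m - 1 - 1 = 2 * (m - 1) by omega]) j hjk)) dvd_rfl
  · rw [Module.finrank_prod, finrank_evenQ]; omega
  · rw [chi_prod hR hW h2, hWc, mul_neg, Int.units_mul_self]

/-! ### The split extension -/

section ext

variable {a b : F} {H : Type*} [Group H]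
  (φ : H →* MulAut (Multiplicative ((Fin 3 ⊕ Fin 3) ⊕ Fin 2 → F))) (π : H →* isoG (minusQ 3 a b))

omit [Fintype F] in
theorem pow_left (hφ : ∀ h v, φ h (Multiplicative.ofAdd v) = Multiplicative.ofAdd ((π h).1 v))
    (x : Multiplicative ((Fin 3 ⊕ Fin 3) ⊕ Fin 2 → F) ⋊[φ] H) (n : ℕ) :
    (x ^ n).left = Multiplicative.ofAdd (∑ i ∈ Finset.range n, ((π x.right) ^ i).1 x.left.toAdd) ∧
      (x ^ n).right = x.right ^ n := by
  induction n with
  | zero => exact ⟨by rw [pow_zero, SemidirectProduct.one_left]; rfl, by rw [pow_zero, pow_zero]; rfl⟩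
  | succ n ih =>
    rw [pow_succ, SemidirectProduct.mul_left, SemidirectProduct.mul_right, ih.1, ih.2, pow_succ]
    refine ⟨?_, rfl⟩
    rw [show φ (x.right ^ n) x.left = Multiplicative.ofAdd ((π (x.right ^ n)).1 x.left.toAdd) from hφ _ _,
      ← ofAdd_add, Finset.sum_range_succ, map_pow]

theorem range_sd (hφ : ∀ h v, φ h (Multiplicative.ofAdd v) = Multiplicative.ofAdd ((π h).1 v))
    (hπ : Function.Injective π) (hrange : π.range = commutator (isoG (minusQ 3 a b))) :
    Set.range (orderOf : Multiplicative ((Fin 3 ⊕ Fin 3) ⊕ Fin 2 → F) ⋊[φ] H → ℕ) =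
      {n | InL p (minusQ 3 a b) n} := by
  classical
  have hp := (Fact.out : p.Prime)
  haveI : Finite H := Finite.of_injective _ hπ
  haveI : Finite (Multiplicative ((Fin 3 ⊕ Fin 3) ⊕ Fin 2 → F) ⋊[φ] H) := Finite.of_equiv _ SemidirectProduct.equivProd.symm
  have hsm : ∀ (x : Multiplicative ((Fin 3 ⊕ Fin 3) ⊕ Fin 2 → F) ⋊[φ] H) (o : ℕ), x.right ^ o = 1 →
      (x ^ o) ^ p = 1 := by
    intro x o hr
    have hr' : (x ^ o).right = 1 := by rw [(pow_left φ π hφ x o).2, hr]
    refine SemidirectProduct.ext ?_ ?_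
    · rw [(pow_left φ π hφ (x ^ o) p).1, hr', SemidirectProduct.one_left]
      simp only [map_one, one_pow]
      rw [show ∑ _i ∈ Finset.range p, (1 : isoG (minusQ 3 a b)).1 (x ^ o).left.toAdd =
        p • (x ^ o).left.toAdd by rw [Finset.sum_const, Finset.card_range]; rfl, ← Nat.cast_smul_eq_nsmul F,
        CharP.cast_eq_zero, zero_smul]
      rfl
    · rw [(pow_left φ π hφ (x ^ o) p).2, hr', one_pow]; rfl
  apply Set.Subset.antisymm
  · rintro _ ⟨x, rfl⟩
    refine ⟨π x.right, hrange ▸ ⟨x.right, rfl⟩, ?_⟩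
    rw [orderOf_injective π hπ]
    by_cases hS : (x ^ orderOf x.right).left = 1
    · refine Or.inl (orderOf_dvd_of_pow_eq_one (SemidirectProduct.ext hS ?_))
      rw [(pow_left φ π hφ x _).2, pow_orderOf_eq_one]; rfl
    · refine Or.inr ⟨x.left.toAdd, fun h0 => hS ?_, orderOf_dvd_of_pow_eq_one ?_⟩
      · rw [(pow_left φ π hφ x _).1, h0]; rfl
      · rw [mul_comm, pow_mul]; exact hsm x _ (pow_orderOf_eq_one _)
  · rintro n ⟨g, hg, hn⟩
    obtain ⟨h, rfl⟩ : g ∈ π.range := hrange ▸ hg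
    rw [orderOf_injective π hπ] at hn
    rcases hn with hn | ⟨v, hv, hn⟩
    · refine mem_range_of_dvd (g := SemidirectProduct.inr h) ?_
      rwa [orderOf_injective _ SemidirectProduct.inr_injective]
    · set x : Multiplicative ((Fin 3 ⊕ Fin 3) ⊕ Fin 2 → F) ⋊[φ] H := ⟨Multiplicative.ofAdd v, h⟩
      refine mem_range_of_dvd (g := x) (hn.trans ?_)
      obtain ⟨c, hc⟩ : orderOf h ∣ orderOf x := orderOf_dvd_of_pow_eq_one
        ((pow_left φ π hφ x (orderOf x)).2.symm.trans (by rw [pow_orderOf_eq_one]; rfl))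
      have hcp : c ∣ p := by
        refine (mul_dvd_mul_iff_left (orderOf_pos h).ne').1 ?_
        rw [← hc]
        refine orderOf_dvd_of_pow_eq_one ?_
        rw [pow_mul]
        exact hsm x _ (pow_orderOf_eq_one h)
      rcases (Nat.dvd_prime hp).1 hcp with rfl | rfl
      · exfalso
        rw [mul_one] at hc
        apply hv
        have h1 : (x ^ orderOf h).left = 1 := by rw [← hc, pow_orderOf_eq_one]; rfl
        rw [(pow_left φ π hφ x _).1] at h1
        exact Multiplicative.ofAdd.injective h1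
      · rw [hc, mul_comm]

end ext

/-- The two sets of element orders. -/
theorem inL_iff (h2 : (2 : F) ≠ 0) {a b : F} (hab : Aniso a b) (n : ℕ) :
    InL p (minusQ 3 a b) n ↔ ∃ g : isoG (oddQ 4 F), g ∈ commutator (isoG (oddQ 4 F)) ∧ orderOf g = n := by
  classical
  constructor
  · intro h
    obtain ⟨g, hg, hn⟩ := inO_of_inL h2 (nd_minusQ hab 3) (by simp [Module.finrank_pi]) h
    obtain ⟨k, hk⟩ := mem_range_of_dvd (g := (⟨g, hg⟩ : commutator (isoG (oddQ 4 F)))) (o := n) (by rwa [← Subgroup.orderOf_coe])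
    exact ⟨k.1, k.2, by rw [Subgroup.orderOf_coe, hk]⟩
  · rintro ⟨g, hg, rfl⟩
    exact inL_of_inO h2 hab (nd_oddQ h2 4) (finrank_odd 4) hg

end Cfsg.Agent.Lib.Recog.OrthNine
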