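import Mathlib
import Cfsg.Agent.Lib.Suz.Partition
import Cfsg.Agent.Lib.Suz.Bridge
import Cfsg.Agent.Lib.Recog.SzFixed

/-! `Sz(8)` extended by its field automorphism, for the prime graph of `PSp₆(3)`. -/

set_option autoImplicit false
set_option maxRecDepth 100000
set_option Elab.async false

namespace Cfsg.Agent.Lib.Recog.S63Sz

open Matrix
open Cfsg.Agent.Lib

/-- multiplication table -/
def mulTbl : ℕ := 0x73157889d3f0cfa868356ee0467b98bcbd10fac688000000

/-- inversion table -/
def invTbl : ℕ := 0x8d7d48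

/-- powers of an element of order 13 -/
def sp13 : List ℕ :=
  [35185445863425, 100284814330880, 36758185397905, 51907949231162, 238303947103313, 171081196405937, 163214518463142, 224268432890564, 35856388842980, 43108339084342, 102528488291729, 56507447414585, 206797991250, 35185445863425]

/-- powers of a diagonal element of order 7 -/
def sp7 : List ℕ :=
  [35185445863425, 175928302993410, 246292752269316, 211113748856835, 105557411463174, 140742857129991, 70371965599749, 35185445863425]

/-- powers of a rational involution -/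
def sp2 : List ℕ :=
  [35185445863425, 68853957120, 35185445863425]

/-- powers of a rational element of order 5 -/
def sp5 : List ℕ :=
  [35185445863425, 68853961225, 35803940000329, 40209502732865, 39659862491648, 35185445863425]

/-- coefficients killing the twisted element -/
def charC : List ℕ := [1, 3, 7, 3]

/-- inverse of their value at the element -/
def charInv : ℕ := 33171775965219

/-- the field of eight elements, by bit patterns -/
structure K where
  /-- the bit pattern -/
  n : Fin 8
deriving DecidableEq, Fintype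

namespace K

/-- from a pattern -/
def of (a : ℕ) : K := ⟨⟨a % 8, Nat.mod_lt _ (by omega)⟩⟩

instance : Zero K := ⟨of 0⟩
instance : One K := ⟨of 1⟩
instance : Add K := ⟨fun a b => of (Nat.xor a.n.val b.n.val)⟩
instance : Neg K := ⟨id⟩
instance : Mul K := ⟨fun a b => of (mulTbl >>> (3 * (8 * a.n.val + b.n.val)))⟩
instance : Inv K := ⟨fun a => of (invTbl >>> (3 * a.n.val))⟩

instance : CommRing K := CommRing.ofMinimalAxioms (by decide +kernel) (by decide +kernel) (by decide +kernel)
  (by decide +kernel) (by decide +kernel) (by decide +kernel) (by decide +kernel)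

instance : Field K where
  exists_pair_ne := ⟨0, 1, by decide +kernel⟩
  mul_inv_cancel := by decide +kernel
  inv_zero := by decide +kernel
  nnqsmul := _
  qsmul := _

theorem card_eq : Fintype.card K = 2 ^ (2 * 1 + 1) := by decide +kernel

/-- the square map -/
def fr : K ≃+* K where
  toFun a := a * a
  invFun a := a * a * (a * a)
  left_inv := by decide +kernel
  right_inv := by decide +kernel
  map_mul' := by decide +kernel
  map_add' := by decide +kernel

theorem fr_three : ∀ a : K, fr (fr (fr a)) = a := by decide +kernel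

theorem fr_fixed : ∀ a : K, fr a = a ∨ fr (fr a) = a → a = 0 ∨ a = 1 := by decide +kernel

theorem pow_four (a : K) : a ^ 2 ^ (1 + 1) = a * a * (a * a) := by
  rw [show 2 ^ (1 + 1) = 4 from rfl]; ring

theorem add_self : ∀ a : K, a + a = 0 := by decide +kernel

end K

/-- four by four matrices -/
abbrev M4 : Type := Matrix (Fin 4) (Fin 4) K

/-- product in a form for evaluation -/
def mul4 (a b : M4) : M4 := fun i j => a i 0 * b 0 j + a i 1 * b 1 j + a i 2 * b 2 j + a i 3 * b 3 j

theorem mul_eq_mul4 (a b : M4) : a * b = mul4 a b := by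
  ext i j; rw [Matrix.mul_apply, Fin.sum_univ_four]; rfl

/-- stored matrix -/
def ofCode (c : ℕ) : M4 := fun i j => K.of (c >>> (3 * (4 * i.val + j.val)))

/-- stored power -/
def st (L : List ℕ) (k : ℕ) : M4 := ofCode (L.getD k 0)

/-- a cyclic chain of powers inside the Suzuki group -/
def ChainOK (L : List ℕ) (n : ℕ) : Prop :=
  st L 0 = (1 : M4) ∧ st L n = (1 : M4) ∧ ¬ st L 1 = (1 : M4) ∧
  (∀ k : Fin n, mul4 (st L k.val) (st L 1) = st L (k.val + 1)) ∧
  mul4 (mul4 (st L 1)ᵀ (Recog.antiJ K)) (st L 1) = Recog.antiJ K ∧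
  Lie.star4 (st L 1) = (st L 1).map fun x => x * x * (x * x)

instance (L : List ℕ) (n : ℕ) : Decidable (ChainOK L n) := by unfold ChainOK; infer_instance

theorem chain13 : ChainOK sp13 13 := by decide +kernel
theorem chain7 : ChainOK sp7 7 := by decide +kernel
theorem chain2 : ChainOK sp2 2 := by decide +kernel
theorem chain5 : ChainOK sp5 5 := by decide +kernel

theorem traces13 : ∀ k : Fin 12, Matrix.trace (st sp13 (k.val + 1)) ≠ 0 ∧ Matrix.trace (st sp13 (k.val + 1)) ≠ 1 := by
  decide +kernel

theorem traces7 : ∀ k : Fin 6, Matrix.trace (st sp7 (k.val + 1)) ≠ 0 ∧ Matrix.trace (st sp7 (k.val + 1)) ≠ 1 := by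
  decide +kernel

theorem rational2 : (st sp2 1).map K.fr = st sp2 1 := by decide +kernel
theorem rational5 : (st sp5 1).map K.fr = st sp5 1 := by decide +kernel

theorem fix5 : mul4 (mul4 (st sp5 1) (Recog.antiJ K)) (st sp5 1)ᵀ = Recog.antiJ K := by decide +kernel

theorem fix7 : mul4 (mul4 (st sp7 1) (Matrix.single 0 1 1)) ((st sp7 1).map K.fr)ᵀ = Matrix.single 0 1 1 := by
  decide +kernel

/-- the twisted element -/
def yM : M4 := mul4 (mul4 (Recog.antiJ K) ((st sp13 1).map K.fr)) (Recog.antiJ K)

/-- a polynomial with the stored coefficients -/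
def polyC (a : M4) : M4 := fun i j =>
  mul4 (mul4 a a) (mul4 a a) i j + K.of (charC.getD 3 0) * mul4 a (mul4 a a) i j +
    K.of (charC.getD 2 0) * mul4 a a i j + K.of (charC.getD 1 0) * a i j + K.of (charC.getD 0 0) * (1 : M4) i j

theorem char_facts : polyC yM = (0 : M4) ∧ mul4 (ofCode charInv) (polyC (st sp13 1)) = (1 : M4) := by
  decide +kernel

theorem polyC_eq (a : M4) : polyC a = a * a * (a * a) + K.of (charC.getD 3 0) • (a * (a * a)) +
    K.of (charC.getD 2 0) • (a * a) + K.of (charC.getD 1 0) • a + K.of (charC.getD 0 0) • (1 : M4) := by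
  ext i j
  simp only [polyC, mul_eq_mul4, Matrix.add_apply, Matrix.smul_apply, smul_eq_mul]

theorem kill {X : M4} (h : st sp13 1 * X * ((st sp13 1).map K.fr)ᵀ = X) : X = 0 := by
  obtain ⟨h1, h2, h3, hch, hsp, -⟩ := chain13
  have hsp' : ((st sp13 1).map K.fr)ᵀ * Recog.antiJ K * (st sp13 1).map K.fr = Recog.antiJ K := by
    have e : (st sp13 1)ᵀ * Recog.antiJ K * st sp13 1 = Recog.antiJ K := by
      rw [mul_eq_mul4, mul_eq_mul4]; exact hsp
    have hJ : (Recog.antiJ K).map K.fr = Recog.antiJ K := by decide +kernel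
    have := congrArg (fun M : M4 => M.map K.fr) e
    simp only [Matrix.map_mul, hJ, ← Matrix.transpose_map] at this
    exact this
  have hy : ((st sp13 1).map K.fr)ᵀ * yM = 1 := by
    rw [yM, ← mul_eq_mul4, ← mul_eq_mul4, ← Matrix.mul_assoc, ← Matrix.mul_assoc, hsp', Recog.antiJ_sq]
  have hcomm : st sp13 1 * X = X * yM := by
    calc st sp13 1 * X = st sp13 1 * X * ((((st sp13 1).map K.fr)ᵀ) * yM) := by rw [hy, Matrix.mul_one]
      _ = X * yM := by rw [← Matrix.mul_assoc, h]
  have h2' : st sp13 1 * st sp13 1 * X = X * (yM * yM) := by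
    rw [Matrix.mul_assoc, hcomm, ← Matrix.mul_assoc, hcomm, Matrix.mul_assoc]
  have hp : polyC (st sp13 1) * X = X * polyC yM := by
    simp only [polyC_eq, Matrix.add_mul, Matrix.mul_add, Matrix.smul_mul, Matrix.mul_smul, Matrix.one_mul,
      Matrix.mul_one]
    rw [h2', hcomm, Matrix.mul_assoc (st sp13 1) (st sp13 1 * st sp13 1) X, h2', ← Matrix.mul_assoc (st sp13 1) X,
      hcomm, Matrix.mul_assoc (st sp13 1 * st sp13 1) (st sp13 1 * st sp13 1) X, h2',
      ← Matrix.mul_assoc (st sp13 1 * st sp13 1) X, h2']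
    simp only [Matrix.mul_assoc]
  rw [char_facts.1, Matrix.mul_zero] at hp
  calc X = ofCode charInv * polyC (st sp13 1) * X := by
        rw [mul_eq_mul4 (ofCode charInv), char_facts.2, Matrix.one_mul]
    _ = 0 := by rw [Matrix.mul_assoc, hp, Matrix.mul_zero]

/-- the group -/
abbrev S : Type := ↥(Lie.Sz K (2 ^ (1 + 1)))

theorem ctx : Suz.Ctx K 1 := ⟨le_rfl, K.card_eq⟩

/-- the matrix of an element -/
abbrev mat (s : S) : M4 := ((s : GL (Fin 4) K) : M4)

theorem mat_injective : Function.Injective mat := fun _ _ h => Subtype.ext (Units.ext h)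

theorem mat_pow (s : S) (n : ℕ) : mat (s ^ n) = mat s ^ n := by simp [mat]

theorem order_cases (s : S) : orderOf s ∣ 4 ∨ orderOf s ∣ 5 ∨ orderOf s ∣ 7 ∨ orderOf s ∣ 13 := by
  haveI : CharP K 2 := Suz.charP_two ctx
  set g := (Suz.lieEquiv ctx).symm s with hg
  rw [← (Suz.lieEquiv ctx).symm.orderOf_eq s, ← hg]
  by_cases hf : Suz.IsFree g
  · have hc := Suz.card_cz_free ctx hf
    have hd : orderOf g ∣ Nat.card (Suz.cz g) :=
      Subgroup.orderOf_dvd_natCard _ (Suz.mem_cz_self g)
    simp only [Set.mem_insert_iff, Set.mem_singleton_iff] at hc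
    rcases hc with e | e <;> rw [e] at hd
    · exact Or.inr (Or.inr (Or.inr hd))
    · exact Or.inr (Or.inl hd)
  · rcases Suz.order_of_not_free ctx hf with h | h
    · exact Or.inl h
    · rw [K.card_eq] at h
      exact Or.inr (Or.inr (Or.inl h))

theorem card_S : Nat.card S = 2 ^ 6 * 5 * 7 * 13 := by
  haveI : CharP K 2 := Suz.charP_two ctx
  rw [(Suz.lie_two_trans ctx).1, K.card_eq]
  norm_num

theorem prime_order_cases {s : S} {n : ℕ} (hs : orderOf s = n) {p q : ℕ} (hp : p.Prime) (hq : q.Prime)
    (hpq : p ≠ q) (hn : n = p * q) : False := by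
  have key : ∀ t : ℕ, t.Prime → ∀ k : ℕ, p * q ∣ t ^ k → False := fun t ht k h => by
    have h1 := (Nat.prime_dvd_prime_iff_eq hp ht).1 (hp.dvd_of_dvd_pow ((dvd_mul_right p q).trans h))
    have h2 := (Nat.prime_dvd_prime_iff_eq hq ht).1 (hq.dvd_of_dvd_pow ((dvd_mul_left q p).trans h))
    exact hpq (h1.trans h2.symm)
  rcases order_cases s with h | h | h | h <;> rw [hs, hn] at h
  · exact key 2 Nat.prime_two 2 h
  · exact key 5 (by norm_num) 1 (by simpa using h)
  · exact key 7 (by norm_num) 1 (by simpa using h)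
  · exact key 13 (by norm_num) 1 (by simpa using h)

theorem exists_elem {L : List ℕ} {n : ℕ} (hn : n.Prime) (h : ChainOK L n) :
    ∃ s : S, mat s = st L 1 ∧ orderOf s = n ∧ ∀ k ≤ n, mat (s ^ k) = st L k := by
  obtain ⟨h0, h1, hne, hch, hsp, hst⟩ := h
  have hpw : ∀ k ≤ n, st L k = st L 1 ^ k := by
    intro k hk
    induction k with
    | zero => rw [pow_zero, h0]
    | succ k ih => rw [pow_succ, ← ih (by omega), mul_eq_mul4, hch ⟨k, by omega⟩]
  have hone : st L 1 ^ n = 1 := by rw [← hpw n le_rfl, h1]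
  let g : GL (Fin 4) K := Units.ofPowEqOne (st L 1) n hone hn.ne_zero
  have hg : (g : M4) = st L 1 := rfl
  have hmem : g ∈ Lie.Sz K (2 ^ (1 + 1)) := by
    refine Subgroup.subset_closure ⟨fun u v => ?_, ?_⟩
    · rw [Units.coeHom_apply, hg, Recog.altForm4_eq, Recog.altForm4_eq, Matrix.mulVec_mulVec,
        Matrix.dotProduct_mulVec, Matrix.vecMul_mulVec, ← Matrix.mul_assoc, mul_eq_mul4, mul_eq_mul4, hsp,
        ← Matrix.dotProduct_mulVec]
    · rw [hg, hst]
      congr 1
      funext x
      exact (K.pow_four x).symm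
  haveI := Fact.mk hn
  refine ⟨⟨g, hmem⟩, rfl, orderOf_eq_prime (mat_injective ?_) fun e => hne ?_, fun k hk => ?_⟩
  · rw [mat_pow]; exact hone
  · exact congrArg mat e
  · rw [mat_pow, hpw k hk]; rfl

/-- entrywise squaring of a group element -/
def frobGL : GL (Fin 4) K →* GL (Fin 4) K := Matrix.GeneralLinearGroup.map K.fr.toRingHom

theorem frob_mem {g : GL (Fin 4) K} (hg : g ∈ Lie.Sz K (2 ^ (1 + 1))) : frobGL g ∈ Lie.Sz K (2 ^ (1 + 1)) := by
  suffices h : Lie.Sz K (2 ^ (1 + 1)) ≤ (Lie.Sz K (2 ^ (1 + 1))).comap frobGL from h hg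
  refine (Subgroup.closure_le _).2 ?_
  rintro g ⟨hsp, hst⟩
  refine Subgroup.subset_closure ⟨fun u v => ?_, ?_⟩
  · have := congrArg K.fr (hsp (K.fr.symm ∘ u) (K.fr.symm ∘ v))
    simp only [Lie.altForm4, map_add, map_mul, Units.coeHom_apply, Matrix.mulVec, dotProduct, Fin.sum_univ_four,
      Function.comp_apply, RingEquiv.apply_symm_apply] at this ⊢
    exact this
  · show Lie.star4 ((g : M4).map K.fr) = ((g : M4).map K.fr).map _
    rw [show Lie.star4 ((g : M4).map K.fr) = (Lie.star4 (g : M4)).map K.fr from by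
      ext i j; simp [Lie.star4, map_sub, map_mul], hst]
    ext i j
    simp [map_pow]

/-- the field automorphism -/
def phi : MulAut S where
  toFun s := ⟨frobGL s, frob_mem s.2⟩
  invFun s := ⟨frobGL (frobGL s), frob_mem (frob_mem s.2)⟩
  left_inv s := mat_injective (by ext i j; exact K.fr_three _)
  right_inv s := mat_injective (by ext i j; exact K.fr_three _)
  map_mul' s t := Subtype.ext (map_mul frobGL _ _)

theorem mat_phi (s : S) : mat (phi s) = (mat s).map K.fr := rfl

theorem phi_three : phi ^ 3 = 1 := by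
  ext1 s
  exact mat_injective (by ext i j; exact K.fr_three _)

theorem phi_pow_mod (n : ℕ) : phi ^ (n % 3) = phi ^ n := (pow_eq_pow_mod n phi_three).symm

/-- the cyclic group of automorphisms -/
abbrev C3 : Type := Multiplicative (ZMod 3)

/-- its action -/
def frobAct : C3 →* MulAut S where
  toFun a := phi ^ (a.toAdd.val)
  map_one' := pow_zero phi
  map_mul' a b := by
    rw [← pow_add, toAdd_mul, ZMod.val_add, phi_pow_mod]

/-- the extension -/
abbrev Q : Type := S ⋊[frobAct] C3

instance : Finite Q := Finite.of_equiv _ SemidirectProduct.equivProd.symm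

theorem card_Q : Nat.card Q = 2 ^ 6 * 3 * 5 * 7 * 13 := by
  rw [SemidirectProduct.card, card_S, Nat.card_congr Multiplicative.toAdd, Nat.card_zmod]
  norm_num

theorem trace_not_rational {s : S} {p : ℕ} (hp : p = 7 ∨ p = 13) (hs : orderOf s = p) :
    (mat s).trace ≠ 0 ∧ (mat s).trace ≠ 1 := by
  have hpp : p.Prime := by rcases hp with rfl | rfl <;> norm_num
  haveI := Fact.mk hpp
  have hexp : (Nat.card S).factorization p = 1 := by
    rw [card_S]
    rcases hp with rfl | rfl
    · rw [show (2 ^ 6 * 5 * 7 * 13 : ℕ) = 7 * (2 ^ 6 * 5 * 13) by norm_num,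
        Nat.factorization_mul (by norm_num) (by norm_num), Finsupp.add_apply,
        hpp.factorization_self, Nat.factorization_eq_zero_of_not_dvd (n := _) (by norm_num)]
    · rw [show (2 ^ 6 * 5 * 7 * 13 : ℕ) = 13 * (2 ^ 6 * 5 * 7) by norm_num,
        Nat.factorization_mul (by norm_num) (by norm_num), Finsupp.add_apply,
        hpp.factorization_self, Nat.factorization_eq_zero_of_not_dvd (n := _) (by norm_num)]
  obtain ⟨a, hao, htr⟩ : ∃ a : S, orderOf a = p ∧
      ∀ k, 0 < k → k < p → (mat (a ^ k)).trace ≠ 0 ∧ (mat (a ^ k)).trace ≠ 1 := by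
    rcases hp with rfl | rfl
    · obtain ⟨a, -, hao, hpw⟩ := exists_elem hpp chain7
      refine ⟨a, hao, fun k hk hk' => ?_⟩
      rw [hpw k hk'.le]
      have := traces7 ⟨k - 1, by omega⟩
      rwa [show k - 1 + 1 = k by omega] at this
    · obtain ⟨a, -, hao, hpw⟩ := exists_elem hpp chain13
      refine ⟨a, hao, fun k hk hk' => ?_⟩
      rw [hpw k hk'.le]
      have := traces13 ⟨k - 1, by omega⟩
      rwa [show k - 1 + 1 = k by omega] at this
  have hc : ∀ y : S, orderOf y = p → ∃ P : Sylow p S, (P : Subgroup S) = Subgroup.zpowers y := fun y hy =>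
    ⟨Sylow.ofCard (Subgroup.zpowers y) (by rw [Nat.card_zpowers, hy, hexp, pow_one]), by simp⟩
  obtain ⟨P, hP⟩ := hc a hao
  obtain ⟨R, hR⟩ := hc s hs
  obtain ⟨c, hc'⟩ := MulAction.exists_smul_eq S P R
  have hsa : s ∈ Subgroup.zpowers (MulAut.conj c a) := by
    have h1 : s ∈ ((c • P : Sylow p S) : Subgroup S) := by rw [hc', hR]; exact Subgroup.mem_zpowers s
    rw [Sylow.coe_subgroup_smul, hP, Subgroup.mem_pointwise_smul_iff_inv_smul_mem,
      Subgroup.mem_zpowers_iff] at h1
    obtain ⟨k, hk⟩ := h1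
    refine Subgroup.mem_zpowers_iff.2 ⟨k, ?_⟩
    rw [← map_zpow, hk]
    simp [MulAut.smul_def, mul_assoc]
  obtain ⟨k, hk⟩ := (mem_powers_iff_mem_zpowers.2 hsa)
  simp only at hk
  rw [← pow_mod_orderOf, show orderOf (MulAut.conj c a) = p by rw [MulEquiv.orderOf_eq, hao]] at hk
  rcases Nat.eq_zero_or_pos (k % p) with h0 | hpos
  · rw [h0, pow_zero] at hk
    rw [← hk, orderOf_one] at hs
    exact absurd hs hpp.one_lt.ne
  have htrace : (mat s).trace = (mat (a ^ (k % p))).trace := by
    rw [← hk, ← map_pow, MulAut.conj_apply]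
    show ((mat c * mat (a ^ (k % p))) * mat c⁻¹).trace = _
    rw [Matrix.trace_mul_comm, ← Matrix.mul_assoc, show mat c⁻¹ * mat c = mat (c⁻¹ * c) from rfl, inv_mul_cancel]
    rw [show mat (1 : S) = 1 from rfl, Matrix.one_mul]
  rw [htrace]
  exact htr _ hpos (Nat.mod_lt _ hpp.pos)

theorem no_commute {r : Q} (hr : r.right ≠ 1) {s : S} {p : ℕ} (hp : p = 7 ∨ p = 13) (hs : orderOf s = p)
    (hc : Commute r (SemidirectProduct.inl s)) : False := by
  have e := congrArg SemidirectProduct.left hc.eq
  simp only [SemidirectProduct.mul_left, SemidirectProduct.left_inl, SemidirectProduct.right_inl, map_one,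
    MulAut.one_apply] at e
  have htr : (mat (frobAct r.right s)).trace = (mat s).trace := by
    have e' : frobAct r.right s = r.left⁻¹ * s * r.left := by rw [mul_assoc, ← e, inv_mul_cancel_left]
    rw [e']
    show ((mat r.left⁻¹ * mat s) * mat r.left).trace = _
    rw [Matrix.trace_mul_comm, ← Matrix.mul_assoc,
      show mat r.left * mat r.left⁻¹ = mat (r.left * r.left⁻¹) from rfl, mul_inv_cancel,
      show mat (1 : S) = 1 from rfl, Matrix.one_mul]
  have hv : r.right.toAdd.val = 1 ∨ r.right.toAdd.val = 2 := by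
    have h1 := ZMod.val_lt r.right.toAdd
    have h2 : r.right.toAdd.val ≠ 0 := fun h => hr (by
      apply Multiplicative.toAdd.injective
      exact (ZMod.val_eq_zero _).1 h)
    omega
  have hmap : ∀ M : M4, (M.map K.fr).trace = K.fr M.trace := fun M => by
    simp [Matrix.trace, map_sum]
  obtain ⟨t0, t1⟩ := trace_not_rational hp hs
  have : K.fr (mat s).trace = (mat s).trace ∨ K.fr (K.fr (mat s).trace) = (mat s).trace := by
    have hf : frobAct r.right s = (phi ^ r.right.toAdd.val) s := rfl
    rw [hf] at htr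
    rcases hv with h | h <;> rw [h] at htr
    · left; rwa [pow_one, mat_phi, hmap] at htr
    · right
      change (mat (phi (phi s))).trace = (mat s).trace at htr
      rwa [mat_phi, mat_phi, hmap, hmap] at htr
  rcases K.fr_fixed _ this with h | h
  · exact t0 h
  · exact t1 h

theorem edge {p q : ℕ} (hp : p.Prime) (hq : q.Prime) (hpq : p ≠ q) {r : Q} (hr : orderOf r = p * q) :
    p * q = 6 ∨ p * q = 15 := by
  have hc3 : orderOf r.right ∣ 3 := by
    have : r.right ^ 3 = 1 := by
      apply Multiplicative.toAdd.injective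
      rw [toAdd_pow]
      exact (by decide : ∀ a : ZMod 3, (3 : ℕ) • a = 0) _
    exact orderOf_dvd_of_pow_eq_one this
  have hin : ∀ z : Q, z.right = 1 → z = SemidirectProduct.inl z.left := fun z hz =>
    SemidirectProduct.ext (by simp) (by simp [hz])
  have hright : ∀ n, (r ^ n).right = r.right ^ n := fun n => by
    rw [← SemidirectProduct.rightHom_eq_right, map_pow]
  by_cases h3 : r.right = 1
  · exfalso
    rw [hin r h3, orderOf_injective SemidirectProduct.inl SemidirectProduct.inl_injective] at hr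
    exact prime_order_cases hr hp hq hpq rfl
  have hor : orderOf r.right = 3 := by
    rcases (Nat.dvd_prime Nat.prime_three).1 hc3 with h | h
    · exact absurd (orderOf_eq_one_iff.1 h) h3
    · exact h
  have hd : 3 ∣ p * q := by
    rw [← hor, ← hr, ← SemidirectProduct.rightHom_eq_right]; exact orderOf_map_dvd _ r
  wlog hp3 : p = 3 generalizing p q
  · rcases Nat.prime_three.dvd_mul.1 hd with h | h
    · exact absurd ((Nat.prime_dvd_prime_iff_eq Nat.prime_three hp).1 h).symm hp3
    · rw [mul_comm]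
      exact this hq hp hpq.symm (by rw [hr, mul_comm]) (by rwa [mul_comm]) ((Nat.prime_dvd_prime_iff_eq Nat.prime_three hq).1 h).symm
  subst hp3
  have h1 : (r ^ 3).right = 1 := by rw [hright]; exact orderOf_dvd_iff_pow_eq_one.1 hor.dvd
  have hz : orderOf (r ^ 3).left = q := by
    rw [← orderOf_injective (SemidirectProduct.inl : S →* Q) SemidirectProduct.inl_injective, ← hin _ h1,
      orderOf_pow_of_dvd (by norm_num) (hr ▸ dvd_mul_right 3 q), hr, Nat.mul_div_cancel_left _ (by norm_num)]
  have hq2 : q = 2 ∨ q = 5 ∨ q = 7 ∨ q = 13 := by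
    have hpp : ∀ t : ℕ, t.Prime → q ∣ t → q = t := fun t ht h => (Nat.prime_dvd_prime_iff_eq hq ht).1 h
    rcases order_cases (r ^ 3).left with h | h | h | h <;> rw [hz] at h
    · exact Or.inl (hpp 2 Nat.prime_two (hq.dvd_of_dvd_pow (show q ∣ 2 ^ 2 from h)))
    · exact Or.inr (Or.inl (hpp 5 (by norm_num) h))
    · exact Or.inr (Or.inr (Or.inl (hpp 7 (by norm_num) h)))
    · exact Or.inr (Or.inr (Or.inr (hpp 13 (by norm_num) h)))
  rcases hq2 with rfl | rfl | h7 | h13
  · exact Or.inl rfl
  · exact Or.inr rfl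
  · exact (no_commute h3 (Or.inl h7) hz (by rw [← hin _ h1]; exact Commute.self_pow r 3)).elim
  · exact (no_commute h3 (Or.inr h13) hz (by rw [← hin _ h1]; exact Commute.self_pow r 3)).elim

end Cfsg.Agent.Lib.Recog.S63Sz
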