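import Cfsg.Agent.Lib.Recog.S63Sp
import Cfsg.Agent.Lib.Recog.S63Sz

/-! The groups with the prime graph of `PSp₆(3)`. -/

set_option autoImplicit false
set_option maxRecDepth 100000

namespace Cfsg.Agent.Lib.Recog.S63Sz

open Matrix
open Cfsg.Agent.Lib
open Cfsg.Agent.Lib.Recog.S63 (Allowed)

/-- the module in `m` copies -/
abbrev V (m : ℕ) : Type := Multiplicative (Fin m → ZMod 3 → M4)

/-- the twisted components -/
def A (i : ZMod 3) (s : S) : M4 := mat ((phi ^ i.val) s)

theorem A_mul (i : ZMod 3) (s t : S) : A i (s * t) = A i s * A i t := by rw [A, map_mul]; rfl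

theorem A_one (i : ZMod 3) : A i 1 = 1 := by rw [A, map_one]; rfl

theorem A_inv (i : ZMod 3) (s : S) : A i s⁻¹ * A i s = 1 := by rw [← A_mul, inv_mul_cancel, A_one]

/-- the action of the simple group on one triple -/
def actT (s : S) (X : ZMod 3 → M4) : ZMod 3 → M4 := fun i => A i s * X i * (A (i + 1) s)ᵀ

theorem actT_mul (s t : S) (X : ZMod 3 → M4) : actT (s * t) X = actT s (actT t X) := by
  funext i
  simp [actT, A_mul, Matrix.transpose_mul, Matrix.mul_assoc]

theorem actT_one (X : ZMod 3 → M4) : actT 1 X = X := by funext i; simp [actT, A_one]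

/-- the action of the simple group -/
def act1 (m : ℕ) : S →* MulAut (V m) where
  toFun s :=
    { toFun := fun v => Multiplicative.ofAdd fun k => actT s (v.toAdd k)
      invFun := fun v => Multiplicative.ofAdd fun k => actT s⁻¹ (v.toAdd k)
      left_inv := fun v => by
        apply Multiplicative.toAdd.injective; funext k
        simp [← actT_mul, actT_one]
      right_inv := fun v => by
        apply Multiplicative.toAdd.injective; funext k
        simp [← actT_mul, actT_one]
      map_mul' := fun v w => by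
        apply Multiplicative.toAdd.injective; funext k i
        simp [actT, Matrix.mul_add, Matrix.add_mul] }
  map_one' := by
    ext v : 1
    apply Multiplicative.toAdd.injective; funext k
    simp [actT_one]
  map_mul' s t := by
    ext v : 1
    apply Multiplicative.toAdd.injective; funext k
    simp [actT_mul]

/-- the permutation of the components -/
def act2 (m : ℕ) : C3 →* MulAut (V m) where
  toFun a :=
    { toFun := fun v => Multiplicative.ofAdd fun k i => v.toAdd k (i + a.toAdd)
      invFun := fun v => Multiplicative.ofAdd fun k i => v.toAdd k (i - a.toAdd)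
      left_inv := fun v => by apply Multiplicative.toAdd.injective; funext k i; simp
      right_inv := fun v => by apply Multiplicative.toAdd.injective; funext k i; simp
      map_mul' := fun v w => by apply Multiplicative.toAdd.injective; funext k i; simp }
  map_one' := by
    ext v : 1
    apply Multiplicative.toAdd.injective; funext k i; simp
  map_mul' a b := by
    ext v : 1
    apply Multiplicative.toAdd.injective; funext k i
    simp [add_assoc]

theorem A_frob (i : ZMod 3) (a : C3) (s : S) : A i (frobAct a s) = A (i + a.toAdd) s := by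
  show mat ((phi ^ i.val) ((phi ^ a.toAdd.val) s)) = mat ((phi ^ (i + a.toAdd).val) s)
  rw [← MulAut.mul_apply, ← pow_add, ZMod.val_add, phi_pow_mod]

/-- the action of the extension -/
def act (m : ℕ) : Q →* MulAut (V m) :=
  SemidirectProduct.lift (act1 m) (act2 m) fun a => by
    refine MonoidHom.ext fun s => MulEquiv.ext fun v => ?_
    apply Multiplicative.toAdd.injective; funext k i
    show A i (frobAct a s) * v.toAdd k i * (A (i + 1) (frobAct a s))ᵀ =
      A (i + a.toAdd) s * v.toAdd k (i + a.toAdd - a.toAdd) * (A (i + a.toAdd + 1) s)ᵀ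
    rw [A_frob, A_frob, add_sub_cancel_right, add_right_comm i 1]

theorem act_inl (m : ℕ) (s : S) : act m (SemidirectProduct.inl s) = act1 m s := SemidirectProduct.lift_inl _ _ _ s

/-- the groups -/
abbrev H (m : ℕ) : Type := V m ⋊[act m] Q

instance (m : ℕ) : Finite (H m) := Finite.of_equiv _ SemidirectProduct.equivProd.symm

theorem card_H (m : ℕ) : Nat.card (H m) = (8 ^ 16) ^ (3 * m) * Nat.card Q := by
  rw [SemidirectProduct.card, Nat.card_congr Multiplicative.toAdd, Nat.card_fun, Nat.card_fun, Nat.card_zmod,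
    Nat.card_fin, Nat.card_congr Matrix.of.symm, Nat.card_fun, Nat.card_fun, Nat.card_fin,
    Nat.card_eq_fintype_card (α := K), K.card_eq,
    show (2 : ℕ) ^ (2 * 1 + 1) = 8 from rfl]
  simp only [← pow_mul]
  ring_nf

theorem sq_one {m : ℕ} (v : V m) : v ^ 2 = 1 := by
  apply Multiplicative.toAdd.injective
  funext k i
  ext a b
  simp only [toAdd_pow, toAdd_one, Pi.smul_apply, Pi.zero_apply, Matrix.smul_apply, Matrix.zero_apply, two_nsmul]
  exact K.add_self _

theorem free13 (m : ℕ) {r : Q} (hr : orderOf r = 13) (v : V m) (hv : act m r v = v) : v = 1 := by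
  haveI := Fact.mk (show Nat.Prime 13 by norm_num)
  obtain ⟨a, ha, hao, -⟩ := exists_elem (by norm_num) chain13
  have hfree : ∀ w : V m, act m (SemidirectProduct.inl a) w = w → w = 1 := by
    intro w hw
    rw [act_inl] at hw
    apply Multiplicative.toAdd.injective
    funext k i
    have e : A i a * w.toAdd k i * (A (i + 1) a)ᵀ = w.toAdd k i :=
      congrFun (congrFun (congrArg Multiplicative.toAdd hw) k) i
    have hA : ∀ j : ZMod 3, A (j + 1) a = (A j a).map K.fr := fun j => by
      show mat ((phi ^ (j + 1).val) a) = (mat ((phi ^ j.val) a)).map K.fr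
      rw [← mat_phi, ← MulAut.mul_apply, ← pow_succ', ← phi_pow_mod (j.val + 1), ZMod.val_add]
      rfl
    have hA0 : A 0 a = st sp13 1 := by rw [A, ZMod.val_zero, pow_zero, MulAut.one_apply, ha]
    have hA1 := hA 0
    have hA2 := hA 1
    have hA3 := hA 2
    simp only [show (1 : ZMod 3) + 1 = 2 from rfl, show (2 : ZMod 3) + 1 = 0 from rfl, zero_add] at hA1 hA2 hA3
    have f3 : ∀ M : M4, ((M.map K.fr).map K.fr).map K.fr = M := fun M => by
      ext x y; exact K.fr_three _
    fin_cases i
    · show w.toAdd k 0 = 0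
      change A 0 a * w.toAdd k 0 * (A (0 + 1) a)ᵀ = w.toAdd k 0 at e
      rw [zero_add, hA1, hA0] at e
      exact kill e
    · show w.toAdd k 1 = 0
      change A 1 a * w.toAdd k 1 * (A 2 a)ᵀ = w.toAdd k 1 at e
      have e' := congrArg (fun M : M4 => (M.map K.fr).map K.fr) e
      simp only [Matrix.map_mul, ← Matrix.transpose_map] at e'
      rw [hA2, hA1, hA0] at e'
      simp only [← Matrix.transpose_map, f3] at e'
      have := kill e'
      rw [← f3 (w.toAdd k 1), this]; simp
    · show w.toAdd k 2 = 0
      change A 2 a * w.toAdd k 2 * (A 0 a)ᵀ = w.toAdd k 2 at e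
      have e' := congrArg (fun M : M4 => M.map K.fr) e
      simp only [Matrix.map_mul, ← Matrix.transpose_map] at e'
      rw [hA2, hA1, hA0] at e'
      simp only [← Matrix.transpose_map, f3] at e'
      have := kill e'
      rw [← f3 (w.toAdd k 2), this]; simp
  have hexp : (Nat.card Q).factorization 13 = 1 := by
    rw [card_Q, show (2 ^ 6 * 3 * 5 * 7 * 13 : ℕ) = 13 * (2 ^ 6 * 3 * 5 * 7) by norm_num,
      Nat.factorization_mul (by norm_num) (by norm_num), Finsupp.add_apply,
      (by norm_num : Nat.Prime 13).factorization_self,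
      Nat.factorization_eq_zero_of_not_dvd (n := _) (by norm_num)]
  have hao' : orderOf (SemidirectProduct.inl a : Q) = 13 := by
    rw [orderOf_injective SemidirectProduct.inl SemidirectProduct.inl_injective, hao]
  have hc : ∀ y : Q, orderOf y = 13 → ∃ P : Sylow 13 Q, (P : Subgroup Q) = Subgroup.zpowers y := fun y hy =>
    ⟨Sylow.ofCard (Subgroup.zpowers y) (by rw [Nat.card_zpowers, hy, hexp, pow_one]), by simp⟩
  obtain ⟨P, hP⟩ := hc _ hao'
  obtain ⟨R, hR⟩ := hc r hr
  obtain ⟨c, hc'⟩ := MulAction.exists_smul_eq Q R P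
  have hax : (SemidirectProduct.inl a : Q) ∈ Subgroup.zpowers (MulAut.conj c r) := by
    have h1 : (SemidirectProduct.inl a : Q) ∈ ((c • R : Sylow 13 Q) : Subgroup Q) := by
      rw [hc', hP]; exact Subgroup.mem_zpowers _
    rw [Sylow.coe_subgroup_smul, hR, Subgroup.mem_pointwise_smul_iff_inv_smul_mem,
      Subgroup.mem_zpowers_iff] at h1
    obtain ⟨k, hk⟩ := h1
    refine Subgroup.mem_zpowers_iff.2 ⟨k, ?_⟩
    rw [← map_zpow, hk]
    simp [MulAut.smul_def, mul_assoc]
  obtain ⟨k, hk⟩ := mem_powers_iff_mem_zpowers.2 hax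
  simp only at hk
  have hcr : ∀ k : ℕ, act m (MulAut.conj c r ^ k) (act m c v) = act m c v := by
    intro k
    induction k with
    | zero => rw [pow_zero, map_one, MulAut.one_apply]
    | succ k ih =>
      rw [pow_succ (MulAut.conj c r) k, map_mul, MulAut.mul_apply, MulAut.conj_apply, ← MulAut.mul_apply _ (act m (c * r * c⁻¹)),
        ← map_mul, inv_mul_cancel_right, map_mul, MulAut.mul_apply, hv]
      exact ih
  have h0 := hfree (act m c v) (by rw [← hk]; exact hcr k)
  exact (act m c).injective (h0.trans (map_one _).symm)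

theorem edge_aux {m p q : ℕ} (hp : p.Prime) (hq : q.Prime) (hpq : p ≠ q) {h : H m} (ho : orderOf h = p * q)
    (hx : orderOf h.right = p) : Allowed (p * q) := by
  have hin : ∀ z : H m, z.right = 1 → z = SemidirectProduct.inl z.left := fun z hz =>
    SemidirectProduct.ext (by simp) (by simp [hz])
  have hone : (h ^ p).right = 1 := by
    rw [← SemidirectProduct.rightHom_eq_right, map_pow, SemidirectProduct.rightHom_eq_right, ← hx,
      pow_orderOf_eq_one]
  set v := (h ^ p).left with hv
  have hov : orderOf v = q := by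
    rw [← orderOf_injective (SemidirectProduct.inl : V m →* H m) SemidirectProduct.inl_injective v, hv,
      ← hin _ hone, orderOf_pow_of_dvd hp.ne_zero (ho ▸ dvd_mul_right p q), ho,
      Nat.mul_div_cancel_left _ hp.pos]
  have hne : v ≠ 1 := fun e => by rw [e, orderOf_one] at hov; exact hq.one_lt.ne hov
  have hq2 : q = 2 := by
    have : orderOf v ∣ 2 := orderOf_dvd_of_pow_eq_one (sq_one v)
    rw [hov] at this
    exact (Nat.prime_dvd_prime_iff_eq hq Nat.prime_two).1 this
  have hfix : act m h.right v = v := by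
    have hcomm : h * SemidirectProduct.inl v = SemidirectProduct.inl v * h := by
      rw [hv, ← hin _ hone]; exact (Commute.self_pow h p).eq
    have e := congrArg SemidirectProduct.left hcomm
    simp only [SemidirectProduct.mul_left, SemidirectProduct.left_inl, SemidirectProduct.right_inl, map_one,
      MulAut.one_apply] at e
    exact mul_left_cancel (e.trans (mul_comm _ _))
  subst hq2
  have hd : p ∣ 2 ^ 6 * 3 * 5 * 7 * 13 := by rw [← card_Q, ← hx]; exact orderOf_dvd_natCard _
  have hpp : ∀ t : ℕ, t.Prime → p ∣ t → p = t := fun t ht h => (Nat.prime_dvd_prime_iff_eq hp ht).1 h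
  rcases hp.dvd_mul.1 hd with h1 | h1
  · rcases hp.dvd_mul.1 h1 with h1 | h1
    · rcases hp.dvd_mul.1 h1 with h1 | h1
      · rcases hp.dvd_mul.1 h1 with h1 | h1
        · exact absurd (hpp 2 Nat.prime_two (hp.dvd_of_dvd_pow h1)) hpq
        · rw [hpp 3 Nat.prime_three h1]; exact Or.inl rfl
      · rw [hpp 5 (by norm_num) h1]; exact Or.inr (Or.inl rfl)
    · rw [hpp 7 (by norm_num) h1]; exact Or.inr (Or.inr (Or.inl rfl))
  · have h13 := hpp 13 (by norm_num) h1
    exact absurd (free13 m (hx.trans h13) v hfix) hne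

theorem ofAdd_one_order : orderOf (Multiplicative.ofAdd (1 : ZMod 3)) = 3 := by
  rw [orderOf_ofAdd_eq_addOrderOf, ZMod.addOrderOf_one]

theorem antiJ_ne : ¬ Recog.antiJ K 0 3 = 0 := by decide +kernel

theorem exists_edge {m : ℕ} (hm : 0 < m) {n : ℕ} (hn : Allowed n) : ∃ h : H m, orderOf h = n := by
  haveI := Fact.mk Nat.prime_two
  haveI := Fact.mk Nat.prime_three
  let t : Q := SemidirectProduct.inr (Multiplicative.ofAdd (1 : ZMod 3))
  have ht : orderOf t = 3 := by
    rw [orderOf_injective SemidirectProduct.inr SemidirectProduct.inr_injective]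
    exact ofAdd_one_order
  have outer : ∀ {L : List ℕ} {p : ℕ} (_ : p.Prime) (_ : p ≠ 3) (_ : ChainOK L p),
      (st L 1).map K.fr = st L 1 → ∃ h : H m, orderOf h = 3 * p := by
    intro L p hp hp3 hch hrat
    obtain ⟨s, hs, hso, -⟩ := exists_elem hp hch
    have hfix : phi s = s := mat_injective (by rw [mat_phi, hs, hrat])
    have hcomm : Commute t (SemidirectProduct.inl s) := by
      refine SemidirectProduct.ext ?_ ?_
      · simp only [t, SemidirectProduct.mul_left, SemidirectProduct.left_inr, SemidirectProduct.right_inr,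
          SemidirectProduct.left_inl, SemidirectProduct.right_inl, map_one, mul_one, one_mul]
        show (phi ^ (1 : ZMod 3).val) s = s
        rw [show (1 : ZMod 3).val = 1 from rfl, pow_one, hfix]
      · simp [t]
    refine ⟨SemidirectProduct.inr (t * SemidirectProduct.inl s), ?_⟩
    rw [orderOf_injective SemidirectProduct.inr SemidirectProduct.inr_injective,
      hcomm.orderOf_mul_eq_mul_orderOf_of_coprime, ht,
      orderOf_injective SemidirectProduct.inl SemidirectProduct.inl_injective, hso]
    rw [ht, orderOf_injective SemidirectProduct.inl SemidirectProduct.inl_injective, hso]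
    exact (Nat.coprime_primes Nat.prime_three hp).2 hp3.symm
  have inner : ∀ (s : S) {p : ℕ} (_ : p.Prime) (_ : p ≠ 2) (_ : orderOf s = p) (X : ZMod 3 → M4),
      X ≠ 0 → actT s X = X → ∃ h : H m, orderOf h = 2 * p := by
    intro s p hp hp2 hso X hX hfix
    let v : V m := Multiplicative.ofAdd fun _ => X
    have hv : orderOf v = 2 := orderOf_eq_prime (sq_one v) fun e => hX
      (congrFun (congrArg Multiplicative.toAdd e) ⟨0, hm⟩)
    have hcomm : Commute (SemidirectProduct.inl v : H m) (SemidirectProduct.inr (SemidirectProduct.inl s)) := by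
      refine SemidirectProduct.ext ?_ ?_
      · simp only [SemidirectProduct.mul_left, SemidirectProduct.left_inr, SemidirectProduct.right_inr,
          SemidirectProduct.left_inl, SemidirectProduct.right_inl, map_one, mul_one, one_mul, MulAut.one_apply]
        rw [act_inl]
        apply Multiplicative.toAdd.injective
        funext k
        exact hfix.symm
      · simp
    refine ⟨_, (hcomm.orderOf_mul_eq_mul_orderOf_of_coprime ?_).trans ?_⟩ <;>
      rw [orderOf_injective SemidirectProduct.inl SemidirectProduct.inl_injective, hv,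
        orderOf_injective SemidirectProduct.inr SemidirectProduct.inr_injective,
        orderOf_injective SemidirectProduct.inl SemidirectProduct.inl_injective, hso]
    exact (Nat.coprime_primes Nat.prime_two hp).2 hp2.symm
  rcases hn with rfl | rfl | rfl | rfl
  · obtain ⟨h, hh⟩ := outer Nat.prime_two (by norm_num) chain2 rational2
    exact ⟨h, hh⟩
  · obtain ⟨s, hs, hso, -⟩ := exists_elem (by norm_num) chain5
    refine (inner s (by norm_num) (by norm_num) hso (fun _ => Recog.antiJ K) ?_ ?_).imp fun _ h => h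
    · intro e
      have := congrFun (congrFun (congrFun e 0) 0) 3
      exact antiJ_ne this
    · have hA : ∀ j : ℕ, mat ((phi ^ j) s) = st sp5 1 := by
        intro j
        induction j with
        | zero => exact hs
        | succ j ih => rw [pow_succ' phi j, MulAut.mul_apply, mat_phi, ih, rational5]
      funext i
      show A i s * _ * (A (i + 1) s)ᵀ = _
      rw [A, A, hA, hA, mul_eq_mul4, mul_eq_mul4, fix5]
  · obtain ⟨s, hs, hso, -⟩ := exists_elem (by norm_num) chain7
    refine (inner s (by norm_num) (by norm_num) hso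
      (fun i => if i = 0 then Matrix.single 0 1 (1 : K) else 0) ?_ ?_).imp fun _ h => h
    · intro e
      have := congrFun (congrFun (congrFun e 0) 0) 1
      simp at this
    · funext i
      show A i s * _ * (A (i + 1) s)ᵀ = _
      rcases eq_or_ne i 0 with rfl | hi
      · rw [if_pos rfl, zero_add, A, A, show (0 : ZMod 3).val = 0 from rfl, show (1 : ZMod 3).val = 1 from rfl,
          pow_zero, pow_one, MulAut.one_apply, mat_phi, hs, mul_eq_mul4, mul_eq_mul4]
        exact fix7
      · simp [hi]
  · obtain ⟨h, hh⟩ := outer (by norm_num : Nat.Prime 5) (by norm_num) chain5 rational5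
    exact ⟨h, hh⟩

theorem edge_iff {m p q : ℕ} (hm : 0 < m) (hp : p.Prime) (hq : q.Prime) (hpq : p ≠ q) :
    (∃ h : H m, orderOf h = p * q) ↔ Allowed (p * q) := by
  refine ⟨fun ⟨h, hh⟩ => ?_, exists_edge hm⟩
  have hd : orderOf h.right ∣ p * q := by
    rw [← hh, ← SemidirectProduct.rightHom_eq_right]; exact orderOf_map_dvd _ h
  obtain ⟨a, b, ha, hb, hab⟩ := (Nat.dvd_mul).1 hd
  rcases (Nat.dvd_prime hp).1 ha with rfl | rfl <;> rcases (Nat.dvd_prime hq).1 hb with rfl | rfl
  · exfalso
    have h1 : h.right = 1 := orderOf_eq_one_iff.1 (by rw [← hab, mul_one])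
    have h2 : h ^ 2 = 1 := by
      have he : h = SemidirectProduct.inl h.left := SemidirectProduct.ext (by simp) (by simp [h1])
      rw [he, ← map_pow, sq_one, map_one]
    have h3 : p * q ∣ 2 := hh ▸ orderOf_dvd_of_pow_eq_one h2
    have := Nat.le_of_dvd two_pos h3
    have := Nat.mul_le_mul hp.two_le hq.two_le
    omega
  · rw [mul_comm] at hh
    rw [mul_comm p]
    exact edge_aux hq hp (Ne.symm hpq) hh (by rw [← hab, one_mul])
  · exact edge_aux hp hq hpq hh (by rw [← hab, mul_one])
  · rcases edge hp hq hpq hab.symm with h | h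
    · exact Or.inl h
    · exact Or.inr (Or.inr (Or.inr h))

theorem primes_eq {m p : ℕ} (hp : p.Prime) :
    p ∣ Nat.card S63.P ↔ p ∣ Nat.card (H m) := by
  rw [S63.card_P, card_H, card_Q]
  have hP : ∀ n, p ∣ n → n ∣ 2 * 3 * 5 * 7 * 13 → p ∣ 2 * 3 * 5 * 7 * 13 := fun n a b => a.trans b
  constructor
  · intro h
    apply dvd_mul_of_dvd_right
    simp only [hp.dvd_mul] at h ⊢
    rcases h with (((h | h) | h) | h) | h
    · exact Or.inl (Or.inl (Or.inl (Or.inl ((hp.dvd_of_dvd_pow h).trans (by norm_num)))))
    · exact Or.inl (Or.inl (Or.inl (Or.inr (hp.dvd_of_dvd_pow h))))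
    · exact Or.inl (Or.inl (Or.inr h))
    · exact Or.inl (Or.inr h)
    · exact Or.inr h
  · intro h
    simp only [hp.dvd_mul] at h ⊢
    rcases h with h | (((h | h) | h) | h) | h
    · exact Or.inl (Or.inl (Or.inl (Or.inl ((hp.dvd_of_dvd_pow (hp.dvd_of_dvd_pow h)).trans (by norm_num)))))
    · exact Or.inl (Or.inl (Or.inl (Or.inl ((hp.dvd_of_dvd_pow h).trans (by norm_num)))))
    · exact Or.inl (Or.inl (Or.inl (Or.inr (h.trans (by norm_num)))))
    · exact Or.inl (Or.inl (Or.inr h))
    · exact Or.inl (Or.inr h)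
    · exact Or.inr h

end Cfsg.Agent.Lib.Recog.S63Sz

namespace Cfsg.Agent.Lib.Recog.S63Iso

open Matrix

/-- change of field in the symplectic group -/
theorem map_symp {A B : Type*} [CommRing A] [CommRing B] (f : A →+* B) {g : Matrix (Fin 3 ⊕ Fin 3) (Fin 3 ⊕ Fin 3) A}
    (hg : g ∈ Matrix.symplecticGroup (Fin 3) A) : g.map f ∈ Matrix.symplecticGroup (Fin 3) B := by
  rw [SymplecticGroup.mem_iff] at hg ⊢
  have hJ : (Matrix.J (Fin 3) A).map f = Matrix.J (Fin 3) B := by
    ext i j
    rcases i with i | i <;> rcases j with j | j <;> fin_cases i <;> fin_cases j <;> simp [Matrix.J]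
  have := congrArg (fun M : Matrix (Fin 3 ⊕ Fin 3) (Fin 3 ⊕ Fin 3) A => M.map f) hg
  simp only [Matrix.map_mul, hJ, ← Matrix.transpose_map] at this
  exact this

theorem exists_iso {F : Type*} [Field F] [Fintype F] (hF : Fintype.card F = 3) :
    Nonempty (Cfsg.PSp 3 F ≃* S63.P) := by
  let e : F ≃+* ZMod 3 := FiniteField.ringEquivOfCardEq (by rw [hF, ZMod.card])
  let fwd : ↥(Matrix.symplecticGroup (Fin 3) F) → S63.Sp := fun g =>
    ⟨g.1.map e.toRingHom, map_symp (A := F) (B := ZMod 3) e.toRingHom g.2⟩
  let bwd : S63.Sp → ↥(Matrix.symplecticGroup (Fin 3) F) := fun g =>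
    ⟨g.1.map e.symm.toRingHom, map_symp (A := ZMod 3) (B := F) e.symm.toRingHom g.2⟩
  let φ : ↥(Matrix.symplecticGroup (Fin 3) F) ≃* S63.Sp :=
    { toFun := fwd
      invFun := bwd
      left_inv := fun g => Subtype.ext (by ext i j; exact e.symm_apply_apply _)
      right_inv := fun g => Subtype.ext (by ext i j; exact e.apply_symm_apply _)
      map_mul' := fun g h => Subtype.ext (Matrix.map_mul (f := e.toRingHom)) }
  refine ⟨QuotientGroup.congr _ _ φ ?_⟩
  ext y
  constructor
  · rintro ⟨x, hx, rfl⟩
    rw [Subgroup.mem_center_iff]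
    intro z
    obtain ⟨w, rfl⟩ := φ.surjective z
    show φ w * φ x = φ x * φ w
    rw [← map_mul, Subgroup.mem_center_iff.1 hx w, map_mul]
  · intro hy
    obtain ⟨x, rfl⟩ := φ.surjective y
    refine ⟨x, Subgroup.mem_center_iff.2 fun w => φ.injective ?_, rfl⟩
    rw [map_mul, map_mul, Subgroup.mem_center_iff.1 hy]

end Cfsg.Agent.Lib.Recog.S63Iso
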