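import Mathlib
import Cfsg.Prelude.Def_Classical
import Cfsg.Agent.Lib.Classical.Symplectic
import Cfsg.Agent.Lib.Classical.SympOrder

/-! Prime graph facts for `PSp₆(3)`: witnesses and centralizers of elements of orders 7 and 13. -/

set_option autoImplicit false
set_option maxRecDepth 100000
set_option Elab.async false

namespace Cfsg.Agent.Lib.Recog.S63

open Matrix

/-- powers of the element of order 13 -/
def pw13 : List ℕ :=
  [1180663682709764194305, 1812971416017051191369, 2668267978474872276618, 1597992316450411382185, 749729291105900595222, 744091847167620491856, 618625732769610274822, 1518998315737404298498, 2739352088269122078374, 1855796057135941552168, 1358472130862522114138, 1777991306617095023177, 1791686817953855183490, 1180663682709764194305]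

/-- its centralizer, as powers of a generator -/
def cent13 : List ℕ :=
  [1180663682709764194305, 381159485201825011104, 1358472130862522114138, 1777396287757715327301, 1518998315737404298498, 2694402757165693609281, 749729291105900595222, 2811229084997889623060, 1812971416017051191369, 337091095822724375561, 1777991306617095023177, 3123293091193051679318, 2739352088269122078374, 2361327365419528388610, 744091847167620491856, 2478234410703982563493, 2668267978474872276618, 2981790850235354950145, 1791686817953855183490, 375305857606727320617, 1855796057135941552168, 2684290802252599854214, 618625732769610274822, 2666809059310977062278, 1597992316450411382185, 1923080477512988969305, 1180663682709764194305]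

/-- Krylov basis -/
def kry13 : ℕ := 1592585569294204953249

/-- its inverse -/
def kryInv13 : ℕ := 742866054081535895556

/-- powers of the element of order 7 -/
def pw7 : List ℕ :=
  [1180663682709764194305, 748554716249026740265, 1593484028213650286722, 627369594865930568726, 388696967088445752842, 2382306365071562998096, 2509159850666054785061, 1180663682709764194305]

/-- its centralizer, as powers of a generator -/
def cent7 : List ℕ :=
  [1180663682709764194305, 1817028253060476307882, 313684797568257247273, 489010999779867648264, 2509159850666054785061, 2957264563923222440344, 3127949298103475278913, 370413567765811700389, 2382306365071562998096, 443395798613367259274, 376466140942793998358, 2703773630973845334040, 388696967088445752842, 2773380902015532864904, 2361327365419528388610, 2679437447323716224597, 627369594865930568726, 687256096556878762500, 1255128808270081369114, 1487306327000655943268, 1593484028213650286722, 740773079090163159386, 1219365526655889195680, 664561754055047249989, 748554716249026740265, 1796367214561231213604,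 777177747939655764229, 1948768507520180955716, 1180663682709764194305]

/-- Krylov basis -/
def kry7 : ℕ := 1550126140668757838426

/-- its inverse -/
def kryInv7 : ℕ := 1795507066531379234057

/-- powers of a projective element of order 6 -/
def wit6 : List ℕ :=
  [1180663682709764194305, 2981070068151816132160, 664250908193581585962, 2381109744886152696965, 1555455108901602149929, 2979233154212897050949, 2361327365419528388610]

/-- powers of a projective element of order 10 -/
def wit10 : List ℕ :=
  [1180663682709764194305, 2776854386819749511232, 2995290421946895452422, 1282066824849914893328, 2825308000231237371272, 379604073920424384017, 39597901272684521824, 1291709233427488182294, 2972907330026510876928, 1798563739731365009560, 1180663682709764194305]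

/-- powers of a projective element of order 14 -/
def wit14 : List ℕ :=
  [1180663682709764194305, 1665136834867993579653, 2372791366374624635270, 2957433488440097576962, 1850036691604827576982, 1376756495736901360194, 1374971911540730906888, 1292893690366918156837, 337401380985879429398, 2700297157831531450968, 1338656748885665995177, 600100751021779800325, 2366202668290459083905, 2999368263733954613913, 2361327365419528388610]

/-- powers of a projective element of order 15 -/
def wit15 : List ℕ :=
  [1180663682709764194305, 176009843528495814737, 2476860872226321750048, 1180988659471216560456, 175651666528194041361, 2477166698854675924069, 1181044395389415084165, 175326681971549556820, 2476572941288722153888, 1180682840686372887109, 175632508603326285977, 2476625299459083097129, 1181276590456933209224, 175903442114288043284, 2477128435936035639977, 1180663682709764194305]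

/-- index set -/
abbrev I6 : Type := Fin 3 ⊕ Fin 3

/-- the group -/
abbrev Sp : Type := ↥(Matrix.symplecticGroup (Fin 3) (ZMod 3))

/-- matrices as lists -/
abbrev LM : Type := List (List ℕ)

/-- position of an index -/
def pos : I6 → ℕ := Sum.elim (fun i => i.val) (fun i => 3 + i.val)

/-- an entry -/
def look (A : LM) (i j : ℕ) : ℕ := (A.getD i []).getD j 0

/-- a matrix by its entries -/
def tab (f : ℕ → ℕ → ℕ) : LM := (List.range 6).map fun i => (List.range 6).map fun j => f i j

/-- a matrix from its code -/
def ofCode (c : ℕ) : LM := tab fun i j => (c >>> (2 * (6 * i + j))) % 4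

/-- product -/
def mm (A B : LM) : LM := tab fun i j =>
  (look A i 0 * look B 0 j + look A i 1 * look B 1 j + look A i 2 * look B 2 j +
    look A i 3 * look B 3 j + look A i 4 * look B 4 j + look A i 5 * look B 5 j) % 3

/-- identity -/
def one : LM := tab fun i j => if i = j then 1 else 0

/-- minus identity -/
def minusOne : LM := tab fun i j => if i = j then 2 else 0

/-- transpose -/
def tr (A : LM) : LM := tab fun i j => look A j i

/-- the form -/
def jL : LM := tab fun i j => if i + 3 = j then 2 else if j + 3 = i then 1 else 0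

/-- equality of the matrices -/
def eqB (A B : LM) : Bool :=
  (List.range 6).all fun i => (List.range 6).all fun j => look A i j % 3 == look B i j % 3

/-- membership test -/
def sympB (A : LM) : Bool := eqB (mm (mm A jL) (tr A)) jL

/-- plus or minus the identity -/
def pmB (A : LM) : Bool := eqB A one || eqB A minusOne

/-- stored matrix -/
def st (L : List ℕ) (k : ℕ) : LM := ofCode (L.getD k 0)

/-- a list of consecutive powers -/
def chainB (L : List ℕ) (n : ℕ) : Bool :=
  eqB (st L 0) one && (List.range n).all fun k => eqB (mm (st L k) (st L 1)) (st L (k + 1))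

/-- coefficient of a candidate -/
def coef (n k : ℕ) : ℕ := n / 3 ^ k % 3

/-- a polynomial in the element -/
def polyL (P : List ℕ) (n : ℕ) : LM := tab fun i j =>
  (coef n 0 * look (st P 0) i j + coef n 1 * look (st P 1) i j + coef n 2 * look (st P 2) i j +
    coef n 3 * look (st P 3) i j + coef n 4 * look (st P 4) i j + coef n 5 * look (st P 5) i j) % 3

/-- all symplectic polynomials are in the list -/
def centB (P C : List ℕ) (bd : ℕ) : Bool :=
  (List.range 729).all fun n =>
    let b := polyL P n
    !(sympB b) || (List.range bd).any fun k => eqB b (st C k)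

/-- the Krylov data -/
def kryB (P : List ℕ) (K K' : ℕ) : Bool :=
  eqB (mm (ofCode K') (ofCode K)) one && eqB (mm (ofCode K) (ofCode K')) one &&
    (List.range 5).all fun k => (List.range 6).all fun i =>
      look (mm (st P 1) (ofCode K)) i k % 3 == look (ofCode K) i (k + 1) % 3

theorem chain13 : (chainB pw13 13 && eqB (st pw13 13) one && !eqB (st pw13 1) one && sympB (st pw13 1)) = true := by
  decide +kernel

theorem chain7 : (chainB pw7 7 && eqB (st pw7 7) one && !eqB (st pw7 1) one && sympB (st pw7 1)) = true := by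
  decide +kernel

theorem kry13_ok : kryB pw13 kry13 kryInv13 = true := by decide +kernel

theorem kry7_ok : kryB pw7 kry7 kryInv7 = true := by decide +kernel

theorem cent13_ok : centB pw13 cent13 26 = true := by decide +kernel

theorem cent7_ok : centB pw7 cent7 28 = true := by decide +kernel

theorem cent13_chain : (chainB cent13 26 && eqB (st cent13 26) one &&
    (List.range 26).all fun k => !eqB (mm (st cent13 k) (st cent13 k)) one || pmB (st cent13 k)) = true := by
  decide +kernel

theorem cent7_chain : (chainB cent7 28 && eqB (st cent7 28) one) = true := by decide +kernel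

/-- a projective witness -/
def witB (L : List ℕ) (n : ℕ) : Bool :=
  chainB L n && sympB (st L 1) && (List.range (n + 1)).all fun k => (k == 0 || k == n) == pmB (st L k)

theorem wit6_ok : witB wit6 6 = true := by decide +kernel
theorem wit10_ok : witB wit10 10 = true := by decide +kernel
theorem wit14_ok : witB wit14 14 = true := by decide +kernel
theorem wit15_ok : witB wit15 15 = true := by decide +kernel

/-- the matrix of a list -/
def toM (A : LM) : Matrix I6 I6 (ZMod 3) := Matrix.of fun i j => (look A (pos i) (pos j) : ZMod 3)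

theorem pos_lt (i : I6) : pos i < 6 := by
  rcases i with i | i <;> simp only [pos, Sum.elim_inl, Sum.elim_inr] <;> omega

theorem look_tab (f : ℕ → ℕ → ℕ) {i j : ℕ} (hi : i < 6) (hj : j < 6) : look (tab f) i j = f i j := by
  simp [look, tab, hi, hj]

theorem toM_tab (f : ℕ → ℕ → ℕ) (i j : I6) : toM (tab f) i j = (f (pos i) (pos j) : ZMod 3) := by
  rw [toM, Matrix.of_apply, look_tab f (pos_lt i) (pos_lt j)]

theorem cast_mod3 (a : ℕ) : ((a % 3 : ℕ) : ZMod 3) = a := ZMod.natCast_mod a 3

theorem toM_mm (A B : LM) : toM (mm A B) = toM A * toM B := by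
  ext i j
  rw [mm, toM_tab, cast_mod3, Matrix.mul_apply, Fintype.sum_sum_type, Fin.sum_univ_three, Fin.sum_univ_three]
  simp only [toM, Matrix.of_apply, pos, Sum.elim_inl, Sum.elim_inr]
  push_cast
  simp only [Fin.val_zero, Fin.val_one, Fin.val_two]
  ring

theorem toM_one : toM one = 1 := by
  ext i j
  rw [one, toM_tab]
  rcases i with i | i <;> rcases j with j | j <;> fin_cases i <;> fin_cases j <;> decide +kernel

theorem toM_minusOne : toM minusOne = -1 := by
  ext i j
  rw [minusOne, toM_tab]
  rcases i with i | i <;> rcases j with j | j <;> fin_cases i <;> fin_cases j <;> decide +kernel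

theorem toM_tr (A : LM) : toM (tr A) = (toM A)ᵀ := by
  ext i j
  rw [tr, toM_tab]; rfl

theorem toM_jL : toM jL = Matrix.J (Fin 3) (ZMod 3) := by
  ext i j
  rw [jL, toM_tab]
  rcases i with i | i <;> rcases j with j | j <;> fin_cases i <;> fin_cases j <;> decide +kernel

theorem eqB_iff (A B : LM) : eqB A B = true ↔ toM A = toM B := by
  simp only [eqB, List.all_eq_true, List.mem_range, beq_iff_eq]
  constructor
  · intro h
    ext i j
    have := h (pos i) (pos_lt i) (pos j) (pos_lt j)
    rw [toM, toM, Matrix.of_apply, Matrix.of_apply, ← cast_mod3, this, cast_mod3]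
  · intro h
    have hs : ∀ n < 6, ∃ i : I6, pos i = n := by decide +kernel
    intro i hi j hj
    obtain ⟨a, rfl⟩ := hs i hi
    obtain ⟨b, rfl⟩ := hs j hj
    exact (ZMod.natCast_eq_natCast_iff' _ _ 3).1 (congrFun (congrFun h a) b)

theorem sympB_iff (A : LM) : sympB A = true ↔ toM A ∈ Matrix.symplecticGroup (Fin 3) (ZMod 3) := by
  rw [sympB, eqB_iff, toM_mm, toM_mm, toM_tr, toM_jL, SymplecticGroup.mem_iff]

/-- the matrix of an element -/
abbrev mat (g : Sp) : Matrix I6 I6 (ZMod 3) := (g : Matrix I6 I6 (ZMod 3))

theorem mat_injective : Function.Injective mat := fun _ _ h => Subtype.ext h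

theorem mat_pow (g : Sp) (n : ℕ) : mat (g ^ n) = mat g ^ n := rfl

theorem chain_pow {L : List ℕ} {n : ℕ} (h : chainB L n = true) :
    ∀ k, k ≤ n → toM (st L k) = toM (st L 1) ^ k := by
  simp only [chainB, Bool.and_eq_true, List.all_eq_true, List.mem_range, eqB_iff] at h
  intro k hk
  induction k with
  | zero => rw [pow_zero, h.1, toM_one]
  | succ k ih => rw [pow_succ, ← ih (by omega), ← toM_mm, h.2 k (by omega)]

/-- the scalars -/
def IsPM (g : Sp) : Prop := mat g = 1 ∨ mat g = -1

theorem center_iff (g : Sp) : g ∈ Subgroup.center Sp ↔ IsPM g := by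
  constructor
  · intro hg
    obtain ⟨a, ha, hga⟩ := Cfsg.Agent.Lib.Classical.exists_scalar_of_mem_center 3 (by norm_num) hg
    have : mat g = a • 1 := Matrix.ext_of_mulVec_single fun i => by
      rw [hga, Matrix.smul_mulVec, Matrix.one_mulVec]
    rcases mul_self_eq_one_iff.1 ha with rfl | rfl
    · left; rw [this, one_smul]
    · right; rw [this, neg_one_smul]
  · intro hg
    rw [Subgroup.mem_center_iff]
    intro x
    apply mat_injective
    show mat x * mat g = mat g * mat x
    rcases hg with h | h <;> simp [h]

/-- the quotient -/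
abbrev P : Type := Cfsg.PSp 3 (ZMod 3)

/-- projection -/
abbrev pr : Sp →* P := QuotientGroup.mk' (Subgroup.center Sp)

theorem pr_eq_one (g : Sp) : pr g = 1 ↔ IsPM g := by
  rw [QuotientGroup.mk'_apply, QuotientGroup.eq_one_iff, center_iff]

theorem wit_order {L : List ℕ} {n : ℕ} (hn : 0 < n) (h : witB L n = true) : ∃ x : P, orderOf x = n := by
  simp only [witB, Bool.and_eq_true, List.all_eq_true, List.mem_range, beq_iff_eq] at h
  obtain ⟨⟨hc, hs⟩, hk⟩ := h
  let g : Sp := ⟨toM (st L 1), (sympB_iff _).1 hs⟩
  have hiff : ∀ k, k ≤ n → (IsPM (g ^ k) ↔ (k = 0 ∨ k = n)) := by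
    intro k hkn
    have := hk k (by omega)
    rw [Bool.eq_iff_iff] at this
    simp only [pmB, Bool.or_eq_true, eqB_iff, toM_one, toM_minusOne, beq_iff_eq] at this
    rw [IsPM, mat_pow, show mat g = toM (st L 1) from rfl, ← chain_pow hc k hkn]
    exact this.symm
  refine ⟨pr g, ?_⟩
  rw [orderOf_eq_iff hn]
  refine ⟨by rw [← map_pow, pr_eq_one, hiff n le_rfl]; exact Or.inr rfl, fun k hkn hk0 e => ?_⟩
  rw [← map_pow, pr_eq_one, hiff k hkn.le] at e
  omega

theorem orderOf_x {L : List ℕ} {p : ℕ} (hp : p.Prime)
    (h : (chainB L p && eqB (st L p) one && !eqB (st L 1) one && sympB (st L 1)) = true) :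
    ∃ x : Sp, mat x = toM (st L 1) ∧ orderOf x = p := by
  simp only [Bool.and_eq_true, Bool.not_eq_true', eqB_iff] at h
  obtain ⟨⟨⟨hc, h1⟩, hne⟩, hs⟩ := h
  haveI := Fact.mk hp
  refine ⟨⟨toM (st L 1), (sympB_iff _).1 hs⟩, rfl, orderOf_eq_prime (mat_injective ?_) fun e => ?_⟩
  · rw [mat_pow]
    show toM (st L 1) ^ p = 1
    rw [← chain_pow hc p le_rfl, h1, toM_one]
  · have e' : toM (st L 1) = toM one := by rw [toM_one]; exact congrArg mat e
    rw [← eqB_iff] at e'
    rw [e'] at hne
    exact absurd hne (by decide)

theorem centralizer_mem {L C : List ℕ} {p bd K K' : ℕ} (hc : chainB L p = true) (hp : 5 ≤ p)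
    (hk : kryB L K K' = true) (hC : centB L C bd = true) {x b : Sp} (hx : mat x = toM (st L 1))
    (hb : Commute b x) : ∃ k < bd, mat b = toM (st C k) := by
  simp only [kryB, Bool.and_eq_true, List.all_eq_true, List.mem_range, beq_iff_eq, eqB_iff, toM_mm, toM_one] at hk
  obtain ⟨⟨hKK, hKK'⟩, hshift⟩ := hk
  set X := toM (st L 1) with hX
  set W := toM (ofCode K) with hW
  have hXb : mat b * X = X * mat b := by rw [← hx]; exact congrArg mat hb.eq
  have hpow : ∀ k, k < 6 → toM (st L k) = X ^ k := fun k hk => chain_pow hc k (by omega)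
  -- coordinates
  let v : I6 → ZMod 3 := toM (ofCode K') *ᵥ (mat b *ᵥ fun i => W i (Sum.inl 0))
  let n : ℕ := (v (Sum.inl 0)).val + 3 * (v (Sum.inl 1)).val + 9 * (v (Sum.inl 2)).val +
    27 * (v (Sum.inr 0)).val + 81 * (v (Sum.inr 1)).val + 243 * (v (Sum.inr 2)).val
  have hn : n < 729 := by
    have := fun i => ZMod.val_lt (v i)
    simp only [n]
    have h0 := this (Sum.inl 0); have h1 := this (Sum.inl 1); have h2 := this (Sum.inl 2)
    have h3 := this (Sum.inr 0); have h4 := this (Sum.inr 1); have h5 := this (Sum.inr 2)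
    omega
  have hco : ∀ i : I6, (coef n (pos i) : ZMod 3) = v i := by
    intro i
    have := fun i => ZMod.val_lt (v i)
    have h0 := this (Sum.inl 0); have h1 := this (Sum.inl 1); have h2 := this (Sum.inl 2)
    have h3 := this (Sum.inr 0); have h4 := this (Sum.inr 1); have h5 := this (Sum.inr 2)
    have key : coef n (pos i) = (v i).val := by
      rcases i with i | i <;> fin_cases i <;> simp [coef, pos, n] <;> omega
    rw [key, ZMod.natCast_zmod_val]
  set b' := toM (polyL L n) with hb'
  have hb'eq : b' = ∑ i : I6, v i • X ^ pos i := by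
    ext r s
    rw [hb', polyL, toM_tab, cast_mod3, Matrix.sum_apply, Fintype.sum_sum_type, Fin.sum_univ_three,
      Fin.sum_univ_three]
    simp only [Matrix.smul_apply, smul_eq_mul, ← hco, pos, Sum.elim_inl, Sum.elim_inr, Fin.val_zero, Fin.val_one,
      Fin.val_two]
    rw [← hpow 0 (by omega), ← hpow 1 (by omega), ← hpow (1 + 1) (by omega), ← hpow (3 + 0) (by omega),
      ← hpow (3 + 1) (by omega), ← hpow (3 + 2) (by omega)]
    simp only [toM, Matrix.of_apply, Nat.cast_add, Nat.cast_mul]
    ring_nf
    rfl
  have hcomm' : b' * X = X * b' := by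
    rw [hb'eq, Finset.sum_mul, Finset.mul_sum]
    exact Finset.sum_congr rfl fun i _ => by rw [smul_mul_assoc, mul_smul_comm, ← pow_succ, ← pow_succ']
  -- Krylov columns
  have hcol : ∀ i : I6, (fun r => W r i) = X ^ pos i *ᵥ fun r => W r (Sum.inl 0) := by
    have hs : ∀ n < 6, ∃ i : I6, pos i = n := by decide +kernel
    have hinj : Function.Injective pos := by decide +kernel
    suffices ∀ n, ∀ i : I6, pos i = n → (fun r => W r i) = X ^ n *ᵥ fun r => W r (Sum.inl 0) from
      fun i => this _ i rfl
    intro n
    induction n with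
    | zero =>
      intro i hi
      rw [hinj (hi.trans (show 0 = pos (Sum.inl 0) from rfl)), pow_zero, Matrix.one_mulVec]
    | succ n ih =>
      intro i hi
      have hlt := pos_lt i
      obtain ⟨j, hj⟩ := hs n (by omega)
      rw [pow_succ', ← Matrix.mulVec_mulVec, ← ih j hj]
      funext r
      have h1 := congrArg (fun a : ℕ => (a : ZMod 3)) (hshift n (by omega) (pos r) (pos_lt r))
      simp only [cast_mod3] at h1
      have h2 : (X * W) r j = (toM (mm (st L 1) (ofCode K))) r j := by rw [toM_mm]
      rw [show (X *ᵥ fun r => W r j) r = (X * W) r j from by rw [Matrix.mul_apply]; rfl, h2, toM, Matrix.of_apply,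
        hj, h1, hW, toM, Matrix.of_apply, hi]
  have hWv : W *ᵥ v = mat b *ᵥ fun r => W r (Sum.inl 0) := by
    rw [show W *ᵥ v = (W * toM (ofCode K')) *ᵥ (mat b *ᵥ fun i => W i (Sum.inl 0)) from
      Matrix.mulVec_mulVec _ _ _, hKK', Matrix.one_mulVec]
  have hbe : b' *ᵥ (fun r => W r (Sum.inl 0)) = mat b *ᵥ fun r => W r (Sum.inl 0) := by
    rw [← hWv, hb'eq, Matrix.sum_mulVec]
    funext r
    rw [Finset.sum_apply, Matrix.mulVec, dotProduct]
    refine Finset.sum_congr rfl fun i _ => ?_
    rw [Matrix.smul_mulVec, Pi.smul_apply, ← hcol i, smul_eq_mul, mul_comm]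
  have hBW : b' * W = mat b * W := by
    ext r i
    have hc1 : Commute b' (X ^ pos i) := (show Commute b' X from hcomm').pow_right _
    have hc2 : Commute (mat b) (X ^ pos i) := (show Commute (mat b) X from hXb).pow_right _
    show (b' *ᵥ fun r => W r i) r = (mat b *ᵥ fun r => W r i) r
    rw [hcol i, Matrix.mulVec_mulVec, Matrix.mulVec_mulVec, hc1.eq, hc2.eq, ← Matrix.mulVec_mulVec,
      ← Matrix.mulVec_mulVec, hbe]
  have hbb : b' = mat b := by
    calc b' = b' * (W * toM (ofCode K')) := by rw [hKK', Matrix.mul_one]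
      _ = mat b := by rw [← Matrix.mul_assoc, hBW, Matrix.mul_assoc, hKK', Matrix.mul_one]
  simp only [centB, List.all_eq_true, List.mem_range, Bool.or_eq_true, Bool.not_eq_true', List.any_eq_true,
    eqB_iff] at hC
  rcases hC n hn with h | ⟨k, hk, hke⟩
  · have := (sympB_iff (polyL L n)).2 (by rw [← hb', hbb]; exact b.2)
    rw [this] at h
    exact absurd h (by decide)
  · exact ⟨k, hk, by rw [← hbb, hb']; exact hke⟩

theorem cent13_facts {x b : Sp} (hx : mat x = toM (st pw13 1)) (hb : Commute b x) :
    b ^ 26 = 1 ∧ (b ^ 2 = 1 → IsPM b) := by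
  have h := chain13
  simp only [Bool.and_eq_true] at h
  obtain ⟨k, hk, hke⟩ := centralizer_mem h.1.1.1 (by norm_num) kry13_ok cent13_ok hx hb
  have hc := cent13_chain
  simp only [Bool.and_eq_true, List.all_eq_true, List.mem_range, Bool.or_eq_true, Bool.not_eq_true', eqB_iff,
    pmB, toM_one, toM_minusOne] at hc
  obtain ⟨⟨hch, hone⟩, hsq⟩ := hc
  refine ⟨mat_injective ?_, fun h2 => ?_⟩
  · rw [mat_pow, hke, chain_pow hch k hk.le, ← pow_mul, mul_comm, pow_mul, ← chain_pow hch 26 le_rfl, hone,
      one_pow]
    rfl
  · rcases hsq k hk with h | h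
    · exfalso
      have e : mat b * mat b = 1 := by
        have := congrArg mat h2
        rwa [mat_pow, sq] at this
      rw [hke, ← toM_mm, ← toM_one, ← eqB_iff] at e
      rw [e] at h
      exact absurd h (by decide)
    · rw [IsPM, hke]; exact h

theorem cent7_facts {x b : Sp} (hx : mat x = toM (st pw7 1)) (hb : Commute b x) : b ^ 28 = 1 := by
  have h := chain7
  simp only [Bool.and_eq_true] at h
  obtain ⟨k, hk, hke⟩ := centralizer_mem h.1.1.1 (by norm_num) kry7_ok cent7_ok hx hb
  have hc := cent7_chain
  simp only [Bool.and_eq_true, eqB_iff, toM_one] at hc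
  apply mat_injective
  rw [mat_pow, hke, chain_pow hc.1 k hk.le, ← pow_mul, mul_comm, pow_mul, ← chain_pow hc.1 28 le_rfl, hc.2,
    one_pow]
  rfl

theorem card_Sp : Nat.card Sp = 2 ^ 10 * 3 ^ 9 * 5 * 7 * 13 := by
  rw [Cfsg.Agent.Lib.Classical.card_symplecticGroup (F := ZMod 3) 3, ZMod.card]
  decide +kernel

theorem card_center : Nat.card (Subgroup.center Sp) = 2 := by
  rw [Cfsg.Agent.Lib.Classical.card_center_sp (F := ZMod 3) 3 (by norm_num), ZMod.card]
  decide +kernel

theorem card_P : Nat.card P = 2 ^ 9 * 3 ^ 9 * 5 * 7 * 13 := by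
  have h := Subgroup.card_eq_card_quotient_mul_card_subgroup (Subgroup.center Sp)
  rw [card_Sp, card_center] at h
  show Nat.card (Sp ⧸ Subgroup.center Sp) = _
  norm_num at h ⊢
  omega

/-- a fact about commuting elements passes to all elements of order `p` -/
theorem transfer {p : ℕ} (hp : p.Prime) (hexp : (Nat.card Sp).factorization p = 1) {a x : Sp}
    (ha : orderOf a = p) (hx : orderOf x = p) {Q : Sp → Prop}
    (hQ : ∀ c b, Q b → Q (c * b * c⁻¹)) (h : ∀ b, Commute b a → Q b) (b : Sp) (hb : Commute b x) : Q b := by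
  haveI := Fact.mk hp
  have hc : ∀ y : Sp, orderOf y = p → ∃ P : Sylow p Sp, (P : Subgroup Sp) = Subgroup.zpowers y := fun y hy =>
    ⟨Sylow.ofCard (Subgroup.zpowers y) (by rw [Nat.card_zpowers, hy, hexp, pow_one]), by simp⟩
  obtain ⟨P, hP⟩ := hc a ha
  obtain ⟨R, hR⟩ := hc x hx
  obtain ⟨c, hc'⟩ := MulAction.exists_smul_eq Sp R P
  have hax : a ∈ Subgroup.zpowers (MulAut.conj c x) := by
    have h1 : a ∈ ((c • R : Sylow p Sp) : Subgroup Sp) := by rw [hc', hP]; exact Subgroup.mem_zpowers a
    rw [Sylow.coe_subgroup_smul, hR, Subgroup.mem_pointwise_smul_iff_inv_smul_mem,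
      Subgroup.mem_zpowers_iff] at h1
    obtain ⟨k, hk⟩ := h1
    refine Subgroup.mem_zpowers_iff.2 ⟨k, ?_⟩
    rw [← map_zpow, hk]
    simp [MulAut.smul_def, mul_assoc]
  obtain ⟨k, hk⟩ := Subgroup.mem_zpowers_iff.1 hax
  have hcomm : Commute (c * b * c⁻¹) a := by
    rw [← hk]
    exact (hb.map (MulAut.conj c).toMonoidHom).zpow_right k
  have := hQ c⁻¹ _ (h _ hcomm)
  simpa [mul_assoc] using this

theorem factor_one {p : ℕ} (hp : p = 7 ∨ p = 13) : (Nat.card Sp).factorization p = 1 := by
  rw [card_Sp]
  rcases hp with rfl | rfl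
  · rw [show (2 ^ 10 * 3 ^ 9 * 5 * 7 * 13 : ℕ) = 7 * (2 ^ 10 * 3 ^ 9 * 5 * 13) by norm_num,
      Nat.factorization_mul (by norm_num) (by norm_num), Finsupp.add_apply,
      (by norm_num : Nat.Prime 7).factorization_self,
      Nat.factorization_eq_zero_of_not_dvd (n := _) (by norm_num)]
  · rw [show (2 ^ 10 * 3 ^ 9 * 5 * 7 * 13 : ℕ) = 13 * (2 ^ 10 * 3 ^ 9 * 5 * 7) by norm_num,
      Nat.factorization_mul (by norm_num) (by norm_num), Finsupp.add_apply,
      (by norm_num : Nat.Prime 13).factorization_self,
      Nat.factorization_eq_zero_of_not_dvd (n := _) (by norm_num)]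

theorem comm13 {x b : Sp} (hx : orderOf x = 13) (hb : Commute b x) : b ^ 26 = 1 ∧ (b ^ 2 = 1 → IsPM b) := by
  obtain ⟨a, ha, hao⟩ := orderOf_x (by norm_num : Nat.Prime 13) chain13
  refine transfer (Q := fun b => b ^ 26 = 1 ∧ (b ^ 2 = 1 → IsPM b)) (by norm_num) (factor_one (Or.inr rfl)) hao hx
    (fun c b h => ⟨by rw [conj_pow, h.1, mul_one, mul_inv_cancel], fun e => ?_⟩) (fun b hb => cent13_facts ha hb) b hb
  have hb2 : b ^ 2 = 1 := by
    rw [conj_pow] at e
    simpa [mul_inv_eq_one] using e
  have hpm := (center_iff b).2 (h.2 hb2)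
  rw [← center_iff, Subgroup.mem_center_iff.1 hpm c, mul_inv_cancel_right]
  exact hpm

theorem comm7 {x b : Sp} (hx : orderOf x = 7) (hb : Commute b x) : b ^ 28 = 1 := by
  obtain ⟨a, ha, hao⟩ := orderOf_x (by norm_num : Nat.Prime 7) chain7
  exact transfer (Q := fun b => b ^ 28 = 1) (by norm_num) (factor_one (Or.inl rfl)) hao hx
    (fun c b h => by rw [conj_pow, h, mul_one, mul_inv_cancel]) (fun b hb => cent7_facts ha hb) b hb

/-- the allowed products -/
def Allowed (n : ℕ) : Prop := n = 6 ∨ n = 10 ∨ n = 14 ∨ n = 15

theorem exists_of_allowed {n : ℕ} (h : Allowed n) : ∃ x : P, orderOf x = n := by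
  rcases h with rfl | rfl | rfl | rfl
  exacts [wit_order (by norm_num) wit6_ok, wit_order (by norm_num) wit10_ok, wit_order (by norm_num) wit14_ok,
    wit_order (by norm_num) wit15_ok]

theorem no_edge {s r : ℕ} (hs : s = 7 ∨ s = 13) (hr : r = 2 ∨ r = 3 ∨ r = 5 ∨ r = 7 ∨ r = 13)
    (hne : r ≠ s) (h27 : ¬ (s = 7 ∧ r = 2)) (z : P) (hz : orderOf z = s * r) : False := by
  obtain ⟨g, rfl⟩ := QuotientGroup.mk'_surjective _ z
  have hs0 : 0 < s := by rcases hs with rfl | rfl <;> norm_num
  have hr0 : 0 < r := by rcases hr with rfl | rfl | rfl | rfl | rfl <;> norm_num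
  have hpm : IsPM (g ^ (s * r)) := by rw [← pr_eq_one, map_pow, ← hz, pow_orderOf_eq_one]
  let e : Sp := g ^ (s * r)
  have he2 : e * e = 1 := by
    apply mat_injective
    show mat e * mat e = 1
    rcases hpm with h | h <;> simp [e, h]
  -- an element of order `s`
  let x : Sp := g ^ r * e
  have hecomm : Commute (g ^ r) e := (Commute.refl g).pow_pow _ _
  have hes : e ^ s = e := by
    obtain ⟨k, hk⟩ : ∃ k, s = 2 * k + 1 := by rcases hs with rfl | rfl <;> [exact ⟨3, rfl⟩; exact ⟨6, rfl⟩]
    rw [hk, pow_succ, pow_mul, sq, he2, one_pow, one_mul]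
  have hxs : x ^ s = 1 := by
    rw [hecomm.mul_pow, hes, ← pow_mul, mul_comm r s]
    exact he2
  have hxne : x ≠ 1 := fun h => by
    have h1 : pr (g ^ r) = 1 := by
      rw [pr_eq_one]
      have : g ^ r = e := by
        calc g ^ r = x * e := by rw [mul_assoc, he2, mul_one]
          _ = e := by rw [h, one_mul]
      rw [this]; exact hpm
    rw [map_pow] at h1
    have := Nat.le_of_dvd hr0 (orderOf_dvd_of_pow_eq_one h1)
    rw [hz] at this
    rcases hs with rfl | rfl <;> nlinarith
  have hsp : Nat.Prime s := by rcases hs with rfl | rfl <;> norm_num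
  haveI := Fact.mk hsp
  have hxo : orderOf x = s := orderOf_eq_prime hxs hxne
  have hgx : Commute g x := ((Commute.refl g).pow_right r).mul_right ((Commute.refl g).pow_right _)
  have hgb : ∀ k, Commute (g ^ k) x := fun k => hgx.pow_left k
  have hprpow : ∀ n, g ^ n = 1 → s * r ∣ n := fun n hn => by
    rw [← hz]; exact orderOf_dvd_of_pow_eq_one (by rw [← map_pow, hn, map_one])
  rcases hs with rfl | rfl
  · have h28 := comm7 hxo (hgb 1)
    rw [pow_one] at h28
    have := hprpow 28 h28
    rcases hr with rfl | rfl | rfl | rfl | rfl <;> omega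
  · obtain ⟨h26, hinv⟩ := comm13 hxo (hgb 1)
    rw [pow_one] at h26
    have := hprpow 26 h26
    rcases hr with rfl | rfl | rfl | rfl | rfl <;> first | omega | skip
    · -- an involution
      obtain ⟨-, hinv⟩ := comm13 hxo (hgb 13)
      have h13 : IsPM (g ^ 13) := hinv (by rw [← pow_mul]; exact h26)
      have := (pr_eq_one _).2 h13
      rw [map_pow] at this
      have := Nat.le_of_dvd (by norm_num) (orderOf_dvd_of_pow_eq_one this)
      rw [hz] at this
      norm_num at this

theorem edge_iff {p q : ℕ} (hp : p.Prime) (hq : q.Prime) (hpq : p ≠ q) :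
    (∃ x : P, orderOf x = p * q) ↔ Allowed (p * q) := by
  refine ⟨fun ⟨x, hx⟩ => ?_, exists_of_allowed⟩
  have hmem : ∀ r : ℕ, r.Prime → r ∣ p * q → r = 2 ∨ r = 3 ∨ r = 5 ∨ r = 7 ∨ r = 13 := by
    intro r hr hrd
    have hd : r ∣ 2 ^ 9 * 3 ^ 9 * 5 * 7 * 13 := hrd.trans (by rw [← card_P, ← hx]; exact orderOf_dvd_natCard x)
    have hpp : ∀ t : ℕ, t.Prime → r ∣ t → r = t := fun t ht h => (Nat.prime_dvd_prime_iff_eq hr ht).1 h
    rcases hr.dvd_mul.1 hd with h | h
    · rcases hr.dvd_mul.1 h with h | h
      · rcases hr.dvd_mul.1 h with h | h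
        · rcases hr.dvd_mul.1 h with h | h
          · exact Or.inl (hpp 2 Nat.prime_two (hr.dvd_of_dvd_pow h))
          · exact Or.inr (Or.inl (hpp 3 Nat.prime_three (hr.dvd_of_dvd_pow h)))
        · exact Or.inr (Or.inr (Or.inl (hpp 5 (by norm_num) h)))
      · exact Or.inr (Or.inr (Or.inr (Or.inl (hpp 7 (by norm_num) h))))
    · exact Or.inr (Or.inr (Or.inr (Or.inr (hpp 13 (by norm_num) h))))
  have hP' := hmem p hp (dvd_mul_right _ _)
  have hQ' := hmem q hq (dvd_mul_left _ _)
  by_contra hall
  by_cases hp713 : p = 7 ∨ p = 13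
  · by_cases h27 : p = 7 ∧ q = 2
    · exact hall (by rw [h27.1, h27.2]; exact Or.inr (Or.inr (Or.inl rfl)))
    · exact no_edge hp713 hQ' hpq.symm h27 x hx
  · by_cases hq713 : q = 7 ∨ q = 13
    · by_cases h27 : q = 7 ∧ p = 2
      · exact hall (by rw [h27.1, h27.2]; exact Or.inr (Or.inr (Or.inl rfl)))
      · exact no_edge hq713 hP' hpq h27 x (by rw [hx, mul_comm])
    · apply hall
      rcases hP' with rfl | rfl | rfl | rfl | rfl <;> rcases hQ' with rfl | rfl | rfl | rfl | rfl <;>
        simp_all [Allowed]

end Cfsg.Agent.Lib.Recog.S63
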