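import Mathlib
import Cfsg.Agent.Lib.Recog.MinNormal

/-! The socle as a product of simple groups. -/

set_option autoImplicit false

namespace Cfsg.Agent.Lib.Recog

open Subgroup

variable {G : Type*} [Group G]

theorem commute_of_inf_eq_bot {V X Y : Subgroup G} (hX : X ≤ V) (hY : Y ≤ V)
    (hXn : V ≤ normalizer (X : Set G)) (hYn : V ≤ normalizer (Y : Set G)) (h : X ⊓ Y = ⊥) :
    ∀ a ∈ X, ∀ b ∈ Y, a * b = b * a := by
  intro a ha b hb
  have h1 : a * b * a⁻¹ * b⁻¹ ∈ X := by
    rw [mul_assoc a, mul_assoc a]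
    exact mul_mem ha ((mem_normalizer_iff.1 (hXn (hY hb)) a⁻¹).1 (inv_mem ha))
  have h2 : a * b * a⁻¹ * b⁻¹ ∈ Y :=
    mul_mem ((mem_normalizer_iff.1 (hYn (hX ha)) b).1 hb) (inv_mem hb)
  have h3 : a * b * a⁻¹ * b⁻¹ ∈ X ⊓ Y := ⟨h1, h2⟩
  rw [h, mem_bot, mul_inv_eq_one, mul_inv_eq_iff_eq_mul] at h3
  exact h3

theorem IsMinNormal.commute {V W : Subgroup G} (hV : IsMinNormal V) (hW : IsMinNormal W)
    (hne : V ≠ W) : ∀ a ∈ V, ∀ b ∈ W, a * b = b * a := by
  have := hV.1
  have := hW.1
  have hinf : V ⊓ W = ⊥ := by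
    rcases hV.2.2 (V ⊓ W) inferInstance inf_le_left with h | h
    · exact h
    · rcases hW.2.2 V hV.1 (inf_eq_left.1 h) with h' | h'
      · exact absurd h' hV.2.1
      · exact absurd h' hne
  refine commute_of_inf_eq_bot (V := ⊤) le_top le_top ?_ ?_ hinf <;> intro g _ <;>
    simp [Subgroup.normalizer_eq_top]

theorem normal_simple_eq_cj [Finite G] {V T : Subgroup G} (h : IsFactor V T) {X : Subgroup G}
    (hX : X ≤ V) (hXn : V ≤ normalizer (X : Set G)) (hs : IsSimpleGroup X) (hna : ¬ IsMulCommutative X) :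
    ∃ g : G, X = cj g T := by
  by_contra! hne
  have hbot : ∀ g : G, X ⊓ cj g T = ⊥ := by
    intro g
    have hn : V ≤ normalizer ((X ⊓ cj g T : Subgroup G) : Set G) := fun n hn => by
      rw [mem_normalizer_iff'']
      intro x
      exact and_congr (mem_normalizer_iff''.1 (hXn hn) x)
        (mem_normalizer_iff''.1 (cj_norm h.normal h.norm g hn) x)
    have hle : cj g⁻¹ (X ⊓ cj g T) ≤ T := by
      intro x hx
      rw [mem_cj] at hx
      have := mem_cj.1 hx.2
      simpa [mul_assoc] using this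
    rcases h.atom _ hle (cj_norm h.normal hn g⁻¹) with e | e
    · have := congrArg (cj g) e
      rw [← cj_mul, mul_inv_cancel, cj_one] at this
      simpa [cj] using this
    · exfalso
      have e1 : X ⊓ cj g T = cj g T := by
        have := congrArg (cj g) e
        rwa [← cj_mul, mul_inv_cancel, cj_one] at this
      have hle' : cj g T ≤ X := inf_eq_right.1 e1
      have hnorm : ((cj g T).subgroupOf X).Normal :=
        (Subgroup.normal_subgroupOf_iff_le_normalizer hle').2 (hX.trans (cj_norm h.normal h.norm g))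
      rcases hs.eq_bot_or_eq_top_of_normal _ hnorm with e2 | e2
      · rw [Subgroup.subgroupOf_eq_bot, disjoint_iff, inf_eq_left.2 hle'] at e2
        exact h.nontrivial (Subgroup.map_eq_bot_iff_of_injective _ (MulAut.conj g).injective |>.1 e2)
      · exact hne g (le_antisymm (Subgroup.subgroupOf_eq_top.1 e2) hle')
  apply hna
  refine ⟨⟨fun a b => Subtype.ext ?_⟩⟩
  have hb : (b : G) ∈ centralizer (X : Set G) := by
    have hbV := hX b.2
    have : V ≤ centralizer (X : Set G) := by
      conv_lhs => rw [h.gen]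
      refine iSup_le fun g y hy => Subgroup.mem_centralizer_iff.2 fun x hx => ?_
      exact commute_of_inf_eq_bot hX (cj_le_of_le h.normal h.le g) hXn (cj_norm h.normal h.norm g)
        (hbot g) x hx y hy
    exact this hbV
  exact Subgroup.mem_centralizer_iff.1 hb a a.2

/-- Pairwise commuting centerless subgroups generate their direct product. -/
theorem nonempty_mulEquiv_pi {ι : Type*} [Fintype ι] (X : ι → Subgroup G)
    (hcomm : Pairwise fun i j => ∀ x y : G, x ∈ X i → y ∈ X j → Commute x y)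
    (hcenter : ∀ i, ∀ x ∈ X i, (∀ y ∈ X i, x * y = y * x) → x = 1) :
    Nonempty ((∀ i, X i) ≃* ↥(⨆ i, X i)) := by
  classical
  have hind : iSupIndep X := by
    intro i
    rw [disjoint_iff, eq_bot_iff]
    rintro x ⟨hx1, hx2⟩
    refine Subgroup.mem_bot.2 (hcenter i x hx1 fun y hy => ?_)
    have : (⨆ j, ⨆ (_ : j ≠ i), X j) ≤ centralizer {y} := iSup₂_le fun j hj z hz =>
      Subgroup.mem_centralizer_singleton_iff.2 (hcomm hj z y hz hy)
    exact Subgroup.mem_centralizer_singleton_iff.1 (this hx2)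
  have hinj := Subgroup.injective_noncommPiCoprod_of_iSupIndep (hcomm := hcomm) hind
  exact ⟨(MonoidHom.ofInjective hinj).trans (MulEquiv.subgroupCongr (Subgroup.noncommPiCoprod_range ))⟩

end Cfsg.Agent.Lib.Recog
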