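import Cfsg.Agent.Lib.Recog.SpEightMain
import Cfsg.Agent.Lib.Classical.UnitaryFlat

/-! Large groups with the element orders of `PSp(8, q)`, `q` even. -/

set_option autoImplicit false

namespace Cfsg.Agent.Lib.Recog.SpEight

open QuadraticMap
open Cfsg.Agent.Lib.Classical.Quad Cfsg.Agent.Lib.Classical.QuadOmega Cfsg.Agent.Lib.Classical.QuadF2
open Cfsg.Agent.Lib.Recog.OddOrthPrimeGraph

universe u

variable {F : Type u} [Field F] (a b : F) (M : ℕ)

/-- The natural module. -/
abbrev Nat8 (F : Type u) := (Fin 3 ⊕ Fin 3) ⊕ Fin 2 → F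

/-- Sums of copies of the natural module. -/
abbrev Copies (F : Type u) (M : ℕ) := Multiplicative (Fin (M + 1) → Nat8 F)

/-- The action on the copies. -/
noncomputable def act : ↥(commutator (isoG (minusQ 3 a b))) →* MulAut (Copies F M) where
  toFun g := AddEquiv.toMultiplicative (LinearEquiv.piCongrRight fun _ : Fin (M + 1) => g.1.1).toAddEquiv
  map_one' := MulEquiv.ext fun x => rfl
  map_mul' g h := MulEquiv.ext fun x => rfl

theorem act_apply (g : ↥(commutator (isoG (minusQ 3 a b)))) (x : Copies F M) :
    act a b M g x = Multiplicative.ofAdd fun j => g.1.1 (x.toAdd j) := rfl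

/-- The extension. -/
abbrev Ext := Copies F M ⋊[act a b M] ↥(commutator (isoG (minusQ 3 a b)))

theorem pow_left (x : Ext a b M) (n : ℕ) :
    (x ^ n).left = Multiplicative.ofAdd (fun j => ∑ i ∈ Finset.range n, ((x.right : isoG (minusQ 3 a b)) ^ i).1 (x.left.toAdd j)) ∧
      (x ^ n).right = x.right ^ n := by
  induction n with
  | zero => exact ⟨by rw [pow_zero, SemidirectProduct.one_left]; rfl, by rw [pow_zero, pow_zero]; rfl⟩
  | succ n ih =>
    rw [pow_succ, SemidirectProduct.mul_left, SemidirectProduct.mul_right, ih.1, ih.2, act_apply, pow_succ]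
    refine ⟨?_, rfl⟩
    rw [← ofAdd_add]
    congr 1
    funext j
    rw [Pi.add_apply, Finset.sum_range_succ]
    rfl

variable [Fintype F] [CharP F 2] {a b}

theorem range_ext (hab : Aniso a b) :
    Set.range (orderOf : Ext a b M → ℕ) = Good (Fintype.card F) := by
  classical
  haveI : Finite (Ext a b M) := Finite.of_equiv _ SemidirectProduct.equivProd.symm
  have h2 : (2 : F) = 0 := CharTwo.two_eq_zero
  have hQ := nd_minusQ hab 3
  have hreg : Reg F (Nat8 F) := Or.inr (by simp [Module.finrank_pi])
  apply Set.Subset.antisymm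
  · rintro _ ⟨x, rfl⟩
    set g : isoG (minusQ 3 a b) := x.right.1 with hg
    set o := orderOf g with ho
    have hr : (x ^ o).right = 1 := Subtype.ext (by
      rw [(pow_left a b M x o).2]; exact pow_orderOf_eq_one g)
    by_cases hS : (x ^ o).left = 1
    · exact good_dvd (iso_bound (Pi.basisFun F _) hQ (by simp) g)
        (orderOf_dvd_of_pow_eq_one (SemidirectProduct.ext hS hr))
    have hsq : (x ^ o) ^ 2 = 1 := by
      refine SemidirectProduct.ext ?_ (by rw [pow_two, SemidirectProduct.mul_right, hr, mul_one]; rfl)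
      rw [pow_two, SemidirectProduct.mul_left, hr, map_one, MulAut.one_apply, SemidirectProduct.one_left]
      refine Multiplicative.toAdd.injective (funext fun j => ?_)
      simpa using add_self_zero (F := F) ((x ^ o).left.toAdd j)
    obtain ⟨j, hj⟩ : ∃ j, ∑ i ∈ Finset.range o, (g ^ i).1 (x.left.toAdd j) ≠ 0 := by
      by_contra! hc
      refine hS ?_
      rw [(pow_left a b M x o).1]
      exact congrArg Multiplicative.ofAdd (funext hc)
    refine good_dvd (lift_bound (Pi.basisFun F _) hQ (by simp) g ((mem_commutator_iff_two hQ hreg h2 g).1 x.right.2) hj) ?_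
    exact orderOf_dvd_of_pow_eq_one (by rw [← ho, mul_comm, pow_mul]; exact hsq)
  · rintro n ⟨k, T, hC, hn⟩
    rcases exists_lift hab hC with ⟨g, hd, hg⟩ | ⟨g, w, hd, hg, hw⟩
    · refine mem_range_of_dvd (g := SemidirectProduct.inr ⟨g, (mem_commutator_iff_two hQ hreg h2 g).2 hd⟩) ?_
      rw [orderOf_injective _ SemidirectProduct.inr_injective, ← Subgroup.orderOf_coe]
      exact hn.trans hg
    · set x : Ext a b M := ⟨Multiplicative.ofAdd fun _ => w, ⟨g, (mem_commutator_iff_two hQ hreg h2 g).2 hd⟩⟩
      refine mem_range_of_dvd (g := x) (hn.trans (hg.trans ?_))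
      have hdiv : orderOf g ∣ orderOf x := by
        refine orderOf_dvd_of_pow_eq_one ?_
        exact congrArg Subtype.val ((pow_left a b M x (orderOf x)).2.symm.trans (congrArg SemidirectProduct.right (pow_orderOf_eq_one x)))
      obtain ⟨c, hc⟩ := hdiv
      have hc1 : c ≠ 1 := by
        rintro rfl
        rw [mul_one] at hc
        apply hw
        have h1 : (x ^ orderOf g).left = 1 := by rw [← hc, pow_orderOf_eq_one]; rfl
        rw [(pow_left a b M x _).1] at h1
        exact congrFun (congrArg Multiplicative.toAdd h1) 0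
      have hcd : c ∣ 2 := by
        refine (mul_dvd_mul_iff_left (orderOf_pos g).ne').1 ?_
        rw [← hc]
        refine orderOf_dvd_of_pow_eq_one ?_
        rw [pow_mul]
        have hr : (x ^ orderOf g).right = 1 := Subtype.ext (by
          rw [(pow_left a b M x _).2]; exact pow_orderOf_eq_one g)
        refine SemidirectProduct.ext ?_ (by rw [pow_two, SemidirectProduct.mul_right, hr, mul_one]; rfl)
        rw [pow_two, SemidirectProduct.mul_left, hr, map_one, MulAut.one_apply, SemidirectProduct.one_left]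
        refine Multiplicative.toAdd.injective (funext fun j => ?_)
        simpa using add_self_zero (F := F) ((x ^ orderOf g).left.toAdd j)
      rcases (Nat.dvd_prime Nat.prime_two).1 hcd with h | h
      · exact absurd h hc1
      · rw [hc, h, mul_comm]

theorem exists_large (F : Type u) [Field F] [Fintype F] [CharP F 2] (M : ℕ) :
    ∃ (H : Type) (_ : Group H) (_ : Fintype H), M < Fintype.card H ∧
      Set.range (orderOf : H → ℕ) = Set.range (orderOf : Cfsg.PSp 4 F → ℕ) := by
  classical
  obtain ⟨ζ, hζ⟩ := Classical.UnitaryFlat.exists_aniso F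
  haveI : Finite (Ext (1 : F) ζ M) := Finite.of_equiv _ SemidirectProduct.equivProd.symm
  let e : Shrink.{0} (Ext (1 : F) ζ M) ≃* Ext (1 : F) ζ M := Shrink.mulEquiv
  haveI : Fintype (Shrink.{0} (Ext (1 : F) ζ M)) := Fintype.ofFinite _
  refine ⟨Shrink.{0} (Ext (1 : F) ζ M), inferInstance, inferInstance, ?_, ?_⟩
  · rw [← Nat.card_eq_fintype_card, Nat.card_congr e.toEquiv, SemidirectProduct.card]
    have h1 : 2 ≤ Nat.card (Nat8 F) := Finite.one_lt_card
    have h3 : Nat.card (Copies F M) = Nat.card (Nat8 F) ^ (M + 1) := by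
      rw [Nat.card_congr Multiplicative.toAdd, Nat.card_fun, Nat.card_fin]
    refine lt_of_lt_of_le ?_ (Nat.le_mul_of_pos_right _ Nat.card_pos)
    rw [h3]
    exact (Nat.lt_two_pow_self.trans (Nat.pow_lt_pow_right one_lt_two (Nat.lt_succ_self M))).trans_le
      (Nat.pow_le_pow_left h1 _)
  · rw [range_psp hζ, ← range_ext M hζ]
    exact (e.surjective.range_comp (orderOf : _ → ℕ)) ▸ congrArg Set.range (funext fun x => (e.orderOf_eq x).symm)

end Cfsg.Agent.Lib.Recog.SpEight
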