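import Cfsg.Agent.Lib.Recog.SylowS8Data
import Cfsg.Agent.Lib.Recog.SylowA8Data

/-!
The matrix tables are injective.
-/

set_option autoImplicit false
set_option maxRecDepth 4000

namespace Cfsg.Agent.Lib.Recog.SylowS8

theorem matS_inj : ∀ i j, matS i = matS j → i = j := by decide +kernel

theorem matA_inj : ∀ i j, matA i = matA j ∨ matA i = -matA j → i = j := by decide +kernel

end Cfsg.Agent.Lib.Recog.SylowS8
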