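import Mathlib
import Cfsg.Agent.Lib.PSLTwo.KleinGroups

/-!
Isomorphism of two generated subgroups from a common multiplication table.
-/

set_option autoImplicit false

namespace Cfsg.Agent.Lib.Recog.TableIso

theorem iso_of_tables {n k : ℕ} {N M : Type*} [Group N] [Group M] [Finite N] [Finite M]
    (o : Fin n) (el : Fin n → N) (T : Fin n → M) (g : Fin k → N) (h : Fin k → M)
    (nx : Fin k → Fin n → Fin n) (par : Fin n → Fin n × Fin k)
    (hel0 : el o = 1) (hT0 : T o = 1) (hel : ∀ s i, el i * g s = el (nx s i))
    (hT : ∀ s i, T i * h s = T (nx s i)) (hinj : Function.Injective el)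
    (hinjT : Function.Injective T)
    (hpar : ∀ i, i ≠ o → (par i).1 < i ∧ nx (par i).2 (par i).1 = i) :
    Nat.card (Subgroup.closure (Set.range g)) = n ∧ Nat.card (Subgroup.closure (Set.range h)) = n ∧
      Nonempty (Subgroup.closure (Set.range g) ≃* Subgroup.closure (Set.range h)) := by
  let Γ := Subgroup.closure (Set.range fun s => (g s, h s))
  have hsub : (Γ : Set (N × M)) = Set.range fun i => (el i, T i) := by
    refine Set.Subset.antisymm (Cfsg.Agent.Lib.PSLTwo.closure_subset_of_closed ⟨o, by
      simp only [hel0, hT0]; rfl⟩ ?_) ?_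
    · rintro _ ⟨i, rfl⟩ _ ⟨s, rfl⟩
      exact ⟨nx s i, Prod.ext (hel s i).symm (hT s i).symm⟩
    · rintro _ ⟨i, rfl⟩
      induction i using WellFoundedLT.induction with
      | _ i ih =>
        by_cases hi : i = o
        · subst hi
          simp only [hel0, hT0]
          exact one_mem Γ
        · obtain ⟨hlt, hnx⟩ := hpar i hi
          have := mul_mem (ih _ hlt) (Subgroup.subset_closure (k := Set.range fun s => (g s, h s))
            ⟨(par i).2, rfl⟩)
          simp only [Prod.mk_mul_mk, hel, hT, hnx] at this
          exact this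
  have key : ∀ x : Γ, ∃ i, (el i, T i) = (x : N × M) := fun x => hsub.le x.2
  let p1 : Γ →* N := (MonoidHom.fst N M).comp Γ.subtype
  let p2 : Γ →* M := (MonoidHom.snd N M).comp Γ.subtype
  have hr1 : p1.range = Subgroup.closure (Set.range g) := by
    rw [MonoidHom.range_comp, Subgroup.range_subtype, MonoidHom.map_closure, ← Set.range_comp]
    rfl
  have hr2 : p2.range = Subgroup.closure (Set.range h) := by
    rw [MonoidHom.range_comp, Subgroup.range_subtype, MonoidHom.map_closure, ← Set.range_comp]
    rfl
  have hi1 : Function.Injective p1 := fun x y hxy => by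
    obtain ⟨i, hi⟩ := key x
    obtain ⟨j, hj⟩ := key y
    have e : i = j := hinj ((congrArg Prod.fst hi).trans (hxy.trans (congrArg Prod.fst hj).symm))
    exact Subtype.ext (by rw [← hi, ← hj, e])
  have hi2 : Function.Injective p2 := fun x y hxy => by
    obtain ⟨i, hi⟩ := key x
    obtain ⟨j, hj⟩ := key y
    have e : i = j := hinjT ((congrArg Prod.snd hi).trans (hxy.trans (congrArg Prod.snd hj).symm))
    exact Subtype.ext (by rw [← hi, ← hj, e])
  let e1 := (MonoidHom.ofInjective hi1).trans (MulEquiv.subgroupCongr hr1)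
  let e2 := (MonoidHom.ofInjective hi2).trans (MulEquiv.subgroupCongr hr2)
  have hcard : Nat.card Γ = n := by
    rw [← SetLike.coe_sort_coe, hsub, Nat.card_range_of_injective, Nat.card_fin]
    exact fun i j hij => hinj (congrArg Prod.fst hij)
  exact ⟨(Nat.card_congr e1.toEquiv).symm.trans hcard, (Nat.card_congr e2.toEquiv).symm.trans hcard,
    ⟨e1.symm.trans e2⟩⟩

end Cfsg.Agent.Lib.Recog.TableIso
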