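import Cfsg.Agent.Lib.Recog.U34Tables
import Cfsg.Agent.Lib.Classical.Unitary
import Cfsg.Agent.S0779
import Cfsg.Agent.S0780

/-! `SU₃(4)` acting on a twelve-dimensional module over the field of five elements. -/

set_option autoImplicit false

namespace Cfsg.Agent.Lib.Recog.U34

open scoped Matrix

/-- the group -/
abbrev G : Subgroup (Matrix.SpecialLinearGroup (Fin 3) K) := Cfsg.SU 3 K 4

/-- matrices of the module -/
abbrev M12 : Type := Matrix (Fin 12) (Fin 12) (ZMod 5)

/-- the underlying matrix -/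
abbrev mat (g : G) : Matrix (Fin 3) (Fin 3) K := ((g : Matrix.SpecialLinearGroup (Fin 3) K) : Matrix (Fin 3) (Fin 3) K)

theorem hermForm_self (w : Fin 3 → K) : Cfsg.hermForm 3 K 4 w w = herm w := by
  simp only [Cfsg.hermForm, Fin.sum_univ_three, K.pow_four, herm]

theorem q3_eq (a : K) : a ^ 3 = K.q3 a := by rw [K.q3]; ring

theorem neg_one_eq : (-1 : K) = 1 := rfl

theorem ut_eq (w : Fin 3 → K) (c : K) : Cfsg.unitaryTransvection 3 4 w c = tvM w c := by
  ext i j
  simp only [Cfsg.unitaryTransvection, tvM, Matrix.add_apply, Matrix.one_apply, Matrix.smul_apply,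
    Matrix.vecMulVec_apply, smul_eq_mul, K.pow_four]

theorem genG_eq (n : ℕ) :
    genG n = tvM (vec (genSpec.getD n (0, 0)).1) (K.of (genSpec.getD n (0, 0)).2) := rfl

/-- a generator -/
def gG (n : Fin 4) : G :=
  ⟨⟨genG n.val, by
      rw [Matrix.det_fin_three]
      revert n
      decide +kernel⟩, fun u v => by
    obtain ⟨h1, h2⟩ := gen_iso n
    by_cases hv : vec (genSpec.getD n.val (0, 0)).1 = 0
    · show Cfsg.hermForm 3 K 4 (genG n.val *ᵥ u) (genG n.val *ᵥ v) = _
      have : genG n.val = 1 := by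
        rw [genG_eq, hv]
        ext i j
        simp [tvM, Matrix.one_apply]
      rw [this, Matrix.one_mulVec, Matrix.one_mulVec]
    · have := (Cfsg.Agent.S0779.result K.card_eq 3 (vec (genSpec.getD n.val (0, 0)).1) hv
        ((hermForm_self _).trans h1) (K.of (genSpec.getD n.val (0, 0)).2)).2
        (Or.inr (by rw [show (4 - 1 : ℕ) = 3 from rfl, q3_eq, h2, neg_one_eq])) u v
      rw [ut_eq, ← genG_eq] at this
      exact this⟩

/-- coordinates of a frame -/
def beta (r : ℕ) : Fin 12 → ZMod 5 := fun i => (betaN r i.val : ZMod 5)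

theorem natCast_mod5 (a : ℕ) : ((a % 5 : ℕ) : ZMod 5) = a := ZMod.natCast_mod a 5

theorem genM_sq (n : Fin 4) :
    (Matrix.of fun i j : Fin 12 => (genMN n.val i.val j.val : ZMod 5)) *
      (Matrix.of fun i j : Fin 12 => (genMN n.val i.val j.val : ZMod 5)) = 1 := by
  ext i j
  have h := congrArg (fun x : ℕ => (x : ZMod 5)) (gen_invol n i j)
  simp only [mul12, natCast_mod5, Nat.cast_list_sum, List.map_map, apply_ite (Nat.cast : ℕ → ZMod 5),
    Nat.cast_one, Nat.cast_zero] at h
  rw [Matrix.mul_apply, Matrix.one_apply, Fin.sum_univ_def, ← h]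
  refine congrArg List.sum (List.map_congr_left fun l _ => ?_)
  simp [Matrix.of_apply]

/-- a generator in the module -/
def genM (n : Fin 4) : GL (Fin 12) (ZMod 5) :=
  ⟨Matrix.of fun i j : Fin 12 => (genMN n.val i.val j.val : ZMod 5),
    Matrix.of fun i j : Fin 12 => (genMN n.val i.val j.val : ZMod 5), genM_sq n, genM_sq n⟩

/-- certificates of the generators -/
def certOf : Fin 4 → List (List ℕ) := ![cert0, cert1, cert2, cert3]

theorem frames (n : Fin 4) {r : ℕ} (hr : r < 416) : frameOK (certOf n) n.val r = true := by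
  fin_cases n
  · exact List.all_eq_true.1 frames_0 r (List.mem_range.2 hr)
  · exact List.all_eq_true.1 frames_1 r (List.mem_range.2 hr)
  · exact List.all_eq_true.1 frames_2 r (List.mem_range.2 hr)
  · exact List.all_eq_true.1 frames_3 r (List.mem_range.2 hr)

theorem gen_image (n : Fin 4) {r : ℕ} (hr : r < 416) : ∃ r', r' < 416 ∧ ∃ (k : Fin 6) (l : Fin 3 → K),
    (∀ i, l i ≠ 0) ∧ (∀ i, genG n.val *ᵥ rep r i = l i • rep r' (prm k i)) ∧
      (genM n : M12) *ᵥ beta r = (sgN k : ZMod 5) • beta r' := by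
  have h := frames n hr
  simp only [frameOK, Bool.and_eq_true, List.all_eq_true, decide_eq_true_eq] at h
  obtain ⟨⟨hr', hv⟩, hM⟩ := h
  refine ⟨_, hr', Fin.ofNat 6 ((look (certOf n) r >>> 9) % 8), fun i : Fin 3 => K.of (look (certOf n) r >>> (12 + 4 * i.val)),
    fun i => (hv i (List.mem_finRange i)).1, fun i => ?_, ?_⟩
  · funext j
    rw [Matrix.mulVec, dotProduct, Fin.sum_univ_three]
    exact (hv i (List.mem_finRange i)).2 j (List.mem_finRange j)
  · funext i
    have e := congrArg (fun x : ℕ => (x : ZMod 5)) (hM i.val (List.mem_range.2 i.isLt))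
    simp only [natCast_mod5, Nat.cast_list_sum, List.map_map, Nat.cast_mul] at e
    rw [Pi.smul_apply, smul_eq_mul, beta, ← e, Matrix.mulVec, dotProduct, Fin.sum_univ_def,
      ← List.map_coe_finRange_eq_range, List.map_map]
    refine congrArg List.sum (List.map_congr_left fun l _ => ?_)
    simp [genM, beta]

/-- a frame with a multiple of its coordinates -/
def Rel (x : Fin 3 → Fin 3 → K) (z : Fin 12 → ZMod 5) : Prop :=
  ∃ (r : ℕ) (k : Fin 6) (l : Fin 3 → K), r < 416 ∧ (∀ i, l i ≠ 0) ∧
    (∀ i, x i = l i • rep r (prm k i)) ∧ z = (sgN k : ZMod 5) • beta r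

/-- compatibility of a pair -/
def Compat (p : G × GL (Fin 12) (ZMod 5)) : Prop :=
  ∀ x z, Rel x z → Rel (fun i => mat p.1 *ᵥ x i) ((p.2 : M12) *ᵥ z)

theorem prm_comp : ∀ a b : Fin 6, ∃ c : Fin 6, (∀ i, prm c i = prm a (prm b i)) ∧
    sgN c % 5 = sgN b * sgN a % 5 := by
  decide +kernel

theorem compat_gen (n : Fin 4) : Compat (gG n, genM n) := by
  rintro x z ⟨r, k, l, hr, hl, hx, rfl⟩
  obtain ⟨r', hr', k', l', hl', hg, hM⟩ := gen_image n hr
  obtain ⟨c, hc, hs⟩ := prm_comp k' k
  refine ⟨r', c, fun i => l i * l' (prm k i), hr', fun i => mul_ne_zero (hl i) (hl' _), fun i => ?_, ?_⟩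
  · show genG n.val *ᵥ x i = _
    rw [hx, Matrix.mulVec_smul, hg, smul_smul, hc]
  · have e := congrArg (fun x : ℕ => (x : ZMod 5)) hs
    simp only [natCast_mod5, Nat.cast_mul] at e
    rw [Matrix.mulVec_smul, hM, smul_smul, e]

theorem compat_mul {p q : G × GL (Fin 12) (ZMod 5)} (hp : Compat p) (hq : Compat q) : Compat (p * q) := by
  intro x z h
  have := hp _ _ (hq x z h)
  simpa [mat, Matrix.mulVec_mulVec] using this

theorem compat_one : Compat 1 := fun x z h => by simpa [mat] using h

/-- the pairs -/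
def Kp : Subgroup (G × GL (Fin 12) (ZMod 5)) := Subgroup.closure {p | ∃ n, p = (gG n, genM n)}

instance : Finite (GL (Fin 12) (ZMod 5)) := inferInstance

theorem compat_of_mem {p : G × GL (Fin 12) (ZMod 5)} (hp : p ∈ Kp) : Compat p := by
  induction hp using Subgroup.closure_induction with
  | mem p hp => obtain ⟨n, rfl⟩ := hp; exact compat_gen n
  | one => exact compat_one
  | mul p q _ _ hp hq => exact compat_mul hp hq
  | inv p _ hp =>
    have hpow : ∀ k : ℕ, Compat (p ^ k) := by
      intro k
      induction k with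
      | zero => rw [pow_zero]; exact compat_one
      | succ k ih => rw [pow_succ]; exact compat_mul ih hp
    obtain ⟨k, hk⟩ : ∃ k : ℕ, p⁻¹ = p ^ k :=
      ⟨orderOf p - 1, inv_eq_of_mul_eq_one_right (by
        rw [← pow_succ', Nat.sub_add_cancel (orderOf_pos p), pow_orderOf_eq_one])⟩
    exact hk ▸ hpow k

theorem code_vec : (List.range 4096).all (fun c => code (vec c) == c) = true := by decide +kernel

theorem first_smul (l : K) (w : Fin 3 → K) : first (l • w) = l * first w := by
  rcases eq_or_ne l 0 with rfl | hl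
  · simp [first]
  · simp only [first, Pi.smul_apply, smul_eq_mul, ne_eq, mul_eq_zero, hl, false_or]
    split_ifs <;> rfl

theorem unique_rel {b : Fin 12} {z : Fin 12 → ZMod 5}
    (h : Rel (fun i => rep (basisTbl.getD b.val 0) i) z) : z = beta (basisTbl.getD b.val 0) := by
  obtain ⟨r, k, l, hr, hl, hx, rfl⟩ := h
  have hb := (basis_ok b).1
  have hone : ∀ s, s < 416 → ∀ i, first (rep s i) = 1 := fun s hs i => by
    have := List.all_eq_true.1 rep_first s (List.mem_range.2 hs)
    simpa using List.all_eq_true.1 this i (List.mem_finRange i)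
  have hl1 : ∀ i, l i = 1 := fun i => by
    have := congrArg first (hx i)
    rwa [first_smul, hone _ hb, hone _ hr, mul_one, eq_comm] at this
  have hslot : ∀ i : Fin 3, slot (basisTbl.getD b.val 0) i.val = slot r (prm k i).val := fun i => by
    have e := congrArg code (hx i)
    simp only [hl1, one_smul, rep] at e
    have hlt : ∀ s t, slot s t < 4096 := fun s t => Nat.mod_lt _ (by norm_num)
    have hc : ∀ c < 4096, code (vec c) = c := fun c hc =>
      by simpa using List.all_eq_true.1 code_vec c (List.mem_range.2 hc)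
    rwa [hc _ (hlt _ _), hc _ (hlt _ _)] at e
  have hu := List.all_eq_true.1 (List.all_eq_true.1 (List.all_eq_true.1 unique_ok b.val (List.mem_range.2 b.isLt))
    r (List.mem_range.2 hr)) k (List.mem_finRange k)
  have h0 := hslot 0
  have h1 := hslot 1
  have h2 := hslot 2
  simp only [Fin.val_zero, Fin.val_one, Fin.val_two] at h0 h1 h2
  simp only [h0, h1, h2, beq_self_eq_true, Bool.and_self, Bool.not_true, Bool.false_or, Bool.and_eq_true,
    decide_eq_true_eq] at hu
  rw [hu.1, hu.2]
  simp [sgN]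

theorem pair_inj {p : G × GL (Fin 12) (ZMod 5)} (hp : p ∈ Kp) (h : p.1 = 1) : p.2 = 1 := by
  refine Units.ext (Matrix.ext_of_mulVec_single fun b => ?_)
  have hb := basis_ok b
  have he : beta (basisTbl.getD b.val 0) = Pi.single b 1 := by
    funext i
    rw [beta, hb.2 i, Pi.single_apply]
    split_ifs <;> simp
  have hrel : Rel (fun i => rep (basisTbl.getD b.val 0) i) (beta (basisTbl.getD b.val 0)) :=
    ⟨_, 0, fun _ => 1, hb.1, fun _ => one_ne_zero, fun i => by
      rw [one_smul]; fin_cases i <;> rfl, by simp [sgN]⟩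
  have h2 := compat_of_mem hp _ _ hrel
  simp only [h] at h2
  have h3 := unique_rel (b := b) (z := (p.2 : M12) *ᵥ beta (basisTbl.getD b.val 0)) (by
    simpa [mat] using h2)
  rw [he] at h3
  rw [Units.val_one, Matrix.one_mulVec]
  exact h3

/-- projection -/
def toG : Kp →* G := (MonoidHom.fst _ _).comp Kp.subtype

theorem mem_image (n : Fin 4) : gG n ∈ Kp.map (MonoidHom.fst G (GL (Fin 12) (ZMod 5))) :=
  ⟨(gG n, genM n), Subgroup.subset_closure ⟨n, rfl⟩, rfl⟩

theorem first_eq_zero {w : Fin 3 → K} (h : first w = 0) : w = 0 := by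
  unfold first at h
  split_ifs at h with h0 h1
  · exact absurd h h0
  · exact absurd h h1
  · funext i; fin_cases i
    · exact not_not.1 h0
    · exact not_not.1 h1
    · exact h

theorem vec_code : ∀ a b c : K, vec (code ![a, b, c]) = ![a, b, c] := by
  decide +kernel

theorem tvM_smul (s : K) (w : Fin 3 → K) (c : K) : tvM (s • w) c = tvM w (c * (s * K.q4 s)) := by
  ext i j
  simp only [tvM, Pi.smul_apply, smul_eq_mul, K.q4]
  ring

theorem tv_mem (A : G) (v : Fin 3 → K) (c : K) (hv : Cfsg.hermForm 3 K 4 v v = 0)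
    (hA : mat A = Cfsg.unitaryTransvection 3 4 v c) : A ∈ Kp.map (MonoidHom.fst G (GL (Fin 12) (ZMod 5))) := by
  rw [ut_eq] at hA
  have hid : mat A = 1 → A ∈ Kp.map (MonoidHom.fst G (GL (Fin 12) (ZMod 5))) := fun e => by
    rw [show A = 1 from Subtype.ext (Subtype.ext e)]; exact one_mem _
  rcases eq_or_ne v 0 with rfl | hv0
  · exact hid (by rw [hA]; ext i j; simp [tvM, Matrix.one_apply])
  set s := first v with hs
  have hs0 : s ≠ 0 := fun e => hv0 (first_eq_zero e)
  set w := s⁻¹ • v with hw
  have hvw : v = s • w := by rw [hw, smul_smul, mul_inv_cancel₀ hs0, one_smul]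
  have hfw : first w = 1 := by rw [hw, first_smul, ← hs, inv_mul_cancel₀ hs0]
  have hhw : herm w = 0 := by
    rw [hermForm_self] at hv
    have hh : herm w = s⁻¹ * K.q4 s⁻¹ * herm v := by
      simp only [hw, herm, K.q4, Pi.smul_apply, smul_eq_mul]; ring
    rw [hh, hv, mul_zero]
  rw [hvw, tvM_smul] at hA
  set d := c * (s * K.q4 s)
  have hwut : mat A = Cfsg.unitaryTransvection 3 4 w d := by rw [ut_eq]; exact hA
  have hw0 : w ≠ 0 := fun e => by rw [e] at hfw; simp [first] at hfw
  have hd := (Cfsg.Agent.S0779.result K.card_eq 3 w hw0 ((hermForm_self w).trans hhw) d).1 fun x y => by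
    rw [← hwut]; exact A.2 x y
  rw [show (4 - 1 : ℕ) = 3 from rfl, q3_eq, neg_one_eq] at hd
  rcases hd with hd | hd
  · exact hid (by rw [hA, hd]; ext i j; simp [tvM, Matrix.one_apply])
  obtain ⟨e, he, hec⟩ := List.any_eq_true.1 (iso_complete (w 0) (w 1) (w 2)
    (by rw [← hfw]; congr 1; funext i; fin_cases i <;> rfl)
    (by rw [← hhw]; congr 1; funext i; fin_cases i <;> rfl))
  obtain ⟨i, hi, hie⟩ := List.getElem_of_mem he
  have hwe : w = vec (isoTbl.getD i (0, 0, 0)).1 := by
    rw [List.getD_eq_getElem _ _ hi, hie, beq_iff_eq.1 hec]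
    rw [vec_code]
    funext j; fin_cases j <;> rfl
  rw [iso_root.2.1] at hi
  clear_value d
  rw [hwe] at hA
  clear hwut hwe hec hie he hw hvw hfw hhw hid
  induction i using Nat.strong_induction_on generalizing d A with
  | _ i ih =>
    rcases Nat.eq_zero_or_pos i with rfl | hpos
    · have h3 : ∀ a : K, K.q3 a = 1 → a = 1 ∨ a = K.of 6 ∨ a = 1 * 1 + K.of 6 := by decide +kernel
      have e0 : mat (gG 0) = tvM (vec (isoTbl.getD 0 (0, 0, 0)).1) 1 := by
        show genG 0 = _
        rw [genG_eq, iso_root.2.2.1, iso_root.2.2.2.2.1]; rfl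
      have e1 : mat (gG 1) = tvM (vec (isoTbl.getD 0 (0, 0, 0)).1) (K.of 6) := by
        show genG 1 = _
        rw [genG_eq, iso_root.2.2.2.1, ← iso_root.2.2.1, iso_root.2.2.2.2.2]
      rcases h3 d hd with rfl | rfl | rfl
      · rw [show A = gG 0 from Subtype.ext (Subtype.ext (hA.trans e0.symm))]; exact mem_image 0
      · rw [show A = gG 1 from Subtype.ext (Subtype.ext (hA.trans e1.symm))]; exact mem_image 1
      · rw [show A = gG 0 * gG 1 from Subtype.ext (Subtype.ext (hA.trans ?_))]
        · exact mul_mem (mem_image 0) (mem_image 1)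
        · show _ = mat (gG 0) * mat (gG 1)
          rw [e0, e1]
          revert hA
          intro _
          decide +kernel
    have ht := List.all_eq_true.1 tree_ok i (List.mem_range.2 hi)
    simp only [treeOK, Bool.or_eq_true, decide_eq_true_eq, hpos.ne', false_or, Bool.and_eq_true,
      List.all_eq_true, List.any_eq_true, List.mem_range, beq_iff_eq] at ht
    obtain ⟨⟨hp, hn⟩, hall⟩ := ht
    have hdof : K.of d.n.val = d := by
      have hc : ∀ a : K, K.of a.n.val = a := by decide +kernel
      exact hc d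
    rcases hall d.n.val d.n.isLt with hbad | ⟨b, hb, hb3, heq⟩
    · rw [hdof] at hbad; simp [hd] at hbad
    rw [hdof] at heq
    set n : Fin 4 := ⟨(isoTbl.getD i (0, 0, 0)).2.2, hn⟩
    have hconj : mat ((gG n)⁻¹ * A * gG n) = tvM (vec (isoTbl.getD (isoTbl.getD i (0, 0, 0)).2.1 (0, 0, 0)).1)
        (K.of b) := by
      have hm : genG n.val * tvM (vec (isoTbl.getD (isoTbl.getD i (0, 0, 0)).2.1 (0, 0, 0)).1) (K.of b) =
          mat A * genG n.val := by
        rw [hA]
        ext r s
        rw [Matrix.mul_apply, Matrix.mul_apply, Fin.sum_univ_three, Fin.sum_univ_three]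
        exact heq r (List.mem_finRange r) s (List.mem_finRange s)
      show mat ((gG n)⁻¹) * mat A * genG n.val = _
      rw [Matrix.mul_assoc, ← hm, ← Matrix.mul_assoc,
        show mat ((gG n)⁻¹) * genG n.val = mat ((gG n)⁻¹ * gG n) from rfl, inv_mul_cancel]
      exact Matrix.one_mul _
    have := ih _ hp ((gG n)⁻¹ * A * gG n) (K.of b) hb3 hconj (iso_root.2.1 ▸ hp.trans hi) (hp.trans hi)
    have h2 := mul_mem (mul_mem (mem_image n) this) (inv_mem (mem_image n))
    simpa [mul_assoc] using h2

theorem toG_bijective : Function.Bijective toG := by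
  refine ⟨(injective_iff_map_eq_one toG).2 fun p hp => Subtype.ext (Prod.ext hp (pair_inj p.2 hp)), fun g => ?_⟩
  have htop : (⊤ : Subgroup G) ≤ Kp.map (MonoidHom.fst G (GL (Fin 12) (ZMod 5))) := by
    rw [← Cfsg.Agent.S0780.result K.card_eq 3 le_rfl (by norm_num), Subgroup.closure_le]
    rintro A ⟨v, c, hv, hA⟩
    exact tv_mem A v c hv hA
  obtain ⟨p, hp, hpe⟩ := htop (Subgroup.mem_top g)
  exact ⟨⟨p, hp⟩, hpe⟩

/-- the twelve-dimensional representation -/
noncomputable def rho : G →* GL (Fin 12) (ZMod 5) :=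
  ((MonoidHom.snd _ _).comp Kp.subtype).comp (MulEquiv.ofBijective toG toG_bijective).symm.toMonoidHom

theorem rho_g (n : Fin 4) : rho (gG n) = genM n := by
  show ((MulEquiv.ofBijective toG toG_bijective).symm (gG n)).1.2 = _
  rw [show (MulEquiv.ofBijective toG toG_bijective).symm (gG n) =
    ⟨(gG n, genM n), Subgroup.subset_closure ⟨n, rfl⟩⟩ from
    (MulEquiv.ofBijective toG toG_bijective).symm_apply_eq.2 rfl]

/-- a product of generators -/
def word (w : List (Fin 4)) : G := (w.map gG).prod

theorem mat_word (w : List (Fin 4)) : mat (word w) = wordG w := by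
  induction w with
  | nil => ext i j; simp [word, wordG, mat, Matrix.one_apply]; rfl
  | cons n w ih =>
    show genG n.val * mat (word w) = _
    rw [ih]
    ext i j
    rw [Matrix.mul_apply, Fin.sum_univ_three]
    rfl

theorem orderOf_word {L : List ℕ} {w : List (Fin 4)} {n : ℕ} (hn : 0 < n) (h : powOK L w n = true) :
    orderOf (word w) = n := by
  simp only [powOK, Bool.and_eq_true, List.all_eq_true, List.mem_range, decide_eq_true_eq, beq_iff_eq] at h
  obtain ⟨hstep, hone⟩ := h
  have hiff : ∀ k, k < n + 1 → ((∀ i j, powAt L k i j = if i = j then 1 else 0) ↔ (k = 0 ∨ k = n)) := by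
    intro k hk
    have := hone k hk
    rw [Bool.eq_iff_iff] at this
    simpa [List.all_eq_true] using this.symm
  have hpow : ∀ k, k ≤ n → mat (word w ^ k) = powAt L k := by
    intro k hk
    induction k with
    | zero =>
      ext i j
      rw [(hiff 0 (by omega)).2 (Or.inl rfl) i j]
      simp [mat, Matrix.one_apply]
    | succ k ih =>
      rw [pow_succ]
      show mat (word w ^ k) * mat (word w) = _
      rw [ih (by omega), mat_word]
      ext i j
      rw [Matrix.mul_apply, Fin.sum_univ_three, hstep k (by omega) i (List.mem_finRange i) j (List.mem_finRange j)]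
  have heq : ∀ k, k ≤ n → (word w ^ k = 1 ↔ (k = 0 ∨ k = n)) := by
    intro k hk
    rw [← hiff k (by omega)]
    constructor
    · intro e i j; rw [← hpow k hk, e]; simp [mat, Matrix.one_apply]
    · intro e
      exact Subtype.ext (Subtype.ext ((hpow k hk).trans (by ext i j; simp [e i j, Matrix.one_apply])))
  rw [orderOf_eq_iff hn]
  refine ⟨(heq n le_rfl).2 (Or.inr rfl), fun k hk hk0 e => ?_⟩
  rcases (heq k hk.le).1 e with h | h <;> omega

theorem rho_word (w : List (Fin 4)) :
    (rho (word w) : M12) = Matrix.of fun i j => (wordN w i j : ZMod 5) := by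
  induction w with
  | nil =>
    ext i j
    simp [word, wordN, Matrix.one_apply, apply_ite (Nat.cast : ℕ → ZMod 5)]
  | cons n w ih =>
    have : word (n :: w) = gG n * word w := rfl
    rw [this, map_mul, Units.val_mul, ih, rho_g]
    ext i j
    rw [Matrix.mul_apply, Matrix.of_apply, show wordN (n :: w) i j =
      mul12 (fun a b => genMN n.val a.val b.val) (wordN w) i j from rfl, mul12, natCast_mod5,
      Nat.cast_list_sum, List.map_map, Fin.sum_univ_def]
    refine congrArg List.sum (List.map_congr_left fun l _ => ?_)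
    simp [genM]

theorem free13 (v : Fin 12 → ZMod 5) (hv : (rho (word w13) : M12) *ᵥ v = v) : v = 0 := by
  rw [rho_word] at hv
  let W : M12 := Matrix.of fun i j => (wordN w13 i j : ZMod 5)
  let B : M12 := Matrix.of fun i l => (((invTbl13.getD i.val 0 >>> (4 * l.val)) % 16 : ℕ) : ZMod 5)
  have hB : B * (W - 1) = 1 := by
    ext i j
    have h := congrArg (fun x : ℕ => (x : ZMod 5)) (inv13_ok i j)
    simp only [natCast_mod5, Nat.cast_list_sum, List.map_map, apply_ite (Nat.cast : ℕ → ZMod 5), Nat.cast_one,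
      Nat.cast_zero] at h
    rw [Matrix.mul_apply, Matrix.one_apply, Fin.sum_univ_def, ← h]
    refine congrArg List.sum (List.map_congr_left fun l _ => ?_)
    simp only [B, W, Function.comp_apply, Matrix.sub_apply, Matrix.of_apply, Matrix.one_apply]
    generalize wordN w13 l j = x
    have h4 : (4 : ZMod 5) = -1 := rfl
    split_ifs <;> simp [h4, sub_eq_add_neg]
  calc v = (B * (W - 1)) *ᵥ v := by rw [hB, Matrix.one_mulVec]
    _ = 0 := by rw [← Matrix.mulVec_mulVec, Matrix.sub_mulVec, Matrix.one_mulVec, hv, sub_self, Matrix.mulVec_zero]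

theorem card_G : Nat.card G = 2 ^ 6 * 3 * 5 ^ 2 * 13 := by
  have h := Cfsg.Agent.Lib.Classical.Herm.card_SU (F := K) (q := 4) K.card_eq (n := 3) (by norm_num)
  rw [Cfsg.Agent.Lib.Classical.Herm.card_GU K.card_eq 3, Finset.prod_range_succ, Finset.prod_range_succ,
    Finset.prod_range_one] at h
  simp +decide at h
  show Nat.card ↥(Cfsg.SU 3 K 4) = _
  norm_num
  omega

theorem fix_free {p : ℕ} (hp : p.Prime) (hexp : (Nat.card G).factorization p = 1) {a x : G}
    (ha : orderOf a = p) (hfree : ∀ v, (rho a : M12) *ᵥ v = v → v = 0) (hx : orderOf x = p)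
    (v : Fin 12 → ZMod 5) (hv : (rho x : M12) *ᵥ v = v) : v = 0 := by
  haveI := Fact.mk hp
  have hc : ∀ y : G, orderOf y = p → ∃ P : Sylow p G, (P : Subgroup G) = Subgroup.zpowers y := fun y hy =>
    ⟨Sylow.ofCard (Subgroup.zpowers y) (by rw [Nat.card_zpowers, hy, hexp, pow_one]), by simp⟩
  obtain ⟨P, hP⟩ := hc a ha
  obtain ⟨Q, hQ⟩ := hc x hx
  obtain ⟨c, hc'⟩ := MulAction.exists_smul_eq G Q P
  have hax : a ∈ Subgroup.zpowers (MulAut.conj c x) := by
    have h1 : a ∈ ((c • Q : Sylow p G) : Subgroup G) := by rw [hc', hP]; exact Subgroup.mem_zpowers a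
    rw [Sylow.coe_subgroup_smul, hQ, Subgroup.mem_pointwise_smul_iff_inv_smul_mem,
      Subgroup.mem_zpowers_iff] at h1
    obtain ⟨k, hk⟩ := h1
    refine Subgroup.mem_zpowers_iff.2 ⟨k, ?_⟩
    rw [← map_zpow, hk]
    simp [MulAut.smul_def, mul_assoc]
  obtain ⟨k, hk⟩ := (mem_powers_iff_mem_zpowers.2 hax)
  have hfix : (rho a : M12) *ᵥ ((rho c : M12) *ᵥ v) = (rho c : M12) *ᵥ v := by
    rw [← hk]
    simp only [map_pow, MulAut.conj_apply, map_mul, map_inv]
    rw [conj_pow, Units.val_mul, Units.val_mul, Units.val_pow_eq_pow_val,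
      Matrix.mulVec_mulVec, Matrix.mul_assoc, ← Units.val_mul, inv_mul_cancel, Units.val_one, Matrix.mul_one,
      ← Matrix.mulVec_mulVec]
    congr 1
    clear hk
    induction k with
    | zero => rw [pow_zero, Matrix.one_mulVec]
    | succ k ih => rw [pow_succ, ← Matrix.mulVec_mulVec, hv, ih]
  have h0 := hfree _ hfix
  calc v = (((rho c)⁻¹ : GL (Fin 12) (ZMod 5)) : M12) *ᵥ ((rho c : M12) *ᵥ v) := by
        rw [Matrix.mulVec_mulVec, ← Units.val_mul, inv_mul_cancel, Units.val_one, Matrix.one_mulVec]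
    _ = 0 := by rw [h0, Matrix.mulVec_zero]

/-- the module in `m` copies -/
abbrev V (m : ℕ) : Type := Multiplicative (Fin m → Fin 12 → ZMod 5)

/-- the action on the module -/
noncomputable def act (m : ℕ) : G →* MulAut (V m) where
  toFun g :=
    { toFun := fun v => Multiplicative.ofAdd fun k => (rho g : M12) *ᵥ v.toAdd k
      invFun := fun v => Multiplicative.ofAdd fun k => (((rho g)⁻¹ : GL (Fin 12) (ZMod 5)) : M12) *ᵥ v.toAdd k
      left_inv := fun v => by
        apply Multiplicative.toAdd.injective; funext k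
        simp [Matrix.mulVec_mulVec, ← Units.val_mul]
      right_inv := fun v => by
        apply Multiplicative.toAdd.injective; funext k
        simp [Matrix.mulVec_mulVec, ← Units.val_mul]
      map_mul' := fun v w => by
        apply Multiplicative.toAdd.injective; funext k
        simp [Matrix.mulVec_add] }
  map_one' := by
    ext v : 1
    apply Multiplicative.toAdd.injective; funext k
    simp
  map_mul' g h := by
    ext v : 1
    apply Multiplicative.toAdd.injective; funext k
    simp [Matrix.mulVec_mulVec]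

/-- the groups with the same prime graph -/
abbrev H (m : ℕ) : Type := V m ⋊[act m] G

instance (m : ℕ) : Finite (H m) := Finite.of_equiv _ SemidirectProduct.equivProd.symm

theorem card_H (m : ℕ) : Nat.card (H m) = 5 ^ (12 * m) * Nat.card G := by
  rw [SemidirectProduct.card, Nat.card_congr Multiplicative.toAdd, Nat.card_fun, Nat.card_fun,
    Nat.card_zmod, Nat.card_fin, Nat.card_fin, ← pow_mul]

theorem primes_eq {m p : ℕ} (hp : p.Prime) : p ∣ Nat.card G ↔ p ∣ Nat.card (H m) := by
  rw [card_H]
  refine ⟨fun h => dvd_mul_of_dvd_right h _, fun h => (hp.dvd_mul.1 h).elim (fun h5 => ?_) id⟩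
  exact (hp.dvd_of_dvd_pow h5).trans (by rw [card_G]; norm_num)

theorem pow_five (m : ℕ) (v : V m) : v ^ 5 = 1 := by
  apply Multiplicative.toAdd.injective
  funext k i
  simp only [toAdd_pow, toAdd_one, Pi.smul_apply, Pi.zero_apply, nsmul_eq_mul]
  rw [show ((5 : ℕ) : ZMod 5) = 0 from rfl, zero_mul]

theorem edge_fixed {p : ℕ} (hp : p.Prime) (hp5 : p ≠ 5) {x : G} (hx : orderOf x = p) {v : Fin 12 → ZMod 5}
    (hv0 : v ≠ 0) (hv : (rho x : M12) *ᵥ v = v) : ∃ y : G, orderOf y = 5 * p := by
  have hd : p ∣ 2 ^ 6 * 3 * 5 ^ 2 * 13 := by rw [← card_G, ← hx]; exact orderOf_dvd_natCard x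
  have hpp : ∀ q : ℕ, q.Prime → p ∣ q → p = q := fun q hq h => (Nat.prime_dvd_prime_iff_eq hp hq).1 h
  have hmem : p = 2 ∨ p = 3 ∨ p = 13 := by
    rcases hp.dvd_mul.1 hd with h | h
    · rcases hp.dvd_mul.1 h with h | h
      · rcases hp.dvd_mul.1 h with h | h
        · exact Or.inl (hpp 2 Nat.prime_two (hp.dvd_of_dvd_pow h))
        · exact Or.inr (Or.inl (hpp 3 Nat.prime_three h))
      · exact absurd (hpp 5 (by norm_num) (hp.dvd_of_dvd_pow h)) hp5
    · exact Or.inr (Or.inr (hpp 13 (by norm_num) h))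
  rcases hmem with rfl | rfl | rfl
  · exact ⟨word w10, orderOf_word (by norm_num) pow10_ok⟩
  · exact ⟨word w15, orderOf_word (by norm_num) pow15_ok⟩
  · refine absurd (fix_free hp ?_ (orderOf_word (by norm_num) pow13_ok) free13 hx v hv) hv0
    rw [card_G, show (2 ^ 6 * 3 * 5 ^ 2 * 13 : ℕ) = 13 * (2 ^ 6 * 3 * 5 ^ 2) by norm_num,
      Nat.factorization_mul (by norm_num) (by norm_num), Finsupp.add_apply, hp.factorization_self,
      Nat.factorization_eq_zero_of_not_dvd (n := _) (by norm_num)]

theorem edge_aux {m p q : ℕ} (hp : p.Prime) (hq : q.Prime) (hpq : p ≠ q) {h : H m} (ho : orderOf h = p * q)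
    (hx : orderOf h.right = p) : ∃ g : G, orderOf g = p * q := by
  have hone : (h ^ p).right = 1 := by
    have : SemidirectProduct.rightHom (h ^ p) = (1 : G) := by
      rw [map_pow, SemidirectProduct.rightHom_eq_right, ← hx, pow_orderOf_eq_one]
    rwa [SemidirectProduct.rightHom_eq_right] at this
  obtain ⟨v, hv⟩ : ∃ v : V m, h ^ p = (SemidirectProduct.inl v : H m) :=
    ⟨(h ^ p).left, SemidirectProduct.ext (by simp) (by simp [hone])⟩
  have hov : orderOf v = q := by
    rw [← orderOf_injective (SemidirectProduct.inl : V m →* H m) SemidirectProduct.inl_injective v, ← hv,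
      orderOf_pow_of_dvd hp.ne_zero (ho ▸ dvd_mul_right p q), ho, Nat.mul_div_cancel_left _ hp.pos]
  have hne : v ≠ 1 := fun e => by rw [e, orderOf_one] at hov; exact hq.one_lt.ne hov
  have hq5 : q = 5 := by
    have : orderOf v ∣ 5 := orderOf_dvd_of_pow_eq_one (pow_five m v)
    rw [hov] at this
    exact (Nat.prime_dvd_prime_iff_eq hq (by norm_num)).1 this
  have hfix : act m h.right v = v := by
    have hcomm : h * SemidirectProduct.inl v = SemidirectProduct.inl v * h := by
      rw [← hv]; exact (Commute.self_pow h p).eq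
    have e := congrArg SemidirectProduct.left hcomm
    simp only [SemidirectProduct.mul_left, SemidirectProduct.left_inl, SemidirectProduct.right_inl, map_one,
      MulAut.one_apply] at e
    exact mul_left_cancel (e.trans (mul_comm _ _))
  obtain ⟨k, hk⟩ : ∃ k, v.toAdd k ≠ 0 := by
    by_contra hall
    push Not at hall
    exact hne (Multiplicative.toAdd.injective (funext hall))
  subst hq5
  rw [mul_comm]
  refine edge_fixed hp hpq hx hk ?_
  exact congrFun (congrArg Multiplicative.toAdd hfix) k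

theorem edges {m p q : ℕ} (hp : p.Prime) (hq : q.Prime) (hpq : p ≠ q) :
    (∃ g : G, orderOf g = p * q) ↔ ∃ g : H m, orderOf g = p * q := by
  constructor
  · rintro ⟨g, hg⟩
    exact ⟨SemidirectProduct.inr g,
      by rw [orderOf_injective SemidirectProduct.inr SemidirectProduct.inr_injective, hg]⟩
  · rintro ⟨h, hh⟩
    have hd : orderOf h.right ∣ p * q := by
      rw [← hh, ← SemidirectProduct.rightHom_eq_right]; exact orderOf_map_dvd _ h
    obtain ⟨a, b, ha, hb, hab⟩ := (Nat.dvd_mul).1 hd
    rcases (Nat.dvd_prime hp).1 ha with rfl | rfl <;> rcases (Nat.dvd_prime hq).1 hb with rfl | rfl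
    · exfalso
      have h1 : h.right = 1 := orderOf_eq_one_iff.1 (by rw [← hab, mul_one])
      have h2 : h ^ 5 = 1 := by
        have he : h = SemidirectProduct.inl h.left := SemidirectProduct.ext (by simp) (by simp [h1])
        rw [he, ← map_pow, pow_five, map_one]
      have h3 : p * q ∣ 5 := hh ▸ orderOf_dvd_of_pow_eq_one h2
      rcases (Nat.dvd_prime (by norm_num : Nat.Prime 5)).1 h3 with e | e
      · exact absurd (Nat.eq_one_of_mul_eq_one_right e) hp.one_lt.ne'
      · exact (Nat.not_prime_mul hp.one_lt.ne' hq.one_lt.ne') (e ▸ (by norm_num : Nat.Prime 5))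
    · rw [mul_comm] at hh
      rw [mul_comm p]
      exact edge_aux hq hp (Ne.symm hpq) hh (by rw [← hab, one_mul])
    · exact edge_aux hp hq hpq hh (by rw [← hab, mul_one])
    · exact ⟨h.right, hab.symm⟩

theorem exists_iso {F : Type*} [Field F] [Fintype F] (hF : Fintype.card F = 16) :
    Nonempty (Cfsg.PSU 3 F 4 ≃* G) := by
  have hF' : Fintype.card F = 4 ^ 2 := by rw [hF]; norm_num
  let e : F ≃+* K := FiniteField.ringEquivOfCardEq (by rw [hF', K.card_eq])
  have hbot : Subgroup.center (Cfsg.SU 3 F 4) = ⊥ := by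
    refine Subgroup.eq_bot_of_card_eq _ ?_
    rw [Cfsg.Agent.Lib.Classical.Herm.card_center_SU hF' (by norm_num)]
    decide +kernel
  have hmap : ∀ {A B : Type _} [Field A] [Field B] (f : A ≃+* B) (g : Cfsg.SU 3 A 4),
      Matrix.SpecialLinearGroup.map f.toRingHom g.1 ∈ Cfsg.SU 3 B 4 := by
    intro A B _ _ f g u v
    have h := congrArg f (g.2 (f.symm ∘ u) (f.symm ∘ v))
    simp only [Cfsg.hermForm, map_sum, map_mul, map_pow, RingEquiv.apply_symm_apply, Function.comp_apply,
      Matrix.mulVec, dotProduct] at h ⊢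
    convert h using 6 <;> simp [Cfsg.slToMat]
  let φ : Cfsg.SU 3 F 4 →* G :=
    { toFun := fun g => ⟨_, hmap e g⟩
      map_one' := Subtype.ext (map_one _)
      map_mul' := fun x y => Subtype.ext (map_mul _ _ _) }
  have hinj : Function.Injective φ := fun x y h => by
    apply Subtype.ext; apply Subtype.ext; ext i j
    have := congrArg (fun z : G => mat z i j) h
    exact e.injective (by simpa [φ, mat] using this)
  have hcard : Nat.card (Cfsg.SU 3 F 4) = Nat.card G := by
    have h1 := Cfsg.Agent.Lib.Classical.Herm.card_SU (F := F) (q := 4) hF' (n := 3) (by norm_num)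
    have h2 := Cfsg.Agent.Lib.Classical.Herm.card_SU (F := K) (q := 4) K.card_eq (n := 3) (by norm_num)
    rw [Cfsg.Agent.Lib.Classical.Herm.card_GU hF' 3] at h1
    rw [Cfsg.Agent.Lib.Classical.Herm.card_GU K.card_eq 3] at h2
    exact mul_left_cancel₀ (by norm_num : (4 + 1 : ℕ) ≠ 0) (h1.trans h2.symm)
  have hbij : Function.Bijective φ := hinj.bijective_of_nat_card_le hcard.ge
  exact ⟨((QuotientGroup.quotientMulEquivOfEq hbot).trans QuotientGroup.quotientBot).trans
    (MulEquiv.ofBijective φ hbij)⟩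

end Cfsg.Agent.Lib.Recog.U34
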