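import Cfsg.Agent.Lib.Recog.UnitSpecBase
import Cfsg.Agent.Lib.Classical.HermField

/-! Element orders of `PSU(n, q)`: an element of order prime to `r` (`r ∣ q + 1`, `r ∤ n`) either gains
a factor `r`, or divides the unipotent bound or the order of the Coxeter torus. -/

set_option autoImplicit false

namespace Cfsg.Agent.Lib.Recog.UnitSpec

open Matrix Polynomial
open Cfsg.Agent.Lib.UnitaryConj Cfsg.Agent.Lib.UnitaryUnipotent
open Cfsg.Agent.Lib.Classical.UnitarySemisimpleClasses (dual dual_mul natDegree_dual monic_dual coeff_zero_dual dual_dual irreducible_dual charpoly_inv_tstar)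

universe u

variable {K : Type u} [Field K] [Fintype K] {q n : ℕ} (hK : Fintype.card K = q ^ 2)

/-- The Coxeter torus of `SU_n`. -/
def cox (q n : ℕ) : ℕ := if n % 2 = 1 then (q ^ n + 1) / (q + 1) else (q ^ n - 1) / (q + 1)

theorem fixed_mem {E : Type*} [Field E] [Algebra K E] {x : E} (hx : x ^ Fintype.card K = x) :
    ∃ c : K, algebraMap K E c = x := by
  classical
  set P : E[X] := X ^ Fintype.card K - X with hP
  have hQ : 1 < Fintype.card K := Fintype.one_lt_card
  have hne : P ≠ 0 := FiniteField.X_pow_card_sub_X_ne_zero E hQ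
  have hdeg : P.natDegree = Fintype.card K := FiniteField.X_pow_card_sub_X_natDegree_eq E hQ
  set S : Finset E := Finset.univ.image (algebraMap K E)
  have hcard : S.card = Fintype.card K := Finset.card_image_of_injective _ (algebraMap K E).injective
  by_contra hc
  have hxS : x ∉ S := by
    intro h
    obtain ⟨c, -, hc'⟩ := Finset.mem_image.1 h
    exact hc ⟨c, hc'⟩
  have hsub : (insert x S).val ⊆ P.roots := by
    intro y hy
    rw [Polynomial.mem_roots hne, hP, IsRoot, eval_sub, eval_pow, eval_X, sub_eq_zero]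
    rcases Finset.mem_insert.1 hy with rfl | hy
    · exact hx
    · obtain ⟨c, -, rfl⟩ := Finset.mem_image.1 hy
      rw [← map_pow, FiniteField.pow_card]
  have h1 := Multiset.card_le_card (Multiset.le_iff_subset (insert x S).nodup |>.2 hsub)
  have h2 := h1.trans (Polynomial.card_roots' P)
  rw [hdeg, ← Finset.card_def, Finset.card_insert_of_notMem hxS, hcard] at h2
  omega

theorem q_two_le (hK : Fintype.card K = q ^ 2) : 2 ≤ q := by
  obtain ⟨p, k, hp, -, hk, rfl⟩ := q_eq_pow hK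
  exact hp.two_le.trans (Nat.le_self_pow (by omega) p)

include hK in
theorem det_unitary {A : Matrix (Fin n) (Fin n) K} (h : tstar hK A * A = 1) : A.det ^ (q + 1) = 1 := by
  have h1 := congrArg Matrix.det h
  rw [Matrix.det_mul, Matrix.det_one, tstar, Matrix.det_transpose, ← RingHom.mapMatrix_apply, ← RingHom.map_det] at h1
  rw [pow_succ]; exact h1

theorem tstar_scalar (c : K) : tstar hK (c • (1 : Matrix (Fin n) (Fin n) K)) = qHom hK c • 1 := by
  rw [tstar_smul, tstar_one]

/-- What a unitary matrix without a symmetric idempotent looks like. -/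
theorem primary (hn : 1 ≤ n) (M : Matrix (Fin n) (Fin n) K) (hM : tstar hK M * M = 1) (o : ℕ) (ho : 0 < o)
    (hMo : M ^ o = 1) :
    (∃ P : Matrix (Fin n) (Fin n) K, P * P = P ∧ tstar hK P = P ∧ P ≠ 0 ∧ P ≠ 1 ∧ Commute P M) ∨
    ∃ (f : K[X]) (a : ℕ), f.Monic ∧ Irreducible f ∧ f.coeff 0 ≠ 0 ∧ 1 ≤ a ∧ f ^ a ∣ M.charpoly ∧
      (∀ (N : ℕ) (c : K), c ^ (q + 1) = 1 → f ∣ X ^ N - C c →
        (M ^ N - c • (1 : Matrix (Fin n) (Fin n) K)) ^ a = 0) ∧
      (dual hK f = f → minpoly K M ∣ f ^ a) ∧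
      (dual hK f ≠ f → Even n ∧ f ^ a * dual hK f ^ a ∣ M.charpoly) := by
  classical
  haveI : Nonempty (Fin n) := ⟨⟨0, hn⟩⟩
  set M' := tstar hK M with hM'
  have hMM' : M * M' = 1 := mul_eq_one_comm.1 hM
  have hM'pow : M' = M ^ (o - 1) := by
    refine left_inv_eq_right_inv hM ?_
    rw [← pow_succ', Nat.sub_add_cancel ho, hMo]
  set g : GL (Fin n) K := ⟨M, M', hMM', hM⟩
  set μ := minpoly K M with hμ
  have hμ0 : μ ≠ 0 := minpoly.ne_zero (Algebra.IsIntegral.isIntegral _)
  have hX : ¬ (X : K[X]) ∣ μ := GLOrders.not_X_dvd_minpoly g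
  obtain ⟨f, hfm, hf, hfd⟩ := exists_monic_irreducible_factor μ (minpoly.not_isUnit K M)
  have hf0 : f.coeff 0 ≠ 0 := fun h => hX ((X_dvd_iff.2 h).trans hfd)
  obtain ⟨a, R, hfR, hμR⟩ := WfDvdMonoid.max_power_factor hμ0 hf
  have ha : 1 ≤ a := by
    rcases Nat.eq_zero_or_pos a with rfl | h
    · rw [pow_zero, one_mul] at hμR; exact absurd (hμR ▸ hfd) hfR
    · exact h
  have hcomm : ∀ P Q : K[X], Commute (aeval M P) (aeval M Q) := fun P Q => (Commute.all P Q).map (aeval M)
  have hχ : f ^ a ∣ M.charpoly := (Dvd.intro R hμR.symm).trans (Matrix.minpoly_dvd_charpoly M)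
  -- the main dichotomy
  have key : (∃ P : Matrix (Fin n) (Fin n) K, P * P = P ∧ tstar hK P = P ∧ P ≠ 0 ∧ P ≠ 1 ∧ Commute P M) ∨
      ((∀ P U : K[X], f ∣ P → IsUnit (aeval M U) → tstar hK (aeval M P) = aeval M U * aeval M P →
        aeval M P ^ a = 0) ∧ (¬ IsUnit R → Even n)) := by
    by_cases hRu : IsUnit R
    · refine Or.inr ⟨fun P U hP _ _ => ?_, fun h => absurd hRu h⟩
      obtain ⟨c, hc⟩ : μ ∣ P ^ a := by
        rw [hμR]; exact (hRu.mul_right_dvd).2 (pow_dvd_pow_of_dvd hP a)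
      rw [← map_pow, hc, map_mul, minpoly.aeval, zero_mul]
    obtain ⟨U, V, hUV⟩ : IsCoprime R (f ^ a) := (((hf.coprime_iff_not_dvd).2 hfR).symm).pow_right
    set e : Matrix (Fin n) (Fin n) K := aeval M (U * R) with he
    have hee : e * e = e := by
      have h1 : aeval M (U * R * (V * f ^ a)) = 0 := by
        rw [show U * R * (V * f ^ a) = μ * (U * V) by rw [hμR]; ring, map_mul, minpoly.aeval, zero_mul]
      rw [show V * f ^ a = 1 - U * R by rw [← hUV]; ring, map_mul, map_sub, map_one, Matrix.mul_sub, mul_one,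
        sub_eq_zero] at h1
      exact h1.symm
    have he0 : e ≠ 0 := by
      intro h
      have h1 : f ∣ U * R := hfd.trans (minpoly.dvd K M h)
      have h2 : f ∣ V * f ^ a := dvd_mul_of_dvd_right (dvd_pow_self f (by omega)) V
      exact hf.not_isUnit (isUnit_of_dvd_one (hUV ▸ dvd_add h1 h2))
    have he1 : e ≠ 1 := by
      intro h
      have h0 : aeval M (V * f ^ a) = 0 := by
        rw [show V * f ^ a = 1 - U * R by rw [← hUV]; ring, map_sub, map_one, ← he, h, sub_self]
      have h1 : R ∣ V * f ^ a := (Dvd.intro_left _ hμR.symm).trans (minpoly.dvd K M h0)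
      exact hRu (isUnit_of_dvd_one (hUV ▸ dvd_add (dvd_mul_left R U) h1))
    set e' : Matrix (Fin n) (Fin n) K := tstar hK e with he'def
    have he'P : e' = aeval M (((U * R).map (qHom hK)).comp (X ^ (o - 1))) := by
      rw [he'def, he, tstar_aeval, ← hM', hM'pow, aeval_comp, map_pow, aeval_X]
    have he'e : Commute e e' := by rw [he'P]; exact hcomm _ _
    have he'e' : e' * e' = e' := by rw [he'def, ← tstar_mul, hee]
    have heM : Commute e M := by
      have := hcomm (U * R) X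
      rwa [aeval_X] at this
    have he'M : Commute e' M := by
      rw [he'P]
      have := hcomm (((U * R).map (qHom hK)).comp (X ^ (o - 1))) X
      rwa [aeval_X] at this
    by_cases hw : e * e' = 0
    swap
    · refine Or.inl ⟨e * e', ?_, ?_, hw, ?_, heM.mul_left he'M⟩
      · rw [mul_assoc, ← mul_assoc e', ← he'e.eq, mul_assoc, he'e', ← mul_assoc, hee]
      · rw [tstar_mul, he'def, tstar_tstar]
      · intro h
        refine he1 ?_
        have : e * (e * e') = e * e' := by rw [← mul_assoc, hee]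
        rwa [h, mul_one] at this
    by_cases hz : e + e' = 1
    swap
    · refine Or.inl ⟨e + e', ?_, ?_, ?_, hz, heM.add_left he'M⟩
      · rw [Matrix.mul_add, Matrix.add_mul, Matrix.add_mul, hee, he'e', ← he'e.eq, hw, add_zero, zero_add]
      · rw [tstar_add, he'def, tstar_tstar, add_comm]
      · intro h
        refine he0 ?_
        have : e * (e + e') = e := by rw [Matrix.mul_add, hee, hw, add_zero]
        rwa [h, mul_zero, eq_comm] at this
    refine Or.inr ⟨fun P W hP hW hWP => ?_, fun _ => ?_⟩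
    · set B : Matrix (Fin n) (Fin n) K := aeval M P with hB
      have hBe : B ^ a * e = 0 := by
        rw [hB, he, ← map_pow, ← map_mul]
        obtain ⟨c, hc⟩ := pow_dvd_pow_of_dvd hP a
        rw [hc, show f ^ a * c * (U * R) = μ * (c * U) by rw [hμR]; ring, map_mul, minpoly.aeval, zero_mul]
      have hd : e' * tstar hK B ^ a = 0 := by rw [← tstar_pow, ← tstar_mul, hBe, tstar_zero]
      rw [hWP, (hcomm W P).mul_pow, ← mul_assoc] at hd
      have hBe' : e' * B ^ a = 0 := by
        have hc : Commute e' (aeval M W ^ a) := by rw [he'P]; exact (hcomm _ _).pow_right a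
        rw [hc.eq, mul_assoc] at hd
        exact (hW.pow a).mul_right_eq_zero.1 hd
      calc B ^ a = (e + e') * B ^ a := by rw [hz, one_mul]
        _ = B ^ a * e + e' * B ^ a := by
          rw [Matrix.add_mul, show e * B ^ a = B ^ a * e from (hcomm _ _).pow_right a]
        _ = 0 := by rw [hBe, hBe', add_zero]
    · have hrk : e'.rank = e.rank := by
        rw [he'def, tstar, Matrix.rank_transpose]
        refine le_antisymm (rank_map_le hK e) ?_
        have := rank_map_le hK (e.map (qHom hK))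
        rwa [Matrix.map_map, show (qHom hK : K → K) ∘ (qHom hK) = id from funext (qHom_qHom hK), Matrix.map_id] at this
      have hker : LinearMap.ker e.mulVecLin = LinearMap.range e'.mulVecLin := by
        ext v
        simp only [LinearMap.mem_ker, LinearMap.mem_range, Matrix.mulVecLin_apply]
        constructor
        · intro hv
          refine ⟨v, ?_⟩
          have := congrArg (fun A => A *ᵥ v) hz
          simp only [Matrix.add_mulVec, Matrix.one_mulVec, hv, zero_add] at this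
          exact this
        · rintro ⟨w, rfl⟩
          rw [Matrix.mulVec_mulVec, hw, Matrix.zero_mulVec]
      have h1 := LinearMap.finrank_range_add_finrank_ker e.mulVecLin
      rw [hker, Module.finrank_pi, Fintype.card_fin] at h1
      change e.rank + e'.rank = n at h1
      exact ⟨e.rank, by omega⟩
  rcases key with h | ⟨key, heven⟩
  · exact Or.inl h
  refine Or.inr ⟨f, a, hfm, hf, hf0, ha, hχ, fun N c hc hN => ?_, fun hd => ?_, fun hd => ?_⟩
  · have hB : aeval M (X ^ N - C c) = M ^ N - c • (1 : Matrix (Fin n) (Fin n) K) := by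
      rw [map_sub, map_pow, aeval_X, aeval_C, Algebra.algebraMap_eq_smul_one]
    rw [← hB]
    refine key _ (-(C (c ^ q) * X ^ ((o - 1) * N))) hN ?_ ?_
    · rw [map_neg, map_mul, map_pow (aeval M) X, aeval_X, aeval_C]
      exact (((isUnit_iff_ne_zero.2 (pow_ne_zero _ (by rintro rfl; simp at hc))).map _).mul
        ((g.isUnit).pow _)).neg
    · have hcq : c ^ q * c = 1 := by rw [← pow_succ]; exact hc
      rw [hB, tstar_sub, tstar_pow, ← hM', tstar_scalar, map_neg, map_mul, map_pow (aeval M) X, aeval_X, aeval_C,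
        pow_mul M, ← hM'pow, Algebra.algebraMap_eq_smul_one, Matrix.smul_mul, one_mul, neg_mul, Matrix.smul_mul,
        Matrix.mul_sub, ← (show Commute M' M from hM.trans hMM'.symm).mul_pow, hM, one_pow, Matrix.mul_smul, mul_one,
        smul_sub, smul_smul, hcq, one_smul, neg_sub]
      rfl
  · have h0 : qHom hK (f.coeff 0) ≠ 0 := fun h => hf0 ((qHom hK).injective (h.trans (map_zero _).symm))
    have hrev : (f.map (qHom hK)).reverse = C (qHom hK (f.coeff 0)) * f := by
      conv_rhs => arg 2; rw [← hd, dual]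
      rw [← mul_assoc, ← C_mul, mul_inv_cancel₀ h0, C_1, one_mul]
    have h1 := rev_aeval (K := K) hMM' (f.map (qHom hK))
    rw [natDegree_map, hrev] at h1
    refine minpoly.dvd K M ?_
    rw [map_pow]
    refine key f (X ^ ((o - 1) * f.natDegree) * C (qHom hK (f.coeff 0))) dvd_rfl ?_ ?_
    · rw [map_mul, map_pow, aeval_X, aeval_C]
      exact ((g.isUnit).pow _).mul ((isUnit_iff_ne_zero.2 h0).map _)
    · rw [tstar_aeval, ← hM', map_mul (aeval M), map_pow, aeval_X, pow_mul, ← hM'pow, mul_assoc, ← map_mul, h1,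
        ← mul_assoc, ← (show Commute M' M from hM.trans hMM'.symm).mul_pow, hM, one_pow, one_mul]
  · have hdi := irreducible_dual hK hfm hf hf0
    have hdm := monic_dual hK hf0
    have hcop : IsCoprime f (dual hK f) := (hf.coprime_iff_not_dvd).2 fun h =>
      hd (eq_of_monic_of_associated hdm hfm (hf.associated_of_dvd hdi h).symm)
    have hdual : dual hK M.charpoly = M.charpoly := (charpoly_inv_tstar hK M M hMM').symm
    have hd2 : dual hK f ^ a ∣ M.charpoly := by
      obtain ⟨S, hS⟩ := hχ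
      rw [← hdual, hS, dual_mul, dual_pow]
      exact dvd_mul_right _ _
    refine ⟨heven fun hRu => hd ?_, (hcop.pow).mul_dvd hχ hd2⟩
    obtain ⟨j, hj, -⟩ := GLSplit.charpoly_eq_pow M f hfm hf a (by
      rw [← hμ, hμR]; exact (hRu.mul_right_dvd).2 dvd_rfl)
    rw [hj] at hd2
    exact eq_of_monic_of_associated hdm hfm
      (hdi.associated_of_dvd hf (hdi.prime.dvd_of_dvd_pow ((dvd_pow_self _ (by omega)).trans hd2)))

/-- The matrix of an element of `SU`. -/
abbrev mat (y : ↥(Cfsg.SU n K q)) : Matrix (Fin n) (Fin n) K :=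
  ((y : SpecialLinearGroup (Fin n) K) : Matrix (Fin n) (Fin n) K)

/-- The class in `PSU`. -/
abbrev pr : ↥(Cfsg.SU n K q) →* Cfsg.PSU n K q := QuotientGroup.mk' (Subgroup.center _)

omit [Fintype K] in
theorem mat_pow (y : ↥(Cfsg.SU n K q)) (k : ℕ) : mat (y ^ k) = mat y ^ k := by
  induction k with
  | zero => rw [pow_zero, pow_zero]; rfl
  | succ k ih => rw [pow_succ, pow_succ, ← ih]; rfl

include hK in
theorem mkSU {M : Matrix (Fin n) (Fin n) K} (hu : tstar hK M * M = 1) (hd : M.det = 1) :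
    ∃ y : ↥(Cfsg.SU n K q), mat y = M := by
  have hg := (mem_GU_iff hK (⟨M, tstar hK M, mul_eq_one_comm.1 hu, hu⟩ : GL (Fin n) K)).2 hu
  exact ⟨⟨⟨M, hd⟩, Classical.Herm.mem_SU.2 (Classical.Herm.mem_GU.1 hg)⟩, rfl⟩

include hK in
theorem mat_unitary (y : ↥(Cfsg.SU n K q)) : tstar hK (mat y) * mat y = 1 := by
  have := (mem_GU_iff hK (SpecialLinearGroup.toGL (y : SpecialLinearGroup (Fin n) K))).1
    (Classical.Herm.mem_GU.2 (Classical.Herm.mem_SU.1 y.2))
  exact this

/-- Lower bound for an order in `PSU`. -/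
theorem dvd_orderOf_pr (hn : 1 ≤ n) {L : ℕ} (y : ↥(Cfsg.SU n K q))
    (h : ∀ (k : ℕ) (c : K), mat y ^ k = c • 1 → L ∣ k) (hK : Fintype.card K = q ^ 2) : L ∣ orderOf (pr y) := by
  have h1 : y ^ orderOf (pr y) ∈ Subgroup.center ↥(Cfsg.SU n K q) := by
    rw [← QuotientGroup.eq_one_iff, ← QuotientGroup.mk'_apply, map_pow, pow_orderOf_eq_one]
  obtain ⟨c, hc⟩ := Classical.Herm.scalar_of_mem_center_SU hK hn h1
  exact h _ c (by rw [← mat_pow]; exact hc)

omit [Fintype K] in
/-- Upper bound for an order in `PSU`. -/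
theorem orderOf_pr_dvd {L : ℕ} (y : ↥(Cfsg.SU n K q)) {c : K} (h : mat y ^ L = c • 1) : orderOf (pr y) ∣ L := by
  refine orderOf_dvd_of_pow_eq_one ?_
  rw [← map_pow, QuotientGroup.mk'_apply, QuotientGroup.eq_one_iff, Subgroup.mem_center_iff]
  intro z
  apply Subtype.ext
  apply Subtype.ext
  show mat z * mat (y ^ L) = mat (y ^ L) * mat z
  rw [mat_pow, h, Matrix.mul_smul, mul_one, Matrix.smul_mul, one_mul]

theorem pow_gcd_of_pr (hn : 1 ≤ n) (hK : Fintype.card K = q ^ 2) (y : ↥(Cfsg.SU n K q)) :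
    y ^ (orderOf (pr y) * Nat.gcd n (q + 1)) = 1 := by
  have h1 : y ^ orderOf (pr y) ∈ Subgroup.center ↥(Cfsg.SU n K q) := by
    rw [← QuotientGroup.eq_one_iff, ← QuotientGroup.mk'_apply, map_pow, pow_orderOf_eq_one]
  have h2 := congrArg Subtype.val
    (pow_card_eq_one' (x := (⟨_, h1⟩ : Subgroup.center ↥(Cfsg.SU n K q))))
  rw [SubmonoidClass.coe_pow, Classical.Herm.card_center_SU hK hn] at h2
  rw [pow_mul]
  exact h2

/-- A scalar among unipotent powers is trivial. -/
theorem scalar_unip {m : ℕ} (hm : 1 ≤ m) (p : ℕ) [Fact p.Prime] [CharP K p] {u : Matrix (Fin m) (Fin m) K} {e k : ℕ}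
    (hu : orderOf u = p ^ e) {c : K} (h : u ^ k = c • 1) : c = 1 := by
  haveI : Nonempty (Fin m) := ⟨⟨0, hm⟩⟩
  have h1 : (c • (1 : Matrix (Fin m) (Fin m) K)) ^ p ^ e = 1 := by
    rw [← h, ← pow_mul, mul_comm, pow_mul, ← hu, pow_orderOf_eq_one, one_pow]
  rw [_root_.smul_pow, one_pow] at h1
  have h2 := congrFun (congrFun h1 ⟨0, hm⟩) ⟨0, hm⟩
  simp at h2
  have : (c - 1) ^ p ^ e = 0 := by rw [sub_pow_char_pow, one_pow, h2, sub_self]
  exact sub_eq_zero.1 (eq_zero_of_pow_eq_zero this)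

include hK in
/-- A torus, a unipotent and a determinant correction. -/
theorem good_blocks (p : ℕ) [Fact p.Prime] [CharP K p] {D a : ℕ} (ha : 1 ≤ a) (hDa : D + a + 1 ≤ n)
    (A : Matrix (Fin D) (Fin D) K) (hA : tstar hK A * A = 1) :
    ∃ y : ↥(Cfsg.SU n K q), Nat.lcm (orderOf A) (p ^ Nat.clog p a) ∣ orderOf (pr y) := by
  classical
  obtain ⟨u, hu, hud, huo⟩ := exists_unip hK p ha
  obtain ⟨l, hl⟩ : ∃ l, a + l = n - D := ⟨n - D - a, by omega⟩
  have hl1 : 1 ≤ l := by omega
  set dvec : Fin l → K := Function.update 1 ⟨0, hl1⟩ A.det⁻¹ with hdvec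
  have hCu : tstar hK (Matrix.diagonal dvec) * Matrix.diagonal dvec = 1 := by
    rw [tstar, Matrix.diagonal_map (map_zero _), Matrix.diagonal_transpose, Matrix.diagonal_mul_diagonal,
      ← Matrix.diagonal_one]
    congr 1
    funext i
    show dvec i ^ q * dvec i = 1
    rw [← pow_succ, hdvec]
    rcases eq_or_ne i ⟨0, hl1⟩ with rfl | h
    · rw [Function.update_self, inv_pow, det_unitary hK hA, inv_one]
    · rw [Function.update_of_ne h, Pi.one_apply, one_pow]
  have hCd : (Matrix.diagonal dvec).det = A.det⁻¹ := by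
    rw [Matrix.det_diagonal, hdvec, Finset.prod_update_of_mem (Finset.mem_univ _)]
    simp
  have hDn : D + (n - D) = n := by omega
  have hA0 : A.det ≠ 0 := fun h => by have := det_unitary hK hA; simp [h] at this
  obtain ⟨y, hy⟩ := mkSU hK (M := block hDn A (block hl u (Matrix.diagonal dvec)))
    (block_unitary hK hDn hA (block_unitary hK hl hu hCu))
    (by rw [block_det, block_det, hud, one_mul, hCd, mul_inv_cancel₀ hA0])
  refine ⟨y, dvd_orderOf_pr (by omega) y (fun k c hk => ?_) hK⟩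
  rw [hy, block_pow, block_pow] at hk
  obtain ⟨h1, h2⟩ := block_scalar hDn hk
  obtain ⟨h3, -⟩ := block_scalar hl h2
  obtain rfl := scalar_unip ha p huo h3
  rw [one_smul] at h1 h3
  exact Nat.lcm_dvd (orderOf_dvd_of_pow_eq_one h1) (huo ▸ orderOf_dvd_of_pow_eq_one h3)

include hK in
/-- An element of `SU_D × SU_m` twisted by a central element of order `r`. -/
theorem good_twist (p : ℕ) [Fact p.Prime] [CharP K p] {r : ℕ} (hr : r.Prime) (hrn : ¬ r ∣ n) (ζ : K) (hζ : orderOf ζ = r)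
    (hζq : ζ ^ (q + 1) = 1) {D m : ℕ} (hD : 1 ≤ D) (hm : 1 ≤ m) (hDm : D + m = n)
    (A : Matrix (Fin D) (Fin D) K) (hA : tstar hK A * A = 1) (hAd : A.det = 1) (hAr : Nat.Coprime (orderOf A) r)
    (hrp : r ≠ p) :
    ∃ y : ↥(Cfsg.SU n K q), r * Nat.lcm (orderOf A) (p ^ Nat.clog p m) ∣ orderOf (pr y) := by
  classical
  obtain ⟨u, hu, hud, huo⟩ := exists_unip hK p hm
  have hζ0 : ζ ≠ 0 := fun h => by rw [h, zero_pow (by omega)] at hζq; exact zero_ne_one hζq
  have hs : ∀ (z : K) (j : ℕ) (B : Matrix (Fin j) (Fin j) K), z ^ (q + 1) = 1 → tstar hK B * B = 1 →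
      tstar hK (z • B) * (z • B) = 1 := by
    intro z j B hz hB
    rw [tstar_smul, Matrix.smul_mul, Matrix.mul_smul, smul_smul, hB,
      show qHom hK z * z = 1 from by rw [← hz, pow_succ]; rfl, one_smul]
  have hz1 : (ζ ^ m) ^ (q + 1) = 1 := by rw [← pow_mul, mul_comm, pow_mul, hζq, one_pow]
  have hz2 : (ζ⁻¹ ^ D) ^ (q + 1) = 1 := by rw [← pow_mul, mul_comm, pow_mul, inv_pow, hζq, inv_one, one_pow]
  obtain ⟨y, hy⟩ := mkSU hK (M := block hDm (ζ ^ m • A) (ζ⁻¹ ^ D • u))
    (block_unitary hK hDm (hs _ _ _ hz1 hA) (hs _ _ _ hz2 hu))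
    (by rw [block_det, Matrix.det_smul, Matrix.det_smul, hAd, hud, mul_one, mul_one, Fintype.card_fin, Fintype.card_fin,
        ← pow_mul, ← pow_mul, mul_comm D m, ← mul_pow, mul_inv_cancel₀ hζ0, one_pow])
  refine ⟨y, dvd_orderOf_pr (by omega) y (fun k c hk => ?_) hK⟩
  rw [hy, block_pow] at hk
  obtain ⟨h1, h2⟩ := block_scalar hDm hk
  rw [_root_.smul_pow] at h1 h2
  have hcu : u ^ k = ((ζ ^ D) ^ k * c) • 1 := by
    have h := congrArg ((ζ ^ D) ^ k • ·) h2
    simp only [smul_smul] at h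
    rw [← mul_pow, ← mul_pow, mul_inv_cancel₀ hζ0, one_pow, one_pow, one_smul] at h
    exact h
  have hc1 := scalar_unip hm p huo hcu
  rw [hc1, one_smul] at hcu
  have hAk : A ^ k = (ζ⁻¹ ^ (n * k)) • 1 := by
    have hc : c = ((ζ ^ D) ^ k)⁻¹ := (eq_inv_of_mul_eq_one_right hc1)
    have h := congrArg (((ζ ^ m) ^ k)⁻¹ • ·) h1
    simp only [smul_smul] at h
    rw [inv_mul_cancel₀ (pow_ne_zero _ (pow_ne_zero _ hζ0)), one_smul, hc, ← mul_inv, ← mul_pow, ← pow_add] at h
    rw [h, inv_pow, pow_mul, ← hDm, add_comm D m]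
  have hAk1 : A ^ k = 1 := by
    refine orderOf_dvd_iff_pow_eq_one.1 (hAr.dvd_of_dvd_mul_right (m := k) ?_)
    refine orderOf_dvd_of_pow_eq_one ?_
    rw [pow_mul, hAk, _root_.smul_pow, one_pow, ← pow_mul, mul_comm, pow_mul, inv_pow,
      ← hζ, pow_orderOf_eq_one, inv_one, one_pow, one_smul]
  have hrk : r ∣ k := by
    have h := congrFun (congrFun (hAk1.symm.trans hAk) ⟨0, hD⟩) ⟨0, hD⟩
    simp at h
    have : r ∣ n * k := by
        rw [← hζ]
        exact orderOf_dvd_of_pow_eq_one (by simpa [inv_pow] using h)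
    exact ((hr.dvd_mul).1 this).resolve_left hrn
  have hur : Nat.Coprime r (Nat.lcm (orderOf A) (p ^ Nat.clog p m)) := by
    refine Nat.Coprime.coprime_dvd_right (Nat.lcm_dvd_mul _ _) (Nat.Coprime.mul_right hAr.symm ?_)
    exact Nat.Coprime.pow_right _ ((Nat.coprime_primes hr Fact.out).2 hrp)
  exact hur.mul_dvd_of_dvd_of_dvd hrk
    (Nat.lcm_dvd (orderOf_dvd_of_pow_eq_one hAk1) (huo ▸ orderOf_dvd_of_pow_eq_one hcu))

include hK in
/-- An element commuting with a symmetric idempotent gains a factor `r`. -/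
theorem good_idem {r : ℕ} (hr : r.Prime) (hn : 1 ≤ n) (hrn : ¬ r ∣ n) (ζ : K) (hζ : orderOf ζ = r)
    (hζq : ζ ^ (q + 1) = 1) (s : ↥(Cfsg.SU n K q)) (hrs : ¬ r ∣ orderOf (pr s)) (P : Matrix (Fin n) (Fin n) K)
    (hP : P * P = P) (hPs : tstar hK P = P) (hP0 : P ≠ 0) (hP1 : P ≠ 1) (hPc : Commute P (mat s)) :
    ∃ y : ↥(Cfsg.SU n K q), r * orderOf (pr s) ∣ orderOf (pr y) := by
  classical
  obtain ⟨r1, hdet⟩ := GLSplit.det_one_add_smul_idem P hP
  set a : K := ζ ^ (r1 * (r - 1)) with ha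
  set H : Matrix (Fin n) (Fin n) K := a • (1 + (ζ ^ n - 1) • P) with hH
  have hζr : ζ ^ r = 1 := hζ ▸ pow_orderOf_eq_one ζ
  have ha0 : a ≠ 0 := pow_ne_zero _ (by rintro rfl; rw [zero_pow hr.ne_zero] at hζr; exact zero_ne_one hζr)
  have hd : H.det = 1 := by
    rw [hH, Matrix.det_smul, Fintype.card_fin, hdet, add_sub_cancel, ha, ← pow_mul, ← pow_mul, ← pow_add]
    have e : r1 * (r - 1) * n + n * r1 = r * (r1 * n) := by
      obtain ⟨r', rfl⟩ : ∃ r', r = r' + 1 := ⟨r - 1, by have := hr.pos; omega⟩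
      rw [Nat.add_sub_cancel]; ring
    rw [e, pow_mul, hζr, one_pow]
  have hu : tstar hK H * H = 1 := by
    have hb : ∀ j : ℕ, qHom hK (ζ ^ j) * ζ ^ j = 1 := fun j => by
      show (ζ ^ j) ^ q * ζ ^ j = 1
      rw [← pow_succ, ← pow_mul, mul_comm, pow_mul, hζq, one_pow]
    rw [hH, tstar_smul, tstar_add, tstar_one, tstar_smul, hPs, map_sub, map_one, Matrix.smul_mul, Matrix.mul_smul,
      smul_smul, ha, hb, one_smul, Matrix.add_mul, Matrix.mul_add, Matrix.mul_add, one_mul, one_mul, mul_one,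
      smul_mul_smul_comm, hP, add_assoc, ← add_smul, ← add_smul,
      show (ζ ^ n - 1 + (qHom hK (ζ ^ n) - 1 + (qHom hK (ζ ^ n) - 1) * (ζ ^ n - 1))) = 0 by
        linear_combination hb n, zero_smul, add_zero]
  obtain ⟨h, hh⟩ := mkSU hK hu hd
  have hor : orderOf (pr h) = r := by
    haveI : Fact r.Prime := ⟨hr⟩
    have hne : ζ ^ n - 1 ≠ 0 := fun e => hrn (hζ ▸ orderOf_dvd_of_pow_eq_one (sub_eq_zero.1 e))
    refine (Nat.Prime.eq_one_or_self_of_dvd hr _ (orderOf_pr_dvd h (c := 1) ?_)).resolve_left fun e1 => ?_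
    · rw [hh, hH, _root_.smul_pow, GLSplit.pow_one_add_smul_idem P hP, add_sub_cancel, ha, ← pow_mul, ← pow_mul,
        mul_comm n r, pow_mul ζ r n, hζr, one_pow, sub_self, zero_smul, add_zero, mul_comm (r1 * (r - 1)) r,
        pow_mul, hζr, one_pow]
    · rw [orderOf_eq_one_iff, QuotientGroup.mk'_apply, QuotientGroup.eq_one_iff] at e1
      obtain ⟨c, hc⟩ := Classical.Herm.scalar_of_mem_center_SU hK hn e1
      have hc2 : H = c • 1 := hh.symm.trans hc
      have hc' : (ζ ^ n - 1) • P = (a⁻¹ * c - 1) • (1 : Matrix (Fin n) (Fin n) K) := by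
        have := congrArg (fun A => a⁻¹ • A) hc2
        simp only [hH, smul_smul, inv_mul_cancel₀ ha0, one_smul] at this
        rw [sub_smul (a⁻¹ * c), one_smul, ← this, add_sub_cancel_left]
      have hPs : P = ((ζ ^ n - 1)⁻¹ * (a⁻¹ * c - 1)) • (1 : Matrix (Fin n) (Fin n) K) := by
        rw [← smul_smul, ← hc', smul_smul, inv_mul_cancel₀ hne, one_smul]
      set d := (ζ ^ n - 1)⁻¹ * (a⁻¹ * c - 1)
      rw [hPs, smul_mul_smul_comm, one_mul] at hP
      have : d * d = d := by
        have := congrFun (congrFun hP ⟨0, hn⟩) ⟨0, hn⟩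
        simpa using this
      rcases mul_eq_zero.1 (show d * (d - 1) = 0 by linear_combination this) with h | h
      · exact hP0 (by rw [hPs, h, zero_smul])
      · exact hP1 (by rw [hPs, sub_eq_zero.1 h, one_smul])
  have hc : Commute s h := by
    apply Subtype.ext
    apply Subtype.ext
    show mat s * mat h = mat h * mat s
    rw [hh, hH]
    exact (((Commute.one_right _).add_right (hPc.symm.smul_right _)).smul_right _).eq
  refine ⟨h * s, dvd_of_eq ?_⟩
  rw [map_mul, ((hc.symm).map pr).orderOf_mul_eq_mul_orderOf_of_coprime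
    (by rw [hor]; exact hr.coprime_iff_not_dvd.2 hrs), hor]

/-- Norms give the exponent of the Coxeter torus. -/
theorem cox_eq (hK : Fintype.card K = q ^ 2) {d : ℕ} :
    (d % 2 = 1 → cox q d ∣ q ^ d + 1 ∧ cox q d * (q + 1) = q ^ d + 1 ∧
      ((q ^ 2) ^ d - 1) / (q ^ 2 - 1) = cox q d * ((q ^ d - 1) / (q - 1)) ∧
      Nat.Coprime ((q ^ d - 1) / (q - 1)) (q + 1)) ∧
    (cox q (2 * d) ∣ (q ^ 2) ^ d - 1 ∧ ((q ^ 2) ^ d - 1) / (q ^ 2 - 1) * (q - 1) = cox q (2 * d)) := by
  have hq := q_two_le hK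
  have hsq : q ^ 2 - 1 = (q + 1) * (q - 1) := by simpa using Nat.sq_sub_sq q 1
  constructor
  · intro hd
    have hodd : Odd d := Nat.odd_iff.2 hd
    have h1 : q + 1 ∣ q ^ d + 1 := by simpa using hodd.nat_add_dvd_pow_add_pow q 1
    have h2 : q - 1 ∣ q ^ d - 1 := by simpa using Nat.sub_dvd_pow_sub_pow q 1 d
    have hc : cox q d * (q + 1) = q ^ d + 1 := by rw [cox, if_pos hd]; exact Nat.div_mul_cancel h1
    refine ⟨Dvd.intro _ hc, hc, ?_, ?_⟩
    · refine Nat.div_eq_of_eq_mul_left (by rw [hsq]; exact Nat.mul_pos (by omega) (by omega)) ?_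
      have h3 : (q ^ 2) ^ d - 1 = (q ^ d + 1) * (q ^ d - 1) := by
        rw [← pow_mul, mul_comm 2 d, pow_mul]
        simpa using Nat.sq_sub_sq (q ^ d) 1
      rw [h3, hsq, ← hc]
      conv_lhs => rw [← Nat.div_mul_cancel h2]
      ring
    · rw [← Nat.geomSum_eq (by omega : 2 ≤ q), ← ZMod.isUnit_iff_coprime]
      have hm : (q : ZMod (q + 1)) = -1 := by
        rw [eq_neg_iff_add_eq_zero]
        exact_mod_cast ZMod.natCast_self (q + 1)
      push_cast
      rw [hm, neg_one_geom_sum, if_neg (Nat.not_even_iff_odd.2 hodd)]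
      exact isUnit_one
  · have h3 : q ^ 2 - 1 ∣ (q ^ 2) ^ d - 1 := by simpa using Nat.sub_dvd_pow_sub_pow (q ^ 2) 1 d
    obtain ⟨S, hS⟩ := h3
    have hpos : 0 < q ^ 2 - 1 := by rw [hsq]; exact Nat.mul_pos (by omega) (by omega)
    have e1 : cox q (2 * d) = (q - 1) * S := by
      rw [cox, if_neg (by omega), pow_mul, hS, hsq, mul_assoc, Nat.mul_div_cancel_left _ (by omega)]
    rw [hS, Nat.mul_div_cancel_left _ hpos, e1, hsq]
    exact ⟨⟨q + 1, by ring⟩, mul_comm _ _⟩

include hK in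
/-- The Coxeter torus. -/
theorem exists_cox (p : ℕ) [Fact p.Prime] [CharP K p] (hn : 1 ≤ n) :
    ∃ y : ↥(Cfsg.SU n K q), cox q n ∣ Nat.gcd n (q + 1) * orderOf (pr y) := by
  obtain ⟨A, hA, hAo, hAd⟩ : ∃ A : Matrix (Fin n) (Fin n) K, tstar hK A * A = 1 ∧ orderOf A = cox q n ∧ A.det = 1 := by
    rcases Nat.mod_two_eq_zero_or_one n with h | h
    · obtain ⟨d, rfl⟩ : ∃ d, n = 2 * d := ⟨n / 2, by omega⟩
      obtain ⟨h1, h2⟩ := (cox_eq (d := d) hK).2
      obtain ⟨A, hA, hAo, hAd⟩ := exists_pair hK p (d := d) (by omega) h1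
      exact ⟨A, hA, hAo, hAd (by rw [h2])⟩
    · obtain ⟨h1, -, h3, -⟩ := (cox_eq (d := n) hK).1 h
      obtain ⟨A, hA, hAo, hAd⟩ := exists_self hK p h h1
      exact ⟨A, hA, hAo, hAd (by rw [h3]; exact dvd_mul_right _ _)⟩
  obtain ⟨y, hy⟩ := mkSU hK hA hAd
  refine ⟨y, ?_⟩
  rw [← hAo, ← hy, mul_comm]
  refine orderOf_dvd_of_pow_eq_one ?_
  rw [← mat_pow, pow_gcd_of_pr hn hK y]
  rfl

include hK in
/-- Every element of order prime to `r` gains `r`, or divides one of two numbers. -/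
theorem dichotomy (p : ℕ) [Fact p.Prime] [CharP K p] {r : ℕ} (hr : r.Prime) (hn : 3 ≤ n) (hrn : ¬ r ∣ n)
    (hrq : r ∣ q + 1) (hrp : r ≠ p) (ζ : K) (hζ : orderOf ζ = r) (hζq : ζ ^ (q + 1) = 1)
    (x : Cfsg.PSU n K q) (hx : ¬ r ∣ orderOf x) :
    (∃ y : Cfsg.PSU n K q, r * orderOf x ∣ orderOf y) ∨ orderOf x ∣ p ^ Nat.clog p n ∨
      ∀ T : ℕ, cox q n ∣ Nat.gcd n (q + 1) * T → orderOf x ∣ T := by
  classical
  have hp := (Fact.out : p.Prime)
  obtain ⟨s, rfl⟩ := QuotientGroup.mk'_surjective _ x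
  set o := orderOf (pr s) with ho
  set M := mat s with hMdef
  have hMu := mat_unitary hK s
  set o' := orderOf s with ho'
  have hMo' : M ^ o' = 1 := by rw [hMdef, ← mat_pow, ho', pow_orderOf_eq_one]; rfl
  haveI : Finite ↥(Cfsg.SU n K q) := Subtype.finite
  have ho'pos : 0 < o' := orderOf_pos s
  have hdetM : M.det = 1 := (s : SpecialLinearGroup (Fin n) K).2
  rcases primary hK (by omega) M hMu o' ho'pos hMo' with
    ⟨P, hP, hPs, hP0, hP1, hPc⟩ | ⟨f, a, hfm, hf, hf0, ha, hfa, hkey, hself, hpart⟩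
  · left
    obtain ⟨y, hy⟩ := good_idem hK hr (by omega) hrn ζ hζ hζq s hx P hP hPs hP0 hP1 hPc
    exact ⟨pr y, hy⟩
  set d := f.natDegree with hd
  have hd1 : 1 ≤ d := hf.natDegree_pos
  have hχdeg : M.charpoly.natDegree = n := by rw [Matrix.charpoly_natDegree_eq_dim, Fintype.card_fin]
  have hχ0 : M.charpoly ≠ 0 := (Matrix.charpoly_monic M).ne_zero
  have hjord : ∀ {N : ℕ} {c : K}, c ^ (q + 1) = 1 → f ∣ X ^ N - C c → o ∣ N * p ^ Nat.clog p a := by
    intro N c hc hN
    have h1 := pow_eq_zero_of_le (Nat.le_pow_clog hp.one_lt a) (hkey N c hc hN)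
    haveI : Nonempty (Fin n) := ⟨⟨0, by omega⟩⟩
    rw [sub_pow_char_pow_of_commute _ _ ((Commute.one_right _).smul_right c), sub_eq_zero, _root_.smul_pow, one_pow,
      ← pow_mul] at h1
    exact orderOf_pr_dvd s h1
  have hq2 := q_two_le hK
  have hcopN : ∀ N : ℕ, N = q ^ d + 1 ∨ N = (q ^ 2) ^ d - 1 → ∀ c, Nat.Coprime N (p ^ c) := by
    intro N hN c
    obtain ⟨p', k, hp', hc', hk, hqp⟩ := q_eq_pow hK
    obtain rfl := CharP.eq K hc' ‹CharP K p›
    refine Nat.Coprime.pow_right _ (Nat.Coprime.symm ((hp.coprime_iff_not_dvd).2 fun hd' => ?_))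
    have hpq : p' ∣ q := hqp ▸ dvd_pow_self p' (by omega)
    rcases hN with rfl | rfl
    · exact hp.not_dvd_one ((Nat.dvd_add_right (dvd_pow hpq (by omega))).1 hd')
    · have := Nat.dvd_sub (dvd_pow (dvd_pow hpq two_ne_zero) (by omega : d ≠ 0)) hd'
      rw [Nat.sub_sub_self (Nat.one_le_pow _ _ (by positivity))] at this
      exact hp.not_dvd_one this
  have good1 : ∀ {D N : ℕ} (A : Matrix (Fin D) (Fin D) K), tstar hK A * A = 1 → orderOf A = N → D + a + 1 ≤ n →
      q + 1 ∣ N → (N = q ^ d + 1 ∨ N = (q ^ 2) ^ d - 1) → f ∣ X ^ N - C 1 →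
      ∃ y : Cfsg.PSU n K q, r * o ∣ orderOf y := by
    intro D N A hA hAo hDa hqN hN hfN
    obtain ⟨y, hy⟩ := good_blocks hK p ha hDa A hA
    refine ⟨pr y, dvd_trans ?_ hy⟩
    rw [hAo]
    refine (hr.coprime_iff_not_dvd.2 hx).mul_dvd_of_dvd_of_dvd ((hrq.trans hqN).trans (Nat.dvd_lcm_left _ _)) ?_
    rw [(hcopN N hN _).lcm_eq_mul]
    exact hjord (one_pow _) hfN
  -- the torus case
  have torus : a = 1 → (∀ {E : Type u} [Field E] [Algebra K E] (l : E), aeval l f = 0 → l ^ cox q n = 1) →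
      ∀ T : ℕ, cox q n ∣ Nat.gcd n (q + 1) * T → o ∣ T := by
    intro ha1 hcox T hT
    haveI : Fact (Irreducible f) := ⟨hf⟩
    set l : AdjoinRoot f := AdjoinRoot.root f with hl
    have hroot : aeval l f = 0 := by rw [hl, AdjoinRoot.aeval_eq, AdjoinRoot.mk_self]
    have h1 := hcox l hroot
    obtain ⟨z, hz⟩ := hT
    have h2 : (l ^ T) ^ Nat.gcd n (q + 1) = 1 := by rw [← pow_mul, mul_comm, hz, pow_mul, h1, one_pow]
    have hg1 : Nat.gcd n (q + 1) ∣ Fintype.card K - 1 := by
      rw [hK, show q ^ 2 - 1 = (q + 1) * (q - 1) by simpa using Nat.sq_sub_sq q 1]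
      exact (Nat.gcd_dvd_right _ _).trans (dvd_mul_right _ _)
    obtain ⟨c, hc⟩ := fixed_mem (K := K) (x := l ^ T) (by
      obtain ⟨w, hw⟩ := hg1
      rw [show Fintype.card K = Nat.gcd n (q + 1) * w + 1 by
        have : 0 < Fintype.card K := Fintype.card_pos
        omega, pow_succ, pow_mul (l ^ T), h2, one_pow, one_mul])
    have hcq : c ^ (q + 1) = 1 := by
      apply (algebraMap K (AdjoinRoot f)).injective
      obtain ⟨w, hw⟩ := Nat.gcd_dvd_right n (q + 1)
      rw [map_pow, hc, map_one, hw, pow_mul, h2, one_pow]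
    have hfdvd : f ∣ X ^ T - C c := by
      rw [minpoly.eq_of_irreducible_of_monic hf hroot hfm]
      exact minpoly.dvd K l (by rw [map_sub, map_pow, aeval_X, aeval_C, hc, sub_self])
    have := hjord hcq hfdvd
    rwa [ha1, Nat.clog_one_right, pow_zero, mul_one] at this
  have hnormroot : ∀ {E : Type u} [Field E] [Algebra K E] (l : E), aeval l f = 0 →
      ∀ ν : K, ν = (-1) ^ d * f.coeff 0 →
      algebraMap K E ν = l ^ (((q ^ 2) ^ d - 1) / (q ^ 2 - 1)) := by
    intro E _ _ l hl ν hν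
    haveI : Fact (Irreducible f) := ⟨hf⟩
    set pb := AdjoinRoot.powerBasis hf.ne_zero with hpb
    haveI : Module.Finite K (AdjoinRoot f) := pb.finite
    haveI : Finite (AdjoinRoot f) := Module.finite_of_finite K
    have hmin : minpoly K (AdjoinRoot.root f) = f := by
      rw [AdjoinRoot.minpoly_root hf.ne_zero, hfm.leadingCoeff, inv_one, C_1, mul_one]
    have h1 := Algebra.PowerBasis.norm_gen_eq_coeff_zero_minpoly pb
    rw [hpb, AdjoinRoot.powerBasis_gen, AdjoinRoot.powerBasis_dim, hmin, ← hd, ← hν] at h1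
    have hcard : Nat.card (AdjoinRoot f) = (q ^ 2) ^ d := by
      rw [Module.natCard_eq_pow_finrank (K := K), pb.finrank, hpb, AdjoinRoot.powerBasis_dim, Nat.card_eq_fintype_card,
        hK, hd]
    have h2 := FiniteField.algebraMap_norm_eq_pow (K := K) (K' := AdjoinRoot f) (x := AdjoinRoot.root f)
    rw [h1, hcard, Nat.card_eq_fintype_card, hK] at h2
    set φ : AdjoinRoot f →ₐ[K] E := AdjoinRoot.liftAlgHom f (Algebra.ofId K E) l hl
    have h3 := congrArg φ h2
    rwa [AlgHom.commutes, map_pow,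
      show φ (AdjoinRoot.root f) = l from AdjoinRoot.liftAlgHom_root (p := f) _ _ hl] at h3
  by_cases hdual : dual hK f = f
  · obtain ⟨hdodd, hfX⟩ := self_root hK hfm hf hf0 hdual
    obtain ⟨j, hj, hdj⟩ := GLSplit.charpoly_eq_pow M f hfm hf a (hself hdual)
    rw [Fintype.card_fin, ← hd] at hdj
    have hadn : a * d ≤ n := by
      have := natDegree_le_of_dvd hfa hχ0
      rwa [natDegree_pow, hχdeg, ← hd] at this
    have hfX1 : f ∣ X ^ (q ^ d + 1) - C 1 := by rwa [C_1]
    rcases eq_or_lt_of_le hd1 with hd1' | hd1'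
    · right; left
      obtain ⟨l, rfl⟩ : ∃ l, f = X - C l :=
        ⟨-f.coeff 0, by rw [map_neg, sub_neg_eq_add]; exact hfm.eq_X_add_C (by omega)⟩
      have hl : l ^ (q + 1) = 1 := by
        have := (dvd_iff_isRoot.1 hfX1 : IsRoot _ l)
        rw [← hd1', pow_one, IsRoot, eval_sub, eval_pow, eval_X, eval_C, sub_eq_zero] at this
        exact this
      have := hjord hl (show X - C l ∣ X ^ 1 - C l by rw [pow_one])
      rw [one_mul] at this
      refine this.trans (pow_dvd_pow p (Nat.clog_mono_right _ ?_))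
      rw [← hd1', mul_one] at hadn
      exact hadn
    have hd3 : 3 ≤ d := by omega
    by_cases hT : a = 1 ∧ d = n
    · right; right
      refine torus hT.1 ?_
      intro E _ _ l hl
      have hν := hnormroot l hl 1 ?_
      · obtain ⟨-, h2, h3, h4⟩ := (cox_eq (d := d) hK).1 hdodd
        rw [map_one, h3, pow_mul] at hν
        have h5 : (l ^ cox q d) ^ (q + 1) = 1 := by
          rw [← pow_mul, h2]
          obtain ⟨z, hz⟩ := hfX1
          have := congrArg (aeval l) hz
          rw [map_mul, hl, zero_mul, map_sub, map_pow, aeval_X, C_1, map_one, sub_eq_zero] at this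
          exact this
        rw [← hT.2]
        have h6 := Nat.dvd_gcd (orderOf_dvd_of_pow_eq_one hν.symm) (orderOf_dvd_of_pow_eq_one h5)
        rw [h4.gcd_eq_one, Nat.dvd_one, orderOf_eq_one_iff] at h6
        exact h6
      · have hj1 : j = 1 := by
          rw [hT.2] at hdj
          exact (Nat.mul_eq_left (by omega)).1 hdj
        rw [hj1, pow_one] at hj
        have := Matrix.det_eq_sign_charpoly_coeff M
        rw [hdetM, hj, Fintype.card_fin] at this
        rw [hT.2]; exact this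
    left
    obtain ⟨A, hA, hAo, -⟩ := exists_self hK p hdodd (dvd_refl (q ^ d + 1))
    refine good1 A hA hAo ?_ (by simpa using (Nat.odd_iff.2 hdodd).nat_add_dvd_pow_add_pow q 1) (Or.inl rfl) hfX1
    rcases eq_or_lt_of_le ha with ha' | ha'
    · have : d ≠ n := fun h => hT ⟨ha'.symm, h⟩
      have hj2 : 2 ≤ j := by
        rcases Nat.lt_or_ge j 2 with hj2 | hj2
        · interval_cases j
          · omega
          · omega
        · exact hj2
      have : d * 2 ≤ d * j := Nat.mul_le_mul_left d hj2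
      omega
    · obtain ⟨a', rfl⟩ : ∃ a', a = a' + 2 := ⟨a - 2, by omega⟩
      have : a' * 3 ≤ a' * d := Nat.mul_le_mul_left a' hd3
      have : (a' + 2) * d = a' * d + 2 * d := by ring
      omega
  · obtain ⟨hev, hff⟩ := hpart hdual
    have hdm := monic_dual hK hf0
    have hdeg2 : (f ^ a * dual hK f ^ a).natDegree = 2 * (a * d) := by
      rw [natDegree_mul (pow_ne_zero _ hf.ne_zero) (pow_ne_zero _ hdm.ne_zero), natDegree_pow, natDegree_pow,
        natDegree_dual hK hf0, ← hd, two_mul]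
    have hle : 2 * (a * d) ≤ n := by rw [← hdeg2, ← hχdeg]; exact natDegree_le_of_dvd hff hχ0
    have hfX1 : f ∣ X ^ ((q ^ 2) ^ d - 1) - C 1 := by
      have := GLOrders.pow_card_pow_sub_one f hf (fun h => hf0 (by
        obtain ⟨c, hc⟩ := (hf.associated_of_dvd Polynomial.irreducible_X h).symm.dvd
        rw [hc, mul_coeff_zero, coeff_X_zero, zero_mul]))
      rwa [Nat.card_eq_fintype_card, hK, ← C_1] at this
    have hqN : q + 1 ∣ (q ^ 2) ^ d - 1 := by
      refine dvd_trans ?_ (show q ^ 2 - 1 ∣ (q ^ 2) ^ d - 1 by simpa using Nat.sub_dvd_pow_sub_pow (q ^ 2) 1 d)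
      rw [show q ^ 2 - 1 = (q + 1) * (q - 1) by simpa using Nat.sq_sub_sq q 1]
      exact dvd_mul_right _ _
    by_cases hT : a = 1 ∧ 2 * d = n
    · right; right
      refine torus hT.1 ?_
      intro E _ _ l hl
      have hχ : f ^ a * dual hK f ^ a = M.charpoly :=
        (Polynomial.eq_of_monic_of_dvd_of_natDegree_le ((hfm.pow a).mul (hdm.pow a)) (Matrix.charpoly_monic M) hff
          (by rw [hdeg2, hχdeg, hT.1, one_mul, hT.2])).symm
      have hdet := Matrix.det_eq_sign_charpoly_coeff M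
      rw [hdetM, ← hχ, hT.1, pow_one, pow_one, Fintype.card_fin, mul_coeff_zero, coeff_zero_dual hK hfm,
        ← hT.2, pow_mul, neg_one_sq, one_pow, one_mul] at hdet
      set ν : K := (-1) ^ d * f.coeff 0 with hν
      have h0 : qHom hK (f.coeff 0) ≠ 0 := fun h => hf0 ((qHom hK).injective (h.trans (map_zero _).symm))
      have hq1 : qHom hK (f.coeff 0) = f.coeff 0 := by
        have := congrArg (· * qHom hK (f.coeff 0)) hdet
        simp only [one_mul, inv_mul_cancel_right₀ h0] at this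
        exact this
      have hν1 : ν ^ (q - 1) = 1 := by
        have hνq : qHom hK ν = ν := by rw [hν, map_mul, map_pow, map_neg, map_one, hq1]
        have hν0 : ν ≠ 0 := mul_ne_zero (pow_ne_zero _ (by simp)) hf0
        have e : ν ^ (q - 1) * ν = ν := by
          rw [← pow_succ, Nat.sub_add_cancel (by omega : 1 ≤ q)]; exact hνq
        exact mul_right_cancel₀ hν0 (e.trans (one_mul ν).symm)
      have h3 := congrArg (· ^ (q - 1)) (hnormroot l hl ν hν)
      simp only [← map_pow, hν1, map_one, ← pow_mul] at h3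
      rw [← hT.2, ← (cox_eq (d := d) hK).2.2]
      simpa [← pow_mul] using h3.symm
    left
    obtain ⟨A, hA, hAo, -⟩ := exists_pair hK p hd1 (dvd_refl ((q ^ 2) ^ d - 1))
    by_cases hfit : 2 * d + a + 1 ≤ n
    · exact good1 A hA hAo hfit hqN (Or.inr rfl) hfX1
    -- the exception in dimension four
    have hex : d = 1 ∧ a = 2 ∧ n = 4 := by
      obtain ⟨e, he⟩ := hev
      rcases eq_or_lt_of_le ha with ha' | ha'
      · subst ha'
        rw [one_mul] at hle
        exact absurd ⟨rfl, by omega⟩ hT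
      obtain ⟨a', rfl⟩ : ∃ a', a = a' + 2 := ⟨a - 2, by omega⟩
      have : a' * 1 ≤ a' * d := Nat.mul_le_mul_left a' hd1
      have : (a' + 2) * d = a' * d + 2 * d := by ring
      omega
    obtain ⟨hd', ha', hn'⟩ := hex
    obtain ⟨l, hl⟩ : ∃ l, f = X - C l :=
      ⟨-f.coeff 0, by rw [map_neg, sub_neg_eq_add]; exact hfm.eq_X_add_C (by omega)⟩
    have hl0 : f.coeff 0 = -l := by rw [hl]; simp
    have hln : l ≠ 0 := fun h => hf0 (by rw [hl0, h, neg_zero])
    have hχ : f ^ a * dual hK f ^ a = M.charpoly :=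
      (Polynomial.eq_of_monic_of_dvd_of_natDegree_le ((hfm.pow a).mul (hdm.pow a)) (Matrix.charpoly_monic M) hff
        (by rw [hdeg2, hχdeg, hd', ha', hn'])).symm
    set ε : K := l ^ (q - 1) with hε
    have hε2 : ε * ε = 1 := by
      have hdet := Matrix.det_eq_sign_charpoly_coeff M
      rw [hdetM, ← hχ, Fintype.card_fin, mul_coeff_zero, coeff_zero_eq_eval_zero (f ^ a), eval_pow,
        ← coeff_zero_eq_eval_zero, coeff_zero_eq_eval_zero (dual hK f ^ a), eval_pow, ← coeff_zero_eq_eval_zero,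
        coeff_zero_dual hK hfm, ha', hn', ← mul_pow, hl0, map_neg, inv_neg, neg_mul_neg] at hdet
      have hql : qHom hK l = ε * l := by
        rw [hε, ← pow_succ, Nat.sub_add_cancel (by omega : 1 ≤ q)]; rfl
      rw [hql] at hdet
      have hε0 : ε ≠ 0 := pow_ne_zero _ hln
      field_simp at hdet
      linear_combination hdet
    have hεq : ε ^ (q + 1) = 1 := by
      rcases mul_self_eq_one_iff.1 hε2 with h | h <;> rw [h]
      · exact one_pow _
      · rcases Nat.even_or_odd q with hqe | hqo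
        · obtain ⟨p', k, hp', hc', hk, hqp⟩ := q_eq_pow hK
          haveI := Fact.mk hp'
          have hp2 : p' = 2 := by
            have h2 : 2 ∣ p' ^ k := hqp ▸ even_iff_two_dvd.1 hqe
            exact ((Nat.prime_dvd_prime_iff_eq Nat.prime_two hp').1 (Nat.prime_two.dvd_of_dvd_pow h2)).symm
          subst hp2
          rw [CharTwo.neg_eq, one_pow]
        · exact hqo.add_one.neg_one_pow
    have hfe : f ∣ X ^ (q - 1) - C ε := by
      rw [hl, dvd_iff_isRoot, IsRoot, eval_sub, eval_pow, eval_X, eval_C, hε, sub_self]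
    have ho2 := hjord hεq hfe
    rw [ha'] at ho2
    obtain ⟨A2, hA2, hA2o, hA2d⟩ := exists_pair hK p (d := 1) le_rfl (show q - 1 ∣ (q ^ 2) ^ 1 - 1 by
      rw [pow_one, show q ^ 2 - 1 = (q + 1) * (q - 1) by simpa using Nat.sq_sub_sq q 1]
      exact dvd_mul_left _ _)
    have hA2det : A2.det = 1 := hA2d (dvd_mul_left _ _)
    have hr2 : r ≠ 2 := by
      rintro rfl
      exact hrn (by rw [hn']; norm_num)
    have hA2r : Nat.Coprime (orderOf A2) r := by
      rw [hA2o]
      refine Nat.Coprime.symm (hr.coprime_iff_not_dvd.2 fun h => hr2 ?_)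
      have := Nat.dvd_sub hrq h
      rw [show q + 1 - (q - 1) = 2 by omega] at this
      exact (Nat.prime_dvd_prime_iff_eq hr Nat.prime_two).1 this
    obtain ⟨y, hy⟩ := good_twist hK p hr hrn ζ hζ hζq (m := 2) (by norm_num) (by norm_num) (show 2 * 1 + 2 = n by omega) A2 hA2 hA2det hA2r hrp
    refine ⟨pr y, dvd_trans (Nat.mul_dvd_mul_left r ?_) hy⟩
    rw [hA2o]
    refine ho2.trans (dvd_of_eq (Nat.Coprime.lcm_eq_mul ?_).symm)
    refine Nat.Coprime.coprime_dvd_left ?_ (hcopN _ (Or.inr rfl) _)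
    rw [hd', pow_one, show q ^ 2 - 1 = (q + 1) * (q - 1) by simpa using Nat.sq_sub_sq q 1]
    exact dvd_mul_left _ _

end Cfsg.Agent.Lib.Recog.UnitSpec
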