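import Cfsg.Agent.Lib.Jordan.Unitary
import Cfsg.Agent.Lib.Classical.Unitary
import Cfsg.Agent.Lib.Classical.UnitarySemisimpleClasses
import Cfsg.Agent.Lib.GLSplit
import Cfsg.Agent.Lib.Jordan.Symplectic

/-! Unitary matrices of prescribed order: tori, regular unipotents, orthogonal sums. -/

set_option autoImplicit false

namespace Cfsg.Agent.Lib.Recog.UnitSpec

open Matrix Polynomial
open Cfsg.Agent.Lib.UnitaryConj Cfsg.Agent.Lib.UnitaryUnipotent
open Cfsg.Agent.Lib.Classical.UnitarySemisimpleClasses (dual dual_mul natDegree_dual monic_dual coeff_zero_dual dual_dual irreducible_dual)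

universe u

variable {K : Type u} [Field K] [Fintype K] {q n : ℕ} (hK : Fintype.card K = q ^ 2)

theorem dual_pow (P : K[X]) : ∀ a : ℕ, dual hK (P ^ a) = dual hK P ^ a
  | 0 => by
    rw [pow_zero, pow_zero, dual, Polynomial.map_one, coeff_one_zero, map_one, inv_one, C_1, one_mul, ← C_1, reverse_C]
  | a + 1 => by rw [pow_succ, pow_succ, dual_mul, dual_pow P a]

theorem tstar_aeval (M : Matrix (Fin n) (Fin n) K) (P : K[X]) :
    tstar hK (aeval M P) = aeval (tstar hK M) (P.map (qHom hK)) := by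
  induction P using Polynomial.induction_on' with
  | add P Q hP hQ => rw [Polynomial.map_add, map_add, map_add, tstar_add, hP, hQ]
  | monomial k c =>
    simp only [Polynomial.map_monomial, aeval_monomial, Algebra.algebraMap_eq_smul_one, Matrix.smul_mul, one_mul,
      tstar_smul, tstar_pow]

/-- Evaluating the reverse. -/
theorem rev_aeval {A : Type*} [Ring A] [Algebra K A] {M M' : A} (hMM' : M * M' = 1) (P : K[X]) :
    aeval M P.reverse = M ^ P.natDegree * aeval M' P := by
  rw [aeval_eq_sum_range' (n := P.natDegree + 1) (Nat.lt_succ_of_le P.reverse_natDegree_le),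
    ← Finset.sum_range_reflect, aeval_eq_sum_range (x := M'), Finset.mul_sum]
  refine Finset.sum_congr rfl fun j hj => ?_
  have hj' := Nat.lt_succ_iff.1 (Finset.mem_range.1 hj)
  rw [coeff_reverse, Nat.add_sub_cancel, revAt_le (Nat.sub_le _ _), Nat.sub_sub_self hj', mul_smul_comm]
  congr 1
  obtain ⟨i, hi⟩ := Nat.exists_eq_add_of_le hj'
  rw [hi, Nat.add_sub_cancel_left, add_comm j i, pow_add, mul_assoc, pow_mul_pow_eq_one j hMM', mul_one]

/-- The root of the dual polynomial. -/
theorem aeval_dual_root {E : Type*} [Field E] [Algebra K E] {f : K[X]} {l : E} (hl : l ≠ 0) (h : aeval l f = 0) :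
    aeval (l ^ q)⁻¹ (dual hK f) = 0 := by
  obtain ⟨p, k, hp, hc, -, hq⟩ := q_eq_pow hK
  haveI := Fact.mk hp
  haveI : CharP E p := charP_of_injective_algebraMap (algebraMap K E).injective p
  set φ : E →+* E := iterateFrobenius E p k with hφ
  have hφx : ∀ x : E, φ x = x ^ q := fun x => by rw [hφ, iterateFrobenius_def, hq]
  have hcomp : φ.comp (algebraMap K E) = (algebraMap K E).comp (qHom hK) := by
    ext x
    simp only [RingHom.comp_apply, hφx]
    rw [← map_pow]; rfl
  have h1 : eval₂ (algebraMap K E) (l ^ q) (f.map (qHom hK)) = 0 := by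
    rw [eval₂_map, ← hcomp, ← hφx, ← hom_eval₂, show eval₂ (algebraMap K E) l f = 0 from h, map_zero]
  have : Invertible (l ^ q) := invertibleOfNonzero (pow_ne_zero _ hl)
  rw [dual, map_mul, ← invOf_eq_inv, aeval_def (p := Polynomial.reverse _),
    (eval₂_reverse_eq_zero_iff (algebraMap K E) (l ^ q) _).2 h1, mul_zero]

/-- `dual f` is the minimal polynomial of `λ^{-q}`. -/
theorem dual_eq_minpoly {E : Type*} [Field E] [Algebra K E] {f : K[X]} (hfm : f.Monic) (hf : Irreducible f)
    (h0 : f.coeff 0 ≠ 0) {l : E} (hl : l ≠ 0) (h : aeval l f = 0) : dual hK f = minpoly K (l ^ q)⁻¹ :=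
  minpoly.eq_of_irreducible_of_monic (irreducible_dual hK hfm hf h0) (aeval_dual_root hK hl h) (monic_dual hK h0)

include hK in
theorem frob_pow_apply (E : Type*) [Field E] [Algebra K E] (i : ℕ) (x : E) :
    (FiniteField.frobeniusAlgHom K E ^ i) x = x ^ (q ^ 2) ^ i := by
  simp only [AlgHom.coe_pow, FiniteField.coe_frobeniusAlgHom, pow_iterate, hK]

/-- A self-dual irreducible polynomial. -/
theorem self_root {f : K[X]} (hfm : f.Monic) (hf : Irreducible f) (h0 : f.coeff 0 ≠ 0) (hd : dual hK f = f) :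
    f.natDegree % 2 = 1 ∧ f ∣ X ^ (q ^ f.natDegree + 1) - 1 := by
  haveI : Fact (Irreducible f) := ⟨hf⟩
  haveI : Module.Finite K (AdjoinRoot f) := (AdjoinRoot.powerBasis hf.ne_zero).finite
  haveI : Finite (AdjoinRoot f) := Module.finite_of_finite K
  set E := AdjoinRoot f
  set l : E := AdjoinRoot.root f with hl
  have hroot : aeval l f = 0 := by rw [hl, AdjoinRoot.aeval_eq, AdjoinRoot.mk_self]
  have hl0 : l ≠ 0 := by
    intro h
    rw [h, aeval_def, eval₂_at_zero, ← map_zero (algebraMap K E)] at hroot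
    exact h0 ((algebraMap K E).injective hroot)
  have hrank : Module.finrank K E = f.natDegree := by
    rw [(AdjoinRoot.powerBasis hf.ne_zero).finrank, AdjoinRoot.powerBasis_dim]
  have hbeta : aeval (l ^ q)⁻¹ f = 0 := by
    conv_lhs => arg 2; rw [← hd]
    exact aeval_dual_root hK hl0 hroot
  set φ : E →ₐ[K] E := AdjoinRoot.liftAlgHom f (Algebra.ofId K E) (l ^ q)⁻¹ hbeta
  have hφl : φ l = (l ^ q)⁻¹ := AdjoinRoot.liftAlgHom_root (p := f) _ _ hbeta
  obtain ⟨⟨i, hi⟩, hiφ⟩ := (FiniteField.bijective_frobeniusAlgHom_pow K E).2 φ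
  have hiφ' : FiniteField.frobeniusAlgHom K E ^ i = φ := hiφ
  have hli : l ^ (q ^ 2) ^ i = (l ^ q)⁻¹ := by rw [← frob_pow_apply hK, hiφ', hφl]
  have h2 : FiniteField.frobeniusAlgHom K E ^ (i + i) = FiniteField.frobeniusAlgHom K E ^ 1 := by
    refine AdjoinRoot.algHom_ext ?_
    show (FiniteField.frobeniusAlgHom K E ^ (i + i)) l = (FiniteField.frobeniusAlgHom K E ^ 1) l
    rw [frob_pow_apply hK, frob_pow_apply hK, pow_add, pow_mul, hli, inv_pow, ← pow_mul, mul_comm q, pow_mul, hli,
      inv_pow, inv_inv, pow_one, ← pow_mul, ← sq]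
  have hfin : IsOfFinOrder (FiniteField.frobeniusAlgHom K E) :=
    orderOf_pos_iff.1 (by rw [FiniteField.orderOf_frobeniusAlgHom]; exact Module.finrank_pos)
  rw [hfin.pow_eq_pow_iff_modEq, FiniteField.orderOf_frobeniusAlgHom, hrank, Nat.ModEq] at h2
  rw [hrank] at hi
  have hdpos := hf.natDegree_pos
  obtain ⟨j, hj⟩ : ∃ j, f.natDegree = 2 * j + 1 := by
    rcases Nat.even_or_odd f.natDegree with ⟨j, hj⟩ | h
    · exfalso
      have e1 := Nat.mod_mod_of_dvd (i + i) (show 2 ∣ f.natDegree by omega)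
      have e2 := Nat.mod_mod_of_dvd 1 (show 2 ∣ f.natDegree by omega)
      rw [h2, e2] at e1
      omega
    · exact h
  refine ⟨by omega, ?_⟩
  have hij : i = (j + 1) % f.natDegree := by
    by_cases hj0 : j = 0
    · subst hj0; rw [show f.natDegree = 1 by omega, Nat.mod_one]; omega
    rw [Nat.mod_eq_of_lt (show 1 < f.natDegree by omega)] at h2
    rw [Nat.mod_eq_of_lt (show j + 1 < f.natDegree by omega)]
    by_cases hlt : i + i < f.natDegree
    · rw [Nat.mod_eq_of_lt hlt] at h2; omega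
    · rw [Nat.mod_eq_sub_mod (by omega), Nat.mod_eq_of_lt (by omega)] at h2; omega
  have h3 : FiniteField.frobeniusAlgHom K E ^ i = FiniteField.frobeniusAlgHom K E ^ (j + 1) := by
    rw [hfin.pow_eq_pow_iff_modEq, FiniteField.orderOf_frobeniusAlgHom, hrank, Nat.ModEq, hij, Nat.mod_mod]
  have h4 : l ^ (q ^ 2) ^ (j + 1) = (l ^ q)⁻¹ := by rw [← frob_pow_apply hK, ← h3, hiφ', hφl]
  rw [← pow_mul, show 2 * (j + 1) = f.natDegree + 1 by omega, pow_succ] at h4
  have h5 : (l ^ (q ^ f.natDegree + 1)) ^ q = 1 := by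
    rw [← pow_mul, add_mul, one_mul, pow_add, h4, inv_mul_cancel₀ (pow_ne_zero _ hl0)]
  obtain ⟨p, k, hp, hc, -, hq⟩ := q_eq_pow hK
  haveI := Fact.mk hp
  haveI : CharP E p := charP_of_injective_algebraMap (algebraMap K E).injective p
  rw [hq] at h5
  have h6 : l ^ (q ^ f.natDegree + 1) = 1 := by
    have : (l ^ (q ^ f.natDegree + 1) - 1) ^ p ^ k = 0 := by
      rw [sub_pow_char_pow, one_pow, hq, h5, sub_self]
    exact sub_eq_zero.1 (eq_zero_of_pow_eq_zero this)
  have := minpoly.dvd K l (p := X ^ (q ^ f.natDegree + 1) - 1) (by rw [map_sub, map_pow, aeval_X, map_one, h6, sub_self])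
  rwa [← minpoly.eq_of_irreducible_of_monic hf hroot hfm] at this

/-- An eigenvalue of `M` inherits scalar power relations. -/
theorem eigen_pow {E : Type*} [Field E] [Algebra K E] (M : Matrix (Fin n) (Fin n) K) {w : E}
    (hw : aeval w M.charpoly = 0) {L : ℕ} (hL : M ^ L = 1) : w ^ L = 1 := by
  classical
  have hroot : (M.map (algebraMap K E)).charpoly.IsRoot w := by
    rw [Matrix.charpoly_map, IsRoot, eval_map, ← aeval_def, hw]
  rw [← Matrix.charpoly_toLin', ← Module.End.hasEigenvalue_iff_isRoot_charpoly] at hroot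
  obtain ⟨v, hv⟩ := hroot.exists_hasEigenvector
  have h1 := hv.pow_apply L
  have h2 : (M.map (algebraMap K E)) ^ L = 1 := by
    rw [← RingHom.mapMatrix_apply, ← map_pow, hL, map_one]
  rw [← Matrix.toLin'_pow, h2, Matrix.toLin'_one, LinearMap.id_apply] at h1
  have h3 : (1 - w ^ L) • v = 0 := by rw [sub_smul, one_smul, ← h1, sub_self]
  exact (sub_eq_zero.1 ((smul_eq_zero.1 h3).resolve_right hv.2)).symm

/-- Matrices from self-dual polynomials, with the order of a root. -/
theorem exists_of_poly (p : ℕ) [Fact p.Prime] [CharP K p] (P : K[X]) (hP : P.Monic) (hn : P.natDegree = n)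
    (h0 : P.coeff 0 ≠ 0) (hd : dual hK P = P) {E : Type*} [Field E] [Algebra K E] (w : E)
    (hw : aeval w P = 0) :
    ∃ M : Matrix (Fin n) (Fin n) K, tstar hK M * M = 1 ∧ orderOf M = orderOf w ∧
      ((-1) ^ n * P.coeff 0 = 1 → M.det = 1) := by
  obtain ⟨M, m, hm, hMm, hMu, hMc⟩ := Classical.UnitarySemisimpleClasses.exists_unitary hK p n P hP hn h0 hd
  have hm0 : m ≠ 0 := by
    rintro rfl
    rw [Nat.coprime_zero_left] at hm
    exact (Fact.out : p.Prime).ne_one hm
  have hpos : 0 < orderOf M := orderOf_pos_iff.2 (isOfFinOrder_iff_pow_eq_one.2 ⟨m, Nat.pos_of_ne_zero hm0, hMm⟩)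
  have hdvd : orderOf w ∣ orderOf M :=
    orderOf_dvd_of_pow_eq_one (eigen_pow M (by rw [hMc]; exact hw) (pow_orderOf_eq_one M))
  refine ⟨M ^ (orderOf M / orderOf w), ?_, orderOf_pow_orderOf_div hpos.ne' hdvd, fun hdet => ?_⟩
  · rw [tstar_pow, ← (show Commute (tstar hK M) M from hMu.trans (mul_eq_one_comm.1 hMu).symm).mul_pow, hMu, one_pow]
  · rw [Matrix.det_pow, Matrix.det_eq_sign_charpoly_coeff, hMc, Fintype.card_fin, hdet, one_pow]

/-- The characteristic polynomial of a field element. -/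
theorem charpoly_elem {E : Type*} [Field E] [Algebra K E] {d : ℕ} [NeZero d] (b : Module.Basis (Fin d) K E) (w : E) :
    (Algebra.leftMulMatrix b w).charpoly.natDegree = d ∧
      aeval w (Algebra.leftMulMatrix b w).charpoly = 0 ∧
      Algebra.norm K w = (-1) ^ d * (Algebra.leftMulMatrix b w).charpoly.coeff 0 ∧
      ∃ j : ℕ, (Algebra.leftMulMatrix b w).charpoly = minpoly K w ^ j := by
  haveI : Module.Finite K E := Module.Finite.of_basis b
  have hint : IsIntegral K w := Algebra.IsIntegral.isIntegral _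
  have hmin : minpoly K (Algebra.leftMulMatrix b w) = minpoly K w :=
    minpoly.algHom_eq _ (Algebra.leftMulMatrix_injective b) _
  refine ⟨by rw [Matrix.charpoly_natDegree_eq_dim, Fintype.card_fin], ?_, ?_, ?_⟩
  · apply Algebra.leftMulMatrix_injective b
    rw [← aeval_algHom_apply, Matrix.aeval_self_charpoly, map_zero]
  · rw [Algebra.norm_eq_matrix_det b, Matrix.det_eq_sign_charpoly_coeff, Fintype.card_fin]
  · obtain ⟨j, hj, -⟩ := GLSplit.charpoly_eq_pow (Algebra.leftMulMatrix b w) (minpoly K w) (minpoly.monic hint)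
      (minpoly.irreducible hint) 1 (by rw [pow_one, hmin])
    exact ⟨j, hj⟩

/-- A self-dual torus. -/
theorem exists_self (p : ℕ) [Fact p.Prime] [CharP K p] {d A : ℕ} (hd : d % 2 = 1) (hA : A ∣ q ^ d + 1) :
    ∃ M : Matrix (Fin d) (Fin d) K, tstar hK M * M = 1 ∧ orderOf M = A ∧
      (A ∣ ((q ^ 2) ^ d - 1) / (q ^ 2 - 1) → M.det = 1) := by
  classical
  haveI : NeZero d := ⟨by omega⟩
  set E := FiniteField.Extension K p d
  have hcard : Nat.card E = (q ^ 2) ^ d := by
    rw [FiniteField.natCard_extension, Nat.card_eq_fintype_card, hK]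
  let b : Module.Basis (Fin d) K E := Module.finBasisOfFinrankEq K E (FiniteField.finrank_extension K p d)
  obtain ⟨u, hu⟩ := IsCyclic.exists_generator (α := Eˣ)
  have hou : orderOf u = (q ^ d + 1) * (q ^ d - 1) := by
    rw [orderOf_eq_card_of_forall_mem_zpowers hu, Nat.card_units, hcard, ← pow_mul, mul_comm 2 d, pow_mul]
    simpa using Nat.sq_sub_sq (q ^ d) 1
  have hA' : A ∣ orderOf u := hou ▸ hA.trans (dvd_mul_right _ _)
  set w : E := ((u ^ (orderOf u / A) : Eˣ) : E) with hwdef
  have how : orderOf w = A := by rw [hwdef, orderOf_units, orderOf_pow_orderOf_div (orderOf_pos u).ne' hA']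
  have hw0 : w ≠ 0 := Units.ne_zero _
  obtain ⟨hdeg, hroot, hnorm, j, hj⟩ := charpoly_elem (K := K) b w
  set P := (Algebra.leftMulMatrix b w).charpoly
  have hint : IsIntegral K w := Algebra.IsIntegral.isIntegral _
  have hP0 : P.coeff 0 ≠ 0 := by
    intro h
    rw [h, mul_zero, Algebra.norm_eq_zero_iff] at hnorm
    exact hw0 hnorm
  have hm0 : (minpoly K w).coeff 0 ≠ 0 := minpoly.coeff_zero_ne_zero hint hw0
  have hdual : dual hK (minpoly K w) = minpoly K w := by
    rw [dual_eq_minpoly hK (minpoly.monic hint) (minpoly.irreducible hint) hm0 hw0 (minpoly.aeval K w)]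
    have h1 : w ^ (q ^ d + 1) = 1 := orderOf_dvd_iff_pow_eq_one.1 (how ▸ hA)
    have h2 : (FiniteField.frobeniusAlgHom K E ^ ((d + 1) / 2)) w = (w ^ q)⁻¹ := by
      rw [frob_pow_apply hK, ← pow_mul q, show 2 * ((d + 1) / 2) = d + 1 by omega]
      refine eq_inv_of_mul_eq_one_left ?_
      rw [← pow_add, show q ^ (d + 1) + q = (q ^ d + 1) * q by ring, pow_mul, h1, one_pow]
    rw [← h2]
    exact minpoly.algHom_eq _ (FiniteField.frobeniusAlgHom K E ^ ((d + 1) / 2)).toRingHom.injective _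
  obtain ⟨M, hM1, hM2, hM3⟩ := exists_of_poly hK p P (Matrix.charpoly_monic _) hdeg hP0
    (by rw [hj, dual_pow, hdual]) w hroot
  refine ⟨M, hM1, hM2.trans how, fun h => hM3 ?_⟩
  rw [← hnorm]
  apply (algebraMap K E).injective
  rw [map_one, FiniteField.algebraMap_norm_eq_pow, hcard, Nat.card_eq_fintype_card, hK]
  exact orderOf_dvd_iff_pow_eq_one.1 (how.symm ▸ h)

/-- A split torus. -/
theorem exists_pair (p : ℕ) [Fact p.Prime] [CharP K p] {d A : ℕ} (hd : 1 ≤ d) (hA : A ∣ (q ^ 2) ^ d - 1) :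
    ∃ M : Matrix (Fin (2 * d)) (Fin (2 * d)) K, tstar hK M * M = 1 ∧ orderOf M = A ∧
      (A ∣ ((q ^ 2) ^ d - 1) / (q ^ 2 - 1) * (q - 1) → M.det = 1) := by
  classical
  haveI : NeZero d := ⟨by omega⟩
  set E := FiniteField.Extension K p d
  have hcard : Nat.card E = (q ^ 2) ^ d := by
    rw [FiniteField.natCard_extension, Nat.card_eq_fintype_card, hK]
  let b : Module.Basis (Fin d) K E := Module.finBasisOfFinrankEq K E (FiniteField.finrank_extension K p d)
  obtain ⟨u, hu⟩ := IsCyclic.exists_generator (α := Eˣ)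
  have hA' : A ∣ orderOf u := by
    rwa [orderOf_eq_card_of_forall_mem_zpowers hu, Nat.card_units, hcard]
  set w : E := ((u ^ (orderOf u / A) : Eˣ) : E) with hwdef
  have how : orderOf w = A := by rw [hwdef, orderOf_units, orderOf_pow_orderOf_div (orderOf_pos u).ne' hA']
  have hw0 : w ≠ 0 := Units.ne_zero _
  obtain ⟨hdeg, hroot, hnorm, -⟩ := charpoly_elem (K := K) b w
  set P := (Algebra.leftMulMatrix b w).charpoly
  have hPm : P.Monic := Matrix.charpoly_monic _
  have hP0 : P.coeff 0 ≠ 0 := by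
    intro h
    rw [h, mul_zero, Algebra.norm_eq_zero_iff] at hnorm
    exact hw0 hnorm
  have hdP : (dual hK P).coeff 0 ≠ 0 := by
    rw [coeff_zero_dual hK hPm]
    exact inv_ne_zero fun h => hP0 ((qHom hK).injective (h.trans (map_zero _).symm))
  obtain ⟨M, hM1, hM2, hM3⟩ := exists_of_poly (n := 2 * d) hK p (P * dual hK P) (hPm.mul (monic_dual hK hP0))
    (by rw [hPm.natDegree_mul (monic_dual hK hP0), natDegree_dual hK hP0, hdeg, two_mul])
    (by rw [mul_coeff_zero]; exact mul_ne_zero hP0 hdP)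
    (by rw [dual_mul, dual_dual hK hPm hP0, mul_comm]) w (by rw [map_mul, hroot, zero_mul])
  refine ⟨M, hM1, hM2.trans how, fun h => hM3 ?_⟩
  rw [mul_coeff_zero, coeff_zero_dual hK hPm, pow_mul, neg_one_sq, one_pow, one_mul]
  set ν := Algebra.norm K w with hν
  have hν1 : ν ^ (q - 1) = 1 := by
    apply (algebraMap K E).injective
    rw [map_one, map_pow, hν, FiniteField.algebraMap_norm_eq_pow, hcard, Nat.card_eq_fintype_card, hK, ← pow_mul]
    exact orderOf_dvd_iff_pow_eq_one.1 (how.symm ▸ h)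
  have hν0 : ν ≠ 0 := Algebra.norm_ne_zero_iff.2 hw0
  have hP : P.coeff 0 = (-1) ^ d * ν := by rw [hnorm, ← mul_assoc, ← mul_pow, neg_one_mul, neg_neg, one_pow, one_mul]
  have hq1 : qHom hK ν = ν := by
    show ν ^ q = ν
    have : q ≠ 0 := by rintro rfl; simp at hK
    rw [show q = q - 1 + 1 by omega, pow_succ, hν1, one_mul]
  rw [hP, map_mul, map_pow, map_neg, map_one, hq1, mul_inv_cancel₀ (mul_ne_zero (pow_ne_zero _ (by simp)) hν0)]

/-- A regular unipotent element with its order and determinant. -/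
theorem exists_unip (p : ℕ) [Fact p.Prime] [CharP K p] {m : ℕ} (hm : 1 ≤ m) :
    ∃ u : Matrix (Fin m) (Fin m) K, tstar hK u * u = 1 ∧ u.det = 1 ∧
      orderOf u = p ^ Nat.clog p m := by
  haveI : Nonempty (Fin m) := ⟨⟨0, hm⟩⟩
  have hp := (Fact.out : p.Prime)
  obtain ⟨v, hv, hv1, hvr⟩ := UnitaryUnipotent.exists_regular hK hm
  set V : Matrix (Fin m) (Fin m) K := (v : Matrix (Fin m) (Fin m) K) with hV
  have hT : Jordan.MType (V - 1) {Fintype.card (Fin m)} :=
    Jordan.mtype_regular ⟨_, hv1⟩ (by rw [hvr, Fintype.card_fin]; omega)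
  have hpow : ∀ c : ℕ, V ^ p ^ c = 1 ↔ m ≤ p ^ c := by
    intro c
    rw [← sub_eq_zero, show V ^ p ^ c - 1 = (V - 1) ^ p ^ c by
      rw [sub_pow_char_pow_of_commute _ _ (Commute.one_right V), one_pow], hT.pow_eq_zero_iff]
    simp only [Multiset.mem_singleton, forall_eq, Fintype.card_fin]
  have hVP := (hpow _).2 (Nat.le_pow_clog hp.one_lt m)
  refine ⟨V, (mem_GU_iff hK v).1 hv, ?_, ?_⟩
  · have h1 : (V.det - 1) ^ p ^ Nat.clog p m = 0 := by
      rw [sub_pow_char_pow, one_pow, ← Matrix.det_pow, hVP, Matrix.det_one, sub_self]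
    exact sub_eq_zero.1 (eq_zero_of_pow_eq_zero h1)
  obtain ⟨c, hc, hc'⟩ := (Nat.dvd_prime_pow hp).1 (orderOf_dvd_of_pow_eq_one hVP)
  rw [hc']
  refine congrArg (p ^ ·) (le_antisymm hc (Nat.clog_le_of_le_pow ((hpow c).1 ?_)))
  rw [← hc']; exact pow_orderOf_eq_one _

section Block

variable {a b : ℕ}

/-- The orthogonal sum. -/
def block (h : a + b = n) (A : Matrix (Fin a) (Fin a) K) (B : Matrix (Fin b) (Fin b) K) :
    Matrix (Fin n) (Fin n) K :=
  Matrix.reindexAlgEquiv K K (finSumFinEquiv.trans (finCongr h)) (Matrix.fromBlocks A 0 0 B)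

theorem block_mul (h : a + b = n) (A A' : Matrix (Fin a) (Fin a) K) (B B' : Matrix (Fin b) (Fin b) K) :
    block h A B * block h A' B' = block h (A * A') (B * B') := by
  rw [block, block, block, ← map_mul, Matrix.fromBlocks_multiply]
  simp

theorem block_one (h : a + b = n) : block h (1 : Matrix (Fin a) (Fin a) K) (1 : Matrix (Fin b) (Fin b) K) = 1 := by
  rw [block, Matrix.fromBlocks_one, map_one]

theorem block_pow (h : a + b = n) (A : Matrix (Fin a) (Fin a) K) (B : Matrix (Fin b) (Fin b) K) (k : ℕ) :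
    block h A B ^ k = block h (A ^ k) (B ^ k) := by
  rw [block, block, ← map_pow, Matrix.fromBlocks_diagonal_pow]

theorem block_det (h : a + b = n) (A : Matrix (Fin a) (Fin a) K) (B : Matrix (Fin b) (Fin b) K) :
    (block h A B).det = A.det * B.det := by
  rw [block, Matrix.det_reindexAlgEquiv, Matrix.det_fromBlocks_zero₂₁]

theorem block_unitary (h : a + b = n) {A : Matrix (Fin a) (Fin a) K} {B : Matrix (Fin b) (Fin b) K}
    (hA : tstar hK A * A = 1) (hB : tstar hK B * B = 1) : tstar hK (block h A B) * block h A B = 1 := by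
  have h1 : tstar hK (block h A B) = block h (tstar hK A) (tstar hK B) := by
    simp only [block, Matrix.coe_reindexAlgEquiv, tstar, Matrix.reindex_apply]
    ext i k
    simp only [Matrix.transpose_apply, Matrix.map_apply, Matrix.submatrix_apply]
    rcases (finSumFinEquiv.trans (finCongr h)).symm i with i' | i' <;>
      rcases (finSumFinEquiv.trans (finCongr h)).symm k with k' | k' <;> simp
  rw [h1, block_mul, hA, hB, block_one]

theorem block_scalar (h : a + b = n) {A : Matrix (Fin a) (Fin a) K} {B : Matrix (Fin b) (Fin b) K} {c : K}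
    (e : block h A B = c • 1) : A = c • 1 ∧ B = c • 1 := by
  rw [block, ← map_one (Matrix.reindexAlgEquiv K K (finSumFinEquiv.trans (finCongr h))), ← map_smul] at e
  have e' := (Matrix.reindexAlgEquiv K K (finSumFinEquiv.trans (finCongr h))).injective e
  rw [← fromBlocks_one, fromBlocks_smul] at e'
  obtain ⟨h1, -, -, h4⟩ := fromBlocks_inj.1 e'
  exact ⟨h1, h4⟩

end Block

end Cfsg.Agent.Lib.Recog.UnitSpec
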