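import Mathlib

/-!
Generators and normal forms for the wreath product of a group of order three with `S₃`.
-/

set_option autoImplicit false

namespace Cfsg.Agent.Lib.Recog.WreathThree

/-- Generators satisfying the relations of the wreath product. -/
structure Data (G : Type*) [Group G] where
  /-- The three base generators. -/
  e : ZMod 3 → G
  /-- The rotation. -/
  u : G
  /-- The reflection. -/
  t : G
  e_pow : ∀ i, e i ^ 3 = 1
  e_comm : ∀ i j, Commute (e i) (e j)
  u_e : ∀ i, u * e i = e (i + 1) * u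
  t_e : ∀ i, t * e i = e (-i) * t
  u_pow : u ^ 3 = 1
  t_pow : t ^ 2 = 1
  t_u : t * u * t = u⁻¹

/-- Index of the normal forms. -/
abbrev Ix := (ZMod 3 → ZMod 3) × ZMod 3 × ZMod 2

/-- Rotating the coordinates. -/
def rot (i : ZMod 3) (v : ZMod 3 → ZMod 3) : ZMod 3 → ZMod 3 := fun x => v (x - i)

/-- Reflecting the coordinates. -/
def refl' (j : ZMod 2) (v : ZMod 3 → ZMod 3) : ZMod 3 → ZMod 3 := if j = 0 then v else fun x => v (-x)

/-- The sign. -/
def sgn (j : ZMod 2) (k : ZMod 3) : ZMod 3 := if j = 0 then k else -k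

/-- The product of two normal forms. -/
def mulIx (a b : Ix) : Ix :=
  (a.1 + rot a.2.1 (refl' a.2.2 b.1), a.2.1 + sgn a.2.2 b.2.1, a.2.2 + b.2.2)

variable {G : Type*} [Group G] (d : Data G)

theorem pow_val_add {n : ℕ} [NeZero n] {x : G} (hx : x ^ n = 1) (a b : ZMod n) :
    x ^ (a + b).val = x ^ a.val * x ^ b.val := by
  rw [ZMod.val_add, ← pow_add]
  exact (pow_eq_pow_mod _ hx).symm

/-- The base part. -/
def E (v : ZMod 3 → ZMod 3) : G := d.e 0 ^ (v 0).val * d.e 1 ^ (v 1).val * d.e 2 ^ (v 2).val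

/-- The normal form. -/
def nf (x : Ix) : G := E d x.1 * d.u ^ x.2.1.val * d.t ^ x.2.2.val

theorem E_add (v w : ZMod 3 → ZMod 3) : E d (v + w) = E d v * E d w := by
  have c : ∀ i j (m n : ℕ), Commute (d.e i ^ m) (d.e j ^ n) := fun i j m n => (d.e_comm i j).pow_pow m n
  simp only [E, Pi.add_apply, pow_val_add (d.e_pow _)]
  set a := d.e 0 ^ (v 0).val
  set a' := d.e 0 ^ (w 0).val
  set b := d.e 1 ^ (v 1).val
  set b' := d.e 1 ^ (w 1).val
  set f := d.e 2 ^ (v 2).val
  set f' := d.e 2 ^ (w 2).val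
  have h1 : a' * b = b * a' := (c 0 1 _ _).eq
  have h2 : a' * f = f * a' := (c 0 2 _ _).eq
  have h3 : b' * f = f * b' := (c 1 2 _ _).eq
  calc a * a' * (b * b') * (f * f') = a * (a' * b) * (b' * f) * f' := by group
    _ = a * b * (a' * f) * (b' * f') := by rw [h1, h3]; group
    _ = a * b * f * (a' * b' * f') := by rw [h2]; group

theorem semi_u (i : ZMod 3) (n : ℕ) : SemiconjBy d.u (d.e i ^ n) (d.e (i + 1) ^ n) :=
  SemiconjBy.pow_right (d.u_e i) n

theorem semi_t (i : ZMod 3) (n : ℕ) : SemiconjBy d.t (d.e i ^ n) (d.e (-i) ^ n) :=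
  SemiconjBy.pow_right (d.t_e i) n

theorem u_E (v : ZMod 3 → ZMod 3) : d.u * E d v = E d (rot 1 v) * d.u := by
  have h := ((semi_u d 0 (v 0).val).mul_right (semi_u d 1 (v 1).val)).mul_right (semi_u d 2 (v 2).val)
  refine h.eq.trans ?_
  congr 1
  have c : ∀ i j (m n : ℕ), Commute (d.e i ^ m) (d.e j ^ n) := fun i j m n => (d.e_comm i j).pow_pow m n
  simp only [E, rot]
  simp only [show (0 : ZMod 3) + 1 = 1 by decide, show (1 : ZMod 3) + 1 = 2 by decide,
    show (2 : ZMod 3) + 1 = 0 by decide, show (0 : ZMod 3) - 1 = 2 by decide,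
    show (1 : ZMod 3) - 1 = 0 by decide, show (2 : ZMod 3) - 1 = 1 by decide]
  rw [((c 1 0 _ _).mul_left (c 2 0 _ _)).eq, mul_assoc]

theorem t_E (v : ZMod 3 → ZMod 3) : d.t * E d v = E d (refl' 1 v) * d.t := by
  have h := ((semi_t d 0 (v 0).val).mul_right (semi_t d 1 (v 1).val)).mul_right (semi_t d 2 (v 2).val)
  refine h.eq.trans ?_
  congr 1
  have c : ∀ i j (m n : ℕ), Commute (d.e i ^ m) (d.e j ^ n) := fun i j m n => (d.e_comm i j).pow_pow m n
  simp only [E, refl', one_ne_zero, if_false]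
  simp only [show -(0 : ZMod 3) = 0 by decide, show -(1 : ZMod 3) = 2 by decide,
    show -(2 : ZMod 3) = 1 by decide]
  rw [mul_assoc, (c 2 1 _ _).eq, ← mul_assoc]

theorem upow_E (k : ℕ) (v : ZMod 3 → ZMod 3) : d.u ^ k * E d v = E d (rot (k : ZMod 3) v) * d.u ^ k := by
  induction k generalizing v with
  | zero =>
    rw [Nat.cast_zero, show rot (0 : ZMod 3) v = v from funext fun x => by simp [rot]]
    simp
  | succ k ih =>
    rw [pow_succ, mul_assoc, u_E, ← mul_assoc, ih, mul_assoc]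
    congr 2
    funext x
    simp [rot, sub_sub]

theorem tpow_E (j : ZMod 2) (v : ZMod 3 → ZMod 3) :
    d.t ^ j.val * E d v = E d (refl' j v) * d.t ^ j.val := by
  rcases (show ∀ j : ZMod 2, j = 0 ∨ j = 1 by decide) j with rfl | rfl
  · simp [refl']
  · rw [show (1 : ZMod 2).val = 1 by decide, pow_one]; exact t_E d v

theorem tpow_upow (j : ZMod 2) (k : ZMod 3) :
    d.t ^ j.val * d.u ^ k.val = d.u ^ (sgn j k).val * d.t ^ j.val := by
  rcases (show ∀ j : ZMod 2, j = 0 ∨ j = 1 by decide) j with rfl | rfl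
  · simp [sgn]
  · have ht : d.t⁻¹ = d.t := inv_eq_of_mul_eq_one_right (by rw [← pow_two, d.t_pow])
    simp only [sgn, one_ne_zero, if_false, show (1 : ZMod 2).val = 1 by decide, pow_one]
    have h1 : d.u ^ (-k).val = (d.u ^ k.val)⁻¹ := by
      rw [eq_inv_iff_mul_eq_one, ← pow_val_add d.u_pow, neg_add_cancel, ZMod.val_zero, pow_zero]
    have hinv : d.t * d.u * d.t⁻¹ = d.u⁻¹ := by rw [ht]; exact d.t_u
    rw [h1, ← inv_pow, ← hinv, conj_pow]
    group

theorem nf_mul (a b : Ix) : nf d a * nf d b = nf d (mulIx a b) := by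
  obtain ⟨v, i, j⟩ := a
  obtain ⟨w, k, l⟩ := b
  simp only [nf, mulIx, E_add, pow_val_add d.u_pow, pow_val_add d.t_pow]
  calc E d v * d.u ^ i.val * d.t ^ j.val * (E d w * d.u ^ k.val * d.t ^ l.val)
      = E d v * d.u ^ i.val * (d.t ^ j.val * E d w) * d.u ^ k.val * d.t ^ l.val := by group
    _ = E d v * (d.u ^ i.val * E d (refl' j w)) * (d.t ^ j.val * d.u ^ k.val) * d.t ^ l.val := by
        rw [tpow_E]; group
    _ = E d v * E d (rot i (refl' j w)) * (d.u ^ i.val * d.u ^ (sgn j k).val) *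
          (d.t ^ j.val * d.t ^ l.val) := by
        rw [upow_E, ZMod.natCast_zmod_val, tpow_upow]; group

/-- Two groups with generators in bijective normal form are isomorphic. -/
theorem iso {H : Type*} [Group H] (d' : Data H) (hd : Function.Bijective (nf d))
    (hd' : Function.Bijective (nf d')) : Nonempty (G ≃* H) := by
  refine ⟨MulEquiv.mk' ((Equiv.ofBijective _ hd).symm.trans (Equiv.ofBijective _ hd')) fun x y => ?_⟩
  obtain ⟨a, rfl⟩ := hd.2 x
  obtain ⟨b, rfl⟩ := hd.2 y
  rw [nf_mul]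
  simp only [Equiv.trans_apply]
  rw [Equiv.ofBijective_symm_apply_apply, Equiv.ofBijective_symm_apply_apply,
    Equiv.ofBijective_symm_apply_apply]
  exact (nf_mul d' a b).symm

/-- The norm of the first base generator separates the base. -/
theorem E_injective (hN : d.e 0 * d.e 1 * d.e 2 ≠ 1) : Function.Injective (E d) := by
  have h0 : E d 0 = 1 := by simp [E]
  have hone : E d (fun _ => 1) ≠ 1 := by simpa [E, show (1 : ZMod 3).val = 1 by decide] using hN
  have hrot : ∀ v, E d v = 1 → E d (rot 1 v) = 1 := fun v hv => by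
    have h := u_E d v
    rw [hv, mul_one] at h
    exact mul_right_cancel (h.symm.trans (one_mul d.u).symm)
  have hadd : ∀ v w, E d v = 1 → E d w = 1 → E d (v + w) = 1 := fun v w hv hw => by
    rw [E_add, hv, hw, one_mul]
  have key : ∀ v, E d v = 1 → v = 0 := by
    intro v hv
    by_contra hne
    have h1 := hrot v hv
    have h2 := hrot _ h1
    have hcomb : ∀ v : ZMod 3 → ZMod 3, v ≠ 0 →
        v = (fun _ => 1) ∨ v + v = (fun _ => 1) ∨ v + rot 1 v + rot 1 (rot 1 v) = (fun _ => 1) ∨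
        (v + rot 1 v + rot 1 (rot 1 v)) + (v + rot 1 v + rot 1 (rot 1 v)) = (fun _ => 1) ∨
        v + (rot 1 v + rot 1 v) = (fun _ => 1) ∨ (v + v) + rot 1 v = (fun _ => 1) := by
      decide +kernel
    rcases hcomb v hne with e | e | e | e | e | e <;> apply hone <;> rw [← e]
    · exact hv
    · exact hadd _ _ hv hv
    · exact hadd _ _ (hadd _ _ hv h1) h2
    · exact hadd _ _ (hadd _ _ (hadd _ _ hv h1) h2) (hadd _ _ (hadd _ _ hv h1) h2)
    · exact hadd _ _ hv (hadd _ _ h1 h1)
    · exact hadd _ _ (hadd _ _ hv hv) h1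
  intro v w h
  have hne : E d (-w) * E d w = 1 := by rw [← E_add, neg_add_cancel, h0]
  have h1 : E d (-w + v) = 1 := by rw [E_add, h, hne]
  exact (neg_add_eq_zero.1 (key _ h1)).symm

/-- Injectivity of the normal form from a tower. -/
theorem nf_injective {S J : Subgroup G} (hJS : J ≤ S) (he : ∀ i, d.e i ∈ J) (hu : d.u ∈ S)
    (hu' : d.u ∉ J) (ht : d.t ∉ S) (hN : d.e 0 * d.e 1 * d.e 2 ≠ 1) :
    Function.Injective (nf d) := by
  have hE : ∀ v, E d v ∈ J := fun v =>
    mul_mem (mul_mem (pow_mem (he 0) _) (pow_mem (he 1) _)) (pow_mem (he 2) _)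
  have huS : ∀ (v : ZMod 3 → ZMod 3) (i : ZMod 3), E d v * d.u ^ i.val ∈ S := fun v i =>
    mul_mem (hJS (hE v)) (pow_mem hu _)
  rintro ⟨v, i, j⟩ ⟨w, k, l⟩ h
  simp only [nf] at h
  obtain rfl : j = l := by
    rcases (show ∀ j l : ZMod 2, j = l ∨ (j = 0 ∧ l = 1) ∨ (j = 1 ∧ l = 0) by decide) j l with
      h' | ⟨rfl, rfl⟩ | ⟨rfl, rfl⟩
    · exact h'
    · exfalso
      rw [ZMod.val_zero, pow_zero, mul_one, show (1 : ZMod 2).val = 1 by decide, pow_one] at h
      exact ht ((Subgroup.mul_mem_cancel_left S (huS w k)).1 (h ▸ huS v i))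
    · exfalso
      rw [ZMod.val_zero, pow_zero, mul_one, show (1 : ZMod 2).val = 1 by decide, pow_one] at h
      exact ht ((Subgroup.mul_mem_cancel_left S (huS v i)).1 (h.symm ▸ huS w k))
  have h2 := mul_right_cancel h
  obtain rfl : i = k := by
    by_contra hne
    have h3 : d.u ^ (i - k).val ∈ J := by
      have e1 : d.u ^ i.val = d.u ^ (i - k).val * d.u ^ k.val := by
        rw [← pow_val_add d.u_pow, sub_add_cancel]
      rw [e1, ← mul_assoc] at h2
      have h4 := mul_right_cancel h2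
      exact (Subgroup.mul_mem_cancel_left J (hE v)).1 (h4 ▸ hE w)
    rcases (show ∀ x : ZMod 3, x = 0 ∨ x = 1 ∨ x = 2 by decide) (i - k) with e | e | e
    · exact hne (sub_eq_zero.1 e)
    · rw [e, show (1 : ZMod 3).val = 1 by decide, pow_one] at h3; exact hu' h3
    · rw [e, show (2 : ZMod 3).val = 2 by decide] at h3
      apply hu'
      have := inv_mem h3
      rwa [inv_eq_of_mul_eq_one_right (show d.u ^ 2 * d.u = 1 by rw [← pow_succ, d.u_pow])] at this
  rw [E_injective d hN (mul_right_cancel h2)]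

end Cfsg.Agent.Lib.Recog.WreathThree
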